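import Mathlib

/-!
# Project QA (helper48, S2787): definitions

`ux l`, `ly l`: the elementary matrices of `SL₂` over a commutative ring;
`Rel M P e s A`: "left multiplication by `s` acts on `e R ⊕ M e R` by the matrix `A`, whose entries
are integer polynomials evaluated at `P`".
-/

set_option autoImplicit false

namespace Cfsg.Agent.Lib.Helper48.QA

open Matrix Polynomial

/-- the upper unitriangular matrix of `SL₂` -/
def ux {F : Type*} [CommRing F] (l : F) : Matrix.SpecialLinearGroup (Fin 2) F :=
  ⟨!![1, l; 0, 1], by simp [Matrix.det_fin_two_of]⟩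

/-- the lower unitriangular matrix of `SL₂` -/
def ly {F : Type*} [CommRing F] (l : F) : Matrix.SpecialLinearGroup (Fin 2) F :=
  ⟨!![1, 0; l, 1], by simp [Matrix.det_fin_two_of]⟩

/-- `s` acts on `e R ⊕ M e R` by the matrix `A` -/
def Rel {R : Type*} [Ring R] (M P e : R) (s : R) (A : Matrix (Fin 2) (Fin 2) ℤ[X]) : Prop :=
  s * e = aeval P (A 0 0) * e + M * (aeval P (A 1 0) * e) ∧
  s * (M * e) = aeval P (A 0 1) * e + M * (aeval P (A 1 1) * e)

end Cfsg.Agent.Lib.Helper48.QA
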