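import Mathlib

/-!
# Carmichael's presentation of the alternating groups: the abstract side

Relations `x₀³ = 1`, `xᵢ² = 1` (`i ≥ 1`), `(xᵢ xᵢ₊₁)³ = 1`, `(xᵢ xⱼ)² = 1` (`j > i + 1`) for
`i, j < m` force the group generated by `x₀, …, x_{m-1}` to have at most `(m+2)!/2` elements.
-/

set_option autoImplicit false

namespace Cfsg.Agent.Lib.Helper48

/-- The Carmichael relations for the first `m` terms of a sequence `x`. -/
structure CarRel {G : Type*} [Group G] (m : ℕ) (x : ℕ → G) : Prop where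
  cube : x 0 ^ 3 = 1
  sq : ∀ i, 1 ≤ i → i < m → x i ^ 2 = 1
  adj : ∀ i, i + 1 < m → (x i * x (i + 1)) ^ 3 = 1
  far : ∀ i j, i + 1 < j → j < m → (x i * x j) ^ 2 = 1

theorem car_comm_of_invol {G : Type*} [Group G] {a b : G} (ha : a * a = 1) (hb : b * b = 1)
    (hab : a * b * (a * b) = 1) : a * b = b * a := by
  have h1 : a⁻¹ = a := inv_eq_of_mul_eq_one_left ha
  have h2 : b⁻¹ = b := inv_eq_of_mul_eq_one_left hb
  have h3 : (a * b)⁻¹ = a * b := inv_eq_of_mul_eq_one_left hab
  rw [mul_inv_rev, h1, h2] at h3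
  exact h3.symm

theorem car_braid_of_invol {G : Type*} [Group G] {a b : G} (ha : a * a = 1) (hb : b * b = 1)
    (hab : (a * b) ^ 3 = 1) : a * b * a = b * a * b := by
  have h1 : a⁻¹ = a := inv_eq_of_mul_eq_one_left ha
  have h2 : b⁻¹ = b := inv_eq_of_mul_eq_one_left hb
  have h3 : (a * b * a) * (b * a * b) = 1 := by
    rw [← hab]; simp only [pow_succ, pow_zero, one_mul, mul_assoc]
  have h4 := eq_inv_of_mul_eq_one_left h3
  rw [h4, mul_inv_rev, mul_inv_rev, h1, h2, mul_assoc]

namespace CarRel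

variable {G : Type*} [Group G] {m : ℕ} {x : ℕ → G}

theorem mono (h : CarRel (m + 1) x) : CarRel m x :=
  ⟨h.cube, fun i h1 h2 => h.sq i h1 (by omega), fun i hi => h.adj i (by omega),
    fun i j h1 h2 => h.far i j h1 (by omega)⟩

theorem mul_self (h : CarRel m x) {i : ℕ} (h1 : 1 ≤ i) (h2 : i < m) : x i * x i = 1 := by
  have := h.sq i h1 h2
  rwa [pow_two] at this

theorem comm (h : CarRel m x) {i j : ℕ} (h1 : 1 ≤ i) (hij : i + 1 < j) (hj : j < m) :
    x i * x j = x j * x i := by
  apply car_comm_of_invol (h.mul_self h1 (by omega)) (h.mul_self (by omega) hj)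
  have := h.far i j hij hj
  rwa [pow_two] at this

/-- `x₀ xⱼ = xⱼ x₀⁻¹` for `j ≥ 2`. -/
theorem zero_mul (h : CarRel m x) {j : ℕ} (h2 : 2 ≤ j) (hj : j < m) :
    x 0 * x j = x j * (x 0)⁻¹ := by
  have e2 : (x j)⁻¹ = x j := inv_eq_of_mul_eq_one_left (h.mul_self (by omega) hj)
  have e3 := h.far 0 j (by omega) hj
  rw [pow_two] at e3
  have e4 : (x 0 * x j)⁻¹ = x 0 * x j := inv_eq_of_mul_eq_one_left e3
  rw [mul_inv_rev, e2] at e4
  exact e4.symm

/-- `x₀⁻¹ xⱼ = xⱼ x₀` for `j ≥ 2`. -/
theorem zero_inv_mul (h : CarRel m x) {j : ℕ} (h2 : 2 ≤ j) (hj : j < m) :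
    (x 0)⁻¹ * x j = x j * x 0 := by
  have e := h.zero_mul h2 hj
  have : x j * x 0 = (x 0)⁻¹ * (x 0 * x j) * x 0 := by group
  rw [this, e]; group

theorem braid (h : CarRel m x) {i : ℕ} (h1 : 1 ≤ i) (hi : i + 1 < m) :
    x i * x (i + 1) * x i = x (i + 1) * x i * x (i + 1) :=
  car_braid_of_invol (h.mul_self h1 (by omega)) (h.mul_self (by omega) hi) (h.adj i hi)

/-- `x₁ x₀ x₁ = x₀⁻¹ x₁ x₀⁻¹`. -/
theorem one_zero_one (h : CarRel m x) (hm : 1 < m) :
    x 1 * x 0 * x 1 = (x 0)⁻¹ * x 1 * (x 0)⁻¹ := by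
  have e1 : (x 1)⁻¹ = x 1 := inv_eq_of_mul_eq_one_left (h.mul_self le_rfl hm)
  have e3 : (x 0 * x 1 * x 0) * (x 1 * x 0 * x 1) = 1 := by
    rw [← h.adj 0 (by omega)]; simp only [pow_succ, pow_zero, one_mul, mul_assoc, zero_add]
  have e4 := eq_inv_of_mul_eq_one_right e3
  rw [e4, mul_inv_rev, mul_inv_rev, e1, mul_assoc]

/-- `x₁ x₀⁻¹ x₁ = x₀ x₁ x₀`. -/
theorem one_zero_inv_one (h : CarRel m x) (hm : 1 < m) :
    x 1 * (x 0)⁻¹ * x 1 = x 0 * x 1 * x 0 := by
  have e1 : (x 1)⁻¹ = x 1 := inv_eq_of_mul_eq_one_left (h.mul_self le_rfl hm)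
  have e := congrArg (fun g => g⁻¹) (h.one_zero_one hm)
  simp only [mul_inv_rev, inv_inv, e1] at e
  rw [mul_assoc, e, mul_assoc]

theorem zero_sq (h : CarRel m x) : x 0 * x 0 = (x 0)⁻¹ := by
  have := h.cube
  rw [pow_succ, pow_two] at this
  exact eq_inv_of_mul_eq_one_left this

end CarRel

/-- The chain `x_m x_{m-1} ⋯ x_{m-k+1}` (continued by `x₀`s at the bottom). -/
def carCh {G : Type*} [Group G] (x : ℕ → G) (m : ℕ) : ℕ → G
  | 0 => 1
  | k + 1 => carCh x m k * x (m - k)

theorem carCh_zero {G : Type*} [Group G] (x : ℕ → G) (m : ℕ) : carCh x m 0 = 1 := rfl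

theorem carCh_succ {G : Type*} [Group G] (x : ℕ → G) (m k : ℕ) :
    carCh x m (k + 1) = carCh x m k * x (m - k) := rfl

namespace CarRel

variable {G : Type*} [Group G] {m : ℕ} {x : ℕ → G}

theorem ch_comm (h : CarRel (m + 1) x) {j : ℕ} (hj : 1 ≤ j) :
    ∀ k, j + k < m → carCh x m k * x j = x j * carCh x m k := by
  intro k
  induction k with
  | zero => intro _; simp [carCh_zero]
  | succ k ih =>
    intro hk
    have hc : x j * x (m - k) = x (m - k) * x j := h.comm hj (by omega) (by omega)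
    rw [carCh_succ, mul_assoc, ← hc, ← mul_assoc, ih (by omega), mul_assoc]

/-- How a chain element moves past `a = x₀`. -/
def carFlip {G : Type*} [Group G] (a c : G) : Prop :=
  (c * a = a * c ∧ c * a⁻¹ = a⁻¹ * c) ∨ (c * a = a⁻¹ * c ∧ c * a⁻¹ = a * c)

theorem ch_flip (h : CarRel (m + 1) x) :
    ∀ k, k < m → carFlip (x 0) (carCh x m k) := by
  intro k
  induction k with
  | zero => intro _; left; simp [carCh_zero]
  | succ k ih =>
    intro hk
    have hb1 : x (m - k) * x 0 = (x 0)⁻¹ * x (m - k) :=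
      (h.zero_inv_mul (by omega) (by omega)).symm
    have hb2 : x (m - k) * (x 0)⁻¹ = x 0 * x (m - k) :=
      (h.zero_mul (by omega) (by omega)).symm
    rw [carCh_succ]
    rcases ih (by omega) with ⟨e1, e2⟩ | ⟨e1, e2⟩
    · right
      constructor
      · rw [mul_assoc, hb1, ← mul_assoc, e2, mul_assoc]
      · rw [mul_assoc, hb2, ← mul_assoc, e1, mul_assoc]
    · left
      constructor
      · rw [mul_assoc, hb1, ← mul_assoc, e2, mul_assoc]
      · rw [mul_assoc, hb2, ← mul_assoc, e1, mul_assoc]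

theorem ch_shift (h : CarRel (m + 1) x) {j : ℕ} (hj : j ≤ m) :
    ∀ k, k ≤ m → m + 2 ≤ j + k → carCh x m k * x j = x (j - 1) * carCh x m k := by
  intro k
  induction k with
  | zero => intro _ h2; omega
  | succ k ih =>
    intro hk h2
    by_cases hjk : m + 2 ≤ j + k
    · have hc : x (m - k) * x j = x j * x (m - k) := h.comm (by omega) (by omega) (by omega)
      rw [carCh_succ, mul_assoc, hc, ← mul_assoc, ih (by omega) hjk, mul_assoc]
    · have hmk : m - k = j - 1 := by omega
      obtain ⟨k', rfl⟩ : ∃ k', k = k' + 1 := ⟨k - 1, by omega⟩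
      have hmk' : m - k' = j := by omega
      have hbr : x (j - 1) * x j * x (j - 1) = x j * x (j - 1) * x j := by
        have := h.braid (i := j - 1) (by omega) (by omega)
        have e : j - 1 + 1 = j := by omega
        rwa [e] at this
      have hcm := h.ch_comm (j := j - 1) (by omega) k' (by omega)
      rw [carCh_succ, carCh_succ, hmk, hmk']
      calc carCh x m k' * x j * x (j - 1) * x j
          = carCh x m k' * (x j * x (j - 1) * x j) := by simp only [mul_assoc]
        _ = carCh x m k' * (x (j - 1) * x j * x (j - 1)) := by rw [hbr]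
        _ = (carCh x m k' * x (j - 1)) * x j * x (j - 1) := by simp only [mul_assoc]
        _ = x (j - 1) * (carCh x m k' * x j * x (j - 1)) := by rw [hcm]; simp only [mul_assoc]

theorem ch_step (h : CarRel (m + 1) x) {k j : ℕ} (hk : k ≤ m + 2) (hj : j ≤ m) :
    ∃ g ∈ Subgroup.closure (x '' Set.Iio m), ∃ k', k' ≤ m + 2 ∧
      carCh x m k * x j = g * carCh x m k' := by
  have hmem : ∀ i, i < m → x i ∈ Subgroup.closure (x '' Set.Iio m) :=
    fun i hi => Subgroup.subset_closure ⟨i, hi, rfl⟩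
  have hcm2 : carCh x m (m + 2) = carCh x m m * (x 0)⁻¹ := by
    rw [carCh_succ, carCh_succ, Nat.sub_self, show m - (m + 1) = 0 by omega, mul_assoc, h.zero_sq]
  have hcm1 : carCh x m (m + 1) = carCh x m m * x 0 := by rw [carCh_succ, Nat.sub_self]
  rcases Nat.lt_or_ge k (m + 1) with hk1 | hk1
  · -- k ≤ m
    rcases lt_trichotomy (j + k) m with h1 | h1 | h1
    · rcases Nat.eq_zero_or_pos j with rfl | hj0
      · rcases h.ch_flip k (by omega) with ⟨e1, _⟩ | ⟨e1, _⟩
        · exact ⟨x 0, hmem 0 (by omega), k, hk, e1⟩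
        · exact ⟨(x 0)⁻¹, inv_mem (hmem 0 (by omega)), k, hk, e1⟩
      · exact ⟨x j, hmem j (by omega), k, hk, h.ch_comm hj0 k h1⟩
    · refine ⟨1, one_mem _, k + 1, by omega, ?_⟩
      have : m - k = j := by omega
      rw [carCh_succ, this, one_mul]
    · rcases Nat.lt_or_ge (j + k) (m + 2) with h2 | h2
      · -- j + k = m + 1
        obtain ⟨k', rfl⟩ : ∃ k', k = k' + 1 := ⟨k - 1, by omega⟩
        have : m - k' = j := by omega
        refine ⟨1, one_mem _, k', by omega, ?_⟩
        rw [carCh_succ, this, mul_assoc, h.mul_self (by omega) (by omega), mul_one, one_mul]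
      · exact ⟨x (j - 1), hmem _ (by omega), k, hk, h.ch_shift hj k (by omega) h2⟩
  · rcases Nat.lt_or_ge k (m + 2) with hk2 | hk2
    · -- k = m + 1
      obtain rfl : k = m + 1 := by omega
      rcases Nat.lt_or_ge j 1 with hj0 | hj1
      · obtain rfl : j = 0 := by omega
        refine ⟨1, one_mem _, m + 2, le_rfl, ?_⟩
        rw [carCh_succ x m (m + 1), show m - (m + 1) = 0 by omega, one_mul]
      · rcases Nat.lt_or_ge j 2 with hj2 | hj2
        · obtain rfl : j = 1 := by omega
          obtain ⟨m', rfl⟩ : ∃ m', m = m' + 1 := ⟨m - 1, by omega⟩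
          have hcm : carCh x (m' + 1) (m' + 1) = carCh x (m' + 1) m' * x 1 := by
            rw [carCh_succ, show m' + 1 - m' = 1 by omega]
          have key : carCh x (m' + 1) (m' + 1 + 1) * x 1 =
              carCh x (m' + 1) m' * (x 0)⁻¹ * x 1 * (x 0)⁻¹ := by
            rw [hcm1, hcm]
            calc carCh x (m' + 1) m' * x 1 * x 0 * x 1
                = carCh x (m' + 1) m' * (x 1 * x 0 * x 1) := by simp only [mul_assoc]
              _ = _ := by rw [h.one_zero_one (by omega)]; simp only [mul_assoc]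
          rcases h.ch_flip m' (by omega) with ⟨_, e2⟩ | ⟨_, e2⟩
          · refine ⟨(x 0)⁻¹, inv_mem (hmem 0 (by omega)), m' + 1 + 2, le_rfl, ?_⟩
            rw [key, hcm2, hcm, e2]; simp only [mul_assoc]
          · refine ⟨x 0, hmem 0 (by omega), m' + 1 + 2, le_rfl, ?_⟩
            rw [key, hcm2, hcm, e2]; simp only [mul_assoc]
        · refine ⟨x (j - 1), hmem _ (by omega), m + 2, le_rfl, ?_⟩
          rw [hcm1, hcm2, mul_assoc, h.zero_mul hj2 (by omega), ← mul_assoc,
            h.ch_shift hj m le_rfl (by omega), mul_assoc]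
    · -- k = m + 2
      obtain rfl : k = m + 2 := by omega
      rcases Nat.lt_or_ge j 1 with hj0 | hj1
      · obtain rfl : j = 0 := by omega
        refine ⟨1, one_mem _, m, by omega, ?_⟩
        rw [hcm2, inv_mul_cancel_right, one_mul]
      · rcases Nat.lt_or_ge j 2 with hj2 | hj2
        · obtain rfl : j = 1 := by omega
          obtain ⟨m', rfl⟩ : ∃ m', m = m' + 1 := ⟨m - 1, by omega⟩
          have hcm : carCh x (m' + 1) (m' + 1) = carCh x (m' + 1) m' * x 1 := by
            rw [carCh_succ, show m' + 1 - m' = 1 by omega]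
          have key : carCh x (m' + 1) (m' + 1 + 2) * x 1 =
              carCh x (m' + 1) m' * x 0 * x 1 * x 0 := by
            rw [hcm2, hcm]
            calc carCh x (m' + 1) m' * x 1 * (x 0)⁻¹ * x 1
                = carCh x (m' + 1) m' * (x 1 * (x 0)⁻¹ * x 1) := by simp only [mul_assoc]
              _ = _ := by rw [h.one_zero_inv_one (by omega)]; simp only [mul_assoc]
          rcases h.ch_flip m' (by omega) with ⟨e1, _⟩ | ⟨e1, _⟩
          · refine ⟨x 0, hmem 0 (by omega), m' + 1 + 1, by omega, ?_⟩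
            rw [key, hcm1, hcm, e1]; simp only [mul_assoc]
          · refine ⟨(x 0)⁻¹, inv_mem (hmem 0 (by omega)), m' + 1 + 1, by omega, ?_⟩
            rw [key, hcm1, hcm, e1]; simp only [mul_assoc]
        · refine ⟨x (j - 1), hmem _ (by omega), m + 1, by omega, ?_⟩
          rw [hcm2, hcm1, mul_assoc, h.zero_inv_mul hj2 (by omega), ← mul_assoc,
            h.ch_shift hj m le_rfl (by omega), mul_assoc]

/-- The group generated by the first `m` terms has at most `(m+2)!/2` elements. -/
theorem bound (x : ℕ → G) : ∀ m, CarRel m x →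
    ∃ S : Finset G, 2 * S.card ≤ (m + 2).factorial ∧
      ∀ g ∈ Subgroup.closure (x '' Set.Iio m), g ∈ S := by
  classical
  intro m
  induction m with
  | zero =>
    intro _
    refine ⟨{1}, by simp [Nat.factorial], ?_⟩
    intro g hg
    have : x '' Set.Iio 0 = ∅ := by ext; simp
    rw [this, Subgroup.closure_empty, Subgroup.mem_bot] at hg
    simp [hg]
  | succ m ih =>
    intro h
    obtain ⟨S, hS, hmem⟩ := ih h.mono
    refine ⟨Finset.image₂ (fun g k => g * carCh x m k) S (Finset.range (m + 3)), ?_, ?_⟩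
    · have h1 := Finset.card_image₂_le (fun g k => g * carCh x m k) S (Finset.range (m + 3))
      rw [Finset.card_range] at h1
      have h2 : (m + 1 + 2).factorial = (m + 3) * (m + 2).factorial := Nat.factorial_succ (m + 2)
      rw [h2]
      calc 2 * (Finset.image₂ (fun g k => g * carCh x m k) S (Finset.range (m + 3))).card
          ≤ 2 * (S.card * (m + 3)) := by omega
        _ = (m + 3) * (2 * S.card) := by ring
        _ ≤ (m + 3) * (m + 2).factorial := Nat.mul_le_mul_left _ hS
    · intro g hg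
      have key : ∃ g' ∈ Subgroup.closure (x '' Set.Iio m), ∃ k, k ≤ m + 2 ∧
          g = g' * carCh x m k := by
        induction hg using Subgroup.closure_induction_right with
        | one => exact ⟨1, one_mem _, 0, by omega, by simp [carCh_zero]⟩
        | mul_right a ha y hy ih' =>
          obtain ⟨g', hg', k, hk, rfl⟩ := ih'
          obtain ⟨j, hj, rfl⟩ := hy
          have hj' : j < m + 1 := hj
          obtain ⟨g2, hg2, k2, hk2, e⟩ := h.ch_step hk (Nat.lt_succ_iff.mp hj')
          exact ⟨g' * g2, mul_mem hg' hg2, k2, hk2, by rw [mul_assoc, e, mul_assoc]⟩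
        | mul_inv_cancel a ha y hy ih' =>
          obtain ⟨g', hg', k, hk, rfl⟩ := ih'
          obtain ⟨j, hj, rfl⟩ := hy
          have hj' : j < m + 1 := hj
          rcases Nat.eq_zero_or_pos j with rfl | hj0
          · obtain ⟨g2, hg2, k2, hk2, e⟩ := h.ch_step hk (Nat.zero_le m)
            obtain ⟨g3, hg3, k3, hk3, e3⟩ := h.ch_step hk2 (Nat.zero_le m)
            refine ⟨g' * g2 * g3, mul_mem (mul_mem hg' hg2) hg3, k3, hk3, ?_⟩
            calc g' * carCh x m k * (x 0)⁻¹ = g' * (carCh x m k * x 0) * x 0 := by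
                  rw [← h.zero_sq]; simp only [mul_assoc]
              _ = g' * g2 * (carCh x m k2 * x 0) := by rw [e]; simp only [mul_assoc]
              _ = g' * g2 * g3 * carCh x m k3 := by rw [e3]; simp only [mul_assoc]
          · have hinv : (x j)⁻¹ = x j := inv_eq_of_mul_eq_one_left (h.mul_self hj0 hj')
            obtain ⟨g2, hg2, k2, hk2, e⟩ := h.ch_step hk (Nat.lt_succ_iff.mp hj')
            exact ⟨g' * g2, mul_mem hg' hg2, k2, hk2, by rw [hinv, mul_assoc, e, mul_assoc]⟩
      obtain ⟨g', hg', k, hk, rfl⟩ := key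
      exact Finset.mem_image₂.mpr ⟨g', hmem g' hg', k, Finset.mem_range.mpr (by omega), rfl⟩

end CarRel

end Cfsg.Agent.Lib.Helper48
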