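import Cfsg.Agent.Lib.Helper48.CPa

/-!
# Carmichael's presentation of the alternating groups: the concrete side and the isomorphism
-/

set_option autoImplicit false

namespace Cfsg.Agent.Lib.Helper48

open Equiv

theorem car_swap3 {n : ℕ} {a b c : Fin n} (ab : a ≠ b) (ac : a ≠ c) (bc : b ≠ c) :
    (swap a b * swap b c) ^ 3 = 1 := by
  have h : Equiv.Perm.IsThreeCycle (swap b a * swap b c) :=
    Equiv.Perm.isThreeCycle_swap_mul_swap_same ab.symm bc ac
  rw [swap_comm a b]
  have := h.orderOf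
  rw [← this]; exact pow_orderOf_eq_one _

theorem car_swap_comm {n : ℕ} {a b c d : Fin n} (h : [a, b, c, d].Nodup) :
    swap a b * swap c d = swap c d * swap a b :=
  (Equiv.Perm.disjoint_swap_swap h).commute.eq

theorem car_swap2 {n : ℕ} {a b c d : Fin n} (h : [a, b, c, d].Nodup) :
    (swap a b * swap c d) ^ 2 = 1 := by
  have hc := car_swap_comm h
  rw [pow_two]
  calc swap a b * swap c d * (swap a b * swap c d)
      = swap a b * (swap c d * swap a b) * swap c d := by simp only [mul_assoc]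
    _ = (swap a b * swap a b) * (swap c d * swap c d) := by rw [← hc]; simp only [mul_assoc]
    _ = 1 := by rw [swap_mul_self, swap_mul_self, one_mul]

theorem car_swap_conj {n : ℕ} {a b c : Fin n} (ab : a ≠ b) (ac : a ≠ c) (bc : b ≠ c) :
    swap a b * swap b c * swap a b = swap a c := by
  have := swap_mul_swap_mul_swap (x := c) (y := b) (z := a) bc.symm ac.symm
  rw [swap_comm b a, swap_comm c b] at this
  exact this

/-- The Carmichael generators inside the symmetric group: `(0 1)(i+1 i+2)`. -/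
def carY (n : ℕ) (i : ℕ) : Perm (Fin n) :=
  if h : i + 2 < n then swap ⟨0, by omega⟩ ⟨1, by omega⟩ * swap ⟨i + 1, by omega⟩ ⟨i + 2, h⟩
  else 1

theorem carY_mem (n i : ℕ) : carY n i ∈ alternatingGroup (Fin n) := by
  rw [Equiv.Perm.mem_alternatingGroup]
  unfold carY
  split_ifs with h
  · rw [map_mul, Equiv.Perm.sign_swap (by simp [Fin.ext_iff]),
      Equiv.Perm.sign_swap (by simp [Fin.ext_iff])]
    simp
  · simp

theorem car_mul_aux {G : Type*} [Group G] {s a b : G} (hs : s * s = 1) (hc : s * a = a * s) :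
    (s * a) * (s * b) = a * b := by
  rw [hc, mul_assoc, ← mul_assoc s, hs, one_mul]

theorem carY_mul (n : ℕ) {i j : ℕ} (hi : i + 2 < n) (hj : j + 2 < n) (h1 : 1 ≤ i) :
    carY n i * carY n j = swap ⟨i + 1, by omega⟩ ⟨i + 2, hi⟩ * swap ⟨j + 1, by omega⟩ ⟨j + 2, hj⟩ := by
  unfold carY
  rw [dif_pos hi, dif_pos hj]
  exact car_mul_aux (swap_mul_self _ _) (car_swap_comm (by simp [Fin.ext_iff]; omega))

theorem carY_zero_mul (n : ℕ) {j : ℕ} (hj : j + 2 < n) :
    carY n 0 * carY n j = swap ⟨0, by omega⟩ ⟨2, by omega⟩ * swap ⟨j + 1, by omega⟩ ⟨j + 2, hj⟩ := by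
  unfold carY
  rw [dif_pos (by omega : 0 + 2 < n), dif_pos hj]
  have hc : swap (⟨0, by omega⟩ : Fin n) ⟨1, by omega⟩ * swap ⟨0 + 1, by omega⟩ ⟨0 + 2, by omega⟩ *
      swap (⟨0, by omega⟩ : Fin n) ⟨1, by omega⟩ = swap ⟨0, by omega⟩ ⟨2, by omega⟩ :=
    car_swap_conj (by simp [Fin.ext_iff]) (by simp [Fin.ext_iff]) (by simp [Fin.ext_iff])
  rw [← hc]
  simp only [mul_assoc]

theorem carY_rel (n : ℕ) : CarRel (n - 2) (carY n) := by
  constructor
  · unfold carY
    split_ifs with h
    · exact car_swap3 (by simp [Fin.ext_iff]) (by simp [Fin.ext_iff]) (by simp [Fin.ext_iff])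
    · simp
  · intro i h1 h2
    unfold carY
    rw [dif_pos (by omega : i + 2 < n)]
    exact car_swap2 (by simp [Fin.ext_iff]; omega)
  · intro i hi
    rcases Nat.eq_zero_or_pos i with rfl | h1
    · rw [carY_zero_mul n (by omega : 0 + 1 + 2 < n)]
      exact car_swap3 (by simp [Fin.ext_iff]) (by simp [Fin.ext_iff]) (by simp [Fin.ext_iff])
    · rw [carY_mul n (by omega : i + 2 < n) (by omega : i + 1 + 2 < n) h1]
      exact car_swap3 (by simp [Fin.ext_iff]) (by simp [Fin.ext_iff]) (by simp [Fin.ext_iff])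
  · intro i j hij hj
    rcases Nat.eq_zero_or_pos i with rfl | h1
    · rw [carY_zero_mul n (by omega : j + 2 < n)]
      exact car_swap2 (by simp [Fin.ext_iff]; omega)
    · rw [carY_mul n (by omega : i + 2 < n) (by omega : j + 2 < n) h1]
      exact car_swap2 (by simp [Fin.ext_iff]; omega)

/-- Every permutation is, up to the transposition `(0 1)`, in the group generated by the
Carmichael generators. -/
theorem carY_cover (N : ℕ) (hN : 2 ≤ N) (g : Perm (Fin (N + 1))) :
    g ∈ Subgroup.closure (carY (N + 1) '' Set.Iio (N + 1 - 2)) ∨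
    g * swap ⟨0, by omega⟩ ⟨1, by omega⟩ ∈ Subgroup.closure (carY (N + 1) '' Set.Iio (N + 1 - 2)) := by
  induction g using Submonoid.induction_of_closure_eq_top_right
    (Equiv.Perm.mclosure_swap_castSucc_succ N) with
  | one => left; exact one_mem _
  | mul_right a y hy ih =>
    obtain ⟨i, rfl⟩ := hy
    beta_reduce
    rcases Nat.eq_zero_or_pos i.val with h0 | h0
    · have hs : swap i.castSucc i.succ = swap (⟨0, by omega⟩ : Fin (N + 1)) ⟨1, by omega⟩ := by
        congr 1 <;> simp [Fin.ext_iff, h0]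
      rw [hs]
      rcases ih with h | h
      · right; rw [mul_assoc, swap_mul_self, mul_one]; exact h
      · left; exact h
    · obtain ⟨k, hk⟩ : ∃ k, i.val = k + 1 := ⟨i.val - 1, by omega⟩
      have hk2 : k + 2 < N + 1 := by have := i.isLt; omega
      have hs : swap i.castSucc i.succ = swap (⟨k + 1, by omega⟩ : Fin (N + 1)) ⟨k + 2, hk2⟩ := by
        congr 1 <;> simp [Fin.ext_iff, hk]
      have hy : carY (N + 1) k = swap ⟨0, by omega⟩ ⟨1, by omega⟩ *
          swap (⟨k + 1, by omega⟩ : Fin (N + 1)) ⟨k + 2, hk2⟩ := by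
        unfold carY; rw [dif_pos hk2]
      have hym : carY (N + 1) k ∈ Subgroup.closure (carY (N + 1) '' Set.Iio (N + 1 - 2)) :=
        Subgroup.subset_closure ⟨k, by simp only [Set.mem_Iio]; omega, rfl⟩
      rw [hs]
      rcases ih with h | h
      · right
        have : a * swap (⟨k + 1, by omega⟩ : Fin (N + 1)) ⟨k + 2, hk2⟩ *
            swap ⟨0, by omega⟩ ⟨1, by omega⟩ = a * (carY (N + 1) k)⁻¹ := by
          rw [hy, mul_inv_rev, swap_inv, swap_inv, mul_assoc]
        rw [this]
        exact mul_mem h (inv_mem hym)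
      · left
        have : a * swap (⟨k + 1, by omega⟩ : Fin (N + 1)) ⟨k + 2, hk2⟩ =
            a * swap ⟨0, by omega⟩ ⟨1, by omega⟩ * carY (N + 1) k := by
          rw [hy, mul_assoc a, ← mul_assoc (swap _ _), swap_mul_self, one_mul]
        rw [this]
        exact mul_mem h hym

theorem carY_alt_le (n : ℕ) (hn : 3 ≤ n) :
    alternatingGroup (Fin n) ≤ Subgroup.closure (carY n '' Set.Iio (n - 2)) := by
  obtain ⟨N, rfl⟩ : ∃ N, n = N + 1 := ⟨n - 1, by omega⟩
  rw [← Equiv.Perm.closure_three_cycles_eq_alternating, Subgroup.closure_le]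
  intro σ hσ
  have hσ' : σ.IsThreeCycle := hσ
  have hy : carY (N + 1) 0 = swap ⟨0, by omega⟩ ⟨1, by omega⟩ *
      swap (⟨0 + 1, by omega⟩ : Fin (N + 1)) ⟨0 + 2, by omega⟩ := by
    unfold carY; rw [dif_pos (by omega)]
  have hym : carY (N + 1) 0 ∈ Subgroup.closure (carY (N + 1) '' Set.Iio (N + 1 - 2)) :=
    Subgroup.subset_closure ⟨0, by simp only [Set.mem_Iio]; omega, rfl⟩
  have h3 : (carY (N + 1) 0).IsThreeCycle := by
    rw [hy, swap_comm (⟨0, by omega⟩ : Fin (N + 1))]
    exact Equiv.Perm.isThreeCycle_swap_mul_swap_same (by simp [Fin.ext_iff])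
      (by simp [Fin.ext_iff]) (by simp [Fin.ext_iff])
  have hconj : IsConj (carY (N + 1) 0) σ :=
    Equiv.Perm.isConj_iff_cycleType_eq.mpr (h3.trans hσ'.symm)
  obtain ⟨c, hc⟩ := isConj_iff.mp hconj
  rcases carY_cover N (by omega) c with h | h
  · rw [SetLike.mem_coe, ← hc]
    exact mul_mem (mul_mem h hym) (inv_mem h)
  · have : σ = (c * swap ⟨0, by omega⟩ ⟨1, by omega⟩) * (carY (N + 1) 0)⁻¹ *
        (c * swap ⟨0, by omega⟩ ⟨1, by omega⟩)⁻¹ := by
      rw [← hc, hy]
      simp only [mul_inv_rev, swap_inv, mul_assoc]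
      rw [swap_mul_self_mul]
    rw [SetLike.mem_coe, this]
    exact mul_mem (mul_mem h (inv_mem hym)) (inv_mem h)

/-- The Carmichael relators on `m` generators. -/
def carRels (m : ℕ) : Set (FreeGroup (Fin m)) :=
  {g : FreeGroup (Fin m) | ∃ i : Fin m, i.val = 0 ∧ g = FreeGroup.of i ^ 3} ∪
   {g | ∃ i : Fin m, 1 ≤ i.val ∧ g = FreeGroup.of i ^ 2} ∪
   {g | ∃ i j : Fin m, j.val = i.val + 1 ∧ g = (FreeGroup.of i * FreeGroup.of j) ^ 3} ∪
   {g | ∃ i j : Fin m, i.val + 1 < j.val ∧ g = (FreeGroup.of i * FreeGroup.of j) ^ 2}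

/-- The generators of the presented group as a sequence. -/
noncomputable def carX (m : ℕ) (k : ℕ) : PresentedGroup (carRels m) :=
  if h : k < m then PresentedGroup.of ⟨k, h⟩ else 1

theorem carX_rel (m : ℕ) : CarRel m (carX m) := by
  constructor
  · by_cases h : 0 < m
    · rw [carX, dif_pos h]
      have hmem : FreeGroup.of (⟨0, h⟩ : Fin m) ^ 3 ∈ carRels m :=
        Or.inl (Or.inl (Or.inl ⟨⟨0, h⟩, rfl, rfl⟩))
      have := PresentedGroup.one_of_mem hmem
      rw [map_pow] at this
      exact this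
    · rw [carX, dif_neg h]; simp
  · intro i h1 h2
    rw [carX, dif_pos h2]
    have hmem : FreeGroup.of (⟨i, h2⟩ : Fin m) ^ 2 ∈ carRels m :=
      Or.inl (Or.inl (Or.inr ⟨⟨i, h2⟩, h1, rfl⟩))
    have := PresentedGroup.one_of_mem hmem
    rw [map_pow] at this
    exact this
  · intro i hi
    rw [carX, carX, dif_pos (by omega : i < m), dif_pos hi]
    have hmem : (FreeGroup.of (⟨i, by omega⟩ : Fin m) * FreeGroup.of (⟨i + 1, hi⟩ : Fin m)) ^ 3
        ∈ carRels m := Or.inl (Or.inr ⟨_, _, rfl, rfl⟩)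
    have := PresentedGroup.one_of_mem hmem
    rw [map_pow, map_mul] at this
    exact this
  · intro i j hij hj
    rw [carX, carX, dif_pos (by omega : i < m), dif_pos hj]
    have hmem : (FreeGroup.of (⟨i, by omega⟩ : Fin m) * FreeGroup.of (⟨j, hj⟩ : Fin m)) ^ 2
        ∈ carRels m := Or.inr ⟨_, _, hij, rfl⟩
    have := PresentedGroup.one_of_mem hmem
    rw [map_pow, map_mul] at this
    exact this

theorem carX_closure (m : ℕ) : Subgroup.closure (carX m '' Set.Iio m) = ⊤ := by
  rw [eq_top_iff, ← PresentedGroup.closure_range_of (carRels m)]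
  apply Subgroup.closure_mono
  rintro _ ⟨i, rfl⟩
  exact ⟨i.val, i.isLt, by rw [carX, dif_pos i.isLt]⟩

theorem carPres_card (m : ℕ) : Finite (PresentedGroup (carRels m)) ∧
    2 * Nat.card (PresentedGroup (carRels m)) ≤ (m + 2).factorial := by
  classical
  obtain ⟨S, hS, hmem⟩ := CarRel.bound (carX m) m (carX_rel m)
  rw [carX_closure] at hmem
  have hinj : Function.Injective
      (fun g : PresentedGroup (carRels m) => (⟨g, hmem g (Subgroup.mem_top g)⟩ : S)) :=
    fun a b hab => by simpa using congrArg Subtype.val hab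
  have hfin : Finite (PresentedGroup (carRels m)) := Finite.of_injective _ hinj
  refine ⟨hfin, le_trans ?_ hS⟩
  have h1 := Nat.card_le_card_of_injective _ hinj
  have h2 : Nat.card S = S.card := by simp
  omega

/-- Carmichael's presentation of the alternating group of degree `n ≥ 3`. -/
theorem carPres (n : ℕ) (hn : 3 ≤ n) :
    Nonempty (PresentedGroup (carRels (n - 2)) ≃* alternatingGroup (Fin n)) := by
  classical
  have hY := carY_rel n
  let f : Fin (n - 2) → alternatingGroup (Fin n) := fun i => ⟨carY n i.val, carY_mem n _⟩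
  have hf : ∀ i, ((f i : alternatingGroup (Fin n)) : Perm (Fin n)) = carY n i.val := fun _ => rfl
  have hrel : ∀ r ∈ carRels (n - 2), FreeGroup.lift f r = 1 := by
    intro r hr
    rcases hr with ((⟨i, hi, rfl⟩ | ⟨i, hi, rfl⟩) | ⟨i, j, hij, rfl⟩) | ⟨i, j, hij, rfl⟩
    · simp only [map_pow, FreeGroup.lift_apply_of]
      apply Subtype.ext
      rw [Subgroup.coe_pow, hf, hi]
      exact hY.cube
    · simp only [map_pow, FreeGroup.lift_apply_of]
      apply Subtype.ext
      rw [Subgroup.coe_pow, hf]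
      exact hY.sq i.val hi i.isLt
    · simp only [map_pow, map_mul, FreeGroup.lift_apply_of]
      apply Subtype.ext
      rw [Subgroup.coe_pow, Subgroup.coe_mul, hf, hf, hij]
      exact hY.adj i.val (by have := j.isLt; omega)
    · simp only [map_pow, map_mul, FreeGroup.lift_apply_of]
      apply Subtype.ext
      rw [Subgroup.coe_pow, Subgroup.coe_mul, hf, hf]
      exact hY.far i.val j.val hij j.isLt
  let φ : PresentedGroup (carRels (n - 2)) →* alternatingGroup (Fin n) := PresentedGroup.toGroup hrel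
  have hφ : ∀ i, φ (PresentedGroup.of i) = f i := fun i => PresentedGroup.toGroup.of hrel
  have hsurj : Function.Surjective φ := by
    intro a
    have h1 : a.1 ∈ Subgroup.closure (carY n '' Set.Iio (n - 2)) := carY_alt_le n hn a.2
    have h2 : Subgroup.closure (carY n '' Set.Iio (n - 2)) ≤
        ((alternatingGroup (Fin n)).subtype.comp φ).range := by
      rw [Subgroup.closure_le]
      rintro _ ⟨i, hi, rfl⟩
      exact ⟨PresentedGroup.of ⟨i, hi⟩, by
        rw [MonoidHom.comp_apply, hφ]; rfl⟩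
    obtain ⟨p, hp⟩ := h2 h1
    exact ⟨p, Subtype.ext hp⟩
  obtain ⟨hfin, hcard⟩ := carPres_card (n - 2)
  have hbij : Function.Bijective φ := by
    apply hsurj.bijective_of_nat_card_le
    have h2 : 2 * Nat.card (alternatingGroup (Fin n)) = n.factorial := by
      haveI : Nontrivial (Fin n) := Fin.nontrivial_iff_two_le.mpr (by omega)
      rw [two_mul_nat_card_alternatingGroup, Nat.card_perm, Nat.card_fin]
    have h3 : n - 2 + 2 = n := by omega
    rw [h3] at hcard
    omega
  exact ⟨MulEquiv.ofBijective φ hbij⟩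

end Cfsg.Agent.Lib.Helper48
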