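import Mathlib
import Cfsg.Agent.Lib.Helper46.GL2e

set_option autoImplicit false

namespace Cfsg.Agent.Lib.Helper48

open Cfsg
open scoped ComplexConjugate

section IntLemmas

theorem sum_sq_eq_one {ι : Type*} [Fintype ι] [DecidableEq ι] (k : ι → ℤ)
    (h : ∑ i, k i * k i = 1) :
    ∃ i₀, (k i₀ = 1 ∨ k i₀ = -1) ∧ ∀ i, i ≠ i₀ → k i = 0 := by
  have hex : ∃ i₀, k i₀ ≠ 0 := by
    by_contra hcon
    push Not at hcon
    simp [hcon] at h
  obtain ⟨i₀, hi₀⟩ := hex
  have hnn : ∀ i, 0 ≤ k i * k i := fun i => mul_self_nonneg _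
  have hle : ∀ i, k i * k i ≤ 1 := by
    intro i
    rw [← h]
    exact Finset.single_le_sum (fun j _ => hnn j) (Finset.mem_univ i)
  have h1 : k i₀ * k i₀ = 1 := by
    have := hle i₀
    have h0 : k i₀ * k i₀ ≠ 0 := mul_ne_zero hi₀ hi₀
    have := hnn i₀
    omega
  refine ⟨i₀, ?_, ?_⟩
  · have : (k i₀ - 1) * (k i₀ + 1) = 0 := by linear_combination h1
    rcases mul_eq_zero.mp this with h' | h'
    · left; omega
    · right; omega
  · intro i hi
    by_contra hki
    have h2 : k i₀ * k i₀ + k i * k i ≤ ∑ j, k j * k j := by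
      have := Finset.sum_le_sum_of_subset_of_nonneg (f := fun j => k j * k j)
        (Finset.subset_univ ({i₀, i} : Finset ι)) (fun j _ _ => hnn j)
      rwa [Finset.sum_pair hi.symm] at this
    have h3 : 0 < k i * k i := lt_of_le_of_ne (hnn i) (Ne.symm (mul_ne_zero hki hki))
    omega

theorem sum_sq_eq_two {ι : Type*} [Fintype ι] [DecidableEq ι] (k : ι → ℤ)
    (h : ∑ i, k i * k i = 2) :
    ∃ i₁ i₂, i₁ ≠ i₂ ∧ (k i₁ = 1 ∨ k i₁ = -1) ∧ (k i₂ = 1 ∨ k i₂ = -1) ∧
      ∀ i, i ≠ i₁ → i ≠ i₂ → k i = 0 := by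
  have hnn : ∀ i, 0 ≤ k i * k i := fun i => mul_self_nonneg _
  have hex : ∃ i₁, k i₁ ≠ 0 := by
    by_contra hcon
    push Not at hcon
    simp [hcon] at h
  obtain ⟨i₁, hi₁⟩ := hex
  have hle : ∀ i, k i * k i ≤ 2 := by
    intro i
    rw [← h]
    exact Finset.single_le_sum (fun j _ => hnn j) (Finset.mem_univ i)
  have hsq : ∀ i, k i ≠ 0 → k i * k i = 1 := by
    intro i hi
    have h0 : 0 < k i * k i := lt_of_le_of_ne (hnn i) (Ne.symm (mul_ne_zero hi hi))
    have h2 := hle i
    have : k i * k i ≠ 2 := by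
      intro h2'
      have hk : |k i| ≤ 1 := by
        by_contra hc
        push Not at hc
        have : 2 ≤ |k i| := hc
        have : 4 ≤ |k i| * |k i| := by nlinarith
        rw [abs_mul_abs_self] at this
        omega
      have : k i = 1 ∨ k i = -1 ∨ k i = 0 := by
        have := abs_le.mp hk
        omega
      rcases this with h' | h' | h' <;> rw [h'] at h2' <;> norm_num at h2'
    omega
  have h1 := hsq i₁ hi₁
  have hex2 : ∃ i₂, i₂ ≠ i₁ ∧ k i₂ ≠ 0 := by
    by_contra hcon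
    push Not at hcon
    have : ∑ i, k i * k i = k i₁ * k i₁ := by
      apply Finset.sum_eq_single i₁
      · intro b _ hb; rw [hcon b hb]; rfl
      · intro hh; exact absurd (Finset.mem_univ _) hh
    omega
  obtain ⟨i₂, hne, hi₂⟩ := hex2
  have h2 := hsq i₂ hi₂
  have pm : ∀ i, k i * k i = 1 → (k i = 1 ∨ k i = -1) := by
    intro i hi
    have : (k i - 1) * (k i + 1) = 0 := by linear_combination hi
    rcases mul_eq_zero.mp this with h' | h'
    · left; omega
    · right; omega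
  refine ⟨i₁, i₂, hne.symm, pm i₁ h1, pm i₂ h2, ?_⟩
  intro i hi1 hi2
  by_contra hki
  have h3 := hsq i hki
  have h4 : k i₁ * k i₁ + k i₂ * k i₂ + k i * k i ≤ ∑ j, k j * k j := by
    have := Finset.sum_le_sum_of_subset_of_nonneg (f := fun j => k j * k j)
      (Finset.subset_univ ({i₁, i₂, i} : Finset ι)) (fun j _ _ => hnn j)
    rw [Finset.sum_insert (by simp [hne.symm, Ne.symm hi1]), Finset.sum_pair (Ne.symm hi2)] at this
    linarith
  omega

end IntLemmas

section General

variable {G : Type*} [Group G] [Fintype G]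

theorem isClassFunction_sub (φ ψ : G → ℂ) (hφ : IsClassFunction G φ) (hψ : IsClassFunction G ψ) :
    IsClassFunction G (φ - ψ) := by
  intro g h
  simp only [Pi.sub_apply]
  rw [hφ g h, hψ g h]

theorem isClassFunction_add (φ ψ : G → ℂ) (hφ : IsClassFunction G φ) (hψ : IsClassFunction G ψ) :
    IsClassFunction G (φ + ψ) := by
  intro g h
  simp only [Pi.add_apply]
  rw [hφ g h, hψ g h]

omit [Fintype G] in
theorem isClassFunction_of_char (φ : G → ℂ) (hφ : IsCharacter G φ) : IsClassFunction G φ := by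
  obtain ⟨n, ρ, rfl⟩ := hφ
  exact Helper4.isClassFunction_char ρ

/-- the inner product of a virtual character with an irreducible character is an integer -/
theorem inner_virt_int (φ ψ : G → ℂ) (hφ : IsCharacter G φ) (hψ : IsCharacter G ψ)
    (χ : IrrCharacter G) : ∃ k : ℤ, classInner (φ - ψ) (χ : G → ℂ) = k := by
  obtain ⟨a, ha⟩ := Helper46.classInner_char_char_nat φ _ hφ (Helper46.isCharacter_of_irr _ χ.2)
  obtain ⟨b, hb⟩ := Helper46.classInner_char_char_nat ψ _ hψ (Helper46.isCharacter_of_irr _ χ.2)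
  refine ⟨(a : ℤ) - b, ?_⟩
  rw [Helper46.classInner_sub_left, ha, hb]
  push_cast
  ring

/-- A virtual character of norm one with positive degree is an irreducible character. -/
theorem virt_irr (φ ψ : G → ℂ) (hφ : IsCharacter G φ) (hψ : IsCharacter G ψ)
    (h1 : classInner (φ - ψ) (φ - ψ) = 1) (n : ℕ) (hn : 0 < n) (hdeg : (φ - ψ) 1 = (n : ℂ)) :
    IsIrrCharacter G (φ - ψ) := by
  classical
  have := Helper4.irr_finite (G := G)
  let _ : Fintype (IrrCharacter G) := Fintype.ofFinite _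
  have hcf : IsClassFunction G (φ - ψ) :=
    isClassFunction_sub _ _ (isClassFunction_of_char φ hφ)
      (isClassFunction_of_char ψ hψ)
  choose k hk using inner_virt_int φ ψ hφ hψ
  have hexp := Helper4.classFunction_expansion (φ - ψ) hcf
  have h2 : classInner (φ - ψ) (φ - ψ) = ∑ χ : IrrCharacter G, ((k χ : ℤ) : ℂ) * conj ((k χ : ℤ) : ℂ) := by
    conv_lhs => rw [hexp]
    rw [Helper4.classInner_sum_sum_irr]
    refine Finset.sum_congr rfl fun χ _ => ?_
    rw [hk χ]
  rw [h1] at h2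
  have h3 : ∑ χ : IrrCharacter G, k χ * k χ = 1 := by
    have : ((∑ χ : IrrCharacter G, k χ * k χ : ℤ) : ℂ) = 1 := by
      rw [h2]; push_cast
      refine Finset.sum_congr rfl fun χ _ => ?_
      rw [map_intCast]
    exact_mod_cast this
  obtain ⟨χ₀, hχ₀, hothers⟩ := sum_sq_eq_one k h3
  have h7 : φ - ψ = ((k χ₀ : ℤ) : ℂ) • (χ₀ : G → ℂ) := by
    conv_lhs => rw [hexp]
    rw [Finset.sum_eq_single χ₀]
    · rw [hk χ₀]
    · intro b _ hb
      rw [hk b, hothers b hb]; simp
    · intro h; exact absurd (Finset.mem_univ _) h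
  rcases hχ₀ with h | h
  · rw [h7, h]
    simp only [Int.cast_one, one_smul]
    exact χ₀.2
  · exfalso
    obtain ⟨m, hm, hm1⟩ := Helper4.irr_one_nat χ₀
    have h8 := congrFun h7 1
    rw [hdeg, h] at h8
    simp only [Int.cast_neg, Int.cast_one, Pi.smul_apply, smul_eq_mul, neg_mul, one_mul] at h8
    rw [hm1] at h8
    have : ((n : ℤ) : ℂ) = ((-(m : ℤ) : ℤ) : ℂ) := by push_cast; exact h8
    have := Int.cast_injective this
    omega

/-- A virtual character of norm two is `± χ₁ ± χ₂` for distinct irreducible characters. -/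
theorem virt_two (φ ψ : G → ℂ) (hφ : IsCharacter G φ) (hψ : IsCharacter G ψ)
    (h1 : classInner (φ - ψ) (φ - ψ) = 2) :
    ∃ χ₁ χ₂ : IrrCharacter G, χ₁ ≠ χ₂ ∧ ∃ e₁ e₂ : ℂ, (e₁ = 1 ∨ e₁ = -1) ∧ (e₂ = 1 ∨ e₂ = -1) ∧
      φ - ψ = e₁ • (χ₁ : G → ℂ) + e₂ • (χ₂ : G → ℂ) := by
  classical
  have := Helper4.irr_finite (G := G)
  let _ : Fintype (IrrCharacter G) := Fintype.ofFinite _
  have hcf : IsClassFunction G (φ - ψ) :=
    isClassFunction_sub _ _ (isClassFunction_of_char φ hφ)
      (isClassFunction_of_char ψ hψ)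
  choose k hk using inner_virt_int φ ψ hφ hψ
  have hexp := Helper4.classFunction_expansion (φ - ψ) hcf
  have h2 : classInner (φ - ψ) (φ - ψ) = ∑ χ : IrrCharacter G, ((k χ : ℤ) : ℂ) * conj ((k χ : ℤ) : ℂ) := by
    conv_lhs => rw [hexp]
    rw [Helper4.classInner_sum_sum_irr]
    refine Finset.sum_congr rfl fun χ _ => ?_
    rw [hk χ]
  rw [h1] at h2
  have h3 : ∑ χ : IrrCharacter G, k χ * k χ = 2 := by
    have : ((∑ χ : IrrCharacter G, k χ * k χ : ℤ) : ℂ) = 2 := by
      rw [h2]; push_cast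
      refine Finset.sum_congr rfl fun χ _ => ?_
      rw [map_intCast]
    exact_mod_cast this
  obtain ⟨χ₁, χ₂, hne, hk1, hk2, hothers⟩ := sum_sq_eq_two k h3
  refine ⟨χ₁, χ₂, hne, ((k χ₁ : ℤ) : ℂ), ((k χ₂ : ℤ) : ℂ), ?_, ?_, ?_⟩
  · rcases hk1 with h | h <;> rw [h] <;> simp
  · rcases hk2 with h | h <;> rw [h] <;> simp
  · conv_lhs => rw [hexp]
    rw [← Finset.sum_subset (Finset.subset_univ ({χ₁, χ₂} : Finset (IrrCharacter G)))]
    · rw [Finset.sum_pair hne, hk χ₁, hk χ₂]
    · intro b _ hb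
      simp only [Finset.mem_insert, Finset.mem_singleton, not_or] at hb
      rw [hk b, hothers b hb.1 hb.2]; simp

/-- A character of norm two is the sum of two distinct irreducible characters. -/
theorem char_two (φ : G → ℂ) (hφ : IsCharacter G φ) (h1 : classInner φ φ = 2) :
    ∃ χ₁ χ₂ : IrrCharacter G, χ₁ ≠ χ₂ ∧ φ = (χ₁ : G → ℂ) + (χ₂ : G → ℂ) := by
  classical
  have h0 : φ - 0 = φ := sub_zero φ
  obtain ⟨χ₁, χ₂, hne, e₁, e₂, he₁, he₂, hd⟩ :=
    virt_two φ 0 hφ Helper46.isCharacter_zero (by rw [h0]; exact h1)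
  rw [h0] at hd
  refine ⟨χ₁, χ₂, hne, ?_⟩
  have i11 : classInner (χ₁ : G → ℂ) (χ₁ : G → ℂ) = 1 := by
    rw [Helper4.classInner_irr, if_pos rfl]
  have i22 : classInner (χ₂ : G → ℂ) (χ₂ : G → ℂ) = 1 := by
    rw [Helper4.classInner_irr, if_pos rfl]
  have i12 : classInner (χ₁ : G → ℂ) (χ₂ : G → ℂ) = 0 := by
    rw [Helper4.classInner_irr, if_neg hne]
  have i21 : classInner (χ₂ : G → ℂ) (χ₁ : G → ℂ) = 0 := by
    rw [Helper4.classInner_irr, if_neg (Ne.symm hne)]
  have c1 : classInner φ (χ₁ : G → ℂ) = e₁ := by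
    rw [hd, Helper46.classInner_add_left, Helper46.classInner_smul_left,
      Helper46.classInner_smul_left, i11, i21]
    ring
  have c2 : classInner φ (χ₂ : G → ℂ) = e₂ := by
    rw [hd, Helper46.classInner_add_left, Helper46.classInner_smul_left,
      Helper46.classInner_smul_left, i12, i22]
    ring
  obtain ⟨a, ha⟩ := Helper46.classInner_char_char_nat φ _ hφ (Helper46.isCharacter_of_irr _ χ₁.2)
  obtain ⟨b, hb⟩ := Helper46.classInner_char_char_nat φ _ hφ (Helper46.isCharacter_of_irr _ χ₂.2)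
  have e1 : e₁ = 1 := by
    rcases he₁ with h | h
    · exact h
    · exfalso
      rw [c1, h] at ha
      have : ((-1 : ℤ) : ℂ) = ((a : ℤ) : ℂ) := by push_cast; exact ha
      have := Int.cast_injective this
      omega
  have e2 : e₂ = 1 := by
    rcases he₂ with h | h
    · exact h
    · exfalso
      rw [c2, h] at hb
      have : ((-1 : ℤ) : ℂ) = ((b : ℤ) : ℂ) := by push_cast; exact hb
      have := Int.cast_injective this
      omega
  rw [hd, e1, e2, one_smul, one_smul]

/-- An induced function vanishes at elements with no conjugate in the subgroup. -/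
theorem indFun_eq_zero (H : Subgroup G) (f : H → ℂ) (g : G) (h : ∀ x : G, x⁻¹ * g * x ∉ H) :
    indFun H f g = 0 := by
  unfold indFun
  rw [Finset.sum_eq_zero, mul_zero]
  intro x _
  exact Helper46.extendByZero_of_not_mem H f (h x)

/-- The value of an induced function at a central element of the subgroup. -/
theorem indFun_central (H : Subgroup G) (f : H → ℂ) (z : G) (hz : z ∈ H)
    (hc : ∀ x : G, x⁻¹ * z * x = z) :
    indFun H f z = (Fintype.card G : ℂ) * (Nat.card H : ℂ)⁻¹ * f ⟨z, hz⟩ := by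
  unfold indFun
  have : ∀ x : G, extendByZero H f (x⁻¹ * z * x) = f ⟨z, hz⟩ := by
    intro x
    rw [hc x]
    exact Helper46.extendByZero_of_mem H f hz
  simp only [this, Finset.sum_const, Finset.card_univ, nsmul_eq_mul]
  ring

/-- Frobenius reciprocity, as a sum over the whole group. -/
theorem classInner_indFun (H : Subgroup G) (θ : H → ℂ) (ψ : G → ℂ) (hψ : IsClassFunction G ψ) :
    classInner (indFun H θ) ψ = (Nat.card H : ℂ)⁻¹ * ∑ g : G, extendByZero H θ g * conj (ψ g) := by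
  classical
  let _ : Fintype H := Fintype.ofFinite H
  rw [Helper46.frobenius H θ ψ hψ, Helper46.sum_extendByZero_mul H θ (fun g => conj (ψ g))]
  rfl

/-- Inner product with the regular character. -/
theorem classInner_regular [DecidableEq G] (ψ : G → ℂ) :
    classInner (fun g : G => if g = 1 then (Nat.card G : ℂ) else 0) ψ = conj (ψ 1) := by
  unfold classInner
  rw [Finset.sum_eq_single 1]
  · simp only [if_true]
    rw [← mul_assoc, inv_mul_cancel₀ Helper46.card_ne_zero', one_mul]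
  · intro b _ hb
    simp only [if_neg hb, zero_mul]
  · intro h; exact absurd (Finset.mem_univ _) h

theorem classInner_sum_left {ι : Type*} (s : Finset ι) (f : ι → G → ℂ) (ψ : G → ℂ) :
    classInner (∑ i ∈ s, f i) ψ = ∑ i ∈ s, classInner (f i) ψ := by
  classical
  induction s using Finset.induction_on with
  | empty =>
    simp only [Finset.sum_empty]
    unfold classInner
    simp
  | insert a s ha ih =>
    rw [Finset.sum_insert ha, Finset.sum_insert ha, Helper46.classInner_add_left, ih]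

end General

section Dual

variable {A : Type*} [Group A] [Finite A]

theorem hom_norm_one (θ : A →* ℂˣ) (c : A) : ‖((θ c : ℂˣ) : ℂ)‖ = 1 := by
  have hpos : 0 < Nat.card A := Nat.card_pos
  apply Complex.norm_eq_one_of_pow_eq_one (n := Nat.card A)
  · rw [← Units.val_pow_eq_pow_val, ← map_pow, pow_card_eq_one', map_one, Units.val_one]
  · exact hpos.ne'

theorem hom_conj (θ : A →* ℂˣ) (c : A) : conj ((θ c : ℂˣ) : ℂ) = ((θ c⁻¹ : ℂˣ) : ℂ) := by
  rw [← Complex.inv_eq_conj (hom_norm_one θ c), map_inv, Units.val_inv_eq_inv_val]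

omit [Finite A] in
theorem hom_sum_eq_zero [Fintype A] (φ : A →* ℂˣ) (hφ : φ ≠ 1) : ∑ c : A, ((φ c : ℂˣ) : ℂ) = 0 := by
  have : ∃ c₀, φ c₀ ≠ 1 := by
    by_contra hcon
    push Not at hcon
    exact hφ (MonoidHom.ext hcon)
  obtain ⟨c₀, hc₀⟩ := this
  have h1 : ∑ c : A, ((φ c : ℂˣ) : ℂ) = ((φ c₀ : ℂˣ) : ℂ) * ∑ c : A, ((φ c : ℂˣ) : ℂ) := by
    rw [Finset.mul_sum]
    rw [← Equiv.sum_comp (Equiv.mulLeft c₀)]
    refine Finset.sum_congr rfl fun c _ => ?_
    simp
  have h2 : (((φ c₀ : ℂˣ) : ℂ) - 1) * ∑ c : A, ((φ c : ℂˣ) : ℂ) = 0 := by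
    linear_combination -h1
  rcases mul_eq_zero.mp h2 with h | h
  · exfalso
    apply hc₀
    apply Units.ext
    rw [Units.val_one]
    linear_combination h
  · exact h

/-- orthogonality of linear characters of a finite group -/
theorem hom_orth [Fintype A] (θ θ' : A →* ℂˣ) [Decidable (θ = θ')] :
    ∑ c : A, ((θ c : ℂˣ) : ℂ) * conj ((θ' c : ℂˣ) : ℂ) = if θ = θ' then (Fintype.card A : ℂ) else 0 := by
  have h1 : ∀ c : A, ((θ c : ℂˣ) : ℂ) * conj ((θ' c : ℂˣ) : ℂ) = (((θ * θ'⁻¹) c : ℂˣ) : ℂ) := by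
    intro c
    rw [hom_conj, MonoidHom.mul_apply, MonoidHom.inv_apply, Units.val_mul, map_inv]
  simp only [h1]
  split_ifs with h
  · subst h
    simp
  · apply hom_sum_eq_zero
    intro h'
    apply h
    apply MonoidHom.ext
    intro c
    have h2 := congrArg (fun f : A →* ℂˣ => f c) h'
    simp only [MonoidHom.mul_apply, MonoidHom.inv_apply, MonoidHom.one_apply] at h2
    exact mul_inv_eq_one.mp h2

end Dual

section Dual2

variable {A : Type*} [CommGroup A] [Finite A]

/-- dual orthogonality -/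
theorem hom_dual_sum [Fintype A] [Fintype (A →* ℂˣ)] [DecidableEq A] (a : A) :
    ∑ θ : A →* ℂˣ, ((θ a : ℂˣ) : ℂ) = if a = 1 then (Fintype.card A : ℂ) else 0 := by
  split_ifs with h
  · subst h
    simp only [map_one, Units.val_one, Finset.sum_const, Finset.card_univ, nsmul_eq_mul, mul_one]
    rw [← Nat.card_eq_fintype_card, CommGroup.card_monoidHom_of_hasEnoughRootsOfUnity A ℂ,
      Nat.card_eq_fintype_card]
  · obtain ⟨φ, hφ⟩ := CommGroup.exists_apply_ne_one_of_hasEnoughRootsOfUnity A ℂ h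
    have h1 : ∑ θ : A →* ℂˣ, ((θ a : ℂˣ) : ℂ) = ((φ a : ℂˣ) : ℂ) * ∑ θ : A →* ℂˣ, ((θ a : ℂˣ) : ℂ) := by
      rw [Finset.mul_sum]
      rw [← Equiv.sum_comp (Equiv.mulLeft φ)]
      refine Finset.sum_congr rfl fun c _ => ?_
      simp
    have h2 : (((φ a : ℂˣ) : ℂ) - 1) * ∑ θ : A →* ℂˣ, ((θ a : ℂˣ) : ℂ) = 0 := by
      linear_combination -h1
    rcases mul_eq_zero.mp h2 with h' | h'
    · exfalso
      apply hφ
      apply Units.ext
      rw [Units.val_one]
      linear_combination h'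
    · exact h'

end Dual2

section DualG

/-- dual orthogonality for a finite group all of whose elements commute -/
theorem hom_dual_sum' {A : Type*} [Group A] [Finite A] (hcomm : ∀ a b : A, a * b = b * a)
    [Fintype A] [Fintype (A →* ℂˣ)] [DecidableEq A] (a : A) :
    ∑ θ : A →* ℂˣ, ((θ a : ℂˣ) : ℂ) = if a = 1 then (Fintype.card A : ℂ) else 0 := by
  let inst : CommGroup A := { (inferInstance : Group A) with mul_comm := hcomm }
  exact @hom_dual_sum A inst _ _ _ _ a

end DualG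



section Cyclic

variable {C : Type*} [Group C] [Finite C] [IsCyclic C]

/-- a character of order two of a cyclic group of even order takes the value `(-1)^(n/2)`
at the involution -/
theorem cyclic_quad_at_invol (φ : C →* ℂˣ) (hφ : φ ≠ 1) (hφ2 : ∀ c, φ c ^ 2 = 1)
    (z : C) (hz1 : z ≠ 1) (hz2 : z * z = 1) :
    ((φ z : ℂˣ) : ℂ) = (-1) ^ (Nat.card C / 2) := by
  obtain ⟨g, hg⟩ := IsCyclic.exists_generator (α := C)
  have hord : orderOf g = Nat.card C := orderOf_eq_card_of_forall_mem_zpowers hg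
  have hgval : (φ g : ℂˣ) = -1 := by
    have h1 : ((φ g : ℂˣ) : ℂ) ^ 2 = 1 := by
      rw [← Units.val_pow_eq_pow_val, hφ2 g, Units.val_one]
    have h2 : (((φ g : ℂˣ) : ℂ) - 1) * (((φ g : ℂˣ) : ℂ) + 1) = 0 := by linear_combination h1
    rcases mul_eq_zero.mp h2 with h | h
    · exfalso
      apply hφ
      apply MonoidHom.ext
      intro c
      obtain ⟨k, rfl⟩ := hg c
      have : φ g = 1 := by
        apply Units.ext
        rw [Units.val_one]; linear_combination h
      rw [map_zpow, this, one_zpow, MonoidHom.one_apply]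
    · apply Units.ext
      rw [Units.val_neg, Units.val_one]; linear_combination h
  obtain ⟨k, hk⟩ := (Subgroup.mem_zpowers_iff).mp (hg z)
  -- reduce to natural exponent
  have hfin : ∃ j : ℕ, g ^ j = z := by
    have := (mem_powers_iff_mem_zpowers (x := g) (y := z)).mpr (hg z)
    obtain ⟨j, hj⟩ := this
    exact ⟨j, hj⟩
  obtain ⟨j, hj⟩ := hfin
  have h2j : g ^ (2 * j) = 1 := by
    rw [mul_comm, pow_mul, hj, pow_two, hz2]
  have hd : Nat.card C ∣ 2 * j := by
    rw [← hord]; exact orderOf_dvd_of_pow_eq_one h2j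
  have hnd : ¬ Nat.card C ∣ j := by
    intro h
    apply hz1
    rw [← hj]
    rw [← hord] at h
    exact orderOf_dvd_iff_pow_eq_one.mp h
  rw [← hj, map_pow, hgval]
  simp only [Units.val_pow_eq_pow_val, Units.val_neg, Units.val_one]
  -- parity
  have hceven : Even (Nat.card C) := by
    by_contra hcon
    rw [Nat.not_even_iff_odd] at hcon
    have h2 : Nat.Coprime (Nat.card C) 2 := Nat.coprime_two_right.mpr hcon
    exact hnd (h2.dvd_of_dvd_mul_left hd)
  obtain ⟨t, ht⟩ := hceven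
  have htpos : 0 < t := by
    have : 0 < Nat.card C := Nat.card_pos
    omega
  have htj : t ∣ j := by
    obtain ⟨m, hm⟩ := hd
    refine ⟨m, ?_⟩
    have : 2 * j = 2 * (t * m) := by rw [hm, ht]; ring
    omega
  obtain ⟨m, hm⟩ := htj
  have hodd : Odd m := by
    by_contra hcon
    rw [Nat.not_odd_iff_even] at hcon
    obtain ⟨r, hr⟩ := hcon
    apply hnd
    refine ⟨r, ?_⟩
    rw [hm, hr, ht]; ring
  have hhalf : Nat.card C / 2 = t := by omega
  rw [hhalf, hm, pow_mul]
  rcases Nat.even_or_odd t with he | ho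
  · rw [he.neg_one_pow, one_pow]
  · rw [ho.neg_one_pow, hodd.neg_one_pow]

/-- uniqueness of the character of order two of a cyclic group -/
theorem cyclic_quad_unique (φ φ' : C →* ℂˣ) (hφ : φ ≠ 1) (hφ2 : ∀ c, φ c ^ 2 = 1)
    (hφ' : φ' ≠ 1) (hφ'2 : ∀ c, φ' c ^ 2 = 1) : φ = φ' := by
  obtain ⟨g, hg⟩ := IsCyclic.exists_generator (α := C)
  have key : ∀ ψ : C →* ℂˣ, ψ ≠ 1 → (∀ c, ψ c ^ 2 = 1) → ψ g = -1 := by
    intro ψ hψ hψ2
    have h1 : ((ψ g : ℂˣ) : ℂ) ^ 2 = 1 := by
      rw [← Units.val_pow_eq_pow_val, hψ2 g, Units.val_one]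
    have h2 : (((ψ g : ℂˣ) : ℂ) - 1) * (((ψ g : ℂˣ) : ℂ) + 1) = 0 := by linear_combination h1
    rcases mul_eq_zero.mp h2 with h | h
    · exfalso
      apply hψ
      apply MonoidHom.ext
      intro c
      obtain ⟨k, rfl⟩ := hg c
      have : ψ g = 1 := by
        apply Units.ext
        rw [Units.val_one]; linear_combination h
      rw [map_zpow, this, one_zpow, MonoidHom.one_apply]
    · apply Units.ext
      rw [Units.val_neg, Units.val_one]; linear_combination h
  apply MonoidHom.ext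
  intro c
  obtain ⟨k, rfl⟩ := hg c
  rw [map_zpow, map_zpow, key φ hφ hφ2, key φ' hφ' hφ'2]

end Cyclic

end Cfsg.Agent.Lib.Helper48
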