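import Mathlib
import Cfsg.Agent.Lib.Helper48.CharGen

set_option autoImplicit false

namespace Cfsg.Agent.Lib.Helper48

open Cfsg
open scoped ComplexConjugate

section General2

variable {G : Type*} [Group G] [Fintype G]

theorem inner_irr_self (χ : G → ℂ) (hχ : IsIrrCharacter G χ) : classInner χ χ = 1 :=
  Helper46.classInner_irr_self χ hχ

theorem inner_irr_ne (φ χ : G → ℂ) (hφ : IsIrrCharacter G φ) (hχ : IsIrrCharacter G χ) (h : φ ≠ χ) :
    classInner φ χ = 0 := Helper46.classInner_irr_ne φ χ hφ hχ h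

/-- if a character is orthogonal to a sum of two characters, it is orthogonal to each -/
theorem char_inner_zero (Φ W χ : G → ℂ) (hΦ : IsCharacter G Φ) (hχ : IsCharacter G χ)
    (hW : IsCharacter G (W - χ)) (h : classInner Φ W = 0) : classInner Φ χ = 0 := by
  obtain ⟨a, ha⟩ := Helper46.classInner_char_char_nat Φ χ hΦ hχ
  obtain ⟨b, hb⟩ := Helper46.classInner_char_char_nat Φ (W - χ) hΦ hW
  have e : W = χ + (W - χ) := by abel
  rw [e, Helper46.classInner_add_right, ha, hb] at h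
  have h' : ((a + b : ℕ) : ℂ) = 0 := by push_cast; exact h
  have h'' : a + b = 0 := by exact_mod_cast h'
  rw [ha]
  have : a = 0 := by omega
  rw [this]; simp

/-- the multiplicity of a constituent of a character of norm two is one -/
theorem char_two_inner (φ : G → ℂ) (hφ : IsCharacter G φ) (h2 : classInner φ φ = 2)
    (χ : G → ℂ) (hχ : IsIrrCharacter G χ) (h : classInner φ χ ≠ 0) : classInner φ χ = 1 := by
  obtain ⟨χ₁, χ₂, hne, hd⟩ := char_two φ hφ h2
  rw [hd, Helper46.classInner_add_left] at h ⊢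
  by_cases h1 : (χ₁ : G → ℂ) = χ
  · have h2' : (χ₂ : G → ℂ) ≠ χ := fun h' => hne (Subtype.ext (h1.trans h'.symm))
    rw [inner_irr_ne _ _ χ₂.2 hχ h2', h1, inner_irr_self χ hχ, add_zero]
  · rw [inner_irr_ne _ _ χ₁.2 hχ h1, zero_add] at h ⊢
    by_cases h2' : (χ₂ : G → ℂ) = χ
    · rw [h2', inner_irr_self χ hχ]
    · exact absurd (inner_irr_ne _ _ χ₂.2 hχ h2') h

/-- the multiplicity of a constituent of a virtual character of norm two is `±1` -/
theorem virt_two_inner (φ ψ : G → ℂ) (hφ : IsCharacter G φ) (hψ : IsCharacter G ψ)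
    (h2 : classInner (φ - ψ) (φ - ψ) = 2) (χ : G → ℂ) (hχ : IsIrrCharacter G χ)
    (h : classInner (φ - ψ) χ ≠ 0) : classInner (φ - ψ) χ = 1 ∨ classInner (φ - ψ) χ = -1 := by
  obtain ⟨χ₁, χ₂, hne, e₁, e₂, he₁, he₂, hd⟩ := virt_two φ ψ hφ hψ h2
  rw [hd, Helper46.classInner_add_left, Helper46.classInner_smul_left,
    Helper46.classInner_smul_left] at h ⊢
  by_cases h1 : (χ₁ : G → ℂ) = χ
  · have h2' : (χ₂ : G → ℂ) ≠ χ := fun h' => hne (Subtype.ext (h1.trans h'.symm))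
    rw [inner_irr_ne _ _ χ₂.2 hχ h2', h1, inner_irr_self χ hχ, mul_zero, add_zero, mul_one]
    exact he₁
  · rw [inner_irr_ne _ _ χ₁.2 hχ h1, mul_zero, zero_add] at h ⊢
    by_cases h2' : (χ₂ : G → ℂ) = χ
    · rw [h2', inner_irr_self χ hχ, mul_one]
      exact he₂
    · rw [inner_irr_ne _ _ χ₂.2 hχ h2', mul_zero] at h
      exact absurd rfl h

/-- two characters with the same multiplicities outside a pair of irreducible characters, each
containing exactly one of the pair: the two irreducible characters agree wherever the two characters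
agree -/
theorem diff_vanish (Φ₁ Φ₂ : G → ℂ) (h₁ : IsCharacter G Φ₁) (h₂ : IsCharacter G Φ₂)
    (χ χ' : G → ℂ) (hχ : IsIrrCharacter G χ) (hχ' : IsIrrCharacter G χ') (hne : χ ≠ χ')
    (hother : ∀ χ'' : G → ℂ, IsIrrCharacter G χ'' → χ'' ≠ χ → χ'' ≠ χ' →
      classInner Φ₁ χ'' = classInner Φ₂ χ'')
    (hs1 : classInner Φ₁ χ + classInner Φ₁ χ' = 1) (hs2 : classInner Φ₂ χ + classInner Φ₂ χ' = 1)
    (hc : classInner Φ₁ χ + classInner Φ₂ χ ≠ 0) (hc' : classInner Φ₁ χ' + classInner Φ₂ χ' ≠ 0)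
    (g : G) (hg : Φ₁ g = Φ₂ g) : χ g = χ' g := by
  classical
  have := Helper4.irr_finite (G := G)
  let _ : Fintype (IrrCharacter G) := Fintype.ofFinite _
  obtain ⟨x₁, hx₁⟩ := Helper46.classInner_char_char_nat Φ₁ χ h₁ (Helper46.isCharacter_of_irr _ hχ)
  obtain ⟨x₁', hx₁'⟩ := Helper46.classInner_char_char_nat Φ₁ χ' h₁ (Helper46.isCharacter_of_irr _ hχ')
  obtain ⟨x₂, hx₂⟩ := Helper46.classInner_char_char_nat Φ₂ χ h₂ (Helper46.isCharacter_of_irr _ hχ)
  obtain ⟨x₂', hx₂'⟩ := Helper46.classInner_char_char_nat Φ₂ χ' h₂ (Helper46.isCharacter_of_irr _ hχ')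
  rw [hx₁, hx₁'] at hs1
  rw [hx₂, hx₂'] at hs2
  rw [hx₁, hx₂] at hc
  rw [hx₁', hx₂'] at hc'
  have n1 : x₁ + x₁' = 1 := by exact_mod_cast hs1
  have n2 : x₂ + x₂' = 1 := by exact_mod_cast hs2
  have n3 : x₁ + x₂ ≠ 0 := by
    intro h; apply hc; exact_mod_cast h
  have n4 : x₁' + x₂' ≠ 0 := by
    intro h; apply hc'; exact_mod_cast h
  have hcf : IsClassFunction G (Φ₁ - Φ₂) :=
    isClassFunction_sub _ _ (isClassFunction_of_char Φ₁ h₁) (isClassFunction_of_char Φ₂ h₂)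
  have hexp := Helper4.classFunction_expansion (Φ₁ - Φ₂) hcf
  have hne' : (⟨χ, hχ⟩ : IrrCharacter G) ≠ ⟨χ', hχ'⟩ := fun h => hne (congrArg Subtype.val h)
  rw [← Finset.sum_subset (Finset.subset_univ ({⟨χ, hχ⟩, ⟨χ', hχ'⟩} : Finset (IrrCharacter G)))] at hexp
  · rw [Finset.sum_pair hne'] at hexp
    have hval := congrFun hexp g
    simp only [Pi.sub_apply, Pi.add_apply, Pi.smul_apply, smul_eq_mul] at hval
    rw [Helper46.classInner_sub_left, Helper46.classInner_sub_left, hx₁, hx₂, hx₁', hx₂', hg, sub_self] at hval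
    have cases : (x₁ = 1 ∧ x₁' = 0 ∧ x₂ = 0 ∧ x₂' = 1) ∨ (x₁ = 0 ∧ x₁' = 1 ∧ x₂ = 1 ∧ x₂' = 0) := by
      omega
    rcases cases with ⟨a, b, c, d⟩ | ⟨a, b, c, d⟩
    · rw [a, b, c, d] at hval
      simp at hval
      linear_combination -hval
    · rw [a, b, c, d] at hval
      simp at hval
      linear_combination hval
  · intro b _ hb
    simp only [Finset.mem_insert, Finset.mem_singleton, not_or] at hb
    have hb1 : (b : G → ℂ) ≠ χ := fun h => hb.1 (Subtype.ext h)
    have hb2 : (b : G → ℂ) ≠ χ' := fun h => hb.2 (Subtype.ext h)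
    rw [Helper46.classInner_sub_left, hother b b.2 hb1 hb2, sub_self, zero_smul]

end General2

end Cfsg.Agent.Lib.Helper48
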