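import Mathlib
import Cfsg.Agent.Lib.Helper48.CharGen2
import Cfsg.Agent.Lib.Helper4.CharDecomp
import Cfsg.Agent.Lib.Helper4.CharClosure
import Cfsg.Agent.Lib.Helper83.Quot
import Cfsg.Agent.Lib.Helper83.Twist
import Cfsg.Agent.Lib.Helper82.CharCore
import Cfsg.Agent.Lib.Helper20.LinChar

set_option autoImplicit false

namespace Cfsg.Agent.Lib.Helper48

open Cfsg
open scoped ComplexConjugate

section SSum

variable {G : Type*} [Group G] [Fintype G]

open Classical in
/-- the sum of a function over the elements of a subgroup, as a sum over the ambient group -/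
noncomputable def sSum (K : Subgroup G) (f : G → ℂ) : ℂ := ∑ g : G, if g ∈ K then f g else 0

theorem sSum_eq_sum_coe (K : Subgroup G) [Fintype K] (f : G → ℂ) : sSum K f = ∑ k : K, f k := by
  classical
  unfold sSum
  rw [← Finset.sum_filter]
  exact Finset.sum_subtype (Finset.univ.filter (· ∈ K)) (fun x => by simp) f

theorem sSum_add (K : Subgroup G) (f g : G → ℂ) : sSum K (f + g) = sSum K f + sSum K g := by
  classical
  unfold sSum
  rw [← Finset.sum_add_distrib]
  refine Finset.sum_congr rfl fun x _ => ?_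
  split_ifs <;> simp

theorem sSum_smul (K : Subgroup G) (c : ℂ) (f : G → ℂ) : sSum K (c • f) = c * sSum K f := by
  classical
  unfold sSum
  rw [Finset.mul_sum]
  refine Finset.sum_congr rfl fun x _ => ?_
  split_ifs <;> simp

theorem sSum_finset_sum {ι : Type*} (s : Finset ι) (K : Subgroup G) (f : ι → G → ℂ) :
    sSum K (∑ i ∈ s, f i) = ∑ i ∈ s, sSum K (f i) := by
  classical
  induction s using Finset.induction_on with
  | empty =>
    simp only [Finset.sum_empty]
    unfold sSum
    simp
  | insert a s ha ih => rw [Finset.sum_insert ha, Finset.sum_insert ha, sSum_add, ih]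

theorem sSum_const_one (K : Subgroup G) : sSum K (fun _ => (1 : ℂ)) = (Nat.card K : ℂ) := by
  classical
  rw [sSum_eq_sum_coe]
  simp [Nat.card_eq_fintype_card]

theorem sSum_congr (K : Subgroup G) (f g : G → ℂ) (h : ∀ x ∈ K, f x = g x) : sSum K f = sSum K g := by
  classical
  unfold sSum
  refine Finset.sum_congr rfl fun x _ => ?_
  split_ifs with hx
  · exact h x hx
  · rfl

/-- sum over a subgroup of a subgroup -/
theorem sSum_subgroupOf (H K : Subgroup G) (hKH : K ≤ H) [Fintype H] (f : G → ℂ) :
    sSum (K.subgroupOf H) (fun h : H => f h) = sSum K f := by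
  classical
  unfold sSum
  have h1 : ∑ g : G, (if g ∈ K then f g else 0) =
      ∑ g ∈ Finset.univ.filter (· ∈ H), (if g ∈ K then f g else 0) := by
    symm
    apply Finset.sum_subset (Finset.filter_subset _ _)
    intro x _ hx
    simp only [Finset.mem_filter, Finset.mem_univ, true_and] at hx
    rw [if_neg (fun h => hx (hKH h))]
  rw [h1]
  symm
  rw [Finset.sum_subtype (p := fun x => x ∈ H) (Finset.univ.filter (· ∈ H)) (fun x => by simp)
    (fun g => if g ∈ K then f g else 0)]
  refine Finset.sum_congr rfl fun x _ => ?_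
  simp only [Subgroup.mem_subgroupOf]

theorem sSum_top (f : G → ℂ) : sSum (⊤ : Subgroup G) f = ∑ g : G, f g := by
  classical
  unfold sSum
  simp

/-- the inner product with the principal character -/
theorem classInner_one_right (f : G → ℂ) :
    classInner f (fun _ => (1 : ℂ)) = (Nat.card G : ℂ)⁻¹ * ∑ g : G, f g := by
  unfold classInner
  simp

/-- the sum of a character over a subgroup is a natural multiple of the order of the subgroup -/
theorem sSum_nat (η : G → ℂ) (hη : IsCharacter G η) (K : Subgroup G) :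
    ∃ m : ℕ, sSum K η = (m : ℂ) * (Nat.card K : ℂ) := by
  classical
  have h1 : IsCharacter K (fun k : K => η k) := Helper4.isCharacter_restrict K η hη
  have h2 : IsCharacter K (fun _ : K => (1 : ℂ)) :=
    Helper46.isCharacter_of_irr _ Helper83.isIrr_one
  obtain ⟨m, hm⟩ := Helper46.classInner_char_char_nat _ _ h1 h2
  refine ⟨m, ?_⟩
  rw [classInner_one_right] at hm
  rw [sSum_eq_sum_coe, ← hm]
  have : (Nat.card K : ℂ) ≠ 0 := Nat.cast_ne_zero.mpr Nat.card_pos.ne'
  field_simp

/-- the multiplicity of the principal character of a subgroup in a character -/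
noncomputable def fixMult (K : Subgroup G) (η : G → ℂ) : ℕ :=
  ⌊(sSum K η / (Nat.card K : ℂ)).re⌋₊

theorem sSum_eq_fixMult (η : G → ℂ) (hη : IsCharacter G η) (K : Subgroup G) :
    sSum K η = (fixMult K η : ℂ) * (Nat.card K : ℂ) := by
  obtain ⟨m, hm⟩ := sSum_nat η hη K
  have hK : (Nat.card K : ℂ) ≠ 0 := Nat.cast_ne_zero.mpr Nat.card_pos.ne'
  unfold fixMult
  rw [hm, mul_div_assoc, div_self hK, mul_one, Complex.natCast_re, Nat.floor_natCast]

theorem fixMult_one (K : Subgroup G) : fixMult K (fun _ => (1 : ℂ)) = 1 := by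
  have hK : (Nat.card K : ℂ) ≠ 0 := Nat.cast_ne_zero.mpr Nat.card_pos.ne'
  unfold fixMult
  rw [sSum_const_one, div_self hK, Complex.one_re, Nat.floor_one]

/-- if a character has no fixed vector under a subgroup, it has none under a bigger subgroup -/
theorem sSum_mono_zero (η : G → ℂ) (hη : IsCharacter G η) (K H : Subgroup G) (hKH : K ≤ H)
    (h : sSum K η = 0) : sSum H η = 0 := by
  classical
  letI : Fintype H := Fintype.ofFinite H
  have := Helper4.irr_finite (G := H)
  letI : Fintype (IrrCharacter H) := Fintype.ofFinite _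
  obtain ⟨m, hm⟩ := Helper4.exists_decomp_of_isCharacter (fun h : H => η h)
    (Helper4.isCharacter_restrict H η hη)
  have hcK : (Nat.card (K.subgroupOf H) : ℂ) ≠ 0 := Nat.cast_ne_zero.mpr Nat.card_pos.ne'
  have e1 : sSum K η = ∑ χ : IrrCharacter H,
      ((m χ * fixMult (K.subgroupOf H) (χ : H → ℂ) : ℕ) : ℂ) * (Nat.card (K.subgroupOf H) : ℂ) := by
    rw [← sSum_subgroupOf H K hKH, hm, sSum_finset_sum]
    refine Finset.sum_congr rfl fun χ _ => ?_
    rw [sSum_smul, sSum_eq_fixMult _ (Helper46.isCharacter_of_irr _ χ.2)]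
    push_cast
    ring
  rw [h, ← Finset.sum_mul] at e1
  have e2 : ((∑ χ : IrrCharacter H, m χ * fixMult (K.subgroupOf H) (χ : H → ℂ) : ℕ) : ℂ) = 0 := by
    rcases mul_eq_zero.mp e1.symm with h' | h'
    · rw [Nat.cast_sum]; exact h'
    · exact absurd h' hcK
  have e3 : ∑ χ : IrrCharacter H, m χ * fixMult (K.subgroupOf H) (χ : H → ℂ) = 0 := by
    exact_mod_cast e2
  have e4 := (Finset.sum_eq_zero_iff.mp e3) (Helper83.trivIrr H) (Finset.mem_univ _)
  have e5 : fixMult (K.subgroupOf H) ((Helper83.trivIrr H : IrrCharacter H) : H → ℂ) = 1 :=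
    fixMult_one _
  rw [e5, mul_one] at e4
  have e6 : classInner (fun h : H => η h) ((Helper83.trivIrr H : IrrCharacter H) : H → ℂ) = 0 := by
    rw [hm, Helper4.classInner_sum_irr, e4, Nat.cast_zero]
  have e7 : sSum H η = ∑ h : H, η h := sSum_eq_sum_coe H η
  rw [e7]
  have e8 := classInner_one_right (fun h : H => η h)
  have e9 : ((Helper83.trivIrr H : IrrCharacter H) : H → ℂ) = fun _ => 1 := rfl
  rw [e9] at e6
  rw [e6] at e8
  have hcH : (Nat.card H : ℂ) ≠ 0 := Nat.cast_ne_zero.mpr Nat.card_pos.ne'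
  rcases mul_eq_zero.mp e8.symm with h' | h'
  · exact absurd (inv_eq_zero.mp h') hcH
  · exact h'

/-- A character with a fixed vector under a subgroup `K` of `H` has an irreducible constituent on
`H` with a fixed vector under `K`. -/
theorem exists_constituent_fix (η : G → ℂ) (hη : IsCharacter G η) (K H : Subgroup G) (hKH : K ≤ H)
    [Fintype H] (h : sSum K η ≠ 0) :
    ∃ τ : IrrCharacter H, classInner (fun h : H => η h) (τ : H → ℂ) ≠ 0 ∧
      sSum (K.subgroupOf H) (τ : H → ℂ) ≠ 0 := by
  classical
  have := Helper4.irr_finite (G := H)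
  letI : Fintype (IrrCharacter H) := Fintype.ofFinite _
  obtain ⟨m, hm⟩ := Helper4.exists_decomp_of_isCharacter (fun h : H => η h)
    (Helper4.isCharacter_restrict H η hη)
  have e1 : sSum K η = ∑ χ : IrrCharacter H, (m χ : ℂ) * sSum (K.subgroupOf H) (χ : H → ℂ) := by
    rw [← sSum_subgroupOf H K hKH, hm, sSum_finset_sum]
    refine Finset.sum_congr rfl fun χ _ => ?_
    rw [sSum_smul]
  by_contra hcon
  push Not at hcon
  apply h
  rw [e1]
  apply Finset.sum_eq_zero
  intro χ _
  by_cases hχ : classInner (fun h : H => η h) (χ : H → ℂ) = 0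
  · rw [hm, Helper4.classInner_sum_irr] at hχ
    rw [hχ, zero_mul]
  · rw [hcon χ hχ, mul_zero]

end SSum

section Normal

variable {P : Type*} [Group P] [Fintype P]

/-- An irreducible character with a fixed vector under a normal subgroup is trivial on it. -/
theorem irr_trivial_on_normal (N : Subgroup P) [hN : N.Normal] (η : P → ℂ) (hη : IsIrrCharacter P η)
    (h : sSum N η ≠ 0) : ∀ v ∈ N, ∀ g : P, η (g * v) = η g := by
  classical
  obtain ⟨n, ρ, hρ, rfl⟩ := hη
  haveI := hρ
  let ind : P → ℂ := fun g => if g ∈ N then 1 else 0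
  have hind : ∀ g h : P, ind (h * g * h⁻¹) = ind g := by
    intro g h
    show (if h * g * h⁻¹ ∈ N then (1 : ℂ) else 0) = if g ∈ N then 1 else 0
    have : h * g * h⁻¹ ∈ N ↔ g ∈ N := by
      constructor
      · intro hh
        have := hN.conj_mem _ hh h⁻¹
        simpa [mul_assoc] using this
      · intro hh; exact hN.conj_mem _ hh h
    rw [if_congr this rfl rfl]
  obtain ⟨c, hc, hc2⟩ := Helper82.sum_smul_rep_eq_scalar ρ ind hind
  have hsum : ∑ g : P, ind g * ρ.character g = sSum N ρ.character := by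
    unfold sSum
    refine Finset.sum_congr rfl fun g _ => ?_
    show (if g ∈ N then (1 : ℂ) else 0) * _ = _
    split_ifs <;> simp
  rw [hsum] at hc2
  have hc0 : c ≠ 0 := by
    rintro rfl
    rw [zero_mul] at hc2
    exact h hc2.symm
  intro v hv g
  have hv1 : ρ v * ∑ g : P, ind g • ρ g = ∑ g : P, ind g • ρ g := by
    rw [Finset.mul_sum]
    apply Fintype.sum_equiv (Equiv.mulLeft v)
    intro x
    rw [Equiv.coe_mulLeft, map_mul, mul_smul_comm]
    congr 1
    show (if x ∈ N then (1 : ℂ) else 0) = if v * x ∈ N then 1 else 0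
    have : x ∈ N ↔ v * x ∈ N := by
      constructor
      · intro hx; exact N.mul_mem hv hx
      · intro hx
        have := N.mul_mem (N.inv_mem hv) hx
        simpa using this
    rw [if_congr this rfl rfl]
  rw [hc] at hv1
  have hv2 : ρ v = 1 := by
    have h3 : c • (ρ v * LinearMap.id) = c • (LinearMap.id : (Fin n → ℂ) →ₗ[ℂ] (Fin n → ℂ)) := by
      rw [← mul_smul_comm]; exact hv1
    have h4 := smul_right_injective _ hc0 h3
    rw [show (LinearMap.id : (Fin n → ℂ) →ₗ[ℂ] (Fin n → ℂ)) = 1 from rfl, mul_one] at h4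
    exact h4
  show LinearMap.trace ℂ _ (ρ (g * v)) = LinearMap.trace ℂ _ (ρ g)
  rw [map_mul, hv2, mul_one]

end Normal

end Cfsg.Agent.Lib.Helper48
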