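import Mathlib
import Cfsg.Agent.Lib.Helper48.DZa

set_option autoImplicit false

namespace Cfsg.Agent.Lib.Helper48

open Cfsg
open scoped ComplexConjugate

section NC

variable {G : Type*} [Group G] [Fintype G]

theorem mem_map_conj (K : Subgroup G) (y g : G) :
    g ∈ K.map (MulAut.conj y).toMonoidHom ↔ y⁻¹ * g * y ∈ K := by
  constructor
  · rintro ⟨k, hk, rfl⟩
    have : y⁻¹ * ((MulAut.conj y).toMonoidHom k) * y = k := by
      simp [MulAut.conj_apply, mul_assoc]
    rw [this]; exact hk
  · intro h
    refine ⟨y⁻¹ * g * y, h, ?_⟩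
    simp [MulAut.conj_apply, mul_assoc]

/-- the sum of a class function over a conjugate subgroup -/
theorem sSum_map_conj (K : Subgroup G) (y : G) (f : G → ℂ) (hf : IsClassFunction G f) :
    sSum (K.map (MulAut.conj y).toMonoidHom) f = sSum K f := by
  classical
  unfold sSum
  apply Fintype.sum_equiv (MulAut.conj y⁻¹).toEquiv
  intro g
  have e : (MulAut.conj y⁻¹).toEquiv g = y⁻¹ * g * y := by simp [MulAut.conj_apply]
  rw [e, if_congr (mem_map_conj K y g) rfl rfl]
  have := hf g y⁻¹
  rw [inv_inv] at this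
  rw [this]

/-- **No cuspidal constituents.**  If every conjugate of `U` contains a `P`-conjugate of `Uk`,
an irreducible character of `G` with a `U`-fixed vector is orthogonal on `P` to every character of
`P` without `Uk`-fixed vectors. -/
theorem nc_lemma (P U Uk : Subgroup G)
    (hconj : ∀ x : G, ∃ y ∈ P, ∀ u ∈ Uk, x * (y * u * y⁻¹) * x⁻¹ ∈ U) (hUkP : Uk ≤ P)
    (ψ : G → ℂ) (hψ : IsIrrCharacter G ψ) (hψU : sSum U ψ ≠ 0)
    [Fintype P] (η : P → ℂ) (hη : IsCharacter P η) (hηk : sSum (Uk.subgroupOf P) η = 0) :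
    classInner (fun g : P => ψ g) η = 0 := by
  classical
  have hηcf : IsClassFunction P η := Helper4.isClassFunction_of_isCharacter η hη
  have hΘ : IsCharacter G (indFun P η) := Helper46.isCharacter_indFun P η hη
  -- Step A
  have hA : sSum U (indFun P η) = 0 := by
    have h1 : ∀ x : G, ∑ g : G, (if g ∈ U then extendByZero P η (x⁻¹ * g * x) else 0) = 0 := by
      intro x
      obtain ⟨y, hy, hyu⟩ := hconj x
      -- reindex
      have h2 : ∑ g : G, (if g ∈ U then extendByZero P η (x⁻¹ * g * x) else 0) =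
          ∑ w : G, (if x * w * x⁻¹ ∈ U then extendByZero P η w else 0) := by
        apply Fintype.sum_equiv (MulAut.conj x⁻¹).toEquiv
        intro g
        have e : (MulAut.conj x⁻¹).toEquiv g = x⁻¹ * g * x := by simp [MulAut.conj_apply]
        rw [e]
        have e2 : x * (x⁻¹ * g * x) * x⁻¹ = g := by group
        rw [e2]
      rw [h2]
      let Hx : Subgroup P := (U.comap (MulAut.conj x).toMonoidHom).subgroupOf P
      have hHx : ∀ w : P, w ∈ Hx ↔ x * (w : G) * x⁻¹ ∈ U := by
        intro w
        simp [Hx, Subgroup.mem_subgroupOf, MulAut.conj_apply]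
      have h3 : ∑ w : G, (if x * w * x⁻¹ ∈ U then extendByZero P η w else 0) = sSum Hx η := by
        unfold sSum
        have h4 : ∑ w : G, (if x * w * x⁻¹ ∈ U then extendByZero P η w else 0) =
            ∑ w ∈ Finset.univ.filter (· ∈ P), (if x * w * x⁻¹ ∈ U then extendByZero P η w else 0) := by
          symm
          apply Finset.sum_subset (Finset.filter_subset _ _)
          intro w _ hw
          simp only [Finset.mem_filter, Finset.mem_univ, true_and] at hw
          rw [Helper46.extendByZero_of_not_mem P η hw, ite_self]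
        rw [h4, Finset.sum_subtype (p := fun x => x ∈ P) (Finset.univ.filter (· ∈ P))
          (fun x => by simp)]
        refine Finset.sum_congr rfl fun w _ => ?_
        rw [Helper46.extendByZero_coe, if_congr (hHx w).symm rfl rfl]
      rw [h3]
      let y' : P := ⟨y, hy⟩
      let K : Subgroup P := (Uk.subgroupOf P).map (MulAut.conj y').toMonoidHom
      have hK : sSum K η = 0 := by
        rw [sSum_map_conj _ _ _ hηcf]; exact hηk
      apply sSum_mono_zero η hη K Hx _ hK
      intro w hw
      rw [mem_map_conj] at hw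
      rw [hHx]
      have hw' : y⁻¹ * (w : G) * y ∈ Uk := by
        have := hw
        rw [Subgroup.mem_subgroupOf] at this
        simpa [y'] using this
      have := hyu _ hw'
      have e : y * (y⁻¹ * (w : G) * y) * y⁻¹ = w := by group
      rw [e] at this
      exact this
    unfold sSum
    have h5 : ∀ g : G, (if g ∈ U then indFun P η g else 0) =
        (Nat.card P : ℂ)⁻¹ * ∑ x : G, (if g ∈ U then extendByZero P η (x⁻¹ * g * x) else 0) := by
      intro g
      unfold indFun
      split_ifs
      · rfl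
      · simp
    rw [Finset.sum_congr rfl (fun g _ => h5 g), ← Finset.mul_sum, Finset.sum_comm,
      Finset.sum_eq_zero (fun x _ => h1 x), mul_zero]
  -- Step B
  have := Helper4.irr_finite (G := G)
  letI : Fintype (IrrCharacter G) := Fintype.ofFinite _
  obtain ⟨m, hm⟩ := Helper4.exists_decomp_of_isCharacter (indFun P η) hΘ
  have hcU : (Nat.card U : ℂ) ≠ 0 := Nat.cast_ne_zero.mpr Nat.card_pos.ne'
  have e1 : sSum U (indFun P η) = ∑ χ : IrrCharacter G,
      ((m χ * fixMult U (χ : G → ℂ) : ℕ) : ℂ) * (Nat.card U : ℂ) := by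
    conv_lhs => rw [hm]
    rw [sSum_finset_sum]
    refine Finset.sum_congr rfl fun χ _ => ?_
    rw [sSum_smul, sSum_eq_fixMult _ (Helper46.isCharacter_of_irr _ χ.2)]
    push_cast
    ring
  rw [hA, ← Finset.sum_mul] at e1
  have e2 : ((∑ χ : IrrCharacter G, m χ * fixMult U (χ : G → ℂ) : ℕ) : ℂ) = 0 := by
    rcases mul_eq_zero.mp e1.symm with h' | h'
    · rw [Nat.cast_sum]; exact h'
    · exact absurd h' hcU
  have e3 : ∑ χ : IrrCharacter G, m χ * fixMult U (χ : G → ℂ) = 0 := by exact_mod_cast e2
  have e4 := (Finset.sum_eq_zero_iff.mp e3) ⟨ψ, hψ⟩ (Finset.mem_univ _)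
  have e5 : fixMult U ψ ≠ 0 := by
    intro h0
    apply hψU
    rw [sSum_eq_fixMult ψ (Helper46.isCharacter_of_irr _ hψ), h0, Nat.cast_zero, zero_mul]
  have e6 : m ⟨ψ, hψ⟩ = 0 := by
    rcases Nat.mul_eq_zero.mp e4 with h' | h'
    · exact h'
    · exact absurd h' e5
  have e7 : classInner (indFun P η) ψ = 0 := by
    rw [hm]
    have := Helper4.classInner_sum_irr (fun χ => (m χ : ℂ)) ⟨ψ, hψ⟩
    rw [this, e6, Nat.cast_zero]
  rw [Helper46.frobenius P η ψ (Helper4.isClassFunction_of_isCharacter ψ
    (Helper46.isCharacter_of_irr _ hψ))] at e7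
  rw [Helper4.classInner_conj_symm, e7, map_zero]

end NC

end Cfsg.Agent.Lib.Helper48
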