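import Mathlib
import Cfsg.Agent.Lib.Helper48.DZb

set_option autoImplicit false

namespace Cfsg.Agent.Lib.Helper48

open Cfsg
open scoped ComplexConjugate

section RankOne

variable {P : Type*} [Group P] [Fintype P]

/-- The data of a "rank one" situation: `B = T U` a Borel-like subgroup of `P`, `Q ≤ U` normal in
`P` with `U = Uk Q`, and `P` of index at most `q + 1` over `B`. -/
structure RankOneData (Q U B Uk : Subgroup P) (q : ℕ) : Prop where
  hQU : Q ≤ U
  hUB : U ≤ B
  hUkU : Uk ≤ U
  hQn : Q.Normal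
  hUn : ∀ b ∈ B, ∀ u ∈ U, b * u * b⁻¹ ∈ U
  hab : ∀ b ∈ B, ∀ b' ∈ B, b * b' * b⁻¹ * b'⁻¹ ∈ U
  hsplit : ∀ u ∈ U, ∃ a ∈ Uk, ∃ v ∈ Q, u = a * v
  hint : ∀ a ∈ Uk, a ∈ Q → a = 1
  hcardk : Nat.card Uk = q
  hPB : Nat.card P ≤ (q + 1) * Nat.card B
  hBP : B ≠ ⊤
  hq : 2 ≤ q
  hpel : ∀ x : P, ∀ u ∈ U, x⁻¹ * u * x ∈ B → x⁻¹ * u * x ∈ U

variable {Q U B Uk : Subgroup P} {q : ℕ}

theorem RankOneData.sSum_split (D : RankOneData Q U B Uk q) (f : P → ℂ) :
    sSum U f = sSum Uk (fun a => sSum Q (fun v => f (a * v))) := by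
  classical
  unfold sSum
  rw [← Finset.sum_filter, ← Finset.sum_filter]
  have h1 : ∀ a ∈ Finset.univ.filter (· ∈ Uk), (∑ v : P, if v ∈ Q then f (a * v) else 0) =
      ∑ v ∈ Finset.univ.filter (· ∈ Q), f (a * v) := by
    intro a _
    rw [← Finset.sum_filter]
  rw [Finset.sum_congr rfl h1, ← Finset.sum_product']
  symm
  apply Finset.sum_nbij (fun x : P × P => x.1 * x.2)
  · intro x hx
    simp only [Finset.mem_product, Finset.mem_filter, Finset.mem_univ, true_and] at hx
    simp only [Finset.mem_filter, Finset.mem_univ, true_and]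
    exact U.mul_mem (D.hUkU hx.1) (D.hQU hx.2)
  · intro x hx y hy hxy
    simp only [Finset.coe_product, Set.mem_prod, Finset.coe_filter, Finset.mem_univ, true_and,
      Set.mem_ofPred_eq] at hx hy
    have hxy' : x.1 * x.2 = y.1 * y.2 := hxy
    have h2 : y.1⁻¹ * x.1 = y.2 * x.2⁻¹ := by
      have : y.1⁻¹ * (x.1 * x.2) * x.2⁻¹ = y.1⁻¹ * (y.1 * y.2) * x.2⁻¹ := by rw [hxy']
      simpa [mul_assoc] using this
    have h3 : y.1⁻¹ * x.1 = 1 := by
      apply D.hint _ (Uk.mul_mem (Uk.inv_mem hy.1) hx.1)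
      rw [h2]
      exact Q.mul_mem hy.2 (Q.inv_mem hx.2)
    have h4 : x.1 = y.1 := by
      have := congrArg (fun z => y.1 * z) h3
      simpa using this
    have h5 : x.2 = y.2 := by
      rw [h4] at hxy'
      exact mul_left_cancel hxy'
    exact Prod.ext h4 h5
  · intro u hu
    simp only [Finset.coe_filter, Finset.mem_univ, true_and, Set.mem_ofPred_eq] at hu
    obtain ⟨a, ha, v, hv, rfl⟩ := D.hsplit u hu
    refine ⟨(a, v), ?_, rfl⟩
    simp only [Finset.coe_product, Set.mem_prod, Finset.coe_filter, Finset.mem_univ, true_and,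
      Set.mem_ofPred_eq]
    exact ⟨ha, hv⟩
  · intro x _
    rfl

theorem RankOneData.card_U (D : RankOneData Q U B Uk q) : Nat.card U = q * Nat.card Q := by
  have h := D.sSum_split (fun _ => (1 : ℂ))
  rw [sSum_const_one] at h
  have h2 : (fun a : P => sSum Q (fun _ : P => (1 : ℂ))) = (Nat.card Q : ℂ) • (fun _ => (1 : ℂ)) := by
    funext a
    rw [sSum_const_one]
    simp
  rw [h2, sSum_smul, sSum_const_one, D.hcardk] at h
  have : ((Nat.card U : ℕ) : ℂ) = ((q * Nat.card Q : ℕ) : ℂ) := by
    rw [h]; push_cast; ring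
  exact_mod_cast this

/-- for a function invariant under right translation by `Q`, the sum over `U` reduces to `Uk` -/
theorem RankOneData.sSum_U_of_trivial (D : RankOneData Q U B Uk q) (f : P → ℂ)
    (hf : ∀ v ∈ Q, ∀ g : P, f (g * v) = f g) : sSum U f = (Nat.card Q : ℂ) * sSum Uk f := by
  rw [D.sSum_split]
  have h2 : (fun a : P => sSum Q (fun v : P => f (a * v))) = (Nat.card Q : ℂ) • f := by
    funext a
    have : sSum Q (fun v : P => f (a * v)) = sSum Q (fun _ => f a) :=
      sSum_congr Q _ _ (fun v hv => hf v hv a)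
    rw [this]
    have e : (fun _ : P => f a) = f a • (fun _ => (1 : ℂ)) := by
      funext x; simp
    rw [e, sSum_smul, sSum_const_one]
    simp [mul_comm]
  rw [h2, sSum_smul]

theorem irr_fix_eq (η : P → ℂ) (hη : IsIrrCharacter P η) (K : Subgroup P) :
    sSum K η = (fixMult K η : ℂ) * (Nat.card K : ℂ) :=
  sSum_eq_fixMult η (Helper46.isCharacter_of_irr _ hη) K

/-- dichotomy for a normal subgroup: an irreducible character is trivial on it or has no fixed
vectors -/
theorem irr_normal_dichotomy (N : Subgroup P) [N.Normal] (η : P → ℂ) (hη : IsIrrCharacter P η) :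
    fixMult N η = 0 ∨ (fixMult N η = charDegree η ∧ ∀ v ∈ N, ∀ g : P, η (g * v) = η g) := by
  have hc : (Nat.card N : ℂ) ≠ 0 := Nat.cast_ne_zero.mpr Nat.card_pos.ne'
  by_cases h : sSum N η = 0
  · left
    rw [irr_fix_eq η hη N] at h
    rcases mul_eq_zero.mp h with h' | h'
    · exact_mod_cast h'
    · exact absurd h' hc
  · right
    have htriv := irr_trivial_on_normal N η hη h
    refine ⟨?_, htriv⟩
    have h1 : sSum N η = sSum N (fun _ => η 1) :=
      sSum_congr N _ _ (fun v hv => by have := htriv v hv 1; rwa [one_mul] at this)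
    have e : (fun _ : P => η 1) = η 1 • (fun _ => (1 : ℂ)) := by
      funext x; simp
    rw [e, sSum_smul, sSum_const_one, irr_fix_eq η hη N, (Helper83.irr_degree hη).2] at h1
    have h2 := mul_right_cancel₀ hc h1
    exact_mod_cast h2

theorem fixMult_le_degree (N : Subgroup P) [N.Normal] (η : P → ℂ) (hη : IsIrrCharacter P η) :
    fixMult N η ≤ charDegree η := by
  rcases irr_normal_dichotomy N η hη with h | h
  · rw [h]; exact Nat.zero_le _
  · exact h.1.le

/-- a constituent `τ` of `Ind_U^B 1` is linear and trivial on `U` -/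
theorem RankOneData.tau_trivial (D : RankOneData Q U B Uk q) (τ : P → ℂ)
    (hτ : IsIrrCharacter B (fun b : B => τ b)) (hτU : sSum U τ ≠ 0) :
    τ 1 = 1 ∧ ∀ u ∈ U, τ u = 1 := by
  classical
  haveI : (U.subgroupOf B).Normal := by
    constructor
    intro n hn g
    rw [Subgroup.mem_subgroupOf] at hn ⊢
    exact D.hUn g g.2 n hn
  have h1 : sSum (U.subgroupOf B) (fun b : B => τ b) ≠ 0 := by
    rw [sSum_subgroupOf B U D.hUB]; exact hτU
  have htriv := irr_trivial_on_normal (U.subgroupOf B) _ hτ h1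
  have hlin : (fun b : B => τ b) 1 = 1 := by
    apply Helper83.irr_linear_of_commutator_le_ker ⟨_, hτ⟩
    intro x hx
    have hx' : x ∈ U.subgroupOf B := by
      have hle : commutator B ≤ U.subgroupOf B := by
        rw [commutator_def, Subgroup.commutator_le]
        intro g₁ _ g₂ _
        rw [Subgroup.mem_subgroupOf, commutatorElement_def]
        exact D.hab g₁ g₁.2 g₂ g₂.2
      exact hle hx
    have := htriv x hx' 1
    rwa [one_mul] at this
  refine ⟨hlin, fun u hu => ?_⟩
  have := htriv ⟨u, D.hUB hu⟩ (by rw [Subgroup.mem_subgroupOf]; exact hu) 1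
  rw [one_mul] at this
  rw [← hlin]
  exact this

theorem card_filter_mem (K : Subgroup P) [DecidablePred (· ∈ K)] :
    (Finset.univ.filter (· ∈ K)).card = Nat.card K := by
  rw [Nat.card_eq_fintype_card, Fintype.card_subtype]

open Classical in
/-- the values on `U` of a character induced from a linear character of `B` trivial on `U` -/
theorem RankOneData.theta_val (D : RankOneData Q U B Uk q) (τ : P → ℂ)
    (h1 : ∀ u ∈ U, τ u = 1) (u : P) (hu : u ∈ U) :
    indFun B (fun b : B => τ b) u * (Nat.card B : ℂ) =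
      ((Finset.univ.filter (fun x : P => x⁻¹ * u * x ∈ B)).card : ℂ) := by
  have hc : (Nat.card B : ℂ) ≠ 0 := Nat.cast_ne_zero.mpr Nat.card_pos.ne'
  unfold indFun
  rw [mul_comm, ← mul_assoc, mul_inv_cancel₀ hc, one_mul, Finset.card_filter]
  push_cast
  refine Finset.sum_congr rfl fun x _ => ?_
  split_ifs with hx
  · rw [Helper46.extendByZero_of_mem B _ hx]
    exact h1 _ (D.hpel x u hu hx)
  · exact Helper46.extendByZero_of_not_mem B _ hx

theorem RankOneData.theta_one (D : RankOneData Q U B Uk q) (τ : P → ℂ)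
    (h1 : ∀ u ∈ U, τ u = 1) :
    indFun B (fun b : B => τ b) 1 * (Nat.card B : ℂ) = (Nat.card P : ℂ) := by
  classical
  rw [D.theta_val τ h1 1 U.one_mem]
  have : (Finset.univ.filter (fun x : P => x⁻¹ * 1 * x ∈ B)) = Finset.univ := by
    apply Finset.filter_true_of_mem
    intro x _
    simp [B.one_mem]
  rw [this, Finset.card_univ, Nat.card_eq_fintype_card]

theorem RankOneData.theta_Q (D : RankOneData Q U B Uk q) (τ : P → ℂ)
    (h1 : ∀ u ∈ U, τ u = 1) (v : P) (hv : v ∈ Q) :
    indFun B (fun b : B => τ b) v = indFun B (fun b : B => τ b) 1 := by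
  classical
  have hc : (Nat.card B : ℂ) ≠ 0 := Nat.cast_ne_zero.mpr Nat.card_pos.ne'
  apply mul_right_cancel₀ hc
  rw [D.theta_one τ h1, D.theta_val τ h1 v (D.hQU hv)]
  have : (Finset.univ.filter (fun x : P => x⁻¹ * v * x ∈ B)) = Finset.univ := by
    apply Finset.filter_true_of_mem
    intro x _
    have := D.hQn.conj_mem v hv x⁻¹
    rw [inv_inv] at this
    exact D.hUB (D.hQU this)
  rw [this, Finset.card_univ, Nat.card_eq_fintype_card]

/-- the sum over `U` of the induced character is larger than `|U|` -/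
theorem RankOneData.theta_sum (D : RankOneData Q U B Uk q) (τ : P → ℂ)
    (h1 : ∀ u ∈ U, τ u = 1) :
    ∃ C : ℕ, sSum U (indFun B (fun b : B => τ b)) * (Nat.card B : ℂ) = (C : ℂ) ∧
      Nat.card U * Nat.card B < C := by
  classical
  refine ⟨∑ u ∈ Finset.univ.filter (· ∈ U), (Finset.univ.filter (fun x : P => x⁻¹ * u * x ∈ B)).card,
    ?_, ?_⟩
  · unfold sSum
    rw [← Finset.sum_filter, Finset.sum_mul, Nat.cast_sum]
    refine Finset.sum_congr rfl fun u hu => ?_
    simp only [Finset.mem_filter, Finset.mem_univ, true_and] at hu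
    exact D.theta_val τ h1 u hu
  · have hge : ∀ u ∈ Finset.univ.filter (· ∈ U),
        Nat.card B ≤ (Finset.univ.filter (fun x : P => x⁻¹ * u * x ∈ B)).card := by
      intro u hu
      simp only [Finset.mem_filter, Finset.mem_univ, true_and] at hu
      rw [← card_filter_mem B]
      apply Finset.card_le_card
      intro x hx
      simp only [Finset.mem_filter, Finset.mem_univ, true_and] at hx ⊢
      have := D.hUn x⁻¹ (B.inv_mem hx) u hu
      rw [inv_inv] at this
      exact D.hUB this
    have h1mem : (1 : P) ∈ Finset.univ.filter (· ∈ U) := by simp [U.one_mem]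
    have hone : (Finset.univ.filter (fun x : P => x⁻¹ * 1 * x ∈ B)).card = Nat.card P := by
      have : (Finset.univ.filter (fun x : P => x⁻¹ * 1 * x ∈ B)) = Finset.univ := by
        apply Finset.filter_true_of_mem
        intro x _
        simp [B.one_mem]
      rw [this, Finset.card_univ, Nat.card_eq_fintype_card]
    have hlt : Nat.card B < Nat.card P := by
      have hle := Subgroup.card_le_card_group B
      rcases Nat.lt_or_ge (Nat.card B) (Nat.card P) with h | h
      · exact h
      · exact absurd (Subgroup.card_eq_iff_eq_top B |>.mp (le_antisymm hle h)) D.hBP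
    rw [← Finset.add_sum_erase _ _ h1mem, hone]
    have h2 : ∑ u ∈ (Finset.univ.filter (· ∈ U)).erase 1, Nat.card B ≤
        ∑ u ∈ (Finset.univ.filter (· ∈ U)).erase 1,
          (Finset.univ.filter (fun x : P => x⁻¹ * u * x ∈ B)).card :=
      Finset.sum_le_sum fun u hu => hge u (Finset.mem_of_mem_erase hu)
    rw [Finset.sum_const, smul_eq_mul, Finset.card_erase_of_mem h1mem, card_filter_mem U] at h2
    have hU : 0 < Nat.card U := Nat.card_pos
    have : Nat.card U * Nat.card B = (Nat.card U - 1) * Nat.card B + Nat.card B := by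
      rw [Nat.sub_mul, one_mul, Nat.sub_add_cancel]
      exact Nat.le_mul_of_pos_left _ hU
    omega

/-- the decomposition of the character induced from a linear character of `B` trivial on `U` -/
theorem RankOneData.theta_decomp (D : RankOneData Q U B Uk q) (τ : P → ℂ)
    (hτ : IsIrrCharacter B (fun b : B => τ b)) (hτU : sSum U τ ≠ 0) [Fintype (IrrCharacter P)] :
    ∃ (t : IrrCharacter P → ℕ) (N : ℕ),
      indFun B (fun b : B => τ b) = ∑ χ : IrrCharacter P, (t χ : ℂ) • (χ : P → ℂ) ∧
      N = ∑ χ : IrrCharacter P, t χ * charDegree (χ : P → ℂ) ∧ N * Nat.card B = Nat.card P ∧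
      N ≤ q + 1 ∧
      (∀ η : IrrCharacter P, t η ≠ 0 → (∀ v ∈ Q, ∀ g : P, (η : P → ℂ) (g * v) = (η : P → ℂ) g) ∧
        fixMult Q (η : P → ℂ) = charDegree (η : P → ℂ)) ∧
      (∀ η : IrrCharacter P, t η ≠ 0 → charDegree (η : P → ℂ) = N → 2 ≤ fixMult U (η : P → ℂ)) := by
  classical
  haveI := D.hQn
  obtain ⟨h1, hU1⟩ := D.tau_trivial τ hτ hτU
  have hΘ : IsCharacter P (indFun B (fun b : B => τ b)) :=
    Helper46.isCharacter_indFun B _ (Helper46.isCharacter_of_irr _ hτ)
  obtain ⟨t, ht⟩ := Helper4.exists_decomp_of_isCharacter _ hΘ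
  have hcB : (Nat.card B : ℂ) ≠ 0 := Nat.cast_ne_zero.mpr Nat.card_pos.ne'
  have hcQ : (Nat.card Q : ℂ) ≠ 0 := Nat.cast_ne_zero.mpr Nat.card_pos.ne'
  have hd : ∀ χ : IrrCharacter P, (χ : P → ℂ) 1 = (charDegree (χ : P → ℂ) : ℂ) :=
    fun χ => (Helper83.irr_degree χ.2).2
  have hdpos : ∀ χ : IrrCharacter P, 0 < charDegree (χ : P → ℂ) :=
    fun χ => (Helper83.irr_degree χ.2).1
  have hΘ1 : indFun B (fun b : B => τ b) 1 =
      ((∑ χ : IrrCharacter P, t χ * charDegree (χ : P → ℂ) : ℕ) : ℂ) := by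
    conv_lhs => rw [ht]
    simp only [Finset.sum_apply, Pi.smul_apply, smul_eq_mul, hd]
    push_cast
    rfl
  have hN : (∑ χ : IrrCharacter P, t χ * charDegree (χ : P → ℂ)) * Nat.card B = Nat.card P := by
    have := D.theta_one τ hU1
    rw [hΘ1] at this
    exact_mod_cast this
  refine ⟨t, _, ht, rfl, hN, ?_, ?_, ?_⟩
  · have := D.hPB
    rw [← hN] at this
    exact Nat.le_of_mul_le_mul_right this Nat.card_pos
  · -- (c)
    have e1 : sSum Q (indFun B (fun b : B => τ b)) =
        ((∑ χ : IrrCharacter P, t χ * charDegree (χ : P → ℂ) : ℕ) : ℂ) * (Nat.card Q : ℂ) := by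
      have : sSum Q (indFun B (fun b : B => τ b)) =
          sSum Q (fun _ => indFun B (fun b : B => τ b) 1) :=
        sSum_congr Q _ _ (fun v hv => D.theta_Q τ hU1 v hv)
      rw [this]
      have e : (fun _ : P => indFun B (fun b : B => τ b) 1) =
          indFun B (fun b : B => τ b) 1 • (fun _ => (1 : ℂ)) := by
        funext x; simp
      rw [e, sSum_smul, sSum_const_one, hΘ1]
    have e2 : sSum Q (indFun B (fun b : B => τ b)) =
        ((∑ χ : IrrCharacter P, t χ * fixMult Q (χ : P → ℂ) : ℕ) : ℂ) * (Nat.card Q : ℂ) := by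
      conv_lhs => rw [ht]
      rw [sSum_finset_sum, Nat.cast_sum, Finset.sum_mul]
      refine Finset.sum_congr rfl fun χ _ => ?_
      rw [sSum_smul, irr_fix_eq _ χ.2]
      push_cast
      ring
    rw [e1] at e2
    have e3 : ∑ χ : IrrCharacter P, t χ * fixMult Q (χ : P → ℂ) =
        ∑ χ : IrrCharacter P, t χ * charDegree (χ : P → ℂ) := by
      have := mul_right_cancel₀ hcQ e2
      exact_mod_cast this.symm
    have e4 := (Finset.sum_eq_sum_iff_of_le (fun χ _ =>
      Nat.mul_le_mul_left (t χ) (fixMult_le_degree Q (χ : P → ℂ) χ.2))).mp e3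
    intro η hη
    have e5 := e4 η (Finset.mem_univ _)
    have e6 : fixMult Q (η : P → ℂ) = charDegree (η : P → ℂ) :=
      Nat.eq_of_mul_eq_mul_left (Nat.pos_of_ne_zero hη) e5
    refine ⟨?_, e6⟩
    rcases irr_normal_dichotomy Q (η : P → ℂ) η.2 with h | h
    · have := hdpos η
      omega
    · exact h.2
  · -- (d)
    intro η hη hdη
    have hsplit := Finset.add_sum_erase Finset.univ
      (fun χ : IrrCharacter P => t χ * charDegree (χ : P → ℂ)) (Finset.mem_univ η)
    have hge : charDegree (η : P → ℂ) ≤ t η * charDegree (η : P → ℂ) :=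
      Nat.le_mul_of_pos_left _ (Nat.pos_of_ne_zero hη)
    have hR : ∑ χ ∈ Finset.univ.erase η, t χ * charDegree (χ : P → ℂ) = 0 := by omega
    have htη : t η = 1 := by
      have : t η * charDegree (η : P → ℂ) = 1 * charDegree (η : P → ℂ) := by omega
      exact Nat.eq_of_mul_eq_mul_right (hdpos η) this
    have hother : ∀ χ : IrrCharacter P, χ ≠ η → t χ = 0 := by
      intro χ hχ
      have := (Finset.sum_eq_zero_iff.mp hR) χ (Finset.mem_erase.mpr ⟨hχ, Finset.mem_univ _⟩)
      rcases Nat.mul_eq_zero.mp this with h | h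
      · exact h
      · have := hdpos χ; omega
    have hΘη : indFun B (fun b : B => τ b) = (η : P → ℂ) := by
      rw [ht, Finset.sum_eq_single η]
      · rw [htη]; simp
      · intro χ _ hχ; rw [hother χ hχ]; simp
      · intro h; exact absurd (Finset.mem_univ _) h
    obtain ⟨C, hC, hCgt⟩ := D.theta_sum τ hU1
    rw [hΘη, irr_fix_eq _ η.2] at hC
    have hC' : fixMult U (η : P → ℂ) * Nat.card U * Nat.card B = C := by exact_mod_cast hC
    by_contra hlt
    push Not at hlt
    have : fixMult U (η : P → ℂ) * Nat.card U * Nat.card B ≤ 1 * Nat.card U * Nat.card B :=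
      Nat.mul_le_mul_right _ (Nat.mul_le_mul_right _ (by omega))
    rw [one_mul] at this
    omega

end RankOne

end Cfsg.Agent.Lib.Helper48
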