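import Mathlib
import Cfsg.Agent.Lib.Helper48.DZc

set_option autoImplicit false

namespace Cfsg.Agent.Lib.Helper48

open Cfsg
open scoped ComplexConjugate

section RankOneMain

variable {P : Type*} [Group P] [Fintype P] {Q U B Uk : Subgroup P} {q : ℕ}

theorem sSum_of_vanish (K : Subgroup P) (f : P → ℂ) (h : ∀ u ∈ K, u ≠ 1 → f u = 0) :
    sSum K f = f 1 := by
  classical
  unfold sSum
  rw [Finset.sum_eq_single 1]
  · rw [if_pos K.one_mem]
  · intro b _ hb
    split_ifs with hbK
    · exact h b hbK hb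
    · rfl
  · intro h1; exact absurd (Finset.mem_univ _) h1

/-- the key inequality: for a constituent `χ` of `Ψ`, `dim χ^Q ≤ q · dim χ^U` -/
theorem RankOneData.key_ineq (D : RankOneData Q U B Uk q) (Ψ : P → ℂ)
    (hNC : ∀ η : IrrCharacter P, sSum Uk (η : P → ℂ) = 0 → classInner Ψ (η : P → ℂ) = 0)
    (χ : IrrCharacter P) (hχ : classInner Ψ (χ : P → ℂ) ≠ 0) :
    fixMult Q (χ : P → ℂ) ≤ q * fixMult U (χ : P → ℂ) := by
  classical
  haveI := D.hQn
  have := Helper4.irr_finite (G := P)
  letI : Fintype (IrrCharacter P) := Fintype.ofFinite _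
  rcases irr_normal_dichotomy Q (χ : P → ℂ) χ.2 with h | ⟨h, htriv⟩
  · rw [h]; exact Nat.zero_le _
  · have hcQ : (Nat.card Q : ℂ) ≠ 0 := Nat.cast_ne_zero.mpr Nat.card_pos.ne'
    have hsU := D.sSum_U_of_trivial (χ : P → ℂ) htriv
    have hk : sSum Uk (χ : P → ℂ) ≠ 0 := fun h0 => hχ (hNC χ h0)
    have hU : sSum U (χ : P → ℂ) ≠ 0 := by rw [hsU]; exact mul_ne_zero hcQ hk
    have hA : 1 ≤ fixMult U (χ : P → ℂ) := by
      by_contra hcon
      have h0 : fixMult U (χ : P → ℂ) = 0 := by omega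
      apply hU
      rw [irr_fix_eq _ χ.2, h0, Nat.cast_zero, zero_mul]
    obtain ⟨τ₀, hτ1, hτ2⟩ := exists_constituent_fix (χ : P → ℂ)
      (Helper46.isCharacter_of_irr _ χ.2) U B D.hUB hU
    have hτeq : (fun b : B => extendByZero B (τ₀ : B → ℂ) b) = (τ₀ : B → ℂ) :=
      funext (Helper46.extendByZero_coe B (τ₀ : B → ℂ))
    have hτirr : IsIrrCharacter B (fun b : B => extendByZero B (τ₀ : B → ℂ) b) := by
      rw [hτeq]; exact τ₀.2
    have hτU : sSum U (extendByZero B (τ₀ : B → ℂ)) ≠ 0 := by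
      rw [← sSum_subgroupOf B U D.hUB, hτeq]; exact hτ2
    obtain ⟨t, N, ht, hN, hNB, hNq, hc, hd⟩ := D.theta_decomp _ hτirr hτU
    have htχ : t χ ≠ 0 := by
      intro h0
      apply hτ1
      have e1 : classInner (indFun B (fun b : B => extendByZero B (τ₀ : B → ℂ) b)) (χ : P → ℂ) = 0 := by
        rw [ht, Helper4.classInner_sum_irr, h0, Nat.cast_zero]
      rw [Helper46.frobenius B _ _ (Helper4.isClassFunction_of_isCharacter _
        (Helper46.isCharacter_of_irr _ χ.2)), hτeq] at e1
      rw [Helper4.classInner_conj_symm, e1, map_zero]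
    have hdpos : 0 < charDegree (χ : P → ℂ) := (Helper83.irr_degree χ.2).1
    have hdN : charDegree (χ : P → ℂ) ≤ N := by
      have h1 : t χ * charDegree (χ : P → ℂ) ≤ N := by
        rw [hN]
        exact Finset.single_le_sum (f := fun χ : IrrCharacter P => t χ * charDegree (χ : P → ℂ))
          (fun _ _ => Nat.zero_le _) (Finset.mem_univ χ)
      have h2 : charDegree (χ : P → ℂ) ≤ t χ * charDegree (χ : P → ℂ) :=
        Nat.le_mul_of_pos_left _ (Nat.pos_of_ne_zero htχ)
      omega
    rw [h]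
    by_cases hle : charDegree (χ : P → ℂ) ≤ q
    · calc charDegree (χ : P → ℂ) ≤ q := hle
        _ = q * 1 := (mul_one q).symm
        _ ≤ q * fixMult U (χ : P → ℂ) := Nat.mul_le_mul_left q hA
    · have hdeq : charDegree (χ : P → ℂ) = N := by omega
      have h2 := hd χ htχ hdeq
      have hq := D.hq
      calc charDegree (χ : P → ℂ) ≤ q + 1 := by omega
        _ ≤ q * 2 := by omega
        _ ≤ q * fixMult U (χ : P → ℂ) := Nat.mul_le_mul_left q h2

/-- **The rank one step.**  Let `Ψ` be a character of `P` vanishing on the nonidentity elements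
of `U` and without constituents lacking `Uk`-fixed vectors.  Then `Ψ` does not contain the
principal character, and every linear character of `B` trivial on `U` occurring in `Ψ` extends
to a linear character of `P`. -/
theorem RankOneData.main [Fintype B] (D : RankOneData Q U B Uk q) (Ψ : P → ℂ) (hΨ : IsCharacter P Ψ)
    (hΨ0 : ∀ u ∈ U, u ≠ 1 → Ψ u = 0)
    (hNC : ∀ η : IrrCharacter P, sSum Uk (η : P → ℂ) = 0 → classInner Ψ (η : P → ℂ) = 0) :
    classInner Ψ (fun _ => (1 : ℂ)) = 0 ∧
    ∀ τ : P → ℂ, IsIrrCharacter B (fun b : B => τ b) → sSum U τ ≠ 0 →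
      classInner (fun b : B => Ψ b) (fun b : B => τ b) ≠ 0 →
      ∃ η' : P → ℂ, IsIrrCharacter P η' ∧ η' 1 = 1 ∧ ∀ b ∈ B, η' b = τ b := by
  classical
  haveI := D.hQn
  have := Helper4.irr_finite (G := P)
  letI : Fintype (IrrCharacter P) := Fintype.ofFinite _
  obtain ⟨c, hc⟩ := Helper4.exists_decomp_of_isCharacter Ψ hΨ
  have hcin : ∀ χ : IrrCharacter P, classInner Ψ (χ : P → ℂ) = (c χ : ℂ) := by
    intro χ
    rw [hc]
    exact Helper4.classInner_sum_irr _ χ
  have hd : ∀ χ : IrrCharacter P, (χ : P → ℂ) 1 = (charDegree (χ : P → ℂ) : ℂ) :=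
    fun χ => (Helper83.irr_degree χ.2).2
  have hdpos : ∀ χ : IrrCharacter P, 0 < charDegree (χ : P → ℂ) :=
    fun χ => (Helper83.irr_degree χ.2).1
  have hcQ : (Nat.card Q : ℂ) ≠ 0 := Nat.cast_ne_zero.mpr Nat.card_pos.ne'
  have hΨ1 : Ψ 1 = ((∑ χ : IrrCharacter P, c χ * charDegree (χ : P → ℂ) : ℕ) : ℂ) := by
    conv_lhs => rw [hc]
    simp only [Finset.sum_apply, Pi.smul_apply, smul_eq_mul, hd]
    push_cast
    rfl
  have hsU : sSum U Ψ = ((∑ χ : IrrCharacter P, c χ * fixMult U (χ : P → ℂ) : ℕ) : ℂ) *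
      (Nat.card U : ℂ) := by
    conv_lhs => rw [hc]
    rw [sSum_finset_sum, Nat.cast_sum, Finset.sum_mul]
    refine Finset.sum_congr rfl fun χ _ => ?_
    rw [sSum_smul, irr_fix_eq _ χ.2]
    push_cast
    ring
  have hsQ : sSum Q Ψ = ((∑ χ : IrrCharacter P, c χ * fixMult Q (χ : P → ℂ) : ℕ) : ℂ) *
      (Nat.card Q : ℂ) := by
    conv_lhs => rw [hc]
    rw [sSum_finset_sum, Nat.cast_sum, Finset.sum_mul]
    refine Finset.sum_congr rfl fun χ _ => ?_
    rw [sSum_smul, irr_fix_eq _ χ.2]
    push_cast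
    ring
  rw [sSum_of_vanish U Ψ hΨ0, hΨ1] at hsU
  rw [sSum_of_vanish Q Ψ (fun u hu h1 => hΨ0 u (D.hQU hu) h1), hΨ1] at hsQ
  have hsum : ∑ χ : IrrCharacter P, c χ * fixMult Q (χ : P → ℂ) =
      ∑ χ : IrrCharacter P, c χ * (q * fixMult U (χ : P → ℂ)) := by
    have h1 : (∑ χ : IrrCharacter P, c χ * fixMult Q (χ : P → ℂ)) * Nat.card Q =
        (∑ χ : IrrCharacter P, c χ * fixMult U (χ : P → ℂ)) * Nat.card U := by
      have := hsQ.symm.trans hsU
      exact_mod_cast this
    rw [D.card_U] at h1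
    have h2 : (∑ χ : IrrCharacter P, c χ * fixMult Q (χ : P → ℂ)) * Nat.card Q =
        (∑ χ : IrrCharacter P, c χ * (q * fixMult U (χ : P → ℂ))) * Nat.card Q := by
      rw [h1, Finset.sum_mul, Finset.sum_mul]
      refine Finset.sum_congr rfl fun χ _ => ?_
      ring
    exact Nat.eq_of_mul_eq_mul_right Nat.card_pos h2
  have hle : ∀ χ ∈ (Finset.univ : Finset (IrrCharacter P)),
      c χ * fixMult Q (χ : P → ℂ) ≤ c χ * (q * fixMult U (χ : P → ℂ)) := by
    intro χ _
    by_cases h0 : c χ = 0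
    · rw [h0]; simp
    · apply Nat.mul_le_mul_left
      apply D.key_ineq Ψ hNC χ
      rw [hcin]
      exact_mod_cast h0
  have hterm := (Finset.sum_eq_sum_iff_of_le hle).mp hsum
  have hkey : ∀ χ : IrrCharacter P, c χ ≠ 0 →
      fixMult Q (χ : P → ℂ) = q * fixMult U (χ : P → ℂ) := by
    intro χ h0
    exact Nat.eq_of_mul_eq_mul_left (Nat.pos_of_ne_zero h0) (hterm χ (Finset.mem_univ _))
  have hq := D.hq
  refine ⟨?_, ?_⟩
  · have h1 := hcin (Helper83.trivIrr P)
    have h2 : ((Helper83.trivIrr P : IrrCharacter P) : P → ℂ) = fun _ => 1 := rfl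
    rw [h2] at h1
    rw [h1]
    by_contra h0
    have h0' : c (Helper83.trivIrr P) ≠ 0 := by
      intro h; apply h0; rw [h, Nat.cast_zero]
    have := hkey _ h0'
    rw [h2, fixMult_one, fixMult_one] at this
    omega
  · intro τ hτ hτU hτΨ
    obtain ⟨t, N, ht, hN, hNB, hNq, hcc, hdd⟩ := D.theta_decomp τ hτ hτU
    have e1 : classInner (indFun B (fun b : B => τ b)) Ψ ≠ 0 := by
      rw [Helper46.frobenius B _ _ (Helper4.isClassFunction_of_isCharacter _ hΨ),
        Helper4.classInner_conj_symm]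
      intro h0
      apply hτΨ
      have := congrArg conj h0
      rwa [Complex.conj_conj, map_zero] at this
    have e2 : classInner (indFun B (fun b : B => τ b)) Ψ =
        ((∑ χ : IrrCharacter P, t χ * c χ : ℕ) : ℂ) := by
      rw [ht]
      conv_lhs => rw [hc]
      rw [Helper4.classInner_sum_sum_irr]
      push_cast
      refine Finset.sum_congr rfl fun χ _ => ?_
      rw [Complex.conj_natCast]
    rw [e2] at e1
    have e3 : ∑ χ : IrrCharacter P, t χ * c χ ≠ 0 := by
      intro h0; apply e1; rw [h0, Nat.cast_zero]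
    obtain ⟨η, -, hη⟩ := Finset.exists_ne_zero_of_sum_ne_zero e3
    have htη : t η ≠ 0 := fun h => hη (by rw [h, zero_mul])
    have hcη : c η ≠ 0 := fun h => hη (by rw [h, mul_zero])
    have k1 := hkey η hcη
    have k2 := (hcc η htη).2
    have hdN : charDegree (η : P → ℂ) ≤ N := by
      have h1 : t η * charDegree (η : P → ℂ) ≤ N := by
        rw [hN]
        exact Finset.single_le_sum (f := fun χ : IrrCharacter P => t χ * charDegree (χ : P → ℂ))
          (fun _ _ => Nat.zero_le _) (Finset.mem_univ η)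
      have h2 : charDegree (η : P → ℂ) ≤ t η * charDegree (η : P → ℂ) :=
        Nat.le_mul_of_pos_left _ (Nat.pos_of_ne_zero htη)
      omega
    have hA1 : fixMult U (η : P → ℂ) = 1 := by
      have h1 : q * fixMult U (η : P → ℂ) ≤ q + 1 := by omega
      have h2 : fixMult U (η : P → ℂ) ≠ 0 := by
        intro h0
        rw [h0, mul_zero] at k1
        have := hdpos η
        omega
      by_contra hne
      have h3 : 2 ≤ fixMult U (η : P → ℂ) := by omega
      have h4 : q * 2 ≤ q * fixMult U (η : P → ℂ) := Nat.mul_le_mul_left q h3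
      omega
    have hdq : charDegree (η : P → ℂ) = q := by rw [← k2, k1, hA1, mul_one]
    have hNne : N ≠ q := by
      intro hNq'
      have := hdd η htη (by rw [hdq, hNq'])
      omega
    have hNeq : N = q + 1 := by omega
    have hsplit := Finset.add_sum_erase Finset.univ
      (fun χ : IrrCharacter P => t χ * charDegree (χ : P → ℂ)) (Finset.mem_univ η)
    rw [← hN, hNeq, hdq] at hsplit
    have htη1 : t η = 1 := by
      by_contra hne
      have h3 : 2 ≤ t η := by have := Nat.pos_of_ne_zero htη; omega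
      have h4 : 2 * q ≤ t η * q := Nat.mul_le_mul_right q h3
      omega
    rw [htη1, one_mul] at hsplit
    have hR : ∑ χ ∈ Finset.univ.erase η, t χ * charDegree (χ : P → ℂ) = 1 := by omega
    have hRne : ∑ χ ∈ Finset.univ.erase η, t χ * charDegree (χ : P → ℂ) ≠ 0 := by omega
    obtain ⟨η', hη'mem, hη'⟩ := Finset.exists_ne_zero_of_sum_ne_zero hRne
    have hη'le : t η' * charDegree ((η' : IrrCharacter P) : P → ℂ) ≤ 1 := by
      rw [← hR]
      exact Finset.single_le_sum (f := fun χ : IrrCharacter P => t χ * charDegree (χ : P → ℂ))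
        (fun _ _ => Nat.zero_le _) hη'mem
    have hη'1 : t η' * charDegree ((η' : IrrCharacter P) : P → ℂ) = 1 := by omega
    have hdη' : charDegree ((η' : IrrCharacter P) : P → ℂ) = 1 := Nat.eq_one_of_mul_eq_one_left hη'1
    have htη' : t η' ≠ 0 := fun h => hη' (by rw [h, zero_mul])
    have hη'one : (η' : P → ℂ) 1 = 1 := by rw [hd, hdη', Nat.cast_one]
    refine ⟨(η' : P → ℂ), η'.2, hη'one, ?_⟩
    -- the restriction of η' to B is τ
    have hres : IsCharacter B (fun b : B => (η' : P → ℂ) b) :=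
      Helper4.isCharacter_restrict B _ (Helper46.isCharacter_of_irr _ η'.2)
    obtain ⟨f, hf⟩ := Helper20.exists_hom_of_linear (fun b : B => (η' : P → ℂ) b) hres hη'one
    have hresirr : IsIrrCharacter B (fun b : B => (η' : P → ℂ) b) := by
      have := Helper83.isIrr_of_hom f
      have e : (fun g : B => ((f g : ℂˣ) : ℂ)) = fun b : B => (η' : P → ℂ) b := funext hf
      rwa [e] at this
    have hinn : classInner (fun b : B => τ b) (fun b : B => (η' : P → ℂ) b) ≠ 0 := by
      rw [← Helper46.frobenius B _ _ (Helper4.isClassFunction_of_isCharacter _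
        (Helper46.isCharacter_of_irr _ η'.2)), ht, Helper4.classInner_sum_irr]
      exact_mod_cast htη'
    have heq : (fun b : B => τ b) = fun b : B => (η' : P → ℂ) b := by
      by_contra hne
      exact hinn (inner_irr_ne _ _ hτ hresirr hne)
    intro b hb
    exact (congrFun heq ⟨b, hb⟩).symm

end RankOneMain

end Cfsg.Agent.Lib.Helper48
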