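import Mathlib
import Cfsg.Prelude.Def_ParabolicCharacters
import Cfsg.Prelude.Def_LinearParabolics

set_option autoImplicit false

namespace Cfsg.Agent.Lib.Helper48

open Cfsg
open scoped MatrixGroups

section Par

variable {n : ℕ} {F : Type*} [Field F]

/-- strictly block upper triangular matrices for a labelling -/
def SU (lab : Fin n → ℕ) (X : Matrix (Fin n) (Fin n) F) : Prop :=
  ∀ a b, lab b ≤ lab a → X a b = 0

theorem SU.blockTriangular {lab : Fin n → ℕ} {X : Matrix (Fin n) (Fin n) F} (h : SU lab X) :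
    X.BlockTriangular lab := fun a b hab => h a b hab.le

theorem SU.add {lab : Fin n → ℕ} {X Y : Matrix (Fin n) (Fin n) F} (hX : SU lab X) (hY : SU lab Y) :
    SU lab (X + Y) := fun a b hab => by
  rw [Matrix.add_apply, hX a b hab, hY a b hab, add_zero]

theorem SU.neg {lab : Fin n → ℕ} {X : Matrix (Fin n) (Fin n) F} (hX : SU lab X) :
    SU lab (-X) := fun a b hab => by
  rw [Matrix.neg_apply, hX a b hab, neg_zero]

theorem SU.mul_left {lab : Fin n → ℕ} {p X : Matrix (Fin n) (Fin n) F} (hp : p.BlockTriangular lab)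
    (hX : SU lab X) : SU lab (p * X) := fun a b hab => by
  rw [Matrix.mul_apply]
  apply Finset.sum_eq_zero
  intro c _
  by_cases hc : lab c < lab a
  · rw [hp hc, zero_mul]
  · rw [hX c b (by omega), mul_zero]

theorem SU.mul_right {lab : Fin n → ℕ} {p X : Matrix (Fin n) (Fin n) F} (hp : p.BlockTriangular lab)
    (hX : SU lab X) : SU lab (X * p) := fun a b hab => by
  rw [Matrix.mul_apply]
  apply Finset.sum_eq_zero
  intro c _
  by_cases hc : lab c ≤ lab a
  · rw [hX a c hc, zero_mul]
  · rw [hp (show lab b < lab c by omega), mul_zero]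

/-- the parabolic subgroup of a labelling -/
def parL (lab : Fin n → ℕ) : Subgroup (GL (Fin n) F) where
  carrier := {g | (g : Matrix (Fin n) (Fin n) F).BlockTriangular lab}
  mul_mem' := fun {a} {b} ha hb => by
    change ((a : Matrix (Fin n) (Fin n) F) * (b : Matrix (Fin n) (Fin n) F)).BlockTriangular lab
    exact Matrix.BlockTriangular.mul ha hb
  one_mem' := by
    change (1 : Matrix (Fin n) (Fin n) F).BlockTriangular lab
    exact Matrix.blockTriangular_one
  inv_mem' := fun {a} ha => by
    change ((a⁻¹ : GL (Fin n) F) : Matrix (Fin n) (Fin n) F).BlockTriangular lab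
    have : Invertible (a : Matrix (Fin n) (Fin n) F) := a.invertible
    rw [Matrix.coe_units_inv]
    exact Matrix.blockTriangular_inv_of_blockTriangular ha

theorem mem_parL (lab : Fin n → ℕ) (g : GL (Fin n) F) :
    g ∈ parL lab ↔ (g : Matrix (Fin n) (Fin n) F).BlockTriangular lab := Iff.rfl

/-- the unipotent radical of the parabolic subgroup of a labelling -/
def radL (lab : Fin n → ℕ) : Subgroup (GL (Fin n) F) where
  carrier := {g | SU lab ((g : Matrix (Fin n) (Fin n) F) - 1)}
  mul_mem' := fun {a} {b} ha hb => by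
    change SU lab (((a : Matrix (Fin n) (Fin n) F) * (b : Matrix (Fin n) (Fin n) F)) - 1)
    have e : ((a : Matrix (Fin n) (Fin n) F) * (b : Matrix (Fin n) (Fin n) F)) - 1 =
        ((a : Matrix (Fin n) (Fin n) F) - 1) * ((b : Matrix (Fin n) (Fin n) F) - 1) +
          (((a : Matrix (Fin n) (Fin n) F) - 1) + ((b : Matrix (Fin n) (Fin n) F) - 1)) := by
      noncomm_ring
    rw [e]
    exact (SU.mul_left (SU.blockTriangular ha) hb).add (ha.add hb)
  one_mem' := by
    change SU lab (((1 : GL (Fin n) F) : Matrix (Fin n) (Fin n) F) - 1)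
    intro a b _
    simp
  inv_mem' := fun {a} ha => by
    change SU lab (((a⁻¹ : GL (Fin n) F) : Matrix (Fin n) (Fin n) F) - 1)
    have hat : (a : Matrix (Fin n) (Fin n) F).BlockTriangular lab := by
      have e : (a : Matrix (Fin n) (Fin n) F) = ((a : Matrix (Fin n) (Fin n) F) - 1) + 1 := by
        simp
      rw [e]
      exact (SU.blockTriangular ha).add Matrix.blockTriangular_one
    have hinv : ((a⁻¹ : GL (Fin n) F) : Matrix (Fin n) (Fin n) F).BlockTriangular lab := by
      have : Invertible (a : Matrix (Fin n) (Fin n) F) := a.invertible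
      rw [Matrix.coe_units_inv]
      exact Matrix.blockTriangular_inv_of_blockTriangular hat
    have e : ((a⁻¹ : GL (Fin n) F) : Matrix (Fin n) (Fin n) F) - 1 =
        -(((a⁻¹ : GL (Fin n) F) : Matrix (Fin n) (Fin n) F) * ((a : Matrix (Fin n) (Fin n) F) - 1)) := by
      rw [mul_sub, mul_one]
      have : ((a⁻¹ : GL (Fin n) F) : Matrix (Fin n) (Fin n) F) * (a : Matrix (Fin n) (Fin n) F) = 1 := by
        rw [← Units.val_mul, inv_mul_cancel, Units.val_one]
      rw [this]
      abel
    rw [e]
    exact (SU.mul_left hinv ha).neg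

theorem mem_radL (lab : Fin n → ℕ) (g : GL (Fin n) F) :
    g ∈ radL lab ↔ SU lab ((g : Matrix (Fin n) (Fin n) F) - 1) := Iff.rfl

theorem mem_radL_iff (lab : Fin n → ℕ) (g : GL (Fin n) F) :
    g ∈ radL lab ↔ ∀ a b, lab b ≤ lab a → (g : Matrix (Fin n) (Fin n) F) a b =
      (1 : Matrix (Fin n) (Fin n) F) a b := by
  rw [mem_radL]
  constructor
  · intro h a b hab
    have := h a b hab
    rw [Matrix.sub_apply, sub_eq_zero] at this
    exact this
  · intro h a b hab
    rw [Matrix.sub_apply, h a b hab, sub_self]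

theorem radL_le_parL (lab : Fin n → ℕ) : (radL lab : Subgroup (GL (Fin n) F)) ≤ parL lab := by
  intro g hg
  rw [mem_parL]
  have e : (g : Matrix (Fin n) (Fin n) F) = ((g : Matrix (Fin n) (Fin n) F) - 1) + 1 := by simp
  rw [e]
  exact (SU.blockTriangular hg).add Matrix.blockTriangular_one

/-- the radical is normalized by the parabolic -/
theorem radL_conj (lab : Fin n → ℕ) (p : GL (Fin n) F) (hp : p ∈ parL lab) (g : GL (Fin n) F)
    (hg : g ∈ radL lab) : p * g * p⁻¹ ∈ radL lab := by
  rw [mem_radL]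
  have e : ((p * g * p⁻¹ : GL (Fin n) F) : Matrix (Fin n) (Fin n) F) - 1 =
      (p : Matrix (Fin n) (Fin n) F) * ((g : Matrix (Fin n) (Fin n) F) - 1) *
        ((p⁻¹ : GL (Fin n) F) : Matrix (Fin n) (Fin n) F) := by
    rw [Units.val_mul, Units.val_mul, mul_sub, mul_one, sub_mul]
    congr 1
    rw [← Units.val_mul, mul_inv_cancel, Units.val_one]
  rw [e]
  exact SU.mul_right ((parL lab).inv_mem hp) (SU.mul_left hp hg)

theorem parL_mono {lab lab' : Fin n → ℕ} (h : ∀ a b, lab' b < lab' a → lab b < lab a) :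
    (parL lab : Subgroup (GL (Fin n) F)) ≤ parL lab' := by
  intro g hg a b hab
  exact hg (h a b hab)

theorem radL_anti {lab lab' : Fin n → ℕ} (h : ∀ a b, lab b ≤ lab a → lab' b ≤ lab' a) :
    (radL lab' : Subgroup (GL (Fin n) F)) ≤ radL lab := by
  intro g hg a b hab
  exact hg a b (h a b hab)

end Par

end Cfsg.Agent.Lib.Helper48
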