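import Mathlib
import Cfsg.Agent.Lib.Helper48.DZe
import Cfsg.Agent.Lib.Helper48.GLnB

set_option autoImplicit false

namespace Cfsg.Agent.Lib.Helper48

open Cfsg
open scoped MatrixGroups

section Labels

variable {n : ℕ}

/-- the labelling of the Borel subgroup -/
def lab0 : Fin n → ℕ := fun a => a.val

/-- the labelling of the minimal parabolic subgroup merging positions `k` and `k + 1` -/
def labk (k : ℕ) : Fin n → ℕ := fun a => if a.val ≤ k then a.val else a.val - 1

theorem labk_lt_iff (k : ℕ) (a b : Fin n) :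
    labk k b < labk k a ↔ b.val < a.val ∧ ¬(a.val = k + 1 ∧ b.val = k) := by
  unfold labk
  split_ifs <;> omega

theorem labk_le_iff (k : ℕ) (a b : Fin n) :
    labk k b ≤ labk k a ↔ b.val ≤ a.val ∨ (a.val = k ∧ b.val = k + 1) := by
  unfold labk
  split_ifs <;> omega

end Labels

section Root

variable {n : ℕ} {F : Type*} [Field F]

theorem upper_eq_parL : upperTriangularGL n F = parL lab0 := rfl

theorem upper_le_parL_labk (k : ℕ) : upperTriangularGL n F ≤ parL (labk k) := by
  rw [upper_eq_parL]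
  apply parL_mono
  intro a b hab
  exact ((labk_lt_iff k a b).mp hab).1

theorem radL_labk_le (k : ℕ) : (radL (labk k) : Subgroup (GL (Fin n) F)) ≤ radL lab0 := by
  apply radL_anti
  intro a b hab
  exact (labk_le_iff k a b).mpr (Or.inl hab)

theorem radL_lab0_le_upper : (radL lab0 : Subgroup (GL (Fin n) F)) ≤ upperTriangularGL n F := by
  rw [upper_eq_parL]; exact radL_le_parL lab0

/-- the root element `1 + c E_ij` -/
def rootGL (i j : Fin n) (h : i ≠ j) (c : F) : GL (Fin n) F :=
  ⟨Matrix.transvection i j c, Matrix.transvection i j (-c),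
    by rw [Matrix.transvection_mul_transvection_same _ _ h, add_neg_cancel, Matrix.transvection_zero],
    by rw [Matrix.transvection_mul_transvection_same _ _ h, neg_add_cancel, Matrix.transvection_zero]⟩

theorem rootGL_coe (i j : Fin n) (h : i ≠ j) (c : F) :
    ((rootGL i j h c : GL (Fin n) F) : Matrix (Fin n) (Fin n) F) = Matrix.transvection i j c := rfl

theorem rootGL_mul (i j : Fin n) (h : i ≠ j) (c c' : F) :
    rootGL i j h c * rootGL i j h c' = rootGL i j h (c + c') :=
  Units.ext (Matrix.transvection_mul_transvection_same _ _ h c c')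

theorem rootGL_zero (i j : Fin n) (h : i ≠ j) : rootGL i j h (0 : F) = 1 :=
  Units.ext (Matrix.transvection_zero i j)

theorem rootGL_inv (i j : Fin n) (h : i ≠ j) (c : F) :
    (rootGL i j h c)⁻¹ = rootGL i j h (-c) := by
  rw [inv_eq_iff_mul_eq_one, rootGL_mul, add_neg_cancel, rootGL_zero]

theorem rootGL_apply (i j : Fin n) (h : i ≠ j) (c : F) (a b : Fin n) :
    ((rootGL i j h c : GL (Fin n) F) : Matrix (Fin n) (Fin n) F) a b =
      (1 : Matrix (Fin n) (Fin n) F) a b + if a = i ∧ b = j then c else 0 := by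
  rw [rootGL_coe, Matrix.transvection, Matrix.add_apply, Matrix.single_apply]
  congr 1
  by_cases hab : a = i ∧ b = j
  · rw [if_pos hab, if_pos ⟨hab.1.symm, hab.2.symm⟩]
  · rw [if_neg hab, if_neg (fun h' => hab ⟨h'.1.symm, h'.2.symm⟩)]

theorem rootGL_apply_ij (i j : Fin n) (h : i ≠ j) (c : F) :
    ((rootGL i j h c : GL (Fin n) F) : Matrix (Fin n) (Fin n) F) i j = c := by
  rw [rootGL_apply, Matrix.one_apply_ne h, if_pos ⟨rfl, rfl⟩, zero_add]

/-- the root subgroup -/
def rootSub (i j : Fin n) (h : i ≠ j) : Subgroup (GL (Fin n) F) where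
  carrier := {g | ∃ c : F, g = rootGL i j h c}
  mul_mem' := by
    rintro _ _ ⟨c, rfl⟩ ⟨c', rfl⟩
    exact ⟨c + c', rootGL_mul i j h c c'⟩
  one_mem' := ⟨0, (rootGL_zero i j h).symm⟩
  inv_mem' := by
    rintro _ ⟨c, rfl⟩
    exact ⟨-c, rootGL_inv i j h c⟩

theorem mem_rootSub (i j : Fin n) (h : i ≠ j) (g : GL (Fin n) F) :
    g ∈ rootSub i j h ↔ ∃ c : F, g = rootGL i j h c := Iff.rfl

theorem card_rootSub [Fintype F] (i j : Fin n) (h : i ≠ j) :
    Nat.card (rootSub (F := F) i j h) = Fintype.card F := by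
  rw [← Nat.card_eq_fintype_card]
  symm
  apply Nat.card_congr
  refine Equiv.ofBijective (fun c => ⟨rootGL i j h c, ⟨c, rfl⟩⟩) ⟨?_, ?_⟩
  · intro c c' hcc
    have h1 : rootGL i j h c = rootGL i j h c' := congrArg Subtype.val hcc
    have h2 := congrArg (fun g : GL (Fin n) F => (g : Matrix (Fin n) (Fin n) F) i j) h1
    simp only [rootGL_apply_ij] at h2
    exact h2
  · rintro ⟨g, c, rfl⟩
    exact ⟨c, rfl⟩

theorem rootGL_mem_radL (i j : Fin n) (h : i ≠ j) (hij : i < j) (c : F) :
    rootGL i j h c ∈ radL (F := F) lab0 := by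
  rw [mem_radL_iff]
  intro a b hab
  rw [rootGL_apply, if_neg, add_zero]
  rintro ⟨rfl, rfl⟩
  have : b.val ≤ a.val := hab
  have : a.val < b.val := hij
  omega

/-- conjugating a root element by a permutation matrix -/
theorem pGL_conj_rootGL (σ : Equiv.Perm (Fin n)) (i j : Fin n) (h : i ≠ j) (c : F) :
    pGL σ * rootGL i j h c * (pGL σ)⁻¹ =
      rootGL (σ i) (σ j) (fun h' => h (σ.injective h')) c := by
  apply Units.ext
  rw [Units.val_mul, Units.val_mul, ← map_inv, pGL_coe, pGL_coe, rootGL_coe, rootGL_coe,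
    Matrix.transvection, Matrix.transvection, mul_add, add_mul, mul_one, ← pMat_mul,
    mul_inv_cancel, pMat_one]
  congr 1
  ext a b
  rw [Matrix.mul_apply, Finset.sum_eq_single j]
  · rw [Matrix.mul_single_apply_same, pMat_apply, pMat_apply, Matrix.single_apply]
    by_cases ha : a = σ i
    · by_cases hb : b = σ j
      · subst ha hb
        simp
      · have hb' : ¬ (j = σ⁻¹ b) := by
          intro h'
          apply hb
          rw [h']; simp
        rw [if_neg hb', mul_zero, if_neg (fun h' => hb h'.2.symm)]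
    · rw [if_neg ha, zero_mul, zero_mul, if_neg (fun h' => ha h'.1.symm)]
  · intro y _ hy
    rw [Matrix.mul_single_apply_of_ne c i j a y hy, zero_mul]
  · intro h'; exact absurd (Finset.mem_univ _) h'

end Root

end Cfsg.Agent.Lib.Helper48
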