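import Mathlib
import Cfsg.Agent.Lib.Helper48.DZf

set_option autoImplicit false

namespace Cfsg.Agent.Lib.Helper48

open Cfsg
open scoped MatrixGroups

section Struct

variable {n : ℕ} {F : Type*} [Field F]

theorem upper_diag_mul (M N : Matrix (Fin n) (Fin n) F) (hM : M.BlockTriangular lab0)
    (hN : N.BlockTriangular lab0) (a : Fin n) : (M * N) a a = M a a * N a a := by
  rw [Matrix.mul_apply, Finset.sum_eq_single a]
  · intro c _ hc
    rcases lt_or_gt_of_ne hc with h | h
    · rw [hM (show lab0 c < lab0 a from h), zero_mul]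
    · rw [hN (show lab0 a < lab0 c from h), mul_zero]
  · intro h; exact absurd (Finset.mem_univ _) h

theorem upper_diag_inv (b : GL (Fin n) F) (hb : b ∈ upperTriangularGL n F) (a : Fin n) :
    (b : Matrix (Fin n) (Fin n) F) a a * ((b⁻¹ : GL (Fin n) F) : Matrix (Fin n) (Fin n) F) a a = 1 := by
  have h1 := upper_diag_mul (b : Matrix (Fin n) (Fin n) F) ((b⁻¹ : GL (Fin n) F) : Matrix (Fin n) (Fin n) F)
    hb ((upperTriangularGL n F).inv_mem hb) a
  rw [← h1, ← Units.val_mul, mul_inv_cancel, Units.val_one, Matrix.one_apply_eq]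

/-- the Borel subgroup modulo the unitriangular group is abelian -/
theorem upper_comm_mem (b b' : GL (Fin n) F) (hb : b ∈ upperTriangularGL n F)
    (hb' : b' ∈ upperTriangularGL n F) : b * b' * b⁻¹ * b'⁻¹ ∈ radL (F := F) lab0 := by
  have hB := upperTriangularGL n F
  have hmem : b * b' * b⁻¹ * b'⁻¹ ∈ upperTriangularGL n F :=
    Subgroup.mul_mem _ (Subgroup.mul_mem _ (Subgroup.mul_mem _ hb hb') (Subgroup.inv_mem _ hb))
      (Subgroup.inv_mem _ hb')
  rw [mem_radL_iff]
  intro a c hca
  rcases Nat.lt_or_ge c.val a.val with h | h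
  · rw [hmem (show lab0 c < lab0 a from h), Matrix.one_apply_ne]
    intro h'; rw [h'] at h; exact lt_irrefl _ h
  · have hac : a = c := Fin.ext (le_antisymm h hca)
    subst hac
    rw [Matrix.one_apply_eq, Units.val_mul, upper_diag_mul _ _ (show (b * b' * b⁻¹ : GL (Fin n) F) ∈
      upperTriangularGL n F from Subgroup.mul_mem _ (Subgroup.mul_mem _ hb hb') (Subgroup.inv_mem _ hb))
      ((upperTriangularGL n F).inv_mem hb'), Units.val_mul,
      upper_diag_mul _ _ (show (b * b' : GL (Fin n) F) ∈ upperTriangularGL n F from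
        Subgroup.mul_mem _ hb hb') ((upperTriangularGL n F).inv_mem hb), Units.val_mul,
      upper_diag_mul _ _ hb hb']
    have h1 := upper_diag_inv b hb a
    have h2 := upper_diag_inv b' hb' a
    calc (b : Matrix (Fin n) (Fin n) F) a a * (b' : Matrix (Fin n) (Fin n) F) a a *
          ((b⁻¹ : GL (Fin n) F) : Matrix (Fin n) (Fin n) F) a a *
          ((b'⁻¹ : GL (Fin n) F) : Matrix (Fin n) (Fin n) F) a a
        = ((b : Matrix (Fin n) (Fin n) F) a a * ((b⁻¹ : GL (Fin n) F) : Matrix (Fin n) (Fin n) F) a a) *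
          ((b' : Matrix (Fin n) (Fin n) F) a a *
            ((b'⁻¹ : GL (Fin n) F) : Matrix (Fin n) (Fin n) F) a a) := by ring
      _ = 1 := by rw [h1, h2, mul_one]

/-- an upper triangular conjugate of a unitriangular matrix is unitriangular -/
theorem conj_mem_radL (u : GL (Fin n) F) (hu : u ∈ radL (F := F) lab0) (x : GL (Fin n) F)
    (hw : x⁻¹ * u * x ∈ upperTriangularGL n F) : x⁻¹ * u * x ∈ radL (F := F) lab0 := by
  have huB : u ∈ upperTriangularGL n F := radL_lab0_le_upper hu
  have h1 : ((x⁻¹ * u * x : GL (Fin n) F) : Matrix (Fin n) (Fin n) F).charpoly =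
      (u : Matrix (Fin n) (Fin n) F).charpoly := by
    rw [Units.val_mul, Units.val_mul, Matrix.coe_units_inv]
    exact Matrix.charpoly_units_conj' x _
  rw [Matrix.charpoly_of_isUpperTriangular _ hw, Matrix.charpoly_of_isUpperTriangular _ huB] at h1
  have hu1 : ∀ a : Fin n, (u : Matrix (Fin n) (Fin n) F) a a = 1 := by
    intro a
    have := (mem_radL_iff lab0 u).mp hu a a le_rfl
    rwa [Matrix.one_apply_eq] at this
  rw [mem_radL_iff]
  intro a c hca
  rcases Nat.lt_or_ge c.val a.val with h | h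
  · rw [hw (show c < a from h), Matrix.one_apply_ne]
    intro h'; rw [h'] at h; exact lt_irrefl _ h
  · have hac : a = c := Fin.ext (le_antisymm h hca)
    subst hac
    rw [Matrix.one_apply_eq]
    have h2 := congrArg (Polynomial.eval (((x⁻¹ * u * x : GL (Fin n) F) : Matrix (Fin n) (Fin n) F) a a)) h1
    rw [Polynomial.eval_prod, Polynomial.eval_prod, Finset.prod_eq_zero (Finset.mem_univ a) (by simp)]
      at h2
    simp only [hu1, Polynomial.eval_sub, Polynomial.eval_X, Polynomial.eval_C, Finset.prod_const,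
      Finset.card_univ, Fintype.card_fin] at h2
    have h3 := pow_eq_zero_iff (n := n) (by have := a.isLt; omega) |>.mp h2.symm
    exact sub_eq_zero.mp h3

/-- unitriangular matrices over a field of characteristic `p` have `p`-power order -/
theorem radL_pow (p : ℕ) [Fact p.Prime] [CharP F p] (u : GL (Fin n) F) (hu : u ∈ radL (F := F) lab0) :
    u ^ (p ^ n) = 1 := by
  rcases Nat.eq_zero_or_pos n with hn | hn
  · subst hn
    apply Units.ext
    ext a b
    exact a.elim0
  haveI : Nonempty (Fin n) := ⟨⟨0, hn⟩⟩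
  have huB : u ∈ upperTriangularGL n F := radL_lab0_le_upper hu
  have hu1 : ∀ a : Fin n, (u : Matrix (Fin n) (Fin n) F) a a = 1 := by
    intro a
    have := (mem_radL_iff lab0 u).mp hu a a le_rfl
    rwa [Matrix.one_apply_eq] at this
  have h1 := Matrix.aeval_self_charpoly (u : Matrix (Fin n) (Fin n) F)
  rw [Matrix.charpoly_of_isUpperTriangular _ huB] at h1
  simp only [hu1, Finset.prod_const, Finset.card_univ, Fintype.card_fin, map_one, map_pow, map_sub,
    Polynomial.aeval_X] at h1
  have h2 : ((u : Matrix (Fin n) (Fin n) F) - 1) ^ (p ^ n) = 0 := by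
    have hle : n ≤ p ^ n := (Nat.lt_pow_self (Fact.out : p.Prime).one_lt).le
    rw [← Nat.sub_add_cancel hle, pow_add, h1, mul_zero]
  haveI : CharP (Matrix (Fin n) (Fin n) F) p := Matrix.charP _
  rw [sub_pow_char_pow_of_commute p n (Commute.one_right _), one_pow, sub_eq_zero] at h2
  apply Units.ext
  rw [Units.val_pow_eq_pow_val, h2, Units.val_one]

theorem radL_orderOf (p : ℕ) [Fact p.Prime] [CharP F p] (u : GL (Fin n) F)
    (hu : u ∈ radL (F := F) lab0) (h1 : u ≠ 1) : p ∣ orderOf u := by
  have hp : p.Prime := Fact.out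
  have h2 := orderOf_dvd_of_pow_eq_one (radL_pow p u hu)
  obtain ⟨j, -, hj⟩ := (Nat.dvd_prime_pow hp).mp h2
  rw [hj]
  have hj0 : j ≠ 0 := by
    rintro rfl
    rw [pow_zero, orderOf_eq_one_iff] at hj
    exact h1 hj
  exact dvd_pow_self p hj0

end Struct

end Cfsg.Agent.Lib.Helper48
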