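import Mathlib
import Cfsg.Agent.Lib.Helper48.DZg
import Cfsg.Agent.Lib.Helper48.DZd

set_option autoImplicit false

namespace Cfsg.Agent.Lib.Helper48

open Cfsg
open scoped MatrixGroups

section MinPar

variable {n : ℕ} {F : Type*} [Field F]

/-- the lower index of the `k`-th simple root -/
def ix0 (k : ℕ) (hk : k + 1 < n) : Fin n := ⟨k, by omega⟩

/-- the upper index of the `k`-th simple root -/
def ix1 (k : ℕ) (hk : k + 1 < n) : Fin n := ⟨k + 1, hk⟩

theorem ix0_val (k : ℕ) (hk : k + 1 < n) : (ix0 k hk).val = k := rfl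

theorem ix1_val (k : ℕ) (hk : k + 1 < n) : (ix1 k hk).val = k + 1 := rfl

theorem ix_ne (k : ℕ) (hk : k + 1 < n) : ix0 k hk ≠ ix1 k hk := by
  intro h
  have := congrArg Fin.val h
  rw [ix0_val, ix1_val] at this
  omega

theorem ix_lt (k : ℕ) (hk : k + 1 < n) : ix0 k hk < ix1 k hk := by
  show k < k + 1
  omega

/-- the simple reflection -/
def sw (k : ℕ) (hk : k + 1 < n) : Equiv.Perm (Fin n) := Equiv.swap (ix0 k hk) (ix1 k hk)

theorem sw_mem (k : ℕ) (hk : k + 1 < n) :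
    pGL (F := F) (sw k hk) ∈ parL (F := F) (labk k) := by
  rw [mem_parL]
  intro a b hab
  rw [pGL_coe, pMat_apply]
  rw [labk_lt_iff] at hab
  rw [if_neg]
  intro h
  unfold sw at h
  rw [Equiv.swap_apply_def] at h
  split_ifs at h with h1 h2
  · rw [h, h1, ix0_val, ix1_val] at hab
    omega
  · rw [h, h2, ix0_val, ix1_val] at hab
    omega
  · rw [h] at hab
    omega

theorem sw_not_mem (k : ℕ) (hk : k + 1 < n) :
    pGL (F := F) (sw k hk) ∉ upperTriangularGL n F := by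
  intro h
  have h1 := h (show id (ix0 k hk) < id (ix1 k hk) from ix_lt k hk)
  rw [pGL_coe, pMat_apply, if_pos] at h1
  · exact one_ne_zero h1
  · unfold sw
    rw [Equiv.swap_apply_left]

/-- every conjugate of `U` contains a `P_k`-conjugate of the root subgroup -/
theorem Pk_hconj (k : ℕ) (hk : k + 1 < n) (x : GL (Fin n) F) :
    ∃ y ∈ parL (F := F) (labk k), ∀ u ∈ rootSub (F := F) (ix0 k hk) (ix1 k hk) (ix_ne k hk),
      x * (y * u * y⁻¹) * x⁻¹ ∈ radL (F := F) lab0 := by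
  obtain ⟨b, hb, b', hb', σ, rfl⟩ := bruhat x
  by_cases hσ : σ (ix0 k hk) < σ (ix1 k hk)
  · refine ⟨b'⁻¹, (parL _).inv_mem (upper_le_parL_labk k hb'), ?_⟩
    rintro u ⟨c, rfl⟩
    have e : b * pGL σ * b' * (b'⁻¹ * rootGL (ix0 k hk) (ix1 k hk) (ix_ne k hk) c * b'⁻¹⁻¹) *
        (b * pGL σ * b')⁻¹ =
        b * (pGL σ * rootGL (ix0 k hk) (ix1 k hk) (ix_ne k hk) c * (pGL σ)⁻¹) * b⁻¹ := by group
    rw [e, pGL_conj_rootGL]
    exact radL_conj lab0 b hb _ (rootGL_mem_radL _ _ _ hσ c)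
  · have hσ' : σ (ix1 k hk) < σ (ix0 k hk) := by
      rcases lt_trichotomy (σ (ix0 k hk)) (σ (ix1 k hk)) with h | h | h
      · exact absurd h hσ
      · exact absurd (σ.injective h) (ix_ne k hk)
      · exact h
    refine ⟨b'⁻¹ * pGL (sw k hk), (parL _).mul_mem ((parL _).inv_mem (upper_le_parL_labk k hb'))
      (sw_mem k hk), ?_⟩
    rintro u ⟨c, rfl⟩
    have e : b * pGL σ * b' * (b'⁻¹ * pGL (sw k hk) * rootGL (ix0 k hk) (ix1 k hk) (ix_ne k hk) c *
        (b'⁻¹ * pGL (sw k hk))⁻¹) * (b * pGL σ * b')⁻¹ =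
        b * (pGL (σ * sw k hk) * rootGL (ix0 k hk) (ix1 k hk) (ix_ne k hk) c *
          (pGL (σ * sw k hk))⁻¹) * b⁻¹ := by
      rw [map_mul]; group
    rw [e, pGL_conj_rootGL]
    refine radL_conj lab0 b hb _ (rootGL_mem_radL _ _ _ ?_ c)
    show σ (sw k hk (ix0 k hk)) < σ (sw k hk (ix1 k hk))
    unfold sw
    rw [Equiv.swap_apply_left, Equiv.swap_apply_right]
    exact hσ'

theorem rootSub_le_radL (k : ℕ) (hk : k + 1 < n) :
    rootSub (F := F) (ix0 k hk) (ix1 k hk) (ix_ne k hk) ≤ radL (F := F) lab0 := by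
  rintro u ⟨c, rfl⟩
  exact rootGL_mem_radL _ _ _ (ix_lt k hk) c

theorem rootSub_le_Pk (k : ℕ) (hk : k + 1 < n) :
    rootSub (F := F) (ix0 k hk) (ix1 k hk) (ix_ne k hk) ≤ parL (F := F) (labk k) :=
  fun _ hu => upper_le_parL_labk k (radL_lab0_le_upper (rootSub_le_radL k hk hu))

/-- splitting off the root coordinate -/
theorem radL_split (k : ℕ) (hk : k + 1 < n) (u : GL (Fin n) F) (hu : u ∈ radL (F := F) lab0) :
    ∃ c : F, (rootGL (ix0 k hk) (ix1 k hk) (ix_ne k hk) c)⁻¹ * u ∈ radL (F := F) (labk k) := by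
  refine ⟨(u : Matrix (Fin n) (Fin n) F) (ix0 k hk) (ix1 k hk), ?_⟩
  set c := (u : Matrix (Fin n) (Fin n) F) (ix0 k hk) (ix1 k hk) with hc
  have hv0 : (rootGL (ix0 k hk) (ix1 k hk) (ix_ne k hk) c)⁻¹ * u ∈ radL (F := F) lab0 :=
    (radL lab0).mul_mem ((radL lab0).inv_mem (rootGL_mem_radL _ _ _ (ix_lt k hk) c)) hu
  rw [mem_radL_iff]
  intro a b hab
  rw [labk_le_iff] at hab
  rcases hab with hab | ⟨ha, hb⟩
  · exact (mem_radL_iff lab0 _).mp hv0 a b hab
  · have ha' : a = ix0 k hk := Fin.ext ha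
    have hb' : b = ix1 k hk := Fin.ext hb
    subst ha' hb'
    rw [rootGL_inv, Units.val_mul, rootGL_coe, Matrix.transvection, add_mul, one_mul,
      Matrix.add_apply, Matrix.single_mul_apply_same, Matrix.one_apply_ne (ix_ne k hk)]
    have h11 : (u : Matrix (Fin n) (Fin n) F) (ix1 k hk) (ix1 k hk) = 1 := by
      have := (mem_radL_iff lab0 u).mp hu (ix1 k hk) (ix1 k hk) le_rfl
      rwa [Matrix.one_apply_eq] at this
    rw [h11, ← hc]
    ring

theorem rootGL_mem_radL_labk (k : ℕ) (hk : k + 1 < n) (c : F)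
    (h : rootGL (ix0 k hk) (ix1 k hk) (ix_ne k hk) c ∈ radL (F := F) (labk k)) : c = 0 := by
  have h1 := (mem_radL_iff (labk k) _).mp h (ix0 k hk) (ix1 k hk)
    ((labk_le_iff k _ _).mpr (Or.inr ⟨rfl, rfl⟩))
  rw [rootGL_apply_ij, Matrix.one_apply_ne (ix_ne k hk)] at h1
  exact h1

/-- an element of `P_k` outside `B` has a nonzero `(k+1, k)` entry -/
theorem Pk_entry_ne (k : ℕ) (hk : k + 1 < n) (g : GL (Fin n) F) (hg : g ∈ parL (F := F) (labk k))
    (hgB : g ∉ upperTriangularGL n F) :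
    (g : Matrix (Fin n) (Fin n) F) (ix1 k hk) (ix0 k hk) ≠ 0 := by
  intro h0
  apply hgB
  intro a b hab
  have hab' : b.val < a.val := hab
  by_cases hc : a.val = k + 1 ∧ b.val = k
  · have ha' : a = ix1 k hk := Fin.ext hc.1
    have hb' : b = ix0 k hk := Fin.ext hc.2
    rw [ha', hb']
    exact h0
  · exact hg ((labk_lt_iff k a b).mpr ⟨hab', hc⟩)

/-- the decomposition `P_k = B ∪ U_k s B` -/
theorem Pk_decomp (k : ℕ) (hk : k + 1 < n) (g : GL (Fin n) F) (hg : g ∈ parL (F := F) (labk k))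
    (hgB : g ∉ upperTriangularGL n F) :
    ∃ c : F, ∃ b ∈ upperTriangularGL n F,
      g = rootGL (ix0 k hk) (ix1 k hk) (ix_ne k hk) c * pGL (sw k hk) * b := by
  have hne := Pk_entry_ne k hk g hg hgB
  set c := (g : Matrix (Fin n) (Fin n) F) (ix0 k hk) (ix0 k hk) /
    (g : Matrix (Fin n) (Fin n) F) (ix1 k hk) (ix0 k hk) with hc
  refine ⟨c, (pGL (sw k hk))⁻¹ * (rootGL (ix0 k hk) (ix1 k hk) (ix_ne k hk) c)⁻¹ * g, ?_, by group⟩
  have hmem : (pGL (sw k hk))⁻¹ * (rootGL (ix0 k hk) (ix1 k hk) (ix_ne k hk) c)⁻¹ * g ∈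
      parL (F := F) (labk k) :=
    (parL _).mul_mem ((parL _).mul_mem ((parL _).inv_mem (sw_mem k hk))
      ((parL _).inv_mem (rootSub_le_Pk k hk ⟨c, rfl⟩))) hg
  intro a b hab
  have hab' : b.val < a.val := hab
  by_cases hcase : a.val = k + 1 ∧ b.val = k
  · have ha' : a = ix1 k hk := Fin.ext hcase.1
    have hb' : b = ix0 k hk := Fin.ext hcase.2
    rw [ha', hb', rootGL_inv, ← map_inv, mul_assoc, Units.val_mul, pGL_coe, Matrix.mul_apply,
      Finset.sum_eq_single (ix0 k hk)]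
    · rw [pMat_apply, if_pos, one_mul, Units.val_mul, rootGL_coe, Matrix.transvection, add_mul,
        one_mul, Matrix.add_apply, Matrix.single_mul_apply_same, hc]
      · field_simp
        ring
      · unfold sw
        simp
    · intro j _ hj
      rw [pMat_apply, if_neg, zero_mul]
      intro h
      apply hj
      have h2 : j = sw k hk (ix1 k hk) := by rw [h]; simp
      rw [h2]
      unfold sw
      rw [Equiv.swap_apply_right]
    · intro h; exact absurd (Finset.mem_univ _) h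
  · exact hmem ((labk_lt_iff k a b).mpr ⟨hab', hcase⟩)

end MinPar

end Cfsg.Agent.Lib.Helper48
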