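import Mathlib
import Cfsg.Agent.Lib.Helper48.DZh

set_option autoImplicit false

namespace Cfsg.Agent.Lib.Helper48

open Cfsg
open scoped MatrixGroups

section MinPar2

variable {n : ℕ} {F : Type*} [Field F]

/-- the minimal parabolic subgroup -/
abbrev minPar (F : Type*) [Field F] (n k : ℕ) : Subgroup (GL (Fin n) F) := parL (labk k)

theorem card_Pk_le [Fintype F] (k : ℕ) (hk : k + 1 < n) [Finite (GL (Fin n) F)] :
    Nat.card ↥(minPar F n k) ≤ (Fintype.card F + 1) *
      Nat.card ↥((upperTriangularGL n F).subgroupOf (minPar F n k)) := by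
  classical
  let s : ↥(minPar F n k) := ⟨pGL (sw k hk), sw_mem k hk⟩
  let r : F → ↥(minPar F n k) := fun c =>
    ⟨rootGL (ix0 k hk) (ix1 k hk) (ix_ne k hk) c, rootSub_le_Pk k hk ⟨c, rfl⟩⟩
  let f : Option F × ↥((upperTriangularGL n F).subgroupOf (minPar F n k)) →
      ↥(minPar F n k) := fun x =>
    match x.1 with
    | none => (x.2 : ↥(minPar F n k))
    | some c => r c * s * (x.2 : ↥(minPar F n k))
  have hf : Function.Surjective f := by
    intro g
    by_cases hgB : (g : GL (Fin n) F) ∈ upperTriangularGL n F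
    · exact ⟨(none, ⟨g, hgB⟩), rfl⟩
    · obtain ⟨c, b, hb, hgeq⟩ := Pk_decomp k hk (g : GL (Fin n) F) g.2 hgB
      refine ⟨(some c, ⟨⟨b, upper_le_parL_labk k hb⟩, hb⟩), ?_⟩
      apply Subtype.ext
      exact hgeq.symm
  have h1 := Nat.card_le_card_of_surjective f hf
  rw [Nat.card_prod, Finite.card_option, Nat.card_eq_fintype_card (α := F)] at h1
  exact h1

theorem rankOne_Pk [Fintype F] (k : ℕ) (hk : k + 1 < n) [Fintype ↥(minPar F n k)] :
    RankOneData ((radL (F := F) (labk k)).subgroupOf (minPar F n k))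
      ((radL (F := F) lab0).subgroupOf (minPar F n k))
      ((upperTriangularGL n F).subgroupOf (minPar F n k))
      ((rootSub (F := F) (ix0 k hk) (ix1 k hk) (ix_ne k hk)).subgroupOf (minPar F n k))
      (Fintype.card F) := by
  classical
  haveI : Finite (GL (Fin n) F) := Finite.of_injective (fun g : GL (Fin n) F => (g : Matrix (Fin n) (Fin n) F))
    Units.val_injective
  refine
    { hQU := ?_, hUB := ?_, hUkU := ?_, hQn := ?_, hUn := ?_, hab := ?_, hsplit := ?_, hint := ?_,
      hcardk := ?_, hPB := ?_, hBP := ?_, hq := ?_, hpel := ?_ }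
  · intro x hx
    rw [Subgroup.mem_subgroupOf] at hx ⊢
    exact radL_labk_le k hx
  · intro x hx
    rw [Subgroup.mem_subgroupOf] at hx ⊢
    exact radL_lab0_le_upper hx
  · intro x hx
    rw [Subgroup.mem_subgroupOf] at hx ⊢
    exact rootSub_le_radL k hk hx
  · constructor
    intro x hx g
    rw [Subgroup.mem_subgroupOf] at hx ⊢
    rw [Subgroup.coe_mul, Subgroup.coe_mul, Subgroup.coe_inv]
    have h1 := radL_conj (F := F) (n := n) (labk k) (g : GL (Fin n) F) g.2 (x : GL (Fin n) F) hx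
    exact h1
  · intro b hb u hu
    rw [Subgroup.mem_subgroupOf] at hb hu ⊢
    rw [Subgroup.coe_mul, Subgroup.coe_mul, Subgroup.coe_inv]
    exact radL_conj (F := F) (n := n) lab0 (b : GL (Fin n) F) hb (u : GL (Fin n) F) hu
  · intro b hb b' hb'
    rw [Subgroup.mem_subgroupOf] at hb hb' ⊢
    rw [Subgroup.coe_mul, Subgroup.coe_mul, Subgroup.coe_mul, Subgroup.coe_inv, Subgroup.coe_inv]
    exact upper_comm_mem (b : GL (Fin n) F) (b' : GL (Fin n) F) hb hb'
  · intro u hu
    rw [Subgroup.mem_subgroupOf] at hu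
    obtain ⟨c, hc⟩ := radL_split k hk (u : GL (Fin n) F) hu
    let a : ↥(minPar F n k) :=
      ⟨rootGL (ix0 k hk) (ix1 k hk) (ix_ne k hk) c, rootSub_le_Pk k hk ⟨c, rfl⟩⟩
    let v : ↥(minPar F n k) := a⁻¹ * u
    have ha : a ∈ (rootSub (F := F) (ix0 k hk) (ix1 k hk) (ix_ne k hk)).subgroupOf (minPar F n k) := by
      rw [Subgroup.mem_subgroupOf]
      exact ⟨c, rfl⟩
    have hv : v ∈ (radL (F := F) (labk k)).subgroupOf (minPar F n k) := by
      rw [Subgroup.mem_subgroupOf]
      exact hc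
    have he : u = a * v := by
      show u = a * (a⁻¹ * u)
      rw [mul_inv_cancel_left]
    exact ⟨a, ha, v, hv, he⟩
  · intro a ha haQ
    rw [Subgroup.mem_subgroupOf] at ha haQ
    obtain ⟨c, hc⟩ := ha
    rw [hc] at haQ
    have := rootGL_mem_radL_labk k hk c haQ
    apply Subtype.ext
    rw [hc, this, rootGL_zero]
    rfl
  · rw [Nat.card_congr (Subgroup.subgroupOfEquivOfLe (rootSub_le_Pk k hk)).toEquiv, card_rootSub]
  · exact card_Pk_le k hk
  · intro h
    have h1 : (⟨pGL (sw k hk), sw_mem k hk⟩ : ↥(minPar F n k)) ∈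
        (upperTriangularGL n F).subgroupOf (minPar F n k) := by
      rw [h]; exact Subgroup.mem_top _
    rw [Subgroup.mem_subgroupOf] at h1
    exact sw_not_mem k hk h1
  · exact Fintype.one_lt_card
  · intro x u hu hw
    rw [Subgroup.mem_subgroupOf] at hu hw ⊢
    rw [Subgroup.coe_mul, Subgroup.coe_mul, Subgroup.coe_inv] at hw ⊢
    exact conj_mem_radL (u : GL (Fin n) F) hu (x : GL (Fin n) F) hw

end MinPar2

end Cfsg.Agent.Lib.Helper48
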