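import Mathlib
import Cfsg.Agent.Lib.Helper48.DZi
import Cfsg.Agent.Lib.Helper20.Clifford

set_option autoImplicit false

namespace Cfsg.Agent.Lib.Helper48

open Cfsg
open scoped MatrixGroups ComplexConjugate

section DZPar

variable {n : ℕ} {F : Type*} [Field F]

/-- the inner product on a subgroup in terms of `sSum` -/
theorem classInner_restrict_eq {G : Type*} [Group G] [Fintype G] (H : Subgroup G) [Fintype H]
    (f g : G → ℂ) :
    classInner (fun h : H => f h) (fun h : H => g h) =
      (Nat.card H : ℂ)⁻¹ * sSum H (fun x => f x * conj (g x)) := by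
  unfold classInner
  rw [sSum_eq_sum_coe]

/-- **Defect zero characters and minimal parabolics.**  An irreducible character of `GL_n(F)`
vanishing on the nonidentity unitriangular matrices has no fixed vectors under a minimal parabolic
subgroup, and its linear constituents on `B` are invariant under the minimal parabolics. -/
theorem dz_parabolic [Fintype F] [Fintype (GL (Fin n) F)] (ψ : GL (Fin n) F → ℂ)
    (hψ : IsIrrCharacter (GL (Fin n) F) ψ)
    (hψ0 : ∀ u ∈ radL (F := F) (n := n) lab0, u ≠ 1 → ψ u = 0) (k : ℕ) (hk : k + 1 < n) :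
    sSum (minPar F n k) ψ = 0 ∧
    ∀ τ : GL (Fin n) F → ℂ,
      IsIrrCharacter ↥(upperTriangularGL n F) (fun b : upperTriangularGL n F => τ b) →
      sSum (radL (F := F) (n := n) lab0) τ ≠ 0 →
      sSum (upperTriangularGL n F) (fun g => ψ g * conj (τ g)) ≠ 0 →
      ∀ x ∈ minPar F n k, ∀ b ∈ upperTriangularGL n F, x * b * x⁻¹ ∈ upperTriangularGL n F →
        τ (x * b * x⁻¹) = τ b := by
  classical
  letI : Fintype ↥(minPar F n k) := Fintype.ofFinite _
  letI : Fintype ↥((upperTriangularGL n F).subgroupOf (minPar F n k)) := Fintype.ofFinite _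
  have D := rankOne_Pk (F := F) k hk
  have hψc : IsCharacter _ ψ := Helper46.isCharacter_of_irr _ hψ
  have hψU : sSum (radL (F := F) (n := n) lab0) ψ ≠ 0 := by
    rw [sSum_of_vanish _ ψ hψ0, (Helper83.irr_degree hψ).2]
    exact Nat.cast_ne_zero.mpr (Helper83.irr_degree hψ).1.ne'
  have hUP : radL (F := F) (n := n) lab0 ≤ minPar F n k :=
    fun _ hu => upper_le_parL_labk k (radL_lab0_le_upper hu)
  have hBP : upperTriangularGL n F ≤ minPar F n k := upper_le_parL_labk k
  have hΨ : IsCharacter ↥(minPar F n k) (fun g : minPar F n k => ψ g) :=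
    Helper4.isCharacter_restrict _ ψ hψc
  have hΨ0 : ∀ u ∈ (radL (F := F) (n := n) lab0).subgroupOf (minPar F n k), u ≠ 1 →
      (fun g : minPar F n k => ψ g) u = 0 := by
    intro u hu hu1
    rw [Subgroup.mem_subgroupOf] at hu
    apply hψ0 _ hu
    intro h
    apply hu1
    exact Subtype.ext h
  have hNC : ∀ η : IrrCharacter ↥(minPar F n k),
      sSum ((rootSub (F := F) (ix0 k hk) (ix1 k hk) (ix_ne k hk)).subgroupOf (minPar F n k))
        (η : ↥(minPar F n k) → ℂ) = 0 →
      classInner (fun g : minPar F n k => ψ g) (η : ↥(minPar F n k) → ℂ) = 0 :=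
    fun η hη => nc_lemma (minPar F n k) (radL (F := F) (n := n) lab0)
      (rootSub (F := F) (ix0 k hk) (ix1 k hk) (ix_ne k hk)) (Pk_hconj k hk) (rootSub_le_Pk k hk)
      ψ hψ hψU η (Helper46.isCharacter_of_irr _ η.2) hη
  obtain ⟨h1, h2⟩ := D.main (fun g : minPar F n k => ψ g) hΨ hΨ0 hNC
  constructor
  · rw [classInner_one_right] at h1
    rw [sSum_eq_sum_coe]
    have hc : ((Nat.card ↥(minPar F n k) : ℂ))⁻¹ ≠ 0 :=
      inv_ne_zero (Nat.cast_ne_zero.mpr Nat.card_pos.ne')
    exact (mul_eq_zero.mp h1).resolve_left hc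
  · intro τ hτ hτU hin x hx b hb hxb
    have hirr : IsIrrCharacter ↥((upperTriangularGL n F).subgroupOf (minPar F n k))
        (fun b : ↥((upperTriangularGL n F).subgroupOf (minPar F n k)) =>
          (fun g : minPar F n k => τ g) b) :=
      Helper20.irr_comp_surjective (Subgroup.subgroupOfEquivOfLe hBP).toMonoidHom
        (Subgroup.subgroupOfEquivOfLe hBP).surjective hτ
    have hs : sSum ((radL (F := F) (n := n) lab0).subgroupOf (minPar F n k))
        (fun g : minPar F n k => τ g) ≠ 0 := by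
      rw [sSum_subgroupOf (minPar F n k) _ hUP τ]
      exact hτU
    have hi : classInner (fun b : ↥((upperTriangularGL n F).subgroupOf (minPar F n k)) =>
          (fun g : minPar F n k => ψ g) b)
        (fun b : ↥((upperTriangularGL n F).subgroupOf (minPar F n k)) =>
          (fun g : minPar F n k => τ g) b) ≠ 0 := by
      rw [classInner_restrict_eq ((upperTriangularGL n F).subgroupOf (minPar F n k))
        (fun g : minPar F n k => ψ g) (fun g : minPar F n k => τ g),
        sSum_subgroupOf (minPar F n k) _ hBP (fun g => ψ g * conj (τ g))]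
      exact mul_ne_zero (inv_ne_zero (Nat.cast_ne_zero.mpr Nat.card_pos.ne')) hin
    obtain ⟨η', hη', -, hη'B⟩ := h2 (fun g : minPar F n k => τ g) hirr hs hi
    have hcf : IsClassFunction ↥(minPar F n k) η' :=
      Helper4.isClassFunction_of_isCharacter η' (Helper46.isCharacter_of_irr _ hη')
    have e1 := hη'B ⟨b, hBP hb⟩ (by rw [Subgroup.mem_subgroupOf]; exact hb)
    have e2 := hη'B ⟨x * b * x⁻¹, hBP hxb⟩ (by rw [Subgroup.mem_subgroupOf]; exact hxb)
    have e3 := hcf ⟨b, hBP hb⟩ ⟨x, hx⟩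
    have e4 : (⟨x, hx⟩ : ↥(minPar F n k)) * ⟨b, hBP hb⟩ * (⟨x, hx⟩ : ↥(minPar F n k))⁻¹ =
        ⟨x * b * x⁻¹, hBP hxb⟩ := rfl
    rw [e4] at e3
    show τ (x * b * x⁻¹) = τ b
    have e2' : η' ⟨x * b * x⁻¹, hBP hxb⟩ = τ (x * b * x⁻¹) := e2
    have e1' : η' ⟨b, hBP hb⟩ = τ b := e1
    rw [← e2', ← e1', e3]

end DZPar

end Cfsg.Agent.Lib.Helper48
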