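import Mathlib
import Cfsg.Agent.Lib.Helper48.DZj

set_option autoImplicit false

namespace Cfsg.Agent.Lib.Helper48

open Cfsg
open scoped MatrixGroups ComplexConjugate

section Torus

variable {n : ℕ} {F : Type*} [Field F]

/-- diagonal matrices as a homomorphism from the torus -/
def dgHom : (Fin n → Fˣ) →* GL (Fin n) F where
  toFun t := ⟨Matrix.diagonal (fun i => (t i : F)), Matrix.diagonal (fun i => (((t i)⁻¹ : Fˣ) : F)),
    by rw [Matrix.diagonal_mul_diagonal, ← Matrix.diagonal_one]; congr 1; funext i; simp,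
    by rw [Matrix.diagonal_mul_diagonal, ← Matrix.diagonal_one]; congr 1; funext i; simp⟩
  map_one' := by
    apply Units.ext
    show Matrix.diagonal (fun i => (((1 : Fin n → Fˣ) i : Fˣ) : F)) = 1
    rw [← Matrix.diagonal_one]; congr 1
  map_mul' s t := by
    apply Units.ext
    show Matrix.diagonal (fun i => (((s * t) i : Fˣ) : F)) =
      Matrix.diagonal (fun i => (s i : F)) * Matrix.diagonal (fun i => (t i : F))
    rw [Matrix.diagonal_mul_diagonal]; congr 1

theorem dgHom_coe (t : Fin n → Fˣ) :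
    ((dgHom t : GL (Fin n) F) : Matrix (Fin n) (Fin n) F) = Matrix.diagonal (fun i => (t i : F)) := rfl

theorem dgHom_mem (t : Fin n → Fˣ) : dgHom t ∈ upperTriangularGL n F :=
  Matrix.blockTriangular_diagonal _

theorem dgHom_det (t : Fin n → Fˣ) : Matrix.GeneralLinearGroup.det (dgHom t) = ∏ i, t i := by
  apply Units.ext
  rw [Matrix.GeneralLinearGroup.val_det_apply, dgHom_coe, Matrix.det_diagonal, Units.coe_prod]

theorem pGL_conj_dgHom (σ : Equiv.Perm (Fin n)) (t : Fin n → Fˣ) :
    pGL σ * dgHom t * (pGL σ)⁻¹ = dgHom (fun i => t (σ⁻¹ i)) := by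
  apply Units.ext
  rw [Units.val_mul, Units.val_mul, ← map_inv, pGL_coe, pGL_coe, dgHom_coe, dgHom_coe]
  ext a b
  rw [Matrix.mul_apply, Finset.sum_eq_single (σ⁻¹ b)]
  · rw [Matrix.mul_diagonal, pMat_apply, pMat_apply, Matrix.diagonal_apply, if_pos rfl, mul_one]
    by_cases hab : a = b
    · subst hab
      rw [if_pos rfl, if_pos (by simp), one_mul]
    · rw [if_neg hab, if_neg (by simpa using hab), zero_mul]
  · intro l _ hl
    rw [pMat_apply (F := F) σ⁻¹, if_neg hl, mul_zero]
  · intro h; exact absurd (Finset.mem_univ _) h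

theorem upper_diag_ne_zero (b : GL (Fin n) F) (hb : b ∈ upperTriangularGL n F) (a : Fin n) :
    (b : Matrix (Fin n) (Fin n) F) a a ≠ 0 := by
  intro h
  have := upper_diag_inv b hb a
  rw [h, zero_mul] at this
  exact zero_ne_one this

/-- the diagonal part of an upper triangular matrix -/
def dgPart (b : GL (Fin n) F) (hb : b ∈ upperTriangularGL n F) : Fin n → Fˣ :=
  fun a => Units.mk0 _ (upper_diag_ne_zero b hb a)

theorem upper_decomp (b : GL (Fin n) F) (hb : b ∈ upperTriangularGL n F) :
    (dgHom (dgPart b hb))⁻¹ * b ∈ radL (F := F) lab0 := by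
  have hinv : (dgHom (dgPart b hb))⁻¹ ∈ upperTriangularGL n F :=
    (upperTriangularGL n F).inv_mem (dgHom_mem _)
  have hmem : (dgHom (dgPart b hb))⁻¹ * b ∈ upperTriangularGL n F :=
    (upperTriangularGL n F).mul_mem hinv hb
  rw [mem_radL_iff]
  intro a c hca
  rcases Nat.lt_or_ge c.val a.val with h | h
  · rw [hmem (show id c < id a from h), Matrix.one_apply_ne]
    intro h'; rw [h'] at h; exact lt_irrefl _ h
  · have hac : a = c := Fin.ext (le_antisymm h hca)
    subst hac
    rw [Matrix.one_apply_eq, Units.val_mul, upper_diag_mul _ _ hinv hb]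
    have h1 := upper_diag_inv (dgHom (dgPart b hb)) (dgHom_mem _) a
    rw [dgHom_coe, Matrix.diagonal_apply_eq] at h1
    rw [mul_comm]
    exact h1

/-- a linear character of the Borel subgroup trivial on the unitriangular group and invariant under
the simple reflections factors through the determinant -/
theorem tau_det (hn : 2 ≤ n) (f : ↥(upperTriangularGL n F) →* ℂˣ)
    (hU : ∀ u (hu : u ∈ radL (F := F) (n := n) lab0), f ⟨u, radL_lab0_le_upper hu⟩ = 1)
    (hinv : ∀ k (hk : k + 1 < n), ∀ b (hb : b ∈ upperTriangularGL n F)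
      (hxb : pGL (sw k hk) * b * (pGL (sw k hk))⁻¹ ∈ upperTriangularGL n F),
       f ⟨pGL (sw k hk) * b * (pGL (sw k hk))⁻¹, hxb⟩ = f ⟨b, hb⟩) :
    ∃ α : Fˣ →* ℂˣ, ∀ b (hb : b ∈ upperTriangularGL n F),
      f ⟨b, hb⟩ = α (Matrix.GeneralLinearGroup.det b) := by
  classical
  let g : (Fin n → Fˣ) →* ℂˣ := f.comp (dgHom.codRestrict (upperTriangularGL n F) dgHom_mem)
  have hg_def : ∀ t, g t = f ⟨dgHom t, dgHom_mem t⟩ := fun t => rfl
  let i0 : Fin n := ⟨0, by omega⟩
  let α : Fˣ →* ℂˣ := g.comp (MonoidHom.mulSingle (fun _ : Fin n => Fˣ) i0)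
  have hα_def : ∀ c, α c = g (Pi.mulSingle i0 c) := fun c => rfl
  have key : ∀ (m : ℕ) (hm : m < n) (c : Fˣ), g (Pi.mulSingle (⟨m, hm⟩ : Fin n) c) = α c := by
    intro m
    induction m with
    | zero => intro hm c; rfl
    | succ m ih =>
      intro hm c
      rw [← ih (by omega) c]
      have h2 : pGL (sw m hm) * dgHom (Pi.mulSingle (ix0 m hm) c) * (pGL (sw m hm))⁻¹ =
          dgHom (F := F) (Pi.mulSingle (ix1 m hm) c) := by
        rw [pGL_conj_dgHom]
        congr 1
        funext i
        rw [Pi.mulSingle_apply, Pi.mulSingle_apply]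
        by_cases hi : i = ix1 m hm
        · rw [if_pos hi, if_pos]
          rw [hi]
          unfold sw
          simp
        · rw [if_neg hi, if_neg]
          intro h
          apply hi
          have h3 : i = sw m hm (ix0 m hm) := by rw [← h]; simp
          rw [h3]
          unfold sw
          rw [Equiv.swap_apply_left]
      have h1 := hinv m hm (dgHom (Pi.mulSingle (ix0 m hm) c)) (dgHom_mem _)
        (by rw [h2]; exact dgHom_mem _)
      rw [hg_def, hg_def]
      refine Eq.trans ?_ h1
      congr 1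
      apply Subtype.ext
      exact h2.symm
  have hg : ∀ t : Fin n → Fˣ, g t = α (∏ i, t i) := by
    intro t
    conv_lhs => rw [← Finset.univ_prod_mulSingle t]
    rw [map_prod, map_prod]
    apply Finset.prod_congr rfl
    intro i _
    exact key i.val i.isLt (t i)
  refine ⟨α, fun b hb => ?_⟩
  have hu := upper_decomp b hb
  have e : (⟨b, hb⟩ : ↥(upperTriangularGL n F)) = ⟨dgHom (dgPart b hb), dgHom_mem _⟩ *
      ⟨(dgHom (dgPart b hb))⁻¹ * b, radL_lab0_le_upper hu⟩ := by
    apply Subtype.ext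
    show b = dgHom (dgPart b hb) * ((dgHom (dgPart b hb))⁻¹ * b)
    rw [mul_inv_cancel_left]
  rw [e, map_mul, hU _ hu, mul_one, ← hg_def, hg]
  congr 1
  apply Units.ext
  rw [Matrix.GeneralLinearGroup.val_det_apply, Matrix.det_of_isUpperTriangular hb, Units.coe_prod]
  rfl

end Torus

end Cfsg.Agent.Lib.Helper48
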