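import Mathlib
import Cfsg.Prelude.Def_Characters
import Cfsg.Prelude.Def_ParabolicCharacters
import Cfsg.Agent.Lib.Helper46.Ind
import Cfsg.Agent.Lib.Helper20.PermChar
import Cfsg.Agent.Lib.Helper17.PermMod3

set_option autoImplicit false

namespace Cfsg.Agent.Lib.Helper48

open Cfsg
open scoped ComplexConjugate

section DC

variable {G : Type*} [Group G]

/-- the double coset relation of a pair of subgroups -/
def dcSetoid (H K : Subgroup G) : Setoid G where
  r a b := ∃ h ∈ H, ∃ k ∈ K, b = h * a * k
  iseqv := ⟨fun a => ⟨1, H.one_mem, 1, K.one_mem, by simp⟩,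
    fun ⟨h, hh, k, hk, e⟩ => ⟨h⁻¹, H.inv_mem hh, k⁻¹, K.inv_mem hk, by rw [e]; group⟩,
    fun ⟨h, hh, k, hk, e⟩ ⟨h', hh', k', hk', e'⟩ =>
      ⟨h' * h, H.mul_mem hh' hh, k * k', K.mul_mem hk hk', by rw [e', e]; group⟩⟩

/-- the set of double cosets -/
abbrev DC (H K : Subgroup G) : Type _ := Quotient (dcSetoid H K)

theorem dc_eq_iff (H K : Subgroup G) (a b : G) :
    (Quotient.mk (dcSetoid H K) a = Quotient.mk (dcSetoid H K) b) ↔ ∃ h ∈ H, ∃ k ∈ K, b = h * a * k :=
  ⟨fun h => Quotient.exact h, fun h => Quotient.sound h⟩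

/-- left cosets of `K` to double cosets -/
def cosetToDC (H K : Subgroup G) : G ⧸ K → DC H K :=
  Quotient.lift (s := QuotientGroup.leftRel K) (fun x : G => Quotient.mk (dcSetoid H K) x) (by
    intro a b hab
    have hab' : a⁻¹ * b ∈ K := QuotientGroup.leftRel_apply.mp hab
    exact Quotient.sound ⟨1, H.one_mem, a⁻¹ * b, hab', by group⟩)

theorem cosetToDC_mk (H K : Subgroup G) (x : G) :
    cosetToDC H K (QuotientGroup.mk x) = Quotient.mk (dcSetoid H K) x := rfl

/-- orbits of `H` on the cosets of `K` to double cosets -/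
def orbToDC (H K : Subgroup G) : Quotient (MulAction.orbitRel H (G ⧸ K)) → DC H K :=
  Quotient.lift (s := MulAction.orbitRel H (G ⧸ K)) (cosetToDC H K) (by
    intro x y hxy
    obtain ⟨h, rfl⟩ := hxy
    induction y using QuotientGroup.induction_on with
    | H y =>
      show cosetToDC H K (QuotientGroup.mk ((h : G) * y)) = cosetToDC H K (QuotientGroup.mk y)
      rw [cosetToDC_mk, cosetToDC_mk]
      exact Quotient.sound ⟨(h : G)⁻¹, H.inv_mem h.2, 1, K.one_mem, by group⟩)

theorem orbToDC_bijective (H K : Subgroup G) : Function.Bijective (orbToDC H K) := by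
  constructor
  · intro x y hxy
    induction x using Quotient.inductionOn with
    | _ x =>
    induction y using Quotient.inductionOn with
    | _ y =>
    induction x using QuotientGroup.induction_on with
    | H x =>
    induction y using QuotientGroup.induction_on with
    | H y =>
    have h1 : Quotient.mk (dcSetoid H K) x = Quotient.mk (dcSetoid H K) y := hxy
    obtain ⟨h, hh, k, hk, e⟩ := (dc_eq_iff H K x y).mp h1
    apply Quotient.sound
    show (QuotientGroup.mk x : G ⧸ K) ∈ MulAction.orbit H (QuotientGroup.mk y : G ⧸ K)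
    refine ⟨⟨h⁻¹, H.inv_mem hh⟩, ?_⟩
    show (QuotientGroup.mk (h⁻¹ * y) : G ⧸ K) = QuotientGroup.mk x
    rw [QuotientGroup.eq, e]
    have : (h⁻¹ * (h * x * k))⁻¹ * x = k⁻¹ := by group
    rw [this]
    exact K.inv_mem hk
  · intro q
    induction q using Quotient.inductionOn with
    | _ g =>
    exact ⟨Quotient.mk _ (QuotientGroup.mk g), rfl⟩

theorem card_orbits_eq_card_dc (H K : Subgroup G) :
    Nat.card (Quotient (MulAction.orbitRel H (G ⧸ K))) = Nat.card (DC H K) :=
  Nat.card_congr (Equiv.ofBijective _ (orbToDC_bijective H K))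

variable [Fintype G]

theorem fixedPointCharacter_eq_indFun (H : Subgroup G) :
    fixedPointCharacter H = indFun H (fun _ => 1) := by
  funext x
  rw [Helper20.indFun_one_eq_permChar]
  rfl

theorem isClassFunction_fixedPointCharacter (H : Subgroup G) :
    IsClassFunction G (fixedPointCharacter H) := by
  classical
  let _ : Fintype (G ⧸ H) := Fintype.ofFinite _
  exact Helper17.permChar_isClassFunction (G := G) (Ω := G ⧸ H)

/-- The inner product of two permutation characters on cosets is the number of double cosets. -/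
theorem classInner_fixedPointCharacter (H K : Subgroup G) :
    classInner (fixedPointCharacter H) (fixedPointCharacter K) = (Nat.card (DC H K) : ℂ) := by
  classical
  let _ : Fintype H := Fintype.ofFinite _
  let _ : Fintype (G ⧸ K) := Fintype.ofFinite _
  let _ : Fintype (Quotient (MulAction.orbitRel H (G ⧸ K))) := Fintype.ofFinite _
  rw [fixedPointCharacter_eq_indFun H, Helper46.frobenius H _ _ (isClassFunction_fixedPointCharacter K)]
  have hB := MulAction.sum_card_fixedBy_eq_card_orbits_mul_card_group H (G ⧸ K)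
  rw [← card_orbits_eq_card_dc H K]
  unfold classInner
  have h1 : ∀ h : H, (1 : ℂ) * conj (fixedPointCharacter K (h : G)) =
      (Fintype.card (MulAction.fixedBy (G ⧸ K) h) : ℂ) := by
    intro h
    rw [one_mul]
    unfold fixedPointCharacter
    rw [Complex.conj_natCast, Nat.card_eq_fintype_card]
    rfl
  rw [Finset.sum_congr rfl (fun h _ => h1 h), ← Nat.cast_sum, hB, Nat.card_eq_fintype_card,
    Nat.card_eq_fintype_card]
  push_cast
  have hH : (Fintype.card H : ℂ) ≠ 0 := Nat.cast_ne_zero.mpr Fintype.card_ne_zero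
  field_simp

end DC

end Cfsg.Agent.Lib.Helper48
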