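import Mathlib
import Cfsg.Prelude.Def_LinearParabolics
import Cfsg.Agent.Lib.Helper48.GLnA
import Cfsg.Agent.Lib.Helper48.GLnB

set_option autoImplicit false

namespace Cfsg.Agent.Lib.Helper48

open Cfsg
open scoped MatrixGroups

section Labels

variable {n : ℕ}

theorem compLabel_mono (a : Fin n → ℕ) : Monotone (compLabel a) := by
  intro i j hij
  unfold compLabel
  apply Finset.card_le_card
  intro l hl
  simp only [Finset.mem_filter, Finset.mem_univ, true_and] at hl ⊢
  exact le_trans hl hij

theorem upper_le_parabolic (F : Type*) [Field F] (a : Fin n → ℕ) :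
    upperTriangularGL n F ≤ parabolicGL n F a := by
  intro b hb i j hij
  apply hb
  show j < i
  by_contra h
  exact absurd hij (not_lt.mpr (compLabel_mono a (not_lt.mp h)))

theorem pGL_mem_parabolic (F : Type*) [Field F] (a : Fin n → ℕ) {ρ : Equiv.Perm (Fin n)}
    (hρ : ρ ∈ youngSubgroup a) : (pGL ρ : GL (Fin n) F) ∈ parabolicGL n F a := by
  intro i j hij
  show (pMat ρ : Matrix (Fin n) (Fin n) F) i j = 0
  rw [pMat_apply, if_neg]
  rintro rfl
  rw [hρ j] at hij
  exact lt_irrefl _ hij

end Labels

section Rank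

variable {n : ℕ} {F : Type*} [Field F] (a b : Fin n → ℕ)

/-- mask of the rows whose label is at least `s` -/
def rowMask (s : ℕ) : Fin n → F := fun i => if s ≤ compLabel a i then 1 else 0

/-- mask of the columns whose label is less than `t` -/
def colMask (t : ℕ) : Fin n → F := fun j => if compLabel b j < t then 1 else 0

theorem rowMask_mul (s : ℕ) (p : Matrix (Fin n) (Fin n) F) (hp : p.BlockTriangular (compLabel a)) :
    Matrix.diagonal (rowMask a s) * p =
      Matrix.diagonal (rowMask a s) * p * Matrix.diagonal (rowMask a s) := by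
  ext i j
  rw [Matrix.mul_diagonal, Matrix.diagonal_mul]
  unfold rowMask
  by_cases h1 : s ≤ compLabel a i
  · by_cases h2 : s ≤ compLabel a j
    · simp [h1, h2]
    · have : p i j = 0 := hp (by omega)
      simp [h1, h2, this]
  · simp [h1]

theorem mul_colMask (t : ℕ) (p : Matrix (Fin n) (Fin n) F) (hp : p.BlockTriangular (compLabel b)) :
    p * Matrix.diagonal (colMask b t) =
      Matrix.diagonal (colMask b t) * p * Matrix.diagonal (colMask b t) := by
  ext i j
  rw [Matrix.mul_diagonal, Matrix.mul_diagonal, Matrix.diagonal_mul]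
  unfold colMask
  by_cases h1 : compLabel b j < t
  · by_cases h2 : compLabel b i < t
    · simp [h1, h2]
    · have : p i j = 0 := hp (by omega)
      simp [h1, h2, this]
  · simp [h1]

/-- the rank of the masked matrix -/
noncomputable def mrank (s t : ℕ) (g : Matrix (Fin n) (Fin n) F) : ℕ :=
  (Matrix.diagonal (rowMask a s) * g * Matrix.diagonal (colMask b t)).rank

theorem mrank_le (s t : ℕ) (p g p' : Matrix (Fin n) (Fin n) F)
    (hp : p.BlockTriangular (compLabel a)) (hp' : p'.BlockTriangular (compLabel b)) :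
    mrank a b s t (p * g * p') ≤ mrank a b s t g := by
  unfold mrank
  have e1 := rowMask_mul a s p hp
  have e2 := mul_colMask b t p' hp'
  have : Matrix.diagonal (rowMask a s) * (p * g * p') * Matrix.diagonal (colMask b t) =
      (Matrix.diagonal (rowMask a s) * p) *
        (Matrix.diagonal (rowMask a s) * g * Matrix.diagonal (colMask b t)) *
        (p' * Matrix.diagonal (colMask b t)) := by
    have e3 : Matrix.diagonal (rowMask a s) * (p * g * p') * Matrix.diagonal (colMask b t) =
        (Matrix.diagonal (rowMask a s) * p) * g * (p' * Matrix.diagonal (colMask b t)) := by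
      simp only [Matrix.mul_assoc]
    rw [e3]
    conv_lhs => rw [e1, e2]
    simp only [Matrix.mul_assoc]
  rw [this]
  exact le_trans (Matrix.rank_mul_le_left _ _) (Matrix.rank_mul_le_right _ _)

theorem mrank_eq (s t : ℕ) (p p' g : GL (Fin n) F) (hp : p ∈ parabolicGL n F a)
    (hp' : p' ∈ parabolicGL n F b) :
    mrank a b s t ((p * g * p' : GL (Fin n) F) : Matrix (Fin n) (Fin n) F) =
      mrank a b s t (g : Matrix (Fin n) (Fin n) F) := by
  apply le_antisymm
  · rw [Matrix.GeneralLinearGroup.coe_mul, Matrix.GeneralLinearGroup.coe_mul]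
    exact mrank_le a b s t _ _ _ hp hp'
  · have e : g = p⁻¹ * (p * g * p') * p'⁻¹ := by group
    conv_lhs => rw [e]
    rw [Matrix.GeneralLinearGroup.coe_mul, Matrix.GeneralLinearGroup.coe_mul]
    exact mrank_le a b s t _ _ _ ((parabolicGL n F a).inv_mem hp) ((parabolicGL n F b).inv_mem hp')

/-- the count attached to a permutation and thresholds `s`, `t` -/
def cnt (σ : Equiv.Perm (Fin n)) (s t : ℕ) : ℕ :=
  (Finset.univ.filter fun j : Fin n => s ≤ compLabel a (σ j) ∧ compLabel b j < t).card

/-- the table of a permutation -/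
def tab (σ : Equiv.Perm (Fin n)) (m m' : ℕ) : ℕ :=
  (Finset.univ.filter fun j : Fin n => compLabel a (σ j) = m ∧ compLabel b j = m').card

theorem mrank_pMat (s t : ℕ) (σ : Equiv.Perm (Fin n)) :
    mrank a b s t (pMat σ : Matrix (Fin n) (Fin n) F) = cnt a b σ s t := by
  classical
  unfold mrank cnt
  have h1 : Matrix.diagonal (rowMask a s) * pMat σ * Matrix.diagonal (colMask b t) =
      pMat σ * Matrix.diagonal
        (fun j : Fin n => if s ≤ compLabel a (σ j) ∧ compLabel b j < t then (1 : F) else 0) := by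
    ext i j
    rw [Matrix.mul_diagonal, Matrix.mul_diagonal, Matrix.diagonal_mul, pMat_apply]
    unfold rowMask colMask
    by_cases h : i = σ j
    · subst h
      by_cases h1 : s ≤ compLabel a (σ j) <;> by_cases h2 : compLabel b j < t <;> simp [h1, h2]
    · simp [h]
  have hu : IsUnit (pMat σ : Matrix (Fin n) (Fin n) F).det := Matrix.isUnits_det_units (pGL σ)
  rw [h1, Matrix.rank_mul_eq_right_of_isUnit_det _ _ hu,
    Matrix.rank_diagonal, Fintype.card_subtype]
  congr 1
  apply Finset.filter_congr
  intro j _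
  by_cases h : s ≤ compLabel a (σ j) ∧ compLabel b j < t
  · simp [h]
  · simp [h]

theorem tab_eq (σ : Equiv.Perm (Fin n)) (m m' : ℕ) :
    tab a b σ m m' + cnt a b σ (m + 1) (m' + 1) + cnt a b σ m m' =
      cnt a b σ m (m' + 1) + cnt a b σ (m + 1) m' := by
  unfold tab cnt
  simp only [Finset.card_filter]
  rw [← Finset.sum_add_distrib, ← Finset.sum_add_distrib, ← Finset.sum_add_distrib]
  apply Finset.sum_congr rfl
  intro j _
  split_ifs <;> omega

theorem young_of_tab_eq (σ τ : Equiv.Perm (Fin n))
    (h : ∀ m m', tab a b σ m m' = tab a b τ m m') :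
    ∃ ρ ∈ youngSubgroup a, ∃ ρ' ∈ youngSubgroup b, τ = ρ * σ * ρ' := by
  classical
  let f : Equiv.Perm (Fin n) → Fin n → ℕ × ℕ := fun σ j => (compLabel a (σ j), compLabel b j)
  have hcard : ∀ c : ℕ × ℕ, Fintype.card {j // f τ j = c} = Fintype.card {j // f σ j = c} := by
    intro c
    rw [Fintype.card_subtype, Fintype.card_subtype]
    have := h c.1 c.2
    unfold tab at this
    rw [show (Finset.univ.filter fun j => f τ j = c) =
      Finset.univ.filter fun j : Fin n => compLabel a (τ j) = c.1 ∧ compLabel b j = c.2 from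
      Finset.filter_congr (fun j _ => by simp [f, Prod.ext_iff]),
      show (Finset.univ.filter fun j => f σ j = c) =
      Finset.univ.filter fun j : Fin n => compLabel a (σ j) = c.1 ∧ compLabel b j = c.2 from
      Finset.filter_congr (fun j _ => by simp [f, Prod.ext_iff])]
    exact this.symm
  let e : ∀ c, {j // f τ j = c} ≃ {j // f σ j = c} := fun c => Fintype.equivOfCardEq (hcard c)
  let ρ' : Equiv.Perm (Fin n) := Equiv.ofFiberEquiv e
  have hρ' : ∀ j, f σ (ρ' j) = f τ j := fun j => Equiv.ofFiberEquiv_map e j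
  refine ⟨τ * ρ'⁻¹ * σ⁻¹, ?_, ρ', ?_, by group⟩
  · intro i
    have h1 := congrArg Prod.fst (hρ' (ρ'⁻¹ (σ⁻¹ i)))
    have h2 : compLabel a (σ (ρ' (ρ'⁻¹ (σ⁻¹ i)))) = compLabel a (τ (ρ'⁻¹ (σ⁻¹ i))) := h1
    have h3 : σ (ρ' (ρ'⁻¹ (σ⁻¹ i))) = i := by simp
    rw [h3] at h2
    exact h2.symm
  · intro j
    exact congrArg Prod.snd (hρ' j)

theorem young_of_parabolic (σ τ : Equiv.Perm (Fin n)) (p p' : GL (Fin n) F)
    (hp : p ∈ parabolicGL n F a) (hp' : p' ∈ parabolicGL n F b)
    (h : (pGL τ : GL (Fin n) F) = p * pGL σ * p') :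
    ∃ ρ ∈ youngSubgroup a, ∃ ρ' ∈ youngSubgroup b, τ = ρ * σ * ρ' := by
  have hc : ∀ s t, cnt a b τ s t = cnt a b σ s t := by
    intro s t
    rw [← mrank_pMat (F := F) a b s t τ, ← mrank_pMat (F := F) a b s t σ, ← pGL_coe, ← pGL_coe, h]
    exact mrank_eq a b s t p p' (pGL σ) hp hp'
  apply young_of_tab_eq
  intro m m'
  have h1 := tab_eq a b σ m m'
  have h2 := tab_eq a b τ m m'
  rw [hc, hc, hc, hc] at h2
  omega

end Rank

section Bij

variable {n : ℕ} (F : Type*) [Field F] (a b : Fin n → ℕ)

/-- the map from double cosets of Young subgroups to double cosets of parabolic subgroups -/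
def dcMap : DC (youngSubgroup a) (youngSubgroup b) → DC (parabolicGL n F a) (parabolicGL n F b) :=
  Quotient.map (sa := dcSetoid (youngSubgroup a) (youngSubgroup b))
    (sb := dcSetoid (parabolicGL n F a) (parabolicGL n F b)) (fun σ => (pGL σ : GL (Fin n) F)) (by
    rintro σ τ ⟨ρ, hρ, ρ', hρ', e⟩
    exact ⟨pGL ρ, pGL_mem_parabolic F a hρ, pGL ρ', pGL_mem_parabolic F b hρ', by
      rw [e, map_mul, map_mul]⟩)

theorem dcMap_bijective : Function.Bijective (dcMap F a b) := by
  constructor
  · intro x y hxy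
    induction x using Quotient.inductionOn with
    | _ σ =>
    induction y using Quotient.inductionOn with
    | _ τ =>
    have h1 : Quotient.mk (dcSetoid (parabolicGL n F a) (parabolicGL n F b)) (pGL σ : GL (Fin n) F) =
        Quotient.mk (dcSetoid (parabolicGL n F a) (parabolicGL n F b)) (pGL τ : GL (Fin n) F) := hxy
    obtain ⟨p, hp, p', hp', e⟩ := (dc_eq_iff _ _ _ _).mp h1
    exact Quotient.sound (young_of_parabolic a b σ τ p p' hp hp' e)
  · intro q
    induction q using Quotient.inductionOn with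
    | _ g =>
    obtain ⟨u, hu, u', hu', σ, e⟩ := bruhat g
    refine ⟨Quotient.mk _ σ, ?_⟩
    show Quotient.mk (dcSetoid (parabolicGL n F a) (parabolicGL n F b)) (pGL σ : GL (Fin n) F) =
        Quotient.mk (dcSetoid (parabolicGL n F a) (parabolicGL n F b)) g
    exact Quotient.sound ⟨u, upper_le_parabolic F a hu, u', upper_le_parabolic F b hu', e⟩

theorem card_dc_parabolic :
    Nat.card (DC (parabolicGL n F a) (parabolicGL n F b)) =
      Nat.card (DC (youngSubgroup a) (youngSubgroup b)) :=
  (Nat.card_congr (Equiv.ofBijective _ (dcMap_bijective F a b))).symm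

end Bij

end Cfsg.Agent.Lib.Helper48
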