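import Mathlib
import Cfsg.Prelude.Def_LinearParabolics
import Cfsg.Agent.Lib.Helper48.GLnC
import Cfsg.Agent.S2420

set_option autoImplicit false

namespace Cfsg.Agent.Lib.Helper48

open Cfsg
open scoped MatrixGroups

section General

/-- the number of classes of an equivalence relation separated by a function -/
theorem card_quotient_eq_card_image {α β : Type*} [Fintype α] [DecidableEq β] (s : Setoid α)
    (f : α → β) (h : ∀ x y, s.r x y ↔ f x = f y) :
    Nat.card (Quotient s) = (Finset.univ.image f).card := by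
  classical
  let F : Quotient s → {y // y ∈ Finset.univ.image f} := fun q =>
    ⟨Quotient.lift f (fun x y hxy => (h x y).mp hxy) q, by
      induction q using Quotient.inductionOn with
      | _ x => exact Finset.mem_image_of_mem f (Finset.mem_univ x)⟩
  have hF : Function.Bijective F := by
    constructor
    · intro q q' hq
      induction q using Quotient.inductionOn with
      | _ x =>
      induction q' using Quotient.inductionOn with
      | _ y =>
      have : f x = f y := congrArg Subtype.val hq
      exact Quotient.sound ((h x y).mpr this)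
    · rintro ⟨y, hy⟩
      obtain ⟨x, -, rfl⟩ := Finset.mem_image.mp hy
      exact ⟨Quotient.mk s x, rfl⟩
  rw [Nat.card_congr (Equiv.ofBijective F hF), Nat.card_eq_fintype_card, Fintype.card_coe]

theorem card_filter_perm {α : Type*} [Fintype α] [DecidableEq α] (e : Equiv.Perm α) (p : α → Prop)
    [DecidablePred p] :
    (Finset.univ.filter fun x => p (e x)).card = (Finset.univ.filter p).card := by
  rw [← Fintype.card_subtype, ← Fintype.card_subtype]
  exact Fintype.card_congr (e.subtypeEquiv (fun x => Iff.rfl))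

theorem card_sigma_subtype {ι : Type*} [Fintype ι] (w : ι → ℕ) (P : ι → Prop) [DecidablePred P] :
    Fintype.card {t : (Σ p : ι, Fin (w p)) // P t.1} = ∑ p, if P p then w p else 0 := by
  classical
  rw [Fintype.card_subtype, Finset.card_filter, Fintype.sum_sigma]
  apply Finset.sum_congr rfl
  intro p _
  by_cases h : P p
  · simp [h]
  · simp [h]

end General

section Tables

variable {n : ℕ}

/-- the tables with prescribed row sums `b` (first index) and column sums `a` (second index) -/
def tables (a b : Fin n → ℕ) : Finset (Fin n → Fin n → ℕ) :=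
  (Fintype.piFinset fun j : Fin n => Finset.piAntidiag (Finset.univ : Finset (Fin n)) (b j)).filter
    fun f => ∀ i, ∑ j, f j i = a i

theorem mem_tables (a b : Fin n → ℕ) (f : Fin n → Fin n → ℕ) :
    f ∈ tables a b ↔ (∀ j, ∑ i, f j i = b j) ∧ (∀ i, ∑ j, f j i = a i) := by
  unfold tables
  simp [Fintype.mem_piFinset, Finset.mem_piAntidiag]

theorem label_lt (a : Fin n → ℕ) (ha : ∑ i, a i = n) (x : Fin n) : compLabel a x < n :=
  (Cfsg.Agent.S2420.label_spec a ha x).2.2

/-- the label as an element of `Fin n` -/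
def lab (a : Fin n → ℕ) (ha : ∑ i, a i = n) : Fin n → Fin n := fun x => ⟨compLabel a x, label_lt a ha x⟩

theorem lab_eq_iff (a : Fin n → ℕ) (ha : ∑ i, a i = n) (x m : Fin n) :
    lab a ha x = m ↔ compLabel a x = m.val := by
  unfold lab
  rw [Fin.ext_iff]

theorem card_lab_fiber (a : Fin n → ℕ) (ha : ∑ i, a i = n) (m : Fin n) :
    (Finset.univ.filter fun x => lab a ha x = m).card = a m := by
  have hS : Cfsg.Agent.S2420.S a (m.val + 1) = Cfsg.Agent.S2420.S a m.val + a m :=
    Cfsg.Agent.S2420.S_succ a m.val m.isLt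
  have hle : Cfsg.Agent.S2420.S a (m.val + 1) ≤ n := Cfsg.Agent.S2420.S_le a ha _
  have h1 : (Finset.univ.filter fun x => lab a ha x = m) =
      Finset.univ.filter fun x : Fin n => Cfsg.Agent.S2420.S a m.val ≤ x.val ∧
        x.val < Cfsg.Agent.S2420.S a m.val + a m := by
    apply Finset.filter_congr
    intro x _
    rw [lab_eq_iff, ← hS]
    constructor
    · intro h
      have := Cfsg.Agent.S2420.label_spec a ha x
      rw [h] at this
      exact ⟨this.1, this.2.1⟩
    · intro h
      exact Cfsg.Agent.S2420.label_of_mem a ha m.val x h.1 h.2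
  rw [h1, ← Finset.card_map Fin.valEmbedding]
  have h2 : (Finset.univ.filter fun x : Fin n => Cfsg.Agent.S2420.S a m.val ≤ x.val ∧
        x.val < Cfsg.Agent.S2420.S a m.val + a m).map Fin.valEmbedding =
      Finset.Ico (Cfsg.Agent.S2420.S a m.val) (Cfsg.Agent.S2420.S a m.val + a m) := by
    ext y
    simp only [Finset.mem_map, Finset.mem_filter, Finset.mem_univ, true_and, Fin.valEmbedding_apply,
      Finset.mem_Ico]
    constructor
    · rintro ⟨x, ⟨h1, h2⟩, rfl⟩
      exact ⟨h1, h2⟩
    · rintro ⟨h1, h2⟩
      exact ⟨⟨y, by omega⟩, ⟨h1, h2⟩, rfl⟩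
  rw [h2, Nat.card_Ico]
  omega

variable (a b : Fin n → ℕ)

/-- the table of a permutation as a function on `Fin n × Fin n` -/
def tabf (σ : Equiv.Perm (Fin n)) : Fin n → Fin n → ℕ := fun j i => tab a b σ i.val j.val

theorem tab_lab (ha : ∑ i, a i = n) (hb : ∑ i, b i = n) (σ : Equiv.Perm (Fin n)) (i j : Fin n) :
    tab a b σ i.val j.val =
      (Finset.univ.filter fun x => lab a ha (σ x) = i ∧ lab b hb x = j).card := by
  unfold tab
  congr 1
  apply Finset.filter_congr
  intro x _
  rw [lab_eq_iff, lab_eq_iff]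

theorem tabf_mem (ha : ∑ i, a i = n) (hb : ∑ i, b i = n) (σ : Equiv.Perm (Fin n)) :
    tabf a b σ ∈ tables a b := by
  classical
  rw [mem_tables]
  constructor
  · intro j
    unfold tabf
    simp only [tab_lab a b ha hb]
    rw [← card_lab_fiber b hb j]
    rw [Finset.card_eq_sum_card_fiberwise (f := fun x => lab a ha (σ x)) (t := Finset.univ)
      (fun x _ => Finset.mem_univ _)]
    apply Finset.sum_congr rfl
    intro i _
    congr 1
    rw [Finset.filter_filter]
    apply Finset.filter_congr
    intro x _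
    exact and_comm
  · intro i
    unfold tabf
    simp only [tab_lab a b ha hb]
    rw [← card_lab_fiber a ha i, ← card_filter_perm σ (fun y => lab a ha y = i)]
    rw [Finset.card_eq_sum_card_fiberwise (f := fun x => lab b hb x) (t := Finset.univ)
      (fun x _ => Finset.mem_univ _)]
    apply Finset.sum_congr rfl
    intro j _
    congr 1
    rw [Finset.filter_filter]

theorem tab_of_young (σ τ : Equiv.Perm (Fin n))
    (h : ∃ ρ ∈ youngSubgroup a, ∃ ρ' ∈ youngSubgroup b, τ = ρ * σ * ρ') (m m' : ℕ) :
    tab a b τ m m' = tab a b σ m m' := by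
  classical
  obtain ⟨ρ, hρ, ρ', hρ', rfl⟩ := h
  unfold tab
  rw [← card_filter_perm ρ' (fun y => compLabel a (σ y) = m ∧ compLabel b y = m')]
  congr 1
  apply Finset.filter_congr
  intro x _
  have h1 : compLabel a ((ρ * σ * ρ') x) = compLabel a (σ (ρ' x)) := hρ (σ (ρ' x))
  have h2 : compLabel b (ρ' x) = compLabel b x := hρ' x
  rw [h1, h2]

theorem young_iff_tabf (ha : ∑ i, a i = n) (hb : ∑ i, b i = n) (σ τ : Equiv.Perm (Fin n)) :
    (∃ ρ ∈ youngSubgroup a, ∃ ρ' ∈ youngSubgroup b, τ = ρ * σ * ρ') ↔ tabf a b σ = tabf a b τ := by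
  classical
  constructor
  · intro h
    funext j i
    exact (tab_of_young a b σ τ h i.val j.val).symm
  · intro h
    apply young_of_tab_eq
    intro m m'
    by_cases hm : m < n ∧ m' < n
    · exact congrFun (congrFun h ⟨m', hm.2⟩) ⟨m, hm.1⟩
    · have hz : ∀ κ : Equiv.Perm (Fin n), tab a b κ m m' = 0 := by
        intro κ
        unfold tab
        rw [Finset.card_eq_zero, Finset.filter_eq_empty_iff]
        rintro x - ⟨h1, h2⟩
        have e1 := label_lt a ha (κ x)
        have e2 := label_lt b hb x
        exact hm ⟨by omega, by omega⟩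
      rw [hz, hz]

theorem exists_perm_of_table (ha : ∑ i, a i = n) (hb : ∑ i, b i = n) (f : Fin n → Fin n → ℕ)
    (hf : f ∈ tables a b) : ∃ σ : Equiv.Perm (Fin n), tabf a b σ = f := by
  classical
  rw [mem_tables] at hf
  obtain ⟨hfb, hfa⟩ := hf
  let w : Fin n × Fin n → ℕ := fun p => f p.2 p.1
  have cardb : ∀ j : Fin n, Fintype.card {t : (Σ p : Fin n × Fin n, Fin (w p)) // t.1.2 = j} =
      Fintype.card {x : Fin n // lab b hb x = j} := by
    intro j
    rw [card_sigma_subtype w (fun p => p.2 = j), Fintype.card_subtype, card_lab_fiber b hb j,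
      Fintype.sum_prod_type, ← hfb j]
    apply Finset.sum_congr rfl
    intro i _
    rw [Finset.sum_ite_eq' Finset.univ j, if_pos (Finset.mem_univ _)]
  have carda : ∀ i : Fin n, Fintype.card {t : (Σ p : Fin n × Fin n, Fin (w p)) // t.1.1 = i} =
      Fintype.card {x : Fin n // lab a ha x = i} := by
    intro i
    rw [card_sigma_subtype w (fun p => p.1 = i), Fintype.card_subtype, card_lab_fiber a ha i,
      Fintype.sum_prod_type, Finset.sum_comm, ← hfa i]
    apply Finset.sum_congr rfl
    intro j _
    rw [Finset.sum_ite_eq' Finset.univ i, if_pos (Finset.mem_univ _)]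
  let eb : (Σ p : Fin n × Fin n, Fin (w p)) ≃ Fin n :=
    Equiv.ofFiberEquiv (f := fun t => t.1.2) (g := lab b hb) (fun j => Fintype.equivOfCardEq (cardb j))
  let ea : (Σ p : Fin n × Fin n, Fin (w p)) ≃ Fin n :=
    Equiv.ofFiberEquiv (f := fun t => t.1.1) (g := lab a ha) (fun i => Fintype.equivOfCardEq (carda i))
  have heb : ∀ t, lab b hb (eb t) = t.1.2 := fun t => Equiv.ofFiberEquiv_map _ t
  have hea : ∀ t, lab a ha (ea t) = t.1.1 := fun t => Equiv.ofFiberEquiv_map _ t
  refine ⟨eb.symm.trans ea, ?_⟩
  funext j i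
  unfold tabf
  rw [tab_lab a b ha hb, ← Fintype.card_subtype]
  have e3 : {x : Fin n // lab a ha ((eb.symm.trans ea) x) = i ∧ lab b hb x = j} ≃
      {t : (Σ p : Fin n × Fin n, Fin (w p)) // t.1 = (i, j)} :=
    (eb.symm.subtypeEquiv (fun x => by
      have h1 : lab a ha ((eb.symm.trans ea) x) = (eb.symm x).1.1 := hea (eb.symm x)
      have h2 : lab b hb x = (eb.symm x).1.2 := by
        have := heb (eb.symm x)
        rwa [Equiv.apply_symm_apply] at this
      rw [h1, h2, Prod.ext_iff]))
  rw [Fintype.card_congr e3, card_sigma_subtype w (fun p => p = (i, j)),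
    Finset.sum_ite_eq' Finset.univ (i, j), if_pos (Finset.mem_univ _)]

/-- The number of double cosets of two Young subgroups is the number of tables. -/
theorem card_dc_young (ha : ∑ i, a i = n) (hb : ∑ i, b i = n) :
    Nat.card (DC (youngSubgroup a) (youngSubgroup b)) = (tables a b).card := by
  classical
  rw [card_quotient_eq_card_image (dcSetoid (youngSubgroup a) (youngSubgroup b)) (tabf a b)
    (fun σ τ => young_iff_tabf a b ha hb σ τ)]
  congr 1
  ext f
  constructor
  · intro hf
    obtain ⟨σ, -, rfl⟩ := Finset.mem_image.mp hf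
    exact tabf_mem a b ha hb σ
  · intro hf
    obtain ⟨σ, rfl⟩ := exists_perm_of_table a b ha hb f hf
    exact Finset.mem_image_of_mem _ (Finset.mem_univ σ)

end Tables

end Cfsg.Agent.Lib.Helper48
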