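import Mathlib

set_option autoImplicit false

namespace Cfsg.Agent.Lib.Helper48

open Finset

section JT

variable {n : ℕ}

/-- the geometric series in the variable `x_l` -/
noncomputable def geo (l : Fin n) : PowerSeries (MvPolynomial (Fin n) ℤ) :=
  PowerSeries.mk fun m => (MvPolynomial.X l : MvPolynomial (Fin n) ℤ) ^ m

/-- the linear factor `1 - x_l t` -/
noncomputable def lin (l : Fin n) : PowerSeries (MvPolynomial (Fin n) ℤ) :=
  1 - PowerSeries.C (MvPolynomial.X l : MvPolynomial (Fin n) ℤ) * PowerSeries.X

theorem geo_mul_lin (l : Fin n) : geo l * lin l = 1 := by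
  ext m
  unfold geo lin
  rw [mul_sub, mul_one, map_sub, PowerSeries.coeff_mk, ← mul_assoc, PowerSeries.coeff_one]
  cases m with
  | zero =>
    rw [PowerSeries.coeff_zero_mul_X, sub_zero, pow_zero, if_pos rfl]
  | succ m =>
    rw [PowerSeries.coeff_succ_mul_X, PowerSeries.coeff_mul_C, PowerSeries.coeff_mk,
      if_neg (Nat.succ_ne_zero m), pow_succ, sub_self]

/-- the generating series of the complete homogeneous polynomials -/
noncomputable def Hs : PowerSeries (MvPolynomial (Fin n) ℤ) := ∏ l : Fin n, geo l

/-- the complete homogeneous polynomial of degree `m` -/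
noncomputable def hh (m : ℕ) : MvPolynomial (Fin n) ℤ := PowerSeries.coeff m (Hs (n := n))

/-- the product of the linear factors other than the `i`-th -/
noncomputable def Es (i : Fin n) : PowerSeries (MvPolynomial (Fin n) ℤ) :=
  ∏ l ∈ Finset.univ.erase i, lin l

/-- its coefficients -/
noncomputable def cc (k : ℕ) (i : Fin n) : MvPolynomial (Fin n) ℤ := PowerSeries.coeff k (Es i)

theorem Hs_mul_Es (i : Fin n) : Hs * Es i = geo i := by
  unfold Hs Es
  rw [← Finset.mul_prod_erase Finset.univ geo (Finset.mem_univ i), mul_assoc, ← Finset.prod_mul_distrib,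
    Finset.prod_congr rfl (fun l _ => geo_mul_lin l), Finset.prod_const_one, mul_one]

theorem hh_zero : hh (n := n) 0 = 1 := by
  unfold hh Hs
  rw [PowerSeries.coeff_zero_eq_constantCoeff, map_prod]
  apply Finset.prod_eq_one
  intro l _
  unfold geo
  rw [← PowerSeries.coeff_zero_eq_constantCoeff_apply, PowerSeries.coeff_mk, pow_zero]

/-- the polynomial version of the linear factor -/
noncomputable def linP (l : Fin n) : Polynomial (MvPolynomial (Fin n) ℤ) :=
  1 - Polynomial.C (MvPolynomial.X l : MvPolynomial (Fin n) ℤ) * Polynomial.X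

theorem linP_coe (l : Fin n) : ((linP l : Polynomial (MvPolynomial (Fin n) ℤ)) : PowerSeries _) = lin l := by
  unfold linP lin
  rw [Polynomial.coe_sub, Polynomial.coe_one, Polynomial.coe_mul, Polynomial.coe_C, Polynomial.coe_X]

theorem linP_natDegree (l : Fin n) : (linP l).natDegree ≤ 1 := by
  unfold linP
  refine le_trans (Polynomial.natDegree_sub_le _ _) ?_
  rw [Polynomial.natDegree_one]
  refine max_le (Nat.zero_le _) ?_
  exact le_trans (Polynomial.natDegree_C_mul_le _ _) Polynomial.natDegree_X_le

theorem cc_eq_zero (k : ℕ) (i : Fin n) (hk : n ≤ k) : cc k i = 0 := by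
  have h1 : Es i = ((∏ l ∈ Finset.univ.erase i, linP l : Polynomial (MvPolynomial (Fin n) ℤ)) :
      PowerSeries _) := by
    unfold Es
    rw [← Polynomial.coeToPowerSeries.ringHom_apply, map_prod]
    apply Finset.prod_congr rfl
    intro l _
    rw [Polynomial.coeToPowerSeries.ringHom_apply, linP_coe]
  unfold cc
  rw [h1, Polynomial.coeff_coe]
  apply Polynomial.coeff_eq_zero_of_natDegree_lt
  have h2 : (∏ l ∈ Finset.univ.erase i, linP l).natDegree ≤ n - 1 := by
    refine le_trans (Polynomial.natDegree_prod_le _ _) ?_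
    refine le_trans (Finset.sum_le_sum (fun l _ => linP_natDegree l)) ?_
    rw [Finset.sum_const, Finset.card_erase_of_mem (Finset.mem_univ i), Finset.card_univ,
      Fintype.card_fin, smul_eq_mul, mul_one]
  have hn : 0 < n := Fin.pos i
  omega

theorem key (i : Fin n) (m : ℕ) :
    ∑ k : Fin n, (if k.val ≤ m then hh (m - k.val) * cc k.val i else 0) =
      (MvPolynomial.X i : MvPolynomial (Fin n) ℤ) ^ m := by
  have h1 : PowerSeries.coeff m (Es i * Hs) = (MvPolynomial.X i : MvPolynomial (Fin n) ℤ) ^ m := by
    rw [mul_comm, Hs_mul_Es]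
    unfold geo
    rw [PowerSeries.coeff_mk]
  rw [PowerSeries.coeff_mul, Finset.Nat.sum_antidiagonal_eq_sum_range_succ_mk] at h1
  rw [← h1, Fin.sum_univ_eq_sum_range (fun k => if k ≤ m then hh (m - k) * cc k i else 0) n,
    ← Finset.sum_filter]
  have hsub : (Finset.range n).filter (fun k => k ≤ m) ⊆ Finset.range m.succ := by
    intro k hk
    simp only [Finset.mem_filter, Finset.mem_range] at hk ⊢
    omega
  rw [← Finset.sum_subset hsub]
  · apply Finset.sum_congr rfl
    intro k _
    rw [mul_comm]
    rfl
  · intro k hk hk'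
    simp only [Finset.mem_filter, Finset.mem_range, not_and] at hk hk'
    have : n ≤ k := by
      by_contra hcon
      exact hk' (by omega) (by omega)
    have : cc k i = 0 := cc_eq_zero k i this
    show cc k i * _ = 0
    rw [this, zero_mul]

/-- the matrix of complete homogeneous polynomials -/
noncomputable def Hm (β : Fin n → ℕ) : Matrix (Fin n) (Fin n) (MvPolynomial (Fin n) ℤ) :=
  Matrix.of fun j k => if k.val ≤ β j then hh (β j - k.val) else 0

/-- the matrix of signed elementary polynomials -/
noncomputable def Cm : Matrix (Fin n) (Fin n) (MvPolynomial (Fin n) ℤ) :=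
  Matrix.of fun k i => cc k.val i

/-- the matrix of powers -/
noncomputable def Am (β : Fin n → ℕ) : Matrix (Fin n) (Fin n) (MvPolynomial (Fin n) ℤ) :=
  Matrix.of fun j i => (MvPolynomial.X i : MvPolynomial (Fin n) ℤ) ^ β j

theorem Hm_mul_Cm (β : Fin n → ℕ) : Hm β * Cm = Am β := by
  refine Matrix.ext fun j i => ?_
  rw [Matrix.mul_apply]
  simp only [Hm, Cm, Am, Matrix.of_apply]
  rw [← key i (β j)]
  apply Finset.sum_congr rfl
  intro k _
  by_cases h : k.val ≤ β j
  · rw [if_pos h, if_pos h]
  · rw [if_neg h, if_neg h, zero_mul]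

theorem det_Hm_id : (Hm (n := n) (fun j => j.val)).det = 1 := by
  rw [Matrix.det_of_isLowerTriangular]
  · apply Finset.prod_eq_one
    intro j _
    simp only [Hm, Matrix.of_apply]
    rw [if_pos le_rfl, Nat.sub_self, hh_zero]
  · intro j k hjk
    have hjk' : j < k := hjk
    simp only [Hm, Matrix.of_apply]
    rw [if_neg]
    exact not_le.mpr hjk'

/-- The Jacobi-Trudi identity. -/
theorem jacobi_trudi (β : Fin n → ℕ) :
    (Hm β).det * (Am (n := n) (fun j => j.val)).det = (Am β).det := by
  have h1 : (Cm (n := n)).det = (Am (n := n) (fun j => j.val)).det := by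
    rw [← Hm_mul_Cm, Matrix.det_mul, det_Hm_id, one_mul]
  rw [← h1, ← Matrix.det_mul, Hm_mul_Cm]

end JT

end Cfsg.Agent.Lib.Helper48
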