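import Mathlib
import Cfsg.Agent.Lib.Helper48.GLnD
import Cfsg.Agent.Lib.Helper48.GLnE

set_option autoImplicit false

namespace Cfsg.Agent.Lib.Helper48

open Finset

section Coeff

variable {n : ℕ}

/-- the exponent vector of a function -/
noncomputable def fs (a : Fin n → ℕ) : Fin n →₀ ℕ := Finsupp.equivFunOnFinite.symm a

theorem fs_apply (a : Fin n → ℕ) (i : Fin n) : fs a i = a i :=
  Finsupp.equivFunOnFinite_symm_apply_apply a i

theorem fs_inj (a b : Fin n → ℕ) : fs a = fs b ↔ a = b :=
  Finsupp.equivFunOnFinite.symm.injective.eq_iff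

theorem prod_X_pow (a : Fin n → ℕ) :
    ∏ i, (MvPolynomial.X i : MvPolynomial (Fin n) ℤ) ^ a i = MvPolynomial.monomial (fs a) 1 := by
  rw [MvPolynomial.monomial_eq, map_one, one_mul, Finsupp.prod_fintype _ _ (fun i => pow_zero _)]
  apply Finset.prod_congr rfl
  intro i _
  rw [fs_apply]

theorem units_smul (u : ℤˣ) (x : MvPolynomial (Fin n) ℤ) :
    u • x = MvPolynomial.C (u : ℤ) * x := by
  rcases Int.units_eq_one_or u with rfl | rfl <;> simp

theorem det_Am (β : Fin n → ℕ) :
    (Am β).det = ∑ κ : Equiv.Perm (Fin n),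
      MvPolynomial.C ((Equiv.Perm.sign κ : ℤˣ) : ℤ) * MvPolynomial.monomial (fs (fun i => β (κ i))) 1 := by
  rw [Matrix.det_apply]
  apply Finset.sum_congr rfl
  intro κ _
  rw [units_smul, ← prod_X_pow]
  rfl

theorem det_Hm (β : Fin n → ℕ) :
    (Hm β).det = ∑ κ : Equiv.Perm (Fin n), MvPolynomial.C ((Equiv.Perm.sign κ : ℤˣ) : ℤ) *
      (if ∀ j, (κ j).val ≤ β j then ∏ j, hh (β j - (κ j).val) else 0) := by
  rw [← Matrix.det_transpose, Matrix.det_apply]
  apply Finset.sum_congr rfl
  intro κ _
  rw [units_smul]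
  congr 1
  simp only [Matrix.transpose_apply, Hm, Matrix.of_apply]
  rw [Finset.prod_ite_zero]
  simp

theorem perm_eq_one_of_strictMono (κ : Equiv.Perm (Fin n)) (h : StrictMono κ) : κ = 1 := by
  have h1 : ∀ i, i ≤ κ i := fun i => h.id_le i
  have hinv : StrictMono (κ⁻¹ : Equiv.Perm (Fin n)) := by
    intro i j hij
    by_contra hcon
    push Not at hcon
    have := h.monotone hcon
    simp at this
    exact absurd hij (not_lt.mpr this)
  have h2 : ∀ i, i ≤ κ⁻¹ i := fun i => hinv.id_le i
  apply Equiv.ext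
  intro i
  have := h2 (κ i)
  simp at this
  exact le_antisymm this (h1 i)

theorem coeff_det_Am (α β : Fin n → ℕ) (hα : StrictMono α) (hβ : StrictMono β) :
    MvPolynomial.coeff (fs α) (Am β).det = if α = β then 1 else 0 := by
  classical
  rw [det_Am, MvPolynomial.coeff_sum, Finset.sum_eq_single 1]
  · rw [MvPolynomial.coeff_C_mul, MvPolynomial.coeff_monomial, Equiv.Perm.sign_one, Units.val_one,
      one_mul]
    have e : (fun i => β ((1 : Equiv.Perm (Fin n)) i)) = β := rfl
    by_cases h : α = β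
    · rw [if_pos h, if_pos]
      rw [e, h]
    · rw [if_neg h, if_neg]
      intro h'
      rw [e] at h'
      exact h ((fs_inj _ _).mp h').symm
  · intro κ _ hκ
    rw [MvPolynomial.coeff_C_mul, MvPolynomial.coeff_monomial, if_neg, mul_zero]
    intro h'
    have h'' : (fun i => β (κ i)) = α := (fs_inj _ _).mp h'
    apply hκ
    apply perm_eq_one_of_strictMono
    intro i j hij
    have : β (κ i) < β (κ j) := by
      rw [congrFun h'' i, congrFun h'' j]
      exact hα hij
    exact hβ.lt_iff_lt.mp this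
  · intro h
    exact absurd (Finset.mem_univ _) h

/-- the coefficient counting tables -/
noncomputable def Tc (a b : Fin n → ℕ) : ℤ := MvPolynomial.coeff (fs a) (∏ j, hh (b j))

/-- The orthogonality relation: the alternating sum of the numbers of tables. -/
theorem alt_identity (α β : Fin n → ℕ) (hα : StrictMono α) (hβ : StrictMono β) :
    ∑ κ' : Equiv.Perm (Fin n), ∑ κ : Equiv.Perm (Fin n),
      (if (∀ j, (κ' j).val ≤ β j) ∧ (∀ i, (κ i).val ≤ α i) then
        ((Equiv.Perm.sign κ' : ℤˣ) : ℤ) * ((Equiv.Perm.sign κ : ℤˣ) : ℤ) *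
          Tc (fun i => α i - (κ i).val) (fun j => β j - (κ' j).val) else 0) =
      if α = β then 1 else 0 := by
  classical
  rw [← coeff_det_Am α β hα hβ, ← jacobi_trudi, det_Hm, det_Am, Finset.sum_mul_sum,
    MvPolynomial.coeff_sum]
  apply Finset.sum_congr rfl
  intro κ' _
  rw [MvPolynomial.coeff_sum]
  apply Finset.sum_congr rfl
  intro κ _
  have e : ∀ (s' s : ℤ) (P Q : MvPolynomial (Fin n) ℤ),
      MvPolynomial.C s' * P * (MvPolynomial.C s * Q) = MvPolynomial.C (s' * s) * (P * Q) := by
    intro s' s P Q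
    rw [map_mul]
    ring
  rw [e, MvPolynomial.coeff_C_mul, MvPolynomial.coeff_mul_monomial']
  have hle : fs (fun i : Fin n => (κ i).val) ≤ fs α ↔ ∀ i, (κ i).val ≤ α i := by
    rw [Finsupp.le_def]
    simp only [fs_apply]
  by_cases h1 : ∀ j, (κ' j).val ≤ β j
  · by_cases h2 : ∀ i, (κ i).val ≤ α i
    · rw [if_pos ⟨h1, h2⟩, if_pos h1, if_pos (hle.mpr h2), mul_one]
      unfold Tc
      congr 2
      ext i
      rw [Finsupp.tsub_apply, fs_apply, fs_apply, fs_apply]
    · rw [if_neg (fun h => h2 h.2), if_neg (fun h => h2 (hle.mp h)), mul_zero]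
  · rw [if_neg (fun h => h1 h.1), if_neg h1]
    simp

theorem hh_eq (m : ℕ) :
    hh (n := n) m = ∑ c ∈ Finset.finsuppAntidiag Finset.univ m, MvPolynomial.monomial c 1 := by
  classical
  unfold hh Hs
  rw [PowerSeries.coeff_prod]
  apply Finset.sum_congr rfl
  intro c _
  rw [MvPolynomial.monomial_eq, map_one, one_mul, Finsupp.prod_fintype _ _ (fun i => pow_zero _)]
  apply Finset.prod_congr rfl
  intro l _
  unfold geo
  rw [PowerSeries.coeff_mk]

theorem Tc_eq (a b : Fin n → ℕ) : Tc a b = ((tables a b).card : ℤ) := by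
  classical
  unfold Tc
  simp only [hh_eq]
  rw [Finset.prod_univ_sum, MvPolynomial.coeff_sum]
  have h1 : ∀ F ∈ Fintype.piFinset (fun j : Fin n => Finset.finsuppAntidiag (Finset.univ : Finset (Fin n)) (b j)),
      MvPolynomial.coeff (fs a) (∏ j, (MvPolynomial.monomial (F j) (1 : ℤ))) =
        if ∑ j, F j = fs a then 1 else 0 := by
    intro F _
    rw [← MvPolynomial.monomial_sum_one, MvPolynomial.coeff_monomial]
  rw [Finset.sum_congr rfl h1, Finset.sum_boole]
  congr 1
  apply Finset.card_nbij' (fun F j i => F j i) (fun f j => fs (f j))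
  · intro F hF
    simp only [Finset.coe_filter, Set.mem_ofPred_eq, Fintype.mem_piFinset, Finset.mem_finsuppAntidiag] at hF
    rw [Finset.mem_coe, mem_tables]
    refine ⟨fun j => (hF.1 j).1, fun i => ?_⟩
    have := congrArg (fun g : Fin n →₀ ℕ => g i) hF.2
    simp only [Finsupp.finsetSum_apply, fs_apply] at this
    exact this
  · intro f hf
    rw [Finset.mem_coe, mem_tables] at hf
    simp only [Finset.coe_filter, Set.mem_ofPred_eq, Fintype.mem_piFinset, Finset.mem_finsuppAntidiag]
    refine ⟨fun j => ⟨?_, Finset.subset_univ _⟩, ?_⟩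
    · rw [← hf.1 j]
      apply Finset.sum_congr rfl
      intro i _
      exact fs_apply _ _
    · ext i
      rw [Finsupp.finsetSum_apply, fs_apply, ← hf.2 i]
      apply Finset.sum_congr rfl
      intro j _
      exact fs_apply _ _
  · intro F _
    funext j
    ext i
    exact fs_apply _ _
  · intro f _
    funext j i
    exact fs_apply _ _

end Coeff

end Cfsg.Agent.Lib.Helper48
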