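import Mathlib
import Cfsg.Agent.Lib.Helper48.GLnF
import Cfsg.Agent.Lib.Helper48.CharGen
import Cfsg.Agent.S2424

set_option autoImplicit false

namespace Cfsg.Agent.Lib.Helper48

open Cfsg
open scoped MatrixGroups ComplexConjugate

section GenAsm

variable {G : Type*} [Group G] [Fintype G]

theorem isCharacter_fixedPointCharacter (H : Subgroup G) : IsCharacter G (fixedPointCharacter H) := by
  rw [fixedPointCharacter_eq_indFun]
  exact Helper46.isCharacter_indFun H _ (Helper46.isCharacter_of_irr _ Helper4.isIrrCharacter_one)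

theorem classInner_sum_sum {ι ι' : Type*} [Fintype ι] [Fintype ι'] (c : ι → ℤ) (φ : ι → G → ℂ)
    (c' : ι' → ℤ) (ψ : ι' → G → ℂ) :
    classInner (fun g => ∑ i, (c i : ℂ) * φ i g) (fun g => ∑ j, (c' j : ℂ) * ψ j g) =
      ∑ i, ∑ j, (c i : ℂ) * (c' j : ℂ) * classInner (φ i) (ψ j) := by
  unfold classInner
  have h : ∀ g, (∑ i, (c i : ℂ) * φ i g) * conj (∑ j, (c' j : ℂ) * ψ j g) =
      ∑ i, ∑ j, ((c i : ℂ) * (c' j : ℂ)) * (φ i g * conj (ψ j g)) := by
    intro g
    rw [map_sum, Finset.sum_mul_sum]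
    apply Finset.sum_congr rfl
    intro i _
    apply Finset.sum_congr rfl
    intro j _
    rw [map_mul, map_intCast]
    ring
  rw [Finset.sum_congr rfl (fun g _ => h g), Finset.sum_comm, Finset.mul_sum]
  apply Finset.sum_congr rfl
  intro i _
  rw [Finset.sum_comm, Finset.mul_sum]
  apply Finset.sum_congr rfl
  intro j _
  rw [← Finset.mul_sum]
  ring

end GenAsm

section Assembly

variable {n : ℕ} {F : Type*} [Field F] [Fintype F]

theorem inner_parabolic [Fintype (GL (Fin n) F)] (a b : Fin n → ℕ) (ha : ∑ i, a i = n)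
    (hb : ∑ i, b i = n) :
    classInner (fixedPointCharacter (parabolicGL n F a)) (fixedPointCharacter (parabolicGL n F b)) =
      ((Tc a b : ℤ) : ℂ) := by
  rw [classInner_fixedPointCharacter, card_dc_parabolic, card_dc_young a b ha hb, Tc_eq]
  push_cast
  rfl

/-- the composition `λ - κ` -/
def shiftComp (ν : Fin n → ℕ) (κ : Equiv.Perm (Fin n)) : Fin n → ℕ :=
  fun i => ν i + i.val - (κ i).val

/-- the coefficient of the permutation character attached to `κ` -/
def coefU (ν : Fin n → ℕ) (κ : Equiv.Perm (Fin n)) : ℤ :=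
  if ∀ i : Fin n, (κ i).val ≤ ν i + i.val then ((Equiv.Perm.sign κ : ℤˣ) : ℤ) else 0

omit [Fintype F] in
theorem unipotent_eq (ν : Fin n → ℕ) :
    unipotentCharacterGL n F ν = fun g => ∑ κ : Equiv.Perm (Fin n),
      (coefU ν κ : ℂ) * fixedPointCharacter (parabolicGL n F (shiftComp ν κ)) g := by
  funext g
  unfold unipotentCharacterGL coefU shiftComp
  apply Finset.sum_congr rfl
  intro κ _
  split_ifs with h
  · rfl
  · simp

theorem shiftComp_sum (ν : Fin n → ℕ) (hν : ∑ i, ν i = n) (κ : Equiv.Perm (Fin n))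
    (hκ : ∀ i : Fin n, (κ i).val ≤ ν i + i.val) : ∑ i, shiftComp ν κ i = n := by
  have h1 : ∑ i, shiftComp ν κ i + ∑ i : Fin n, (κ i).val = ∑ i, ν i + ∑ i : Fin n, i.val := by
    rw [← Finset.sum_add_distrib, ← Finset.sum_add_distrib]
    apply Finset.sum_congr rfl
    intro i _
    unfold shiftComp
    have := hκ i
    omega
  have h2 : ∑ i : Fin n, (κ i).val = ∑ i : Fin n, i.val := Equiv.sum_comp κ (fun i => i.val)
  omega

theorem shift_strictMono (ν : Fin n → ℕ) (hν : Monotone ν) : StrictMono (fun i : Fin n => ν i + i.val) := by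
  intro i j hij
  have h1 := hν hij.le
  have h2 : i.val < j.val := hij
  show ν i + i.val < ν j + j.val
  omega

theorem inner_unipotent [Fintype (GL (Fin n) F)] (ν ν' : Fin n → ℕ) (hν : Monotone ν)
    (hνs : ∑ i, ν i = n) (hν' : Monotone ν') (hνs' : ∑ i, ν' i = n) :
    classInner (unipotentCharacterGL n F ν) (unipotentCharacterGL n F ν') = if ν = ν' then 1 else 0 := by
  classical
  rw [unipotent_eq ν, unipotent_eq ν', classInner_sum_sum]
  have hterm : ∀ κ κ' : Equiv.Perm (Fin n), (coefU ν κ : ℂ) * (coefU ν' κ' : ℂ) *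
      classInner (fixedPointCharacter (parabolicGL n F (shiftComp ν κ)))
        (fixedPointCharacter (parabolicGL n F (shiftComp ν' κ'))) =
      (((if (∀ j : Fin n, (κ' j).val ≤ ν' j + j.val) ∧ (∀ i : Fin n, (κ i).val ≤ ν i + i.val) then
        ((Equiv.Perm.sign κ' : ℤˣ) : ℤ) * ((Equiv.Perm.sign κ : ℤˣ) : ℤ) *
          Tc (fun i => ν i + i.val - (κ i).val) (fun j => ν' j + j.val - (κ' j).val) else 0 : ℤ)) : ℂ) := by
    intro κ κ'
    unfold coefU
    by_cases h1 : ∀ i : Fin n, (κ i).val ≤ ν i + i.val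
    · by_cases h2 : ∀ j : Fin n, (κ' j).val ≤ ν' j + j.val
      · rw [if_pos h1, if_pos h2, if_pos ⟨h2, h1⟩,
          inner_parabolic _ _ (shiftComp_sum ν hνs κ h1) (shiftComp_sum ν' hνs' κ' h2)]
        push_cast
        unfold shiftComp
        ring
      · rw [if_pos h1, if_neg h2, if_neg (show ¬((∀ j : Fin n, (κ' j).val ≤ ν' j + j.val) ∧
          (∀ i : Fin n, (κ i).val ≤ ν i + i.val)) from fun h => h2 h.1)]
        simp
    · rw [if_neg h1, if_neg (show ¬((∀ j : Fin n, (κ' j).val ≤ ν' j + j.val) ∧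
          (∀ i : Fin n, (κ i).val ≤ ν i + i.val)) from fun h => h1 h.2)]
      simp
  simp only [hterm]
  rw [Finset.sum_comm]
  have key := alt_identity (fun i : Fin n => ν i + i.val) (fun j : Fin n => ν' j + j.val)
    (shift_strictMono ν hν) (shift_strictMono ν' hν')
  have key2 := congrArg (fun z : ℤ => (z : ℂ)) key
  simp only [Int.cast_sum] at key2
  rw [key2]
  by_cases h : ν = ν'
  · subst h
    simp
  · rw [if_neg h, if_neg]
    · simp
    · intro h'
      apply h
      funext i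
      have e : ν i + i.val = ν' i + i.val := congrFun h' i
      omega

theorem geom_strictMono (q : ℕ) (hq : 0 < q) : StrictMono (fun m : ℕ => ∑ l ∈ Finset.range m, q ^ l) := by
  apply strictMono_nat_of_lt_succ
  intro m
  show ∑ l ∈ Finset.range m, q ^ l < ∑ l ∈ Finset.range (m + 1), q ^ l
  rw [Finset.sum_range_succ]
  have : 0 < q ^ m := by positivity
  omega

theorem unipotent_deg_pos (ν : Fin n → ℕ) (hmono : Monotone ν) (hsum : ∑ i, ν i = n) :
    ∃ d : ℕ, 0 < d ∧ unipotentCharacterGL n F ν 1 = (d : ℂ) := by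
  classical
  have hz : ∃ z : ℤ, unipotentCharacterGL n F ν 1 = (z : ℂ) := by
    refine ⟨∑ κ : Equiv.Perm (Fin n), if ∀ i : Fin n, (κ i).val ≤ ν i + i.val then
      ((Equiv.Perm.sign κ : ℤˣ) : ℤ) * (Nat.card (MulAction.fixedBy
        (GL (Fin n) F ⧸ parabolicGL n F fun i => ν i + i.val - (κ i).val) (1 : GL (Fin n) F)) : ℤ)
      else 0, ?_⟩
    unfold unipotentCharacterGL fixedPointCharacter
    rw [Int.cast_sum]
    apply Finset.sum_congr rfl
    intro κ _
    split_ifs
    · push_cast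
      rfl
    · simp
  obtain ⟨z, hz⟩ := hz
  have h24 := Cfsg.Agent.S2424.result (F := F) (q := Fintype.card F) rfl ν hmono hsum
  rw [hz] at h24
  have hq1 : 0 < Fintype.card F := Fintype.card_pos
  generalize Fintype.card F = q at h24 hq1
  have hN := geom_strictMono q hq1
  have hNpos : ∀ m : ℕ, 0 < ∑ l ∈ Finset.range (m + 1), q ^ l := by
    intro m
    have := hN (Nat.succ_pos m)
    simpa using this
  have hA : 0 < (q ^ (n * (n - 1) * (n - 2) / 6) *
      ∏ i : Fin n, ∏ j ∈ Finset.range (ν i + i.val), ∑ l ∈ Finset.range (j + 1), q ^ l : ℕ) := by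
    apply Nat.mul_pos (by positivity)
    apply Finset.prod_pos
    intro i _
    apply Finset.prod_pos
    intro j _
    exact hNpos j
  have hB : 0 < ((∏ j ∈ Finset.range n, ((∑ l ∈ Finset.range (j + 1), q ^ l : ℕ) : ℤ)) *
      ∏ i : Fin n, ∏ j ∈ Finset.univ.filter (fun j : Fin n => i < j),
        (((∑ l ∈ Finset.range (ν j + j.val), q ^ l : ℕ) : ℤ) -
          ((∑ l ∈ Finset.range (ν i + i.val), q ^ l : ℕ) : ℤ))) := by
    apply mul_pos
    · apply Finset.prod_pos
      intro j _
      exact_mod_cast hNpos j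
    · apply Finset.prod_pos
      intro i _
      apply Finset.prod_pos
      intro j hj
      have hij : i < j := (Finset.mem_filter.mp hj).2
      have h1 := hmono hij.le
      have h2 : i.val < j.val := hij
      have h3 : ∑ l ∈ Finset.range (ν i + i.val), q ^ l < ∑ l ∈ Finset.range (ν j + j.val), q ^ l :=
        hN (by omega)
      exact sub_pos.mpr (by exact_mod_cast h3)
  have heq : z * ((q ^ (n * (n - 1) * (n - 2) / 6) *
      ∏ i : Fin n, ∏ j ∈ Finset.range (ν i + i.val), ∑ l ∈ Finset.range (j + 1), q ^ l : ℕ) : ℤ) =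
      (∏ j ∈ Finset.range n, ((∑ l ∈ Finset.range (j + 1), q ^ l : ℕ) : ℤ)) *
      ∏ i : Fin n, ∏ j ∈ Finset.univ.filter (fun j : Fin n => i < j),
        (((∑ l ∈ Finset.range (ν j + j.val), q ^ l : ℕ) : ℤ) -
          ((∑ l ∈ Finset.range (ν i + i.val), q ^ l : ℕ) : ℤ)) := by
    have h24' := h24
    push_cast at h24'
    have : ((z * ((q ^ (n * (n - 1) * (n - 2) / 6) *
      ∏ i : Fin n, ∏ j ∈ Finset.range (ν i + i.val), ∑ l ∈ Finset.range (j + 1), q ^ l : ℕ) : ℤ) : ℤ) : ℂ) =
      (((∏ j ∈ Finset.range n, ((∑ l ∈ Finset.range (j + 1), q ^ l : ℕ) : ℤ)) *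
      ∏ i : Fin n, ∏ j ∈ Finset.univ.filter (fun j : Fin n => i < j),
        (((∑ l ∈ Finset.range (ν j + j.val), q ^ l : ℕ) : ℤ) -
          ((∑ l ∈ Finset.range (ν i + i.val), q ^ l : ℕ) : ℤ)) : ℤ) : ℂ) := by
      push_cast
      linear_combination h24'
    exact_mod_cast this
  have hzpos : 0 < z := by
    by_contra hcon
    push Not at hcon
    have h5 : z * ((q ^ (n * (n - 1) * (n - 2) / 6) *
      ∏ i : Fin n, ∏ j ∈ Finset.range (ν i + i.val), ∑ l ∈ Finset.range (j + 1), q ^ l : ℕ) : ℤ) ≤ 0 :=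
      mul_nonpos_of_nonpos_of_nonneg hcon (Int.natCast_nonneg _)
    rw [heq] at h5
    exact absurd hB (not_lt.mpr h5)
  refine ⟨z.toNat, by omega, ?_⟩
  rw [hz]
  have : ((z.toNat : ℤ) : ℂ) = (z : ℂ) := by rw [Int.toNat_of_nonneg hzpos.le]
  rw [← this]
  push_cast
  rfl

/-- The unipotent characters of `GL_n(q)` are irreducible. -/
theorem unipotent_irr (ν : Fin n → ℕ) (hmono : Monotone ν) (hsum : ∑ i, ν i = n) :
    IsIrrCharacter (GL (Fin n) F) (unipotentCharacterGL n F ν) := by
  classical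
  let _ : Fintype (GL (Fin n) F) := Fintype.ofFinite _
  set φ : GL (Fin n) F → ℂ := ∑ κ ∈ Finset.univ.filter (fun κ : Equiv.Perm (Fin n) =>
    (∀ i : Fin n, (κ i).val ≤ ν i + i.val) ∧ Equiv.Perm.sign κ = 1),
      fixedPointCharacter (parabolicGL n F (shiftComp ν κ)) with hφdef
  set ψ : GL (Fin n) F → ℂ := ∑ κ ∈ Finset.univ.filter (fun κ : Equiv.Perm (Fin n) =>
    (∀ i : Fin n, (κ i).val ≤ ν i + i.val) ∧ Equiv.Perm.sign κ = -1),
      fixedPointCharacter (parabolicGL n F (shiftComp ν κ)) with hψdef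
  have hφ : IsCharacter (GL (Fin n) F) φ :=
    Helper46.isCharacter_sum _ _ (fun κ _ => isCharacter_fixedPointCharacter _)
  have hψ : IsCharacter (GL (Fin n) F) ψ :=
    Helper46.isCharacter_sum _ _ (fun κ _ => isCharacter_fixedPointCharacter _)
  have hU : unipotentCharacterGL n F ν = φ - ψ := by
    rw [unipotent_eq]
    funext g
    simp only [Pi.sub_apply, hφdef, hψdef, Finset.sum_apply]
    rw [Finset.sum_filter, Finset.sum_filter, ← Finset.sum_sub_distrib]
    apply Finset.sum_congr rfl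
    intro κ _
    unfold coefU
    by_cases hc : ∀ i : Fin n, (κ i).val ≤ ν i + i.val
    · rcases Int.units_eq_one_or (Equiv.Perm.sign κ) with h | h
      · simp [h, hc]
      · simp [h, hc]
    · simp [hc]
  obtain ⟨d, hd, hdeg⟩ := unipotent_deg_pos (F := F) ν hmono hsum
  rw [hU]
  apply virt_irr φ ψ hφ hψ _ d hd
  · rw [← hU]
    exact hdeg
  · rw [← hU, inner_unipotent ν ν hmono hsum hmono hsum, if_pos rfl]

/-- Unipotent characters attached to different partitions are different. -/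
theorem unipotent_inj (ν ν' : Fin n → ℕ) (hmono : Monotone ν) (hsum : ∑ i, ν i = n)
    (hmono' : Monotone ν') (hsum' : ∑ i, ν' i = n)
    (h : unipotentCharacterGL n F ν = unipotentCharacterGL n F ν') : ν = ν' := by
  classical
  let _ : Fintype (GL (Fin n) F) := Fintype.ofFinite _
  have h1 := inner_unipotent (F := F) ν ν' hmono hsum hmono' hsum'
  have h2 := inner_unipotent (F := F) ν ν hmono hsum hmono hsum
  rw [← h, h2, if_pos rfl] at h1
  by_contra hne
  rw [if_neg hne] at h1
  exact one_ne_zero h1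

end Assembly

end Cfsg.Agent.Lib.Helper48
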