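import Mathlib
import Cfsg.Agent.Lib.Helper48.DZk
import Cfsg.Agent.Lib.Helper48.GLnG
import Cfsg.Agent.S2420

set_option autoImplicit false

namespace Cfsg.Agent.Lib.Helper48

open Cfsg
open scoped MatrixGroups ComplexConjugate

section FixedPoint

variable {G : Type*} [Group G] [Fintype G]

/-- the inner product of a permutation character with a character -/
theorem inner_fixedPoint (H : Subgroup G) (ψ : G → ℂ) (hψ : IsCharacter G ψ) :
    classInner (fixedPointCharacter H) ψ = (fixMult H ψ : ℂ) := by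
  classical
  letI : Fintype H := Fintype.ofFinite _
  rw [fixedPointCharacter_eq_indFun,
    Helper46.frobenius H _ ψ (Helper4.isClassFunction_of_isCharacter ψ hψ)]
  unfold classInner
  have h1 : ∑ h : H, (1 : ℂ) * conj (ψ h) = conj (sSum H ψ) := by
    rw [sSum_eq_sum_coe, map_sum]
    simp
  have hK : (Nat.card H : ℂ) ≠ 0 := Nat.cast_ne_zero.mpr Nat.card_pos.ne'
  rw [h1, sSum_eq_fixMult ψ hψ H, map_mul, Complex.conj_natCast, Complex.conj_natCast]
  field_simp

theorem fixMult_eq_zero (H : Subgroup G) (ψ : G → ℂ) (hψ : IsCharacter G ψ) (h : sSum H ψ = 0) :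
    fixMult H ψ = 0 := by
  rw [sSum_eq_fixMult ψ hψ H] at h
  have hK : (Nat.card H : ℂ) ≠ 0 := Nat.cast_ne_zero.mpr Nat.card_pos.ne'
  have := (mul_eq_zero.mp h).resolve_right hK
  exact_mod_cast this

end FixedPoint

section Comb

variable {n : ℕ}

theorem compLabel_ones (i : Fin n) : compLabel (fun _ : Fin n => 1) i = i.val := by
  have hS : ∀ l, l ≤ n → Cfsg.Agent.S2420.S (fun _ : Fin n => 1) l = l := by
    intro l hl
    unfold Cfsg.Agent.S2420.S
    rw [Finset.sum_const, Fin.card_filter_val_lt, smul_eq_mul, mul_one]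
    omega
  apply Cfsg.Agent.S2420.label_of_mem (fun _ : Fin n => 1) (by simp) i.val i
  · rw [hS _ i.isLt.le]
  · rw [hS _ i.isLt]
    omega

theorem exists_lt_of_ne_one (κ : Equiv.Perm (Fin n)) (hκ : κ ≠ 1) : ∃ j : Fin n, (κ j).val < j.val := by
  by_contra hcon
  push Not at hcon
  apply hκ
  have h2 : ∑ i : Fin n, (κ i).val = ∑ i : Fin n, i.val := Equiv.sum_comp κ (fun i => i.val)
  have h3 := (Finset.sum_eq_sum_iff_of_le (s := Finset.univ) (f := fun i : Fin n => i.val)
    (g := fun i : Fin n => (κ i).val) (fun i _ => hcon i)).mp h2.symm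
  ext i
  rw [Equiv.Perm.one_apply]
  exact (h3 i (Finset.mem_univ _)).symm

end Comb

section Steinberg

variable {n : ℕ} {F : Type*} [Field F]

theorem parabolic_ones : parabolicGL n F (fun _ => 1) = upperTriangularGL n F := by
  ext g
  show (g : Matrix (Fin n) (Fin n) F).BlockTriangular (compLabel (fun _ => 1)) ↔
    (g : Matrix (Fin n) (Fin n) F).BlockTriangular id
  have : compLabel (fun _ : Fin n => 1) = fun i => i.val := funext compLabel_ones
  rw [this]
  rfl

theorem minPar_le_parabolic (μ : Fin n → ℕ) (hμ : ∑ i, μ i = n) (j : Fin n) (hj : 2 ≤ μ j) :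
    ∃ k, k + 1 < n ∧ minPar F n k ≤ parabolicGL n F μ := by
  have h1 := Cfsg.Agent.S2420.S_succ μ j.val j.isLt
  have h2 := Cfsg.Agent.S2420.S_le μ hμ (j.val + 1)
  have hjj : μ ⟨j.val, j.isLt⟩ = μ j := rfl
  rw [hjj] at h1
  have hs : Cfsg.Agent.S2420.S μ j.val + 1 < n := by omega
  refine ⟨Cfsg.Agent.S2420.S μ j.val, hs, ?_⟩
  have e0 : compLabel μ ⟨Cfsg.Agent.S2420.S μ j.val, by omega⟩ = j.val :=
    Cfsg.Agent.S2420.label_of_mem μ hμ j.val ⟨Cfsg.Agent.S2420.S μ j.val, by omega⟩ le_rfl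
      (by show Cfsg.Agent.S2420.S μ j.val < _; omega)
  have e1 : compLabel μ ⟨Cfsg.Agent.S2420.S μ j.val + 1, hs⟩ = j.val :=
    Cfsg.Agent.S2420.label_of_mem μ hμ j.val ⟨Cfsg.Agent.S2420.S μ j.val + 1, hs⟩
      (by show Cfsg.Agent.S2420.S μ j.val ≤ Cfsg.Agent.S2420.S μ j.val + 1; omega)
      (by show Cfsg.Agent.S2420.S μ j.val + 1 < _; omega)
  intro g hg a b hab
  apply hg
  rw [labk_lt_iff]
  constructor
  · by_contra hcon
    push Not at hcon
    have := compLabel_mono μ (show a ≤ b from hcon)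
    omega
  · rintro ⟨ha, hb⟩
    have ha' : a = ⟨Cfsg.Agent.S2420.S μ j.val + 1, hs⟩ := Fin.ext ha
    have hb' : b = ⟨Cfsg.Agent.S2420.S μ j.val, by omega⟩ := Fin.ext hb
    rw [ha', hb', e0, e1] at hab
    omega

variable [Fintype F]

/-- an irreducible character vanishing on the nonidentity unitriangular matrices and containing the
principal character of the Borel subgroup is the Steinberg character -/
theorem dz_eq_St [Fintype (GL (Fin n) F)] (ψ : GL (Fin n) F → ℂ)
    (hψ : IsIrrCharacter (GL (Fin n) F) ψ)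
    (hψ0 : ∀ u ∈ radL (F := F) (n := n) lab0, u ≠ 1 → ψ u = 0)
    (hB : sSum (upperTriangularGL n F) ψ ≠ 0) :
    ψ = unipotentCharacterGL n F (fun _ => 1) := by
  classical
  have hψc := Helper46.isCharacter_of_irr _ hψ
  have hSt : IsIrrCharacter _ (unipotentCharacterGL n F (fun _ => 1)) :=
    unipotent_irr _ (fun _ _ _ => le_rfl) (by simp)
  by_contra hne
  have h0 := inner_irr_ne _ _ hSt hψ (Ne.symm hne)
  rw [unipotent_eq] at h0
  have h1 : classInner (fun g => ∑ κ : Equiv.Perm (Fin n), (coefU (fun _ => 1) κ : ℂ) *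
      fixedPointCharacter (parabolicGL n F (shiftComp (fun _ => 1) κ)) g) ψ =
      ∑ κ : Equiv.Perm (Fin n), (coefU (fun _ => 1) κ : ℂ) *
        classInner (fixedPointCharacter (parabolicGL n F (shiftComp (fun _ => 1) κ))) ψ := by
    unfold classInner
    simp only [Finset.sum_mul, Finset.mul_sum]
    rw [Finset.sum_comm]
    apply Finset.sum_congr rfl
    intro κ _
    apply Finset.sum_congr rfl
    intro g _
    ring
  rw [h1, Finset.sum_eq_single 1] at h0
  · have e1 : coefU (fun _ : Fin n => 1) 1 = 1 := by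
      unfold coefU
      rw [if_pos]
      · simp
      · intro i
        simp
    have e2 : shiftComp (fun _ : Fin n => 1) 1 = fun _ => 1 := by
      funext i
      unfold shiftComp
      simp
    rw [e1, e2, parabolic_ones, inner_fixedPoint _ ψ hψc] at h0
    apply hB
    rw [sSum_eq_fixMult ψ hψc]
    simp only [Int.cast_one, one_mul] at h0
    rw [h0, zero_mul]
  · intro κ _ hκ
    by_cases hc : ∀ i : Fin n, (κ i).val ≤ 1 + i.val
    · obtain ⟨j, hj⟩ := exists_lt_of_ne_one κ hκ
      obtain ⟨k, hk, hle⟩ := minPar_le_parabolic (F := F) (shiftComp (fun _ => 1) κ)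
        (shiftComp_sum _ (by simp) κ hc) j (by show 2 ≤ 1 + j.val - (κ j).val; have := hc j; omega)
      rw [inner_fixedPoint _ ψ hψc, fixMult_eq_zero _ ψ hψc
        (sSum_mono_zero ψ hψc _ _ hle (dz_parabolic ψ hψ hψ0 k hk).1)]
      simp
    · unfold coefU
      rw [if_neg hc]
      simp
  · intro h; exact absurd (Finset.mem_univ _) h

theorem tau_linear [Fintype (GL (Fin n) F)] (hn : 2 ≤ n) (τ : GL (Fin n) F → ℂ)
    (hτ : IsIrrCharacter ↥(upperTriangularGL n F) (fun b : upperTriangularGL n F => τ b))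
    (hτU : sSum (radL (F := F) (n := n) lab0) τ ≠ 0) :
    τ 1 = 1 ∧ ∀ u ∈ radL (F := F) (n := n) lab0, τ u = 1 := by
  classical
  have hk : 0 + 1 < n := by omega
  letI : Fintype ↥(minPar F n 0) := Fintype.ofFinite _
  have D := rankOne_Pk (F := F) 0 hk
  have hBP : upperTriangularGL n F ≤ minPar F n 0 := upper_le_parL_labk 0
  have hUP : radL (F := F) (n := n) lab0 ≤ minPar F n 0 :=
    fun _ hu => upper_le_parL_labk 0 (radL_lab0_le_upper hu)
  have hirr : IsIrrCharacter ↥((upperTriangularGL n F).subgroupOf (minPar F n 0))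
      (fun b : ↥((upperTriangularGL n F).subgroupOf (minPar F n 0)) =>
        (fun g : minPar F n 0 => τ g) b) :=
    Helper20.irr_comp_surjective (Subgroup.subgroupOfEquivOfLe hBP).toMonoidHom
      (Subgroup.subgroupOfEquivOfLe hBP).surjective hτ
  have hs : sSum ((radL (F := F) (n := n) lab0).subgroupOf (minPar F n 0))
      (fun g : minPar F n 0 => τ g) ≠ 0 := by
    rw [sSum_subgroupOf (minPar F n 0) _ hUP τ]
    exact hτU
  obtain ⟨h1, h2⟩ := D.tau_trivial (fun g : minPar F n 0 => τ g) hirr hs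
  exact ⟨h1, fun u hu => h2 ⟨u, hUP hu⟩ (by rw [Subgroup.mem_subgroupOf]; exact hu)⟩

end Steinberg

end Cfsg.Agent.Lib.Helper48
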