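import Mathlib
import Cfsg.Agent.Lib.Helper48.DZl

set_option autoImplicit false

namespace Cfsg.Agent.Lib.Helper48

open Cfsg
open scoped MatrixGroups ComplexConjugate

section DZGL

variable {n : ℕ} {F : Type*} [Field F] [Fintype F]

/-- **Defect zero characters of `GL_n(q)`.**  An irreducible character of `GL_n(F)` vanishing on
the nonidentity unitriangular matrices is a linear character times the Steinberg character. -/
theorem dz_GL [Fintype (GL (Fin n) F)] (hn : 2 ≤ n) (ψ : GL (Fin n) F → ℂ)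
    (hψ : IsIrrCharacter (GL (Fin n) F) ψ)
    (hψ0 : ∀ u ∈ radL (F := F) (n := n) lab0, u ≠ 1 → ψ u = 0) :
    ∃ α : Fˣ →* ℂˣ, ∀ g, ψ g = ((α (Matrix.GeneralLinearGroup.det g) : ℂˣ) : ℂ) *
      unipotentCharacterGL n F (fun _ => 1) g := by
  classical
  letI : Fintype ↥(upperTriangularGL n F) := Fintype.ofFinite _
  have hψc : IsCharacter _ ψ := Helper46.isCharacter_of_irr _ hψ
  have hψU : sSum (radL (F := F) (n := n) lab0) ψ ≠ 0 := by
    rw [sSum_of_vanish _ ψ hψ0, (Helper83.irr_degree hψ).2]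
    exact Nat.cast_ne_zero.mpr (Helper83.irr_degree hψ).1.ne'
  obtain ⟨τ, hτ1, hτ2⟩ := exists_constituent_fix ψ hψc (radL (F := F) (n := n) lab0)
    (upperTriangularGL n F) radL_lab0_le_upper hψU
  let τG : GL (Fin n) F → ℂ := fun g =>
    if h : g ∈ upperTriangularGL n F then (τ : ↥(upperTriangularGL n F) → ℂ) ⟨g, h⟩ else 0
  have hτG : (fun b : upperTriangularGL n F => τG b) = (τ : ↥(upperTriangularGL n F) → ℂ) := by
    funext b
    show (if h : (b : GL (Fin n) F) ∈ upperTriangularGL n F then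
      (τ : ↥(upperTriangularGL n F) → ℂ) ⟨b, h⟩ else 0) = _
    rw [dif_pos b.2]
  have hτirr : IsIrrCharacter ↥(upperTriangularGL n F) (fun b : upperTriangularGL n F => τG b) := by
    rw [hτG]; exact τ.2
  have hτU : sSum (radL (F := F) (n := n) lab0) τG ≠ 0 := by
    rw [← sSum_subgroupOf (upperTriangularGL n F) _ radL_lab0_le_upper τG, hτG]
    exact hτ2
  have hin : sSum (upperTriangularGL n F) (fun g => ψ g * conj (τG g)) ≠ 0 := by
    have h1 := classInner_restrict_eq (upperTriangularGL n F) ψ τG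
    rw [hτG] at h1
    rw [h1] at hτ1
    exact right_ne_zero_of_mul hτ1
  obtain ⟨hτ11, hτ1U⟩ := tau_linear hn τG hτirr hτU
  obtain ⟨f, hf⟩ := Helper20.exists_hom_of_linear (fun b : upperTriangularGL n F => τG b)
    (Helper46.isCharacter_of_irr _ hτirr) hτ11
  have hfU : ∀ u (hu : u ∈ radL (F := F) (n := n) lab0), f ⟨u, radL_lab0_le_upper hu⟩ = 1 := by
    intro u hu
    apply Units.ext
    rw [hf, Units.val_one]
    exact hτ1U u hu
  have hfinv : ∀ k (hk : k + 1 < n), ∀ b (hb : b ∈ upperTriangularGL n F)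
      (hxb : pGL (sw k hk) * b * (pGL (sw k hk))⁻¹ ∈ upperTriangularGL n F),
      f ⟨pGL (sw k hk) * b * (pGL (sw k hk))⁻¹, hxb⟩ = f ⟨b, hb⟩ := by
    intro k hk b hb hxb
    apply Units.ext
    rw [hf, hf]
    exact (dz_parabolic ψ hψ hψ0 k hk).2 τG hτirr hτU hin (pGL (sw k hk)) (sw_mem k hk) b hb hxb
  obtain ⟨α, hα⟩ := tau_det hn f hfU hfinv
  let β : GL (Fin n) F →* ℂˣ := (α.comp Matrix.GeneralLinearGroup.det)⁻¹
  have hβ : ∀ g, β g = (α (Matrix.GeneralLinearGroup.det g))⁻¹ := fun g => rfl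
  let l : IrrCharacter (GL (Fin n) F) := ⟨fun g => ((β g : ℂˣ) : ℂ), Helper83.isIrr_of_hom β⟩
  have hl : ∀ g, (l : GL (Fin n) F → ℂ) g = ((β g : ℂˣ) : ℂ) := fun g => rfl
  have hl1 : (l : GL (Fin n) F → ℂ) 1 = 1 := by
    rw [hl, map_one, Units.val_one]
  have hψ' : IsIrrCharacter _ (fun g => (l : GL (Fin n) F → ℂ) g * ψ g) :=
    Helper83.irr_twist l ⟨ψ, hψ⟩ hl1
  have h0' : ∀ u ∈ radL (F := F) (n := n) lab0, u ≠ 1 →
      (fun g => (l : GL (Fin n) F → ℂ) g * ψ g) u = 0 := by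
    intro u hu hu1
    show _ * ψ u = 0
    rw [hψ0 u hu hu1, mul_zero]
  have hB' : sSum (upperTriangularGL n F) (fun g => (l : GL (Fin n) F → ℂ) g * ψ g) ≠ 0 := by
    have e : sSum (upperTriangularGL n F) (fun g => (l : GL (Fin n) F → ℂ) g * ψ g) =
        sSum (upperTriangularGL n F) (fun g => ψ g * conj (τG g)) := by
      apply sSum_congr
      intro x hx
      show (l : GL (Fin n) F → ℂ) x * ψ x = ψ x * conj (τG x)
      have h1 : τG x = ((α (Matrix.GeneralLinearGroup.det x) : ℂˣ) : ℂ) := by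
        rw [← hα x hx, hf]
      rw [h1, hom_conj, mul_comm, hl, hβ, map_inv]
    rw [e]
    exact hin
  have hfin := dz_eq_St _ hψ' h0' hB'
  refine ⟨α, fun g => ?_⟩
  have h2 := congrFun hfin g
  rw [← h2]
  show ψ g = ((α (Matrix.GeneralLinearGroup.det g) : ℂˣ) : ℂ) * ((l : GL (Fin n) F → ℂ) g * ψ g)
  rw [hl, hβ, ← mul_assoc, ← Units.val_mul, mul_inv_cancel, Units.val_one, one_mul]

end DZGL

end Cfsg.Agent.Lib.Helper48
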