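import Mathlib
import Cfsg.Agent.Lib.Helper48.GLnG

set_option autoImplicit false

namespace Cfsg.Agent.Lib.Helper48

open Cfsg
open scoped MatrixGroups ComplexConjugate

section Restrict

variable {S G : Type*} [Group S] [Group G] (ι : S →* G)

/-- the map of coset spaces induced by a homomorphism -/
def cosetMap (P : Subgroup G) : S ⧸ P.comap ι → G ⧸ P :=
  Quotient.map' ι (by
    intro a b hab
    rw [QuotientGroup.leftRel_apply] at hab ⊢
    have : ι (a⁻¹ * b) ∈ P := hab
    rwa [map_mul, map_inv] at this)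

theorem cosetMap_mk (P : Subgroup G) (s : S) :
    cosetMap ι P (QuotientGroup.mk s) = QuotientGroup.mk (ι s) := rfl

theorem cosetMap_bijective (P : Subgroup G) (hP : ∀ g : G, ∃ s : S, ∃ d ∈ P, g = ι s * d) :
    Function.Bijective (cosetMap ι P) := by
  constructor
  · intro x y hxy
    induction x using QuotientGroup.induction_on with
    | H a =>
    induction y using QuotientGroup.induction_on with
    | H b =>
    rw [cosetMap_mk, cosetMap_mk, QuotientGroup.eq] at hxy
    rw [QuotientGroup.eq]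
    show ι (a⁻¹ * b) ∈ P
    rwa [map_mul, map_inv]
  · intro y
    induction y using QuotientGroup.induction_on with
    | H g =>
    obtain ⟨s, d, hd, rfl⟩ := hP g
    refine ⟨QuotientGroup.mk s, ?_⟩
    rw [cosetMap_mk, QuotientGroup.eq]
    simpa using hd

theorem cosetMap_smul (P : Subgroup G) (s : S) (x : S ⧸ P.comap ι) :
    cosetMap ι P (s • x) = ι s • cosetMap ι P x := by
  induction x using QuotientGroup.induction_on with
  | H a =>
  show cosetMap ι P (QuotientGroup.mk (s * a)) = QuotientGroup.mk (ι s * ι a)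
  rw [cosetMap_mk, map_mul]

theorem fixedPointCharacter_comap (P : Subgroup G) (hP : ∀ g : G, ∃ s : S, ∃ d ∈ P, g = ι s * d)
    (s : S) : fixedPointCharacter (P.comap ι) s = fixedPointCharacter P (ι s) := by
  unfold fixedPointCharacter
  congr 1
  apply Nat.card_congr
  exact Equiv.subtypeEquiv (Equiv.ofBijective _ (cosetMap_bijective ι P hP)) (fun x => by
    rw [MulAction.mem_fixedBy, MulAction.mem_fixedBy]
    show s • x = x ↔ ι s • cosetMap ι P x = cosetMap ι P x
    rw [← cosetMap_smul]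
    exact ((cosetMap_bijective ι P hP).1.eq_iff).symm)

/-- the map of double coset spaces induced by a homomorphism -/
def dcComap (H K : Subgroup G) : DC (H.comap ι) (K.comap ι) → DC H K :=
  Quotient.map (sa := dcSetoid (H.comap ι) (K.comap ι)) (sb := dcSetoid H K) ι (by
    rintro a b ⟨h, hh, k, hk, e⟩
    exact ⟨ι h, hh, ι k, hk, by rw [e, map_mul, map_mul]⟩)

theorem card_dc_comap (H K : Subgroup G)
    (hK : ∀ g : G, ∃ s : S, ∃ d ∈ K, g = ι s * d)
    (hst : ∀ s s' : S, (∃ h ∈ H, ∃ k ∈ K, ι s' = h * ι s * k) →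
      ∃ h' ∈ H.comap ι, ∃ k' ∈ K.comap ι, s' = h' * s * k') :
    Nat.card (DC (H.comap ι) (K.comap ι)) = Nat.card (DC H K) := by
  apply Nat.card_congr
  apply Equiv.ofBijective (dcComap ι H K)
  constructor
  · intro x y hxy
    induction x using Quotient.inductionOn with
    | _ a =>
    induction y using Quotient.inductionOn with
    | _ b =>
    have h1 : Quotient.mk (dcSetoid H K) (ι a) = Quotient.mk (dcSetoid H K) (ι b) := hxy
    exact Quotient.sound (hst a b ((dc_eq_iff H K _ _).mp h1))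
  · intro q
    induction q using Quotient.inductionOn with
    | _ g =>
    obtain ⟨s, d, hd, rfl⟩ := hK g
    refine ⟨Quotient.mk _ s, ?_⟩
    show Quotient.mk (dcSetoid H K) (ι s) = Quotient.mk (dcSetoid H K) (ι s * d)
    exact Quotient.sound ⟨1, H.one_mem, d, hd, by rw [one_mul]⟩

end Restrict

section SLn

variable {n : ℕ} {F : Type*} [Field F]

/-- the diagonal matrix with one entry `c` and ones elsewhere -/
def dgMat (i₀ : Fin n) (c : F) : Matrix (Fin n) (Fin n) F :=
  Matrix.diagonal (fun i => if i = i₀ then c else 1)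

theorem dgMat_mul (i₀ : Fin n) (c c' : F) (h : c * c' = 1) : dgMat i₀ c * dgMat i₀ c' = 1 := by
  unfold dgMat
  rw [Matrix.diagonal_mul_diagonal, ← Matrix.diagonal_one]
  congr 1
  funext i
  by_cases hi : i = i₀
  · rw [if_pos hi, if_pos hi, h]
  · rw [if_neg hi, if_neg hi, one_mul]

/-- the same as an element of the general linear group -/
def dgGL (i₀ : Fin n) (c : Fˣ) : GL (Fin n) F :=
  ⟨dgMat i₀ (c : F), dgMat i₀ ((c⁻¹ : Fˣ) : F), dgMat_mul i₀ _ _ (by simp), dgMat_mul i₀ _ _ (by simp)⟩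

theorem dgGL_mul_inv (i₀ : Fin n) (c : Fˣ) : dgGL i₀ c * dgGL i₀ c⁻¹ = 1 :=
  Units.ext (dgMat_mul i₀ _ _ (by simp))

theorem dgGL_mem (i₀ : Fin n) (c : Fˣ) : dgGL i₀ c ∈ upperTriangularGL n F :=
  Matrix.blockTriangular_diagonal _

theorem dgGL_det (i₀ : Fin n) (c : Fˣ) : Matrix.GeneralLinearGroup.det (dgGL i₀ c) = c := by
  apply Units.ext
  rw [Matrix.GeneralLinearGroup.val_det_apply]
  show (dgMat i₀ (c : F)).det = c
  unfold dgMat
  rw [Matrix.det_diagonal, Finset.prod_ite_eq' Finset.univ i₀, if_pos (Finset.mem_univ _)]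

theorem perm_conj_dgGL_mem (i₀ : Fin n) (c : Fˣ) (σ : Equiv.Perm (Fin n)) :
    (pGL σ)⁻¹ * dgGL i₀ c * pGL σ ∈ upperTriangularGL n F := by
  have h : (((pGL σ)⁻¹ * dgGL i₀ c * pGL σ : GL (Fin n) F) : Matrix (Fin n) (Fin n) F) =
      Matrix.diagonal (fun j => if σ j = i₀ then (c : F) else 1) := by
    rw [Matrix.GeneralLinearGroup.coe_mul, Matrix.GeneralLinearGroup.coe_mul, ← map_inv]
    show pMat σ⁻¹ * dgMat i₀ (c : F) * pMat σ = _
    ext i j
    rw [Matrix.mul_apply, Finset.sum_eq_single (σ j)]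
    · unfold dgMat
      rw [Matrix.mul_diagonal, pMat_apply, pMat_apply, if_pos rfl, mul_one, Matrix.diagonal_apply]
      by_cases hij : i = j
      · subst hij
        rw [if_pos rfl, if_pos (by simp), one_mul]
      · rw [if_neg hij, if_neg (by simpa using hij), zero_mul]
    · intro l _ hl
      rw [pMat_apply (F := F) σ, if_neg hl, mul_zero]
    · intro h
      exact absurd (Finset.mem_univ _) h
  show ((((pGL σ)⁻¹ * dgGL i₀ c * pGL σ : GL (Fin n) F) : Matrix (Fin n) (Fin n) F)).BlockTriangular id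
  rw [h]
  exact Matrix.blockTriangular_diagonal _

/-- Every double coset of the Borel subgroup is stabilized by pairs with arbitrary determinant. -/
theorem stab_det (i₀ : Fin n) (g : GL (Fin n) F) (c : Fˣ) :
    ∃ h ∈ upperTriangularGL n F, ∃ k ∈ upperTriangularGL n F,
      Matrix.GeneralLinearGroup.det h = c ∧ h * g * k = g := by
  obtain ⟨u, hu, u', hu', σ, rfl⟩ := bruhat g
  have hB := upperTriangularGL n F
  refine ⟨u * dgGL i₀ c * u⁻¹, ?_, u'⁻¹ * ((pGL σ)⁻¹ * dgGL i₀ c⁻¹ * pGL σ) * u', ?_, ?_, ?_⟩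
  · exact (upperTriangularGL n F).mul_mem ((upperTriangularGL n F).mul_mem hu (dgGL_mem i₀ c))
      ((upperTriangularGL n F).inv_mem hu)
  · exact (upperTriangularGL n F).mul_mem ((upperTriangularGL n F).mul_mem
      ((upperTriangularGL n F).inv_mem hu') (perm_conj_dgGL_mem i₀ c⁻¹ σ)) hu'
  · rw [map_mul, map_mul, map_inv, dgGL_det, mul_comm, ← mul_assoc, inv_mul_cancel, one_mul]
  · have e := dgGL_mul_inv (F := F) i₀ c
    calc u * dgGL i₀ c * u⁻¹ * (u * pGL σ * u') * (u'⁻¹ * ((pGL σ)⁻¹ * dgGL i₀ c⁻¹ * pGL σ) * u')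
        = u * (dgGL i₀ c * dgGL i₀ c⁻¹) * pGL σ * u' := by group
      _ = u * pGL σ * u' := by rw [e, mul_one]

theorem sl_of_det_one (g : GL (Fin n) F) (h : Matrix.GeneralLinearGroup.det g = 1) :
    ∃ s : Matrix.SpecialLinearGroup (Fin n) F, Matrix.SpecialLinearGroup.toGL s = g :=
  ⟨⟨(g : Matrix (Fin n) (Fin n) F), by
    have := congrArg Units.val h
    simpa using this⟩, Units.ext rfl⟩

theorem toGL_det (s : Matrix.SpecialLinearGroup (Fin n) F) :
    Matrix.GeneralLinearGroup.det (Matrix.SpecialLinearGroup.toGL s) = 1 :=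
  Matrix.SpecialLinearGroup.coeToGL_det s

theorem sl_surj (i₀ : Fin n) (P : Subgroup (GL (Fin n) F)) (hP : upperTriangularGL n F ≤ P)
    (g : GL (Fin n) F) :
    ∃ s : Matrix.SpecialLinearGroup (Fin n) F, ∃ d ∈ P, g = Matrix.SpecialLinearGroup.toGL s * d := by
  obtain ⟨s, hs⟩ := sl_of_det_one (g * (dgGL i₀ (Matrix.GeneralLinearGroup.det g))⁻¹) (by
    rw [map_mul, map_inv, dgGL_det, mul_inv_cancel])
  exact ⟨s, dgGL i₀ (Matrix.GeneralLinearGroup.det g), hP (dgGL_mem _ _), by rw [hs]; group⟩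

theorem sl_stab (i₀ : Fin n) (H K : Subgroup (GL (Fin n) F)) (hH : upperTriangularGL n F ≤ H)
    (hK : upperTriangularGL n F ≤ K) (s s' : Matrix.SpecialLinearGroup (Fin n) F)
    (h : ∃ h ∈ H, ∃ k ∈ K, Matrix.SpecialLinearGroup.toGL s' = h * Matrix.SpecialLinearGroup.toGL s * k) :
    ∃ h' ∈ H.comap Matrix.SpecialLinearGroup.toGL, ∃ k' ∈ K.comap Matrix.SpecialLinearGroup.toGL,
      s' = h' * s * k' := by
  obtain ⟨p, hp, p', hp', e⟩ := h
  obtain ⟨x, hx, y, hy, hdet, hxy⟩ := stab_det i₀ (Matrix.SpecialLinearGroup.toGL s)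
    (Matrix.GeneralLinearGroup.det p)⁻¹
  have e2 : Matrix.SpecialLinearGroup.toGL s' = (p * x) * Matrix.SpecialLinearGroup.toGL s * (y * p') := by
    rw [e]
    conv_lhs => rw [← hxy]
    group
  have d1 : Matrix.GeneralLinearGroup.det (p * x) = 1 := by
    rw [map_mul, hdet, mul_inv_cancel]
  have d2 : Matrix.GeneralLinearGroup.det (y * p') = 1 := by
    have := congrArg Matrix.GeneralLinearGroup.det e2
    rw [map_mul, map_mul, toGL_det, toGL_det, d1, one_mul, one_mul] at this
    exact this.symm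
  obtain ⟨h', hh'⟩ := sl_of_det_one (p * x) d1
  obtain ⟨k', hk'⟩ := sl_of_det_one (y * p') d2
  refine ⟨h', ?_, k', ?_, ?_⟩
  · show Matrix.SpecialLinearGroup.toGL h' ∈ H
    rw [hh']
    exact H.mul_mem hp (hH hx)
  · show Matrix.SpecialLinearGroup.toGL k' ∈ K
    rw [hk']
    exact K.mul_mem (hK hy) hp'
  · apply Matrix.SpecialLinearGroup.toGL_injective
    rw [map_mul, map_mul, hh', hk']
    exact e2

end SLn

end Cfsg.Agent.Lib.Helper48
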