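import Mathlib
import Cfsg.Agent.Lib.Helper48.GLnH

set_option autoImplicit false

namespace Cfsg.Agent.Lib.Helper48

open Cfsg
open scoped MatrixGroups ComplexConjugate

section SLirr

variable {n : ℕ} {F : Type*} [Field F] [Fintype F]

/-- The unipotent class function is a difference of two characters. -/
theorem unipotent_virtual [Fintype (GL (Fin n) F)] (ν : Fin n → ℕ) :
    ∃ φ ψ : GL (Fin n) F → ℂ, IsCharacter (GL (Fin n) F) φ ∧ IsCharacter (GL (Fin n) F) ψ ∧
      unipotentCharacterGL n F ν = φ - ψ := by
  classical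
  refine ⟨∑ κ ∈ Finset.univ.filter (fun κ : Equiv.Perm (Fin n) =>
      (∀ i : Fin n, (κ i).val ≤ ν i + i.val) ∧ Equiv.Perm.sign κ = 1),
      fixedPointCharacter (parabolicGL n F (shiftComp ν κ)),
    ∑ κ ∈ Finset.univ.filter (fun κ : Equiv.Perm (Fin n) =>
      (∀ i : Fin n, (κ i).val ≤ ν i + i.val) ∧ Equiv.Perm.sign κ = -1),
      fixedPointCharacter (parabolicGL n F (shiftComp ν κ)),
    Helper46.isCharacter_sum _ _ (fun κ _ => isCharacter_fixedPointCharacter _),
    Helper46.isCharacter_sum _ _ (fun κ _ => isCharacter_fixedPointCharacter _), ?_⟩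
  rw [unipotent_eq]
  funext g
  simp only [Pi.sub_apply, Finset.sum_apply]
  rw [Finset.sum_filter, Finset.sum_filter, ← Finset.sum_sub_distrib]
  apply Finset.sum_congr rfl
  intro κ _
  unfold coefU
  by_cases hc : ∀ i : Fin n, (κ i).val ≤ ν i + i.val
  · rcases Int.units_eq_one_or (Equiv.Perm.sign κ) with h | h
    · simp [h, hc]
    · simp [h, hc]
  · simp [hc]

/-- The restriction of a unipotent character to the special linear group is irreducible. -/
theorem unipotent_restrict_irr (hn : 0 < n) (ν : Fin n → ℕ) (hmono : Monotone ν)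
    (hsum : ∑ i, ν i = n) :
    IsIrrCharacter (Matrix.SpecialLinearGroup (Fin n) F)
      (fun s => unipotentCharacterGL n F ν (Matrix.SpecialLinearGroup.toGL s)) := by
  classical
  let _ : Fintype (GL (Fin n) F) := Fintype.ofFinite _
  let _ : Fintype (Matrix.SpecialLinearGroup (Fin n) F) := Fintype.ofFinite _
  let i₀ : Fin n := ⟨0, hn⟩
  obtain ⟨φ, ψ, hφ, hψ, hU⟩ := unipotent_virtual (F := F) ν
  have hφ' := Helper46.isCharacter_comp
    (Matrix.SpecialLinearGroup.toGL : Matrix.SpecialLinearGroup (Fin n) F →* GL (Fin n) F) φ hφ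
  have hψ' := Helper46.isCharacter_comp
    (Matrix.SpecialLinearGroup.toGL : Matrix.SpecialLinearGroup (Fin n) F →* GL (Fin n) F) ψ hψ
  have hU' : (fun s : Matrix.SpecialLinearGroup (Fin n) F =>
      unipotentCharacterGL n F ν (Matrix.SpecialLinearGroup.toGL s)) =
      (fun s => φ (Matrix.SpecialLinearGroup.toGL s)) - (fun s => ψ (Matrix.SpecialLinearGroup.toGL s)) := by
    funext s
    rw [hU]
    rfl
  obtain ⟨d, hd, hdeg⟩ := unipotent_deg_pos (F := F) ν hmono hsum
  rw [hU']
  apply virt_irr _ _ hφ' hψ' _ d hd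
  · rw [← hU']
    show unipotentCharacterGL n F ν (Matrix.SpecialLinearGroup.toGL 1) = d
    rw [map_one]
    exact hdeg
  · rw [← hU']
    have e : (fun s : Matrix.SpecialLinearGroup (Fin n) F =>
        unipotentCharacterGL n F ν (Matrix.SpecialLinearGroup.toGL s)) =
        fun s => ∑ κ : Equiv.Perm (Fin n), (coefU ν κ : ℂ) *
          fixedPointCharacter ((parabolicGL n F (shiftComp ν κ)).comap
            Matrix.SpecialLinearGroup.toGL) s := by
      funext s
      rw [unipotent_eq]
      apply Finset.sum_congr rfl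
      intro κ _
      rw [fixedPointCharacter_comap _ _ (sl_surj i₀ _ (upper_le_parabolic F _))]
    rw [e, classInner_sum_sum]
    have h1 := inner_unipotent (F := F) ν ν hmono hsum hmono hsum
    rw [unipotent_eq ν, classInner_sum_sum, if_pos rfl] at h1
    rw [← h1]
    apply Finset.sum_congr rfl
    intro κ _
    apply Finset.sum_congr rfl
    intro κ' _
    rw [classInner_fixedPointCharacter, classInner_fixedPointCharacter,
      card_dc_comap _ _ _ (sl_surj i₀ _ (upper_le_parabolic F _))
        (sl_stab i₀ _ _ (upper_le_parabolic F _) (upper_le_parabolic F _))]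

end SLirr

section Central

variable {G : Type*} [Group G]

theorem fixedPointCharacter_central (P : Subgroup G) (z : G) (hz : ∀ g : G, z * g = g * z)
    (hzP : z ∈ P) : fixedPointCharacter P z = fixedPointCharacter P 1 := by
  unfold fixedPointCharacter
  have : MulAction.fixedBy (G ⧸ P) z = MulAction.fixedBy (G ⧸ P) (1 : G) := by
    ext x
    rw [MulAction.mem_fixedBy, MulAction.mem_fixedBy, one_smul]
    refine ⟨fun _ => rfl, fun _ => ?_⟩
    induction x using QuotientGroup.induction_on with
    | H g =>
    show (QuotientGroup.mk (z * g) : G ⧸ P) = QuotientGroup.mk g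
    rw [QuotientGroup.eq, hz g]
    have : (g * z)⁻¹ * g = z⁻¹ := by group
    rw [this]
    exact P.inv_mem hzP
  rw [this]

end Central

section CentralGL

variable {n : ℕ} {F : Type*} [Field F]

theorem unipotent_central (ν : Fin n → ℕ) (x : Matrix.SpecialLinearGroup (Fin n) F)
    (hx : x ∈ Subgroup.center (Matrix.SpecialLinearGroup (Fin n) F)) :
    unipotentCharacterGL n F ν (Matrix.SpecialLinearGroup.toGL x) = unipotentCharacterGL n F ν 1 := by
  obtain ⟨r, -, hr⟩ := Matrix.SpecialLinearGroup.mem_center_iff.mp hx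
  have hcoe : ((Matrix.SpecialLinearGroup.toGL x : GL (Fin n) F) : Matrix (Fin n) (Fin n) F) =
      Matrix.scalar (Fin n) r := hr.symm
  have hcomm : ∀ g : GL (Fin n) F, Matrix.SpecialLinearGroup.toGL x * g = g * Matrix.SpecialLinearGroup.toGL x := by
    intro g
    apply Units.ext
    rw [Units.val_mul, Units.val_mul, hcoe]
    exact (Matrix.scalar_commute r (fun r' => Commute.all r r') _).eq
  have hmem : ∀ a : Fin n → ℕ, Matrix.SpecialLinearGroup.toGL x ∈ parabolicGL n F a := by
    intro a
    show ((Matrix.SpecialLinearGroup.toGL x : GL (Fin n) F) : Matrix (Fin n) (Fin n) F).BlockTriangular _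
    rw [hcoe, Matrix.scalar_apply]
    exact Matrix.blockTriangular_diagonal _
  unfold unipotentCharacterGL
  apply Finset.sum_congr rfl
  intro κ _
  split_ifs
  · rw [fixedPointCharacter_central _ _ hcomm (hmem _)]
  · rfl

end CentralGL

end Cfsg.Agent.Lib.Helper48
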