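import Mathlib
import Cfsg.Agent.Lib.Helper48.DZm
import Cfsg.Agent.Lib.Helper48.GLnI
import Cfsg.Agent.Lib.Helper20.ExtPrime

set_option autoImplicit false

namespace Cfsg.Agent.Lib.Helper48

open Cfsg
open scoped MatrixGroups ComplexConjugate

section Inertia

variable {G : Type*} [Group G]

/-- the inertia subgroup of a function on a normal subgroup -/
def inertiaSub (H : Subgroup G) [H.Normal] (θ : H → ℂ) : Subgroup G where
  carrier := {g | Helper20.conjFun H θ g = θ}
  one_mem' := Helper20.conjFun_one H θ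
  mul_mem' := fun {a b} ha hb => by
    show Helper20.conjFun H θ (a * b) = θ
    have ha' : Helper20.conjFun H θ a = θ := ha
    have hb' : Helper20.conjFun H θ b = θ := hb
    rw [← Helper20.conjFun_conjFun, ha', hb']
  inv_mem' := fun {a} ha => by
    show Helper20.conjFun H θ a⁻¹ = θ
    have ha' : Helper20.conjFun H θ a = θ := ha
    have h1 := Helper20.conjFun_conjFun H θ a a⁻¹
    rw [ha', mul_inv_cancel, Helper20.conjFun_one] at h1
    exact h1

theorem mem_inertiaSub (H : Subgroup G) [H.Normal] (θ : H → ℂ) (g : G) :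
    g ∈ inertiaSub H θ ↔ Helper20.conjFun H θ g = θ := Iff.rfl

theorem orderOf_conj_eq (a b : G) : orderOf (a * b * a⁻¹) = orderOf b := by
  have := orderOf_injective (MulAut.conj a).toMonoidHom (MulAut.conj a).injective b
  rw [← this]
  rfl

end Inertia

section SLtransfer

variable {n : ℕ} {F : Type*} [Field F] [Fintype F]

theorem radL_det (u : GL (Fin n) F) (hu : u ∈ radL (F := F) (n := n) lab0) :
    Matrix.GeneralLinearGroup.det u = 1 := by
  apply Units.ext
  rw [Matrix.GeneralLinearGroup.val_det_apply, Units.val_one,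
    Matrix.det_of_isUpperTriangular (radL_lab0_le_upper hu)]
  apply Finset.prod_eq_one
  intro a _
  have := (mem_radL_iff lab0 u).mp hu a a le_rfl
  rwa [Matrix.one_apply_eq] at this

/-- **Defect zero characters of `SL_n(q)`.**  An irreducible character of `SL_n(F)` vanishing on
the `p`-singular elements is the Steinberg character. -/
theorem dz_SL [Fintype (Matrix.SpecialLinearGroup (Fin n) F)] (p : ℕ) [Fact p.Prime] [CharP F p]
    (hn : 2 ≤ n) (χ : Matrix.SpecialLinearGroup (Fin n) F → ℂ)
    (hχ : IsIrrCharacter (Matrix.SpecialLinearGroup (Fin n) F) χ)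
    (hχ0 : ∀ s : Matrix.SpecialLinearGroup (Fin n) F, p ∣ orderOf s → χ s = 0) :
    χ = fun s => unipotentCharacterGL n F (fun _ => 1) (Matrix.SpecialLinearGroup.toGL s) := by
  classical
  letI : Fintype (GL (Fin n) F) := Fintype.ofFinite _
  let ι : Matrix.SpecialLinearGroup (Fin n) F →* GL (Fin n) F := Matrix.SpecialLinearGroup.toGL
  have hι : Function.Injective ι := Matrix.SpecialLinearGroup.toGL_injective
  have hmemH : ∀ g : GL (Fin n) F, g ∈ ι.range ↔ Matrix.GeneralLinearGroup.det g = 1 := by
    intro g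
    constructor
    · rintro ⟨s, rfl⟩
      exact toGL_det s
    · intro h
      obtain ⟨s, hs⟩ := sl_of_det_one g h
      exact ⟨s, hs⟩
  haveI hHn : (ι.range).Normal := by
    constructor
    intro x hx g
    rw [hmemH] at hx ⊢
    rw [map_mul, map_mul, hx, mul_one, map_inv, mul_inv_cancel]
  letI : Fintype ↥(ι.range) := Fintype.ofFinite _
  let e : Matrix.SpecialLinearGroup (Fin n) F ≃* ↥(ι.range) := MonoidHom.ofInjective hι
  have he : ∀ z : ↥(ι.range), ι (e.symm z) = (z : GL (Fin n) F) := fun z =>
    congrArg Subtype.val (e.apply_symm_apply z)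
  let θ : ↥(ι.range) → ℂ := fun h => χ (e.symm h)
  have hθ : IsIrrCharacter ↥(ι.range) θ :=
    Helper20.irr_comp_surjective e.symm.toMonoidHom e.symm.surjective hχ
  obtain ⟨ψ, hψ, hcon⟩ := Helper20.exists_irr_over (ι.range) hθ
  have hres := Helper20.clifford_res (ι.range) hθ hψ hcon (inertiaSub (ι.range) θ)
    (mem_inertiaSub (ι.range) θ)
  have hψ0 : ∀ u ∈ radL (F := F) (n := n) lab0, u ≠ 1 → ψ u = 0 := by
    intro u hu hu1
    have huH : u ∈ ι.range := (hmemH u).mpr (radL_det u hu)
    have h1 := hres ⟨u, huH⟩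
    have h2 : ∑ x : GL (Fin n) F, Helper20.conjFun (ι.range) θ x ⟨u, huH⟩ = 0 := by
      apply Finset.sum_eq_zero
      intro x _
      rw [Helper20.conjFun_apply]
      apply hχ0
      rw [← orderOf_injective ι hι, he]
      show p ∣ orderOf (x * u * x⁻¹)
      rw [orderOf_conj_eq]
      exact radL_orderOf p u hu hu1
    rw [h2, mul_zero] at h1
    exact h1
  obtain ⟨α, hα⟩ := dz_GL hn ψ hψ hψ0
  have hSt := unipotent_restrict_irr (F := F) (show 0 < n by omega) (fun _ => 1)
    (fun _ _ _ => le_rfl) (by simp)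
  by_contra hne
  have h0 := inner_irr_ne _ _ hSt hχ (Ne.symm hne)
  apply hcon
  have h1 := Helper20.classInner_comp_equiv e (fun h : ↥(ι.range) => ψ h) θ
  rw [← h1]
  have e1 : (fun a => (fun h : ↥(ι.range) => ψ h) (e a)) =
      fun s => unipotentCharacterGL n F (fun _ => 1) (Matrix.SpecialLinearGroup.toGL s) := by
    funext a
    show ψ (ι a) = _
    rw [hα, toGL_det, map_one, Units.val_one, one_mul]
  have e2 : (fun a => θ (e a)) = χ := by
    funext a
    show χ (e.symm (e a)) = χ a
    rw [MulEquiv.symm_apply_apply]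
  rw [e1, e2]
  exact h0

end SLtransfer

end Cfsg.Agent.Lib.Helper48
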