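import Mathlib
import Cfsg.Prelude.Def_Amalgam
import Cfsg.Agent.Lib.Helper55.Basic

set_option autoImplicit false

namespace Cfsg.Agent.Lib.Helper48

open Cfsg

section RadicalGroup

variable {G : Type*} [Group G]

theorem mem_normalizer_of_forall (N : Subgroup G) (y : G) (h1 : ∀ h ∈ N, y * h * y⁻¹ ∈ N)
    (h2 : ∀ h ∈ N, y⁻¹ * h * y ∈ N) : y ∈ Subgroup.normalizer (N : Set G) := by
  rw [Subgroup.mem_normalizer_iff]
  intro h
  refine ⟨h1 h, fun hh => ?_⟩
  have := h2 _ hh
  have e : y⁻¹ * (y * h * y⁻¹) * y = h := by group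
  rwa [e] at this

theorem conj_mem_of_mem_normalizer (N : Subgroup G) (y : G)
    (hy : y ∈ Subgroup.normalizer (N : Set G)) (h : G) (hh : h ∈ N) : y * h * y⁻¹ ∈ N :=
  (Subgroup.mem_normalizer_iff.mp hy h).mp hh

theorem conj_mem_of_mem_normalizer' (N : Subgroup G) (y : G)
    (hy : y ∈ Subgroup.normalizer (N : Set G)) (h : G) (hh : h ∈ N) : y⁻¹ * h * y ∈ N := by
  have := conj_mem_of_mem_normalizer N y⁻¹ (inv_mem hy) h hh
  rwa [inv_inv] at this

theorem normalizer_sup (A B : Subgroup G) (y : G) (hA : y ∈ Subgroup.normalizer (A : Set G))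
    (hB : y ∈ Subgroup.normalizer (B : Set G)) : y ∈ Subgroup.normalizer ((A ⊔ B : Subgroup G) : Set G) := by
  have key : ∀ z : G, z ∈ Subgroup.normalizer (A : Set G) → z ∈ Subgroup.normalizer (B : Set G) →
      ∀ h ∈ A ⊔ B, z * h * z⁻¹ ∈ A ⊔ B := by
    intro z hzA hzB
    have hle : A ⊔ B ≤ (A ⊔ B).comap (MulAut.conj z).toMonoidHom := by
      apply sup_le
      · intro a ha
        rw [Subgroup.mem_comap]
        exact le_sup_left (a := A) (b := B) (conj_mem_of_mem_normalizer A z hzA a ha)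
      · intro b hb
        rw [Subgroup.mem_comap]
        exact le_sup_right (a := A) (b := B) (conj_mem_of_mem_normalizer B z hzB b hb)
    intro h hh
    exact hle hh
  apply mem_normalizer_of_forall
  · exact key y hA hB
  · intro h hh
    have := key y⁻¹ (inv_mem hA) (inv_mem hB) h hh
    rwa [inv_inv] at this

theorem normalizer_inf (A B : Subgroup G) (y : G) (hA : y ∈ Subgroup.normalizer (A : Set G))
    (hB : y ∈ Subgroup.normalizer (B : Set G)) : y ∈ Subgroup.normalizer ((A ⊓ B : Subgroup G) : Set G) := by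
  apply mem_normalizer_of_forall
  · intro h hh
    exact ⟨conj_mem_of_mem_normalizer A y hA h hh.1, conj_mem_of_mem_normalizer B y hB h hh.2⟩
  · intro h hh
    exact ⟨conj_mem_of_mem_normalizer' A y hA h hh.1, conj_mem_of_mem_normalizer' B y hB h hh.2⟩

/-- a `p`-subgroup normalized by the normalizer of a radical `p`-subgroup `D` lies in `D` -/
theorem le_of_radical [Finite G] (p : ℕ) [Fact p.Prime] (D E : Subgroup G) (hD : IsPGroup p D)
    (hE : IsPGroup p E)
    (hnorm : Subgroup.normalizer (D : Set G) ≤ Subgroup.normalizer (E : Set G))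
    (hrad : pCoreOf p (Subgroup.normalizer (D : Set G)) = D) : E ≤ D := by
  have hDE : D ≤ Subgroup.normalizer (E : Set G) := le_trans Subgroup.le_normalizer hnorm
  have hR : IsPGroup p ↥(D ⊔ E) := IsPGroup.to_sup_of_normal_right' hD hE hDE
  have hQ : (D ⊔ E) ⊓ Subgroup.normalizer (D : Set G) ≤ D := by
    have h1 := Helper55.le_pCoreOf (p := p) (N := (D ⊔ E) ⊓ Subgroup.normalizer (D : Set G))
      (H := Subgroup.normalizer (D : Set G)) inf_le_right
      (fun y hy => normalizer_inf _ _ y (normalizer_sup D E y hy (hnorm hy))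
        (Subgroup.le_normalizer hy)) (hR.to_le inf_le_left)
    rwa [hrad] at h1
  by_contra hED
  have hlt : D < D ⊔ E := lt_of_le_of_ne le_sup_left (fun h => hED (by rw [h]; exact le_sup_right))
  haveI : Group.IsNilpotent ↥(D ⊔ E) := hR.isNilpotent
  have hnc := Group.normalizerCondition_of_isNilpotent (G := ↥(D ⊔ E))
  have h1 : D.subgroupOf (D ⊔ E) < ⊤ := by
    rw [lt_top_iff_ne_top]
    intro h
    rw [Subgroup.subgroupOf_eq_top] at h
    exact hlt.ne (le_antisymm le_sup_left h)
  have h2 := hnc _ h1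
  obtain ⟨r, hr, hrD⟩ := SetLike.exists_of_lt h2
  apply hrD
  rw [Subgroup.mem_subgroupOf]
  apply hQ
  refine ⟨r.2, ?_⟩
  show (r : G) ∈ Subgroup.normalizer (D : Set G)
  rw [Subgroup.mem_normalizer_iff] at hr ⊢
  intro h
  constructor
  · intro hh
    have hDR : D ≤ D ⊔ E := le_sup_left
    have h3 := (hr ⟨h, hDR hh⟩).mp (by rw [Subgroup.mem_subgroupOf]; exact hh)
    rw [Subgroup.mem_subgroupOf] at h3
    exact h3
  · intro hh
    have hhR : h ∈ D ⊔ E := by
      have e : h = (r : G)⁻¹ * ((r : G) * h * (r : G)⁻¹) * (r : G) := by group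
      rw [e]
      have hDR : D ≤ D ⊔ E := le_sup_left
      exact mul_mem (mul_mem (inv_mem r.2) (hDR hh)) r.2
    have h3 := (hr ⟨h, hhR⟩).mpr (by rw [Subgroup.mem_subgroupOf]; exact hh)
    rw [Subgroup.mem_subgroupOf] at h3
    exact h3

end RadicalGroup

end Cfsg.Agent.Lib.Helper48
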