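import Mathlib
import Cfsg.Agent.Lib.Helper48.DZo

set_option autoImplicit false

namespace Cfsg.Agent.Lib.Helper48

open Cfsg
open scoped MatrixGroups

section RadicalSL

variable {n : ℕ} {F : Type*} [Field F]

theorem matrix_eq_zero_of_mulVec (M : Matrix (Fin n) (Fin n) F) (h : ∀ v, M.mulVec v = 0) : M = 0 := by
  ext i j
  have h1 := congrFun (h (Pi.single j 1)) i
  rw [Matrix.mulVec_single_one] at h1
  exact h1

theorem matrix_eq_one_of_mulVec (M : Matrix (Fin n) (Fin n) F) (h : ∀ v, M.mulVec v = v) : M = 1 := by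
  have h1 : M - 1 = 0 := by
    apply matrix_eq_zero_of_mulVec
    intro v
    rw [Matrix.sub_mulVec, h v, Matrix.one_mulVec, sub_self]
  exact sub_eq_zero.mp h1

/-- the space of vectors fixed by a subgroup of `SL_n(F)` -/
def fixV (D : Subgroup (Matrix.SpecialLinearGroup (Fin n) F)) : Submodule F (Fin n → F) where
  carrier := {v | ∀ d ∈ D, (d : Matrix (Fin n) (Fin n) F).mulVec v = v}
  add_mem' := by
    intro a b ha hb d hd
    rw [Matrix.mulVec_add, ha d hd, hb d hd]
  zero_mem' := by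
    intro d hd
    rw [Matrix.mulVec_zero]
  smul_mem' := by
    intro c v hv d hd
    rw [Matrix.mulVec_smul, hv d hd]

theorem mem_fixV (D : Subgroup (Matrix.SpecialLinearGroup (Fin n) F)) (v : Fin n → F) :
    v ∈ fixV D ↔ ∀ d ∈ D, (d : Matrix (Fin n) (Fin n) F).mulVec v = v := Iff.rfl

theorem fixV_ne_top (D : Subgroup (Matrix.SpecialLinearGroup (Fin n) F)) (hD1 : D ≠ ⊥) :
    fixV D ≠ ⊤ := by
  intro h
  apply hD1
  rw [Subgroup.eq_bot_iff_forall]
  intro d hd
  apply Subtype.ext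
  rw [Matrix.SpecialLinearGroup.coe_one]
  apply matrix_eq_one_of_mulVec
  intro v
  have hv : v ∈ fixV D := by rw [h]; exact Submodule.mem_top
  exact hv d hd

/-- the natural action of a subgroup of `SL_n(F)` on column vectors -/
def slAction (D : Subgroup (Matrix.SpecialLinearGroup (Fin n) F)) : MulAction D (Fin n → F) where
  smul d v := ((d : Matrix.SpecialLinearGroup (Fin n) F) : Matrix (Fin n) (Fin n) F).mulVec v
  one_smul v := by
    show ((1 : Matrix.SpecialLinearGroup (Fin n) F) : Matrix (Fin n) (Fin n) F).mulVec v = v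
    rw [Matrix.SpecialLinearGroup.coe_one, Matrix.one_mulVec]
  mul_smul a b v := by
    show (((a : Matrix.SpecialLinearGroup (Fin n) F) * (b : Matrix.SpecialLinearGroup (Fin n) F) :
      Matrix.SpecialLinearGroup (Fin n) F) : Matrix (Fin n) (Fin n) F).mulVec v = _
    rw [Matrix.SpecialLinearGroup.coe_mul, ← Matrix.mulVec_mulVec]
    rfl

theorem fixV_ne_bot [Fintype F] (p : ℕ) [Fact p.Prime] [CharP F p] (hn : 0 < n)
    (D : Subgroup (Matrix.SpecialLinearGroup (Fin n) F)) (hD : IsPGroup p D) : fixV D ≠ ⊥ := by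
  classical
  letI := slAction D
  have hcard : p ∣ Nat.card (Fin n → F) := by
    obtain ⟨f, -, hq⟩ := FiniteField.card F p
    rw [Nat.card_eq_fintype_card, Fintype.card_fun, Fintype.card_fin, hq, ← pow_mul]
    exact dvd_pow_self p (Nat.mul_ne_zero f.ne_zero hn.ne')
  have h0 : (0 : Fin n → F) ∈ MulAction.fixedPoints D (Fin n → F) := by
    intro d
    show ((d : Matrix.SpecialLinearGroup (Fin n) F) : Matrix (Fin n) (Fin n) F).mulVec 0 = 0
    rw [Matrix.mulVec_zero]
  obtain ⟨b, hb, hb0⟩ := hD.exists_fixed_point_of_prime_dvd_card_of_fixed_point (Fin n → F) hcard h0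
  intro h
  apply hb0
  have hbV : b ∈ fixV D := by
    intro d hd
    exact hb ⟨d, hd⟩
  rw [h, Submodule.mem_bot] at hbV
  exact hbV.symm

theorem fixV_normalizer (D : Subgroup (Matrix.SpecialLinearGroup (Fin n) F))
    (y : Matrix.SpecialLinearGroup (Fin n) F) (hy : y ∈ Subgroup.normalizer (D : Set _))
    (v : Fin n → F) (hv : v ∈ fixV D) : (y : Matrix (Fin n) (Fin n) F).mulVec v ∈ fixV D := by
  intro d hd
  have h1 := conj_mem_of_mem_normalizer' D y hy d hd
  have h2 := hv _ h1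
  rw [Matrix.mulVec_mulVec, ← Matrix.SpecialLinearGroup.coe_mul]
  have e : d * y = y * (y⁻¹ * d * y) := by group
  rw [e, Matrix.SpecialLinearGroup.coe_mul, ← Matrix.mulVec_mulVec, h2]

/-- the elementary abelian subgroup attached to a subspace: the elements acting trivially on `W`
and on the quotient by `W` -/
def elemSub (W : Submodule F (Fin n → F)) : Subgroup (Matrix.SpecialLinearGroup (Fin n) F) where
  carrier := {g | (∀ v, (g : Matrix (Fin n) (Fin n) F).mulVec v - v ∈ W) ∧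
    ∀ w ∈ W, (g : Matrix (Fin n) (Fin n) F).mulVec w = w}
  one_mem' := by
    refine ⟨fun v => ?_, fun w _ => ?_⟩
    · rw [Matrix.SpecialLinearGroup.coe_one, Matrix.one_mulVec, sub_self]
      exact W.zero_mem
    · rw [Matrix.SpecialLinearGroup.coe_one, Matrix.one_mulVec]
  mul_mem' := by
    rintro g h ⟨hg1, hg2⟩ ⟨hh1, hh2⟩
    refine ⟨fun v => ?_, fun w hw => ?_⟩
    · rw [Matrix.SpecialLinearGroup.coe_mul, ← Matrix.mulVec_mulVec]
      have e : (g : Matrix (Fin n) (Fin n) F).mulVec ((h : Matrix (Fin n) (Fin n) F).mulVec v) - v =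
          ((h : Matrix (Fin n) (Fin n) F).mulVec v - v) +
            ((g : Matrix (Fin n) (Fin n) F).mulVec v - v) := by
        have h3 := hg2 _ (hh1 v)
        rw [Matrix.mulVec_sub] at h3
        rw [← h3]
        abel
      rw [e]
      exact W.add_mem (hh1 v) (hg1 v)
    · rw [Matrix.SpecialLinearGroup.coe_mul, ← Matrix.mulVec_mulVec, hh2 w hw, hg2 w hw]
  inv_mem' := by
    rintro g ⟨hg1, hg2⟩
    have hinv : ∀ v, ((g⁻¹ : Matrix.SpecialLinearGroup (Fin n) F) : Matrix (Fin n) (Fin n) F).mulVec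
        ((g : Matrix (Fin n) (Fin n) F).mulVec v) = v := by
      intro v
      rw [Matrix.mulVec_mulVec, ← Matrix.SpecialLinearGroup.coe_mul, inv_mul_cancel,
        Matrix.SpecialLinearGroup.coe_one, Matrix.one_mulVec]
    have hfix : ∀ w ∈ W, ((g⁻¹ : Matrix.SpecialLinearGroup (Fin n) F) :
        Matrix (Fin n) (Fin n) F).mulVec w = w := by
      intro w hw
      have := hinv w
      rwa [hg2 w hw] at this
    refine ⟨fun v => ?_, hfix⟩
    have h3 := hfix _ (hg1 v)
    rw [Matrix.mulVec_sub, hinv] at h3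
    have e : ((g⁻¹ : Matrix.SpecialLinearGroup (Fin n) F) : Matrix (Fin n) (Fin n) F).mulVec v - v =
        -((g : Matrix (Fin n) (Fin n) F).mulVec v - v) := by
      rw [← h3]
      abel
    rw [e]
    exact W.neg_mem (hg1 v)

theorem mem_elemSub (W : Submodule F (Fin n → F)) (g : Matrix.SpecialLinearGroup (Fin n) F) :
    g ∈ elemSub W ↔ (∀ v, (g : Matrix (Fin n) (Fin n) F).mulVec v - v ∈ W) ∧
      ∀ w ∈ W, (g : Matrix (Fin n) (Fin n) F).mulVec w = w := Iff.rfl

theorem elemSub_isPGroup (p : ℕ) [Fact p.Prime] [CharP F p] (hn : 0 < n)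
    (W : Submodule F (Fin n → F)) : IsPGroup p (elemSub W) := by
  have hp : p.Prime := Fact.out
  haveI : Nonempty (Fin n) := ⟨⟨0, hn⟩⟩
  haveI : CharP (Matrix (Fin n) (Fin n) F) p := Matrix.charP _
  rintro ⟨g, hg1, hg2⟩
  refine ⟨1, ?_⟩
  apply Subtype.ext
  apply Subtype.ext
  show ((g ^ p ^ 1 : Matrix.SpecialLinearGroup (Fin n) F) : Matrix (Fin n) (Fin n) F) =
    ((1 : Matrix.SpecialLinearGroup (Fin n) F) : Matrix (Fin n) (Fin n) F)
  rw [pow_one, Matrix.SpecialLinearGroup.coe_pow, Matrix.SpecialLinearGroup.coe_one]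
  have hN : ((g : Matrix (Fin n) (Fin n) F) - 1) * ((g : Matrix (Fin n) (Fin n) F) - 1) = 0 := by
    apply matrix_eq_zero_of_mulVec
    intro v
    rw [← Matrix.mulVec_mulVec, Matrix.sub_mulVec, Matrix.one_mulVec, Matrix.sub_mulVec,
      Matrix.one_mulVec, hg2 _ (hg1 v), sub_self]
  have e : (g : Matrix (Fin n) (Fin n) F) = ((g : Matrix (Fin n) (Fin n) F) - 1) + 1 := by simp
  rw [e, add_pow_char_of_commute p (Commute.one_right _), one_pow]
  have h2 : ((g : Matrix (Fin n) (Fin n) F) - 1) ^ p = 0 := by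
    have : p = 2 + (p - 2) := by have := hp.two_le; omega
    rw [this, pow_add, pow_two, hN, zero_mul]
  rw [h2, zero_add]

theorem elemSub_conj (W : Submodule F (Fin n → F)) (y : Matrix.SpecialLinearGroup (Fin n) F)
    (hy : ∀ w ∈ W, (y : Matrix (Fin n) (Fin n) F).mulVec w ∈ W)
    (hy' : ∀ w ∈ W, ((y⁻¹ : Matrix.SpecialLinearGroup (Fin n) F) :
      Matrix (Fin n) (Fin n) F).mulVec w ∈ W)
    (g : Matrix.SpecialLinearGroup (Fin n) F) (hg : g ∈ elemSub W) : y * g * y⁻¹ ∈ elemSub W := by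
  obtain ⟨hg1, hg2⟩ := hg
  have hyy : ∀ v, (y : Matrix (Fin n) (Fin n) F).mulVec
      (((y⁻¹ : Matrix.SpecialLinearGroup (Fin n) F) : Matrix (Fin n) (Fin n) F).mulVec v) = v := by
    intro v
    rw [Matrix.mulVec_mulVec, ← Matrix.SpecialLinearGroup.coe_mul, mul_inv_cancel,
      Matrix.SpecialLinearGroup.coe_one, Matrix.one_mulVec]
  refine ⟨fun v => ?_, fun w hw => ?_⟩
  · rw [Matrix.SpecialLinearGroup.coe_mul, Matrix.SpecialLinearGroup.coe_mul, ← Matrix.mulVec_mulVec,
      ← Matrix.mulVec_mulVec]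
    have h1 := hy _ (hg1 (((y⁻¹ : Matrix.SpecialLinearGroup (Fin n) F) :
      Matrix (Fin n) (Fin n) F).mulVec v))
    rw [Matrix.mulVec_sub, hyy] at h1
    exact h1
  · rw [Matrix.SpecialLinearGroup.coe_mul, Matrix.SpecialLinearGroup.coe_mul, ← Matrix.mulVec_mulVec,
      ← Matrix.mulVec_mulVec, hg2 _ (hy' w hw), hyy]

end RadicalSL

end Cfsg.Agent.Lib.Helper48
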