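import Mathlib
import Cfsg.Agent.Lib.Helper48.DZp

set_option autoImplicit false

namespace Cfsg.Agent.Lib.Helper48

open Cfsg
open scoped MatrixGroups

section RadicalSL2

variable {n : ℕ} {F : Type*} [Field F]

theorem exists_transv (W : Submodule F (Fin n → F)) (v : Fin n → F) (hv : v ∈ W) (l : Fin n → F)
    (hl : ∀ u ∈ W, l ⬝ᵥ u = 0) :
    ∃ t ∈ elemSub W, (t : Matrix (Fin n) (Fin n) F) = 1 + Matrix.vecMulVec v l := by
  have hdet : (1 + Matrix.vecMulVec v l).det = 1 := by
    rw [Matrix.vecMulVec_eq Unit, Matrix.det_one_add_replicateCol_mul_replicateRow, hl v hv, add_zero]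
  refine ⟨⟨1 + Matrix.vecMulVec v l, hdet⟩, ⟨fun w => ?_, fun w hw => ?_⟩, rfl⟩
  · show (1 + Matrix.vecMulVec v l).mulVec w - w ∈ W
    rw [Matrix.add_mulVec, Matrix.one_mulVec, add_sub_cancel_left, Matrix.vecMulVec_mulVec,
      op_smul_eq_smul]
    exact W.smul_mem _ hv
  · show (1 + Matrix.vecMulVec v l).mulVec w = w
    rw [Matrix.add_mulVec, Matrix.one_mulVec, Matrix.vecMulVec_mulVec, hl w hw, op_smul_eq_smul,
      zero_smul, add_zero]

theorem exists_annihilator (W : Submodule F (Fin n → F)) (hW : W ≠ ⊤) :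
    ∃ l : Fin n → F, l ≠ 0 ∧ ∀ u ∈ W, l ⬝ᵥ u = 0 := by
  classical
  obtain ⟨f, hf, hle⟩ := Submodule.exists_le_ker_of_lt_top W (lt_top_iff_ne_top.mpr hW)
  have hf' : ∀ u, f u = (fun i => f (fun j => if i = j then 1 else 0)) ⬝ᵥ u := by
    intro u
    rw [LinearMap.pi_apply_eq_sum_univ f u]
    unfold dotProduct
    apply Finset.sum_congr rfl
    intro i _
    rw [smul_eq_mul, mul_comm]
  refine ⟨fun i => f (fun j => if i = j then 1 else 0), ?_, fun u hu => ?_⟩
  · intro h0
    apply hf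
    apply LinearMap.ext
    intro u
    rw [hf' u, h0, zero_dotProduct]
    rfl
  · rw [← hf' u]
    exact hle hu

/-- **Radical `p`-subgroups of `SL_n(q)`.**  A `p`-regular element centralizing a nontrivial
radical `p`-subgroup of `SL_n(F)` (`F` of characteristic `p`) is central. -/
theorem radical_cent_central [Fintype F] (p : ℕ) [Fact p.Prime] [CharP F p] (hn : 0 < n)
    (D : Subgroup (Matrix.SpecialLinearGroup (Fin n) F)) (hD : IsPGroup p D) (hD1 : D ≠ ⊥)
    (hrad : pCoreOf p (Subgroup.normalizer (D : Set (Matrix.SpecialLinearGroup (Fin n) F))) = D)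
    (x : Matrix.SpecialLinearGroup (Fin n) F) (hx : ¬ p ∣ orderOf x) (hxD : ∀ d ∈ D, x * d = d * x) :
    x ∈ Subgroup.center (Matrix.SpecialLinearGroup (Fin n) F) := by
  classical
  have hp : p.Prime := Fact.out
  haveI : Nonempty (Fin n) := ⟨⟨0, hn⟩⟩
  haveI : CharP (Matrix (Fin n) (Fin n) F) p := Matrix.charP _
  have hE : elemSub (fixV D) ≤ D := by
    apply le_of_radical p D (elemSub (fixV D)) hD (elemSub_isPGroup p hn (fixV D)) ?_ hrad
    intro y hy
    apply mem_normalizer_of_forall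
    · intro g hg
      exact elemSub_conj (fixV D) y (fixV_normalizer D y hy) (fixV_normalizer D y⁻¹ (inv_mem hy)) g hg
    · intro g hg
      have := elemSub_conj (fixV D) y⁻¹ (fixV_normalizer D y⁻¹ (inv_mem hy))
        (by rw [inv_inv]; exact fixV_normalizer D y hy) g hg
      rwa [inv_inv] at this
  obtain ⟨v₀, hv₀W, hv₀⟩ := (Submodule.ne_bot_iff (fixV D)).mp (fixV_ne_bot p hn D hD)
  obtain ⟨l₀, hl₀, hl₀W⟩ := exists_annihilator (fixV D) (fixV_ne_top D hD1)
  obtain ⟨i₀, hi₀⟩ : ∃ i, v₀ i ≠ 0 := by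
    by_contra h
    push Not at h
    exact hv₀ (funext h)
  obtain ⟨j₀, hj₀⟩ : ∃ j, l₀ j ≠ 0 := by
    by_contra h
    push Not at h
    exact hl₀ (funext h)
  have key : ∀ v ∈ fixV D, ∀ l : Fin n → F, (∀ u ∈ fixV D, l ⬝ᵥ u = 0) → ∀ i j,
      ((x : Matrix (Fin n) (Fin n) F).mulVec v) i * l j =
        v i * (Matrix.vecMul l (x : Matrix (Fin n) (Fin n) F)) j := by
    intro v hv l hl i j
    obtain ⟨t, ht, hte⟩ := exists_transv (fixV D) v hv l hl
    have h1 := hxD t (hE ht)
    have h2 := congrArg (fun s : Matrix.SpecialLinearGroup (Fin n) F =>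
      (s : Matrix (Fin n) (Fin n) F)) h1
    simp only [Matrix.SpecialLinearGroup.coe_mul] at h2
    rw [hte, mul_add, add_mul, mul_one, one_mul, add_right_inj, Matrix.mul_vecMulVec,
      Matrix.vecMulVec_mul] at h2
    have h3 := congrFun (congrFun h2 i) j
    rw [Matrix.vecMulVec_apply, Matrix.vecMulVec_apply] at h3
    exact h3
  set c := ((x : Matrix (Fin n) (Fin n) F).mulVec v₀) i₀ / v₀ i₀ with hc
  have hrow : ∀ l : Fin n → F, (∀ u ∈ fixV D, l ⬝ᵥ u = 0) →
      Matrix.vecMul l (x : Matrix (Fin n) (Fin n) F) = c • l := by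
    intro l hl
    funext j
    have h1 := key v₀ hv₀W l hl i₀ j
    rw [Pi.smul_apply, smul_eq_mul, hc]
    field_simp
    linear_combination (-1 : F) * h1
  have hcol : ∀ v ∈ fixV D, (x : Matrix (Fin n) (Fin n) F).mulVec v = c • v := by
    intro v hv
    funext i
    have h1 := key v hv l₀ hl₀W i j₀
    rw [hrow l₀ hl₀W, Pi.smul_apply, smul_eq_mul] at h1
    rw [Pi.smul_apply, smul_eq_mul]
    have h2 : (((x : Matrix (Fin n) (Fin n) F).mulVec v) i - c * v i) * l₀ j₀ = 0 := by
      linear_combination h1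
    rcases mul_eq_zero.mp h2 with h | h
    · linear_combination h
    · exact absurd h hj₀
  set N : Matrix (Fin n) (Fin n) F := (x : Matrix (Fin n) (Fin n) F) - c • 1 with hN
  have hNcol : ∀ v ∈ fixV D, N.mulVec v = 0 := by
    intro v hv
    rw [hN, Matrix.sub_mulVec, hcol v hv, Matrix.smul_mulVec, Matrix.one_mulVec, sub_self]
  have hNrow : ∀ l : Fin n → F, (∀ u ∈ fixV D, l ⬝ᵥ u = 0) → Matrix.vecMul l N = 0 := by
    intro l hl
    rw [hN, Matrix.vecMul_sub, hrow l hl, Matrix.vecMul_smul, Matrix.vecMul_one, sub_self]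
  have hNN : N * N = 0 := by
    ext i j
    rw [Matrix.zero_apply]
    have h1 : Matrix.vecMul (N i) N = 0 := by
      apply hNrow
      intro u hu
      exact congrFun (hNcol u hu) i
    exact congrFun h1 j
  have hxp : (x : Matrix (Fin n) (Fin n) F) ^ p = (c ^ p) • (1 : Matrix (Fin n) (Fin n) F) := by
    have e : (x : Matrix (Fin n) (Fin n) F) = N + c • 1 := by rw [hN]; abel
    rw [e, add_pow_char_of_commute p (Commute.smul_right (Commute.one_right _) c)]
    have h2 : N ^ p = 0 := by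
      have : p = 2 + (p - 2) := by have := hp.two_le; omega
      rw [this, pow_add, pow_two, hNN, zero_mul]
    rw [h2, zero_add, smul_pow, one_pow]
  obtain ⟨m, hm⟩ := exists_pow_eq_self_of_coprime ((Nat.Prime.coprime_iff_not_dvd hp).mpr hx)
  have hxm : (x : Matrix (Fin n) (Fin n) F) = ((c ^ p) ^ m) • (1 : Matrix (Fin n) (Fin n) F) := by
    have h1 := congrArg (fun s : Matrix.SpecialLinearGroup (Fin n) F =>
      (s : Matrix (Fin n) (Fin n) F)) hm
    simp only [Matrix.SpecialLinearGroup.coe_pow] at h1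
    rw [← h1, hxp, smul_pow, one_pow]
  rw [Matrix.SpecialLinearGroup.mem_center_iff]
  refine ⟨(c ^ p) ^ m, ?_, ?_⟩
  · have hdet := x.2
    rw [hxm, Matrix.det_smul, Matrix.det_one, mul_one] at hdet
    exact hdet
  · rw [hxm]
    ext i j
    simp [Matrix.scalar_apply, Matrix.smul_apply, Matrix.one_apply, Matrix.diagonal_apply]

end RadicalSL2

end Cfsg.Agent.Lib.Helper48
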