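import Mathlib
import Cfsg.Agent.Lib.Helper48.GLnI
import Cfsg.Agent.Lib.Helper47.SylowSL

set_option autoImplicit false

namespace Cfsg.Agent.Lib.Helper48

open Cfsg
open scoped MatrixGroups ComplexConjugate

section Degree

/-- the geometric sum `1 + q + ... + q^(m-1)` -/
def gN (q m : ℕ) : ℕ := ∑ l ∈ Finset.range m, q ^ l

theorem gN_add (q a b : ℕ) : gN q (a + b) = gN q a + q ^ a * gN q b := by
  unfold gN
  rw [Finset.sum_range_add, Finset.mul_sum]
  congr 1
  apply Finset.sum_congr rfl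
  intro l _
  rw [pow_add]

theorem gN_pos (q m : ℕ) : 0 < gN q (m + 1) := by
  unfold gN
  rw [Finset.sum_range_succ']
  simp

theorem six_mul_sum (n : ℕ) :
    6 * ∑ j ∈ Finset.range n, ∑ i ∈ Finset.range j, i = n * (n - 1) * (n - 2) := by
  induction n with
  | zero => simp
  | succ n ih =>
    rw [Finset.sum_range_succ, mul_add, ih]
    have h2 := Finset.sum_range_id_mul_two n
    rcases n with _ | _ | m
    · simp
    · simp
    · simp only [Nat.add_sub_cancel] at h2 ⊢
      have e2 : m + 1 + 1 - 2 = m := by omega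
      have e3 : m + 1 + 1 + 1 - 2 = m + 1 := by omega
      rw [e2, e3]
      nlinarith [h2]

theorem deg_identity (q n : ℕ) :
    (∏ j ∈ Finset.range n, gN q (j + 1)) *
        ∏ j ∈ Finset.range n, ∏ i ∈ Finset.range j, (q ^ (i + 1) * gN q (j - i)) =
      q ^ (∑ j ∈ Finset.range n, ∑ i ∈ Finset.range j, (i + 1)) *
        ∏ i ∈ Finset.range n, ∏ j ∈ Finset.range (1 + i), gN q (j + 1) := by
  induction n with
  | zero => simp
  | succ n ih =>
    rw [Finset.prod_range_succ,
      Finset.prod_range_succ (fun j => ∏ i ∈ Finset.range j, (q ^ (i + 1) * gN q (j - i))),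
      Finset.sum_range_succ,
      Finset.prod_range_succ (fun i => ∏ j ∈ Finset.range (1 + i), gN q (j + 1)), pow_add]
    have h1 : ∏ i ∈ Finset.range n, (q ^ (i + 1) * gN q (n - i)) =
        q ^ (∑ i ∈ Finset.range n, (i + 1)) * ∏ d ∈ Finset.range n, gN q (d + 1) := by
      rw [Finset.prod_mul_distrib, Finset.prod_pow_eq_pow_sum]
      congr 1
      rw [← Finset.prod_range_reflect (fun d => gN q (d + 1)) n]
      apply Finset.prod_congr rfl
      intro i hi
      have := Finset.mem_range.mp hi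
      congr 1
      omega
    have h2 : ∏ j ∈ Finset.range (1 + n), gN q (j + 1) =
        (∏ j ∈ Finset.range n, gN q (j + 1)) * gN q (n + 1) := by
      rw [add_comm 1 n, Finset.prod_range_succ]
    rw [h1, h2]
    calc (∏ j ∈ Finset.range n, gN q (j + 1)) * gN q (n + 1) *
          ((∏ j ∈ Finset.range n, ∏ i ∈ Finset.range j, (q ^ (i + 1) * gN q (j - i))) *
            (q ^ (∑ i ∈ Finset.range n, (i + 1)) * ∏ d ∈ Finset.range n, gN q (d + 1)))
        = ((∏ j ∈ Finset.range n, gN q (j + 1)) *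
            ∏ j ∈ Finset.range n, ∏ i ∈ Finset.range j, (q ^ (i + 1) * gN q (j - i))) *
          (gN q (n + 1) * (q ^ (∑ i ∈ Finset.range n, (i + 1)) * ∏ d ∈ Finset.range n, gN q (d + 1))) := by
          ring
      _ = _ := by
          rw [ih]
          ring

theorem prod_fin_lt (n : ℕ) (g : ℕ → ℕ → ℂ) :
    ∏ i : Fin n, ∏ j ∈ Finset.univ.filter (fun j : Fin n => i < j), g i.val j.val =
      ∏ j ∈ Finset.range n, ∏ i ∈ Finset.range j, g i j := by
  simp only [Finset.prod_filter]
  rw [Finset.prod_comm, ← Fin.prod_univ_eq_prod_range (fun j => ∏ i ∈ Finset.range j, g i j) n]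
  apply Finset.prod_congr rfl
  intro j _
  have h1 : ∀ i : Fin n, (if i < j then g i.val j.val else 1) =
      (fun i : ℕ => if i < j.val then g i j.val else 1) i.val := fun i => rfl
  rw [Finset.prod_congr rfl (fun i _ => h1 i),
    Fin.prod_univ_eq_prod_range (fun i : ℕ => if i < j.val then g i j.val else 1) n,
    ← Finset.prod_filter]
  congr 1
  ext i
  simp only [Finset.mem_filter, Finset.mem_range]
  have := j.isLt
  omega

/-- The degree of the Steinberg character of the general linear group. -/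
theorem steinberg_degree (n : ℕ) (F : Type*) [Field F] [Fintype F] :
    unipotentCharacterGL n F (fun _ => 1) 1 =
      ((Fintype.card F ^ (∑ j ∈ Finset.range n, j) : ℕ) : ℂ) := by
  have h24 := Cfsg.Agent.S2424.result (F := F) (q := Fintype.card F) rfl (fun _ : Fin n => 1)
    monotone_const (by simp)
  have hq : 0 < Fintype.card F := Fintype.card_pos
  generalize Fintype.card F = q at h24 hq
  have hL : ∏ i : Fin n, ∏ j ∈ Finset.range (1 + i.val), ((∑ l ∈ Finset.range (j + 1), q ^ l : ℕ) : ℂ) =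
      ((∏ i ∈ Finset.range n, ∏ j ∈ Finset.range (1 + i), gN q (j + 1) : ℕ) : ℂ) := by
    rw [Nat.cast_prod, ← Fin.prod_univ_eq_prod_range
      (fun i => ((∏ j ∈ Finset.range (1 + i), gN q (j + 1) : ℕ) : ℂ)) n]
    apply Finset.prod_congr rfl
    intro i _
    rw [Nat.cast_prod]
    rfl
  have hR1 : ∏ j ∈ Finset.range n, ((∑ l ∈ Finset.range (j + 1), q ^ l : ℕ) : ℂ) =
      ((∏ j ∈ Finset.range n, gN q (j + 1) : ℕ) : ℂ) := by
    rw [Nat.cast_prod]
    rfl
  have hR2 : ∏ i : Fin n, ∏ j ∈ Finset.univ.filter (fun j : Fin n => i < j),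
      (((∑ l ∈ Finset.range (1 + j.val), q ^ l : ℕ) : ℂ) -
        ((∑ l ∈ Finset.range (1 + i.val), q ^ l : ℕ) : ℂ)) =
      ((∏ j ∈ Finset.range n, ∏ i ∈ Finset.range j, (q ^ (i + 1) * gN q (j - i)) : ℕ) : ℂ) := by
    have h3 : ∀ i : Fin n, ∀ j ∈ Finset.univ.filter (fun j : Fin n => i < j),
        (((∑ l ∈ Finset.range (1 + j.val), q ^ l : ℕ) : ℂ) -
          ((∑ l ∈ Finset.range (1 + i.val), q ^ l : ℕ) : ℂ)) =
        ((q ^ (i.val + 1) * gN q (j.val - i.val) : ℕ) : ℂ) := by
      intro i j hj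
      have hij : i.val < j.val := (Finset.mem_filter.mp hj).2
      have e := gN_add q (1 + i.val) (j.val - i.val)
      have e2 : 1 + i.val + (j.val - i.val) = 1 + j.val := by omega
      rw [e2] at e
      show ((gN q (1 + j.val) : ℕ) : ℂ) - ((gN q (1 + i.val) : ℕ) : ℂ) = _
      rw [e]
      push_cast
      ring
    rw [Finset.prod_congr rfl (fun i _ => Finset.prod_congr rfl (h3 i)),
      prod_fin_lt n (fun a b : ℕ => ((q ^ (a + 1) * gN q (b - a) : ℕ) : ℂ))]
    push_cast
    rfl
  rw [hL, hR1, hR2, ← Nat.cast_mul, deg_identity q n] at h24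
  have hE : ∑ j ∈ Finset.range n, ∑ i ∈ Finset.range j, (i + 1) =
      n * (n - 1) * (n - 2) / 6 + ∑ j ∈ Finset.range n, j := by
    have h6 := six_mul_sum n
    have : n * (n - 1) * (n - 2) / 6 = ∑ j ∈ Finset.range n, ∑ i ∈ Finset.range j, i :=
      Nat.div_eq_of_eq_mul_right (by norm_num) h6.symm
    rw [this, ← Finset.sum_add_distrib]
    apply Finset.sum_congr rfl
    intro j _
    rw [Finset.sum_add_distrib, Finset.sum_const, Finset.card_range, smul_eq_mul, mul_one]
  rw [hE] at h24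
  have hA : ((∏ i ∈ Finset.range n, ∏ j ∈ Finset.range (1 + i), gN q (j + 1) : ℕ) : ℂ) ≠ 0 := by
    rw [Nat.cast_ne_zero]
    apply Finset.prod_ne_zero_iff.mpr
    intro i _
    apply Finset.prod_ne_zero_iff.mpr
    intro j _
    exact (gN_pos q j).ne'
  have hq' : (q : ℂ) ^ (n * (n - 1) * (n - 2) / 6) ≠ 0 := pow_ne_zero _ (Nat.cast_ne_zero.mpr hq.ne')
  push_cast at h24 hA ⊢
  have h5 : (unipotentCharacterGL n F (fun _ => 1) 1 - (q : ℂ) ^ (∑ j ∈ Finset.range n, j)) *
      ((q : ℂ) ^ (n * (n - 1) * (n - 2) / 6) *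
        ∏ i ∈ Finset.range n, ∏ j ∈ Finset.range (1 + i), (gN q (j + 1) : ℂ)) = 0 := by
    rw [pow_add] at h24
    linear_combination h24
  rcases mul_eq_zero.mp h5 with h | h
  · exact sub_eq_zero.mp h
  · exact absurd h (mul_ne_zero hq' hA)

end Degree

section SylowOrder

theorem factorization_of_eq (p a c k m : ℕ) [Fact p.Prime] (h : a * c = p ^ k * m) (hc : ¬ p ∣ c)
    (hm : ¬ p ∣ m) (ha : a ≠ 0) : a.factorization p = k := by
  have hp : p.Prime := Fact.out
  have hc0 : c ≠ 0 := fun h0 => hc (h0 ▸ dvd_zero p)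
  have hm0 : m ≠ 0 := fun h0 => hm (h0 ▸ dvd_zero p)
  rw [Nat.factorization_def _ hp]
  have := congrArg (padicValNat p) h
  rw [padicValNat.mul ha hc0, padicValNat.mul (pow_ne_zero _ hp.ne_zero) hm0, padicValNat.prime_pow,
    padicValNat.eq_zero_of_not_dvd hc, padicValNat.eq_zero_of_not_dvd hm] at this
  omega

variable {n : ℕ} {F : Type*} [Field F] [Fintype F]

theorem card_psl_ordProj (p : ℕ) [Fact p.Prime] [CharP F p] (hn : 0 < n) :
    p ^ (Nat.card (Matrix.ProjectiveSpecialLinearGroup (Fin n) F)).factorization p =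
      Fintype.card F ^ (∑ j ∈ Finset.range n, j) := by
  classical
  have hp : p.Prime := Fact.out
  obtain ⟨f, -, hq⟩ := FiniteField.card F p
  have hGL := Matrix.card_GL_field (𝔽 := F) n
  have hSL := Helper47.card_GL_eq_card_SL_mul F n hn
  have hPSL := Subgroup.card_eq_card_quotient_mul_card_subgroup
    (Subgroup.center (Matrix.SpecialLinearGroup (Fin n) F))
  have hq1 : 1 ≤ Fintype.card F := Fintype.card_pos
  have hpq : p ∣ Fintype.card F := by
    rw [hq]
    exact dvd_pow_self p f.ne_zero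
  have hZ : Nat.card (Subgroup.center (Matrix.SpecialLinearGroup (Fin n) F)) ∣ Fintype.card F - 1 := by
    rw [Nat.card_congr (Matrix.SpecialLinearGroup.center_equiv_rootsOfUnity (n := Fin n) (R := F)).toEquiv]
    have := Subgroup.card_subgroup_dvd_card (rootsOfUnity (max (Fintype.card (Fin n)) 1) F)
    rw [Nat.card_units, Nat.card_eq_fintype_card (α := F)] at this
    exact this
  have hprod : ∏ i : Fin n, (Fintype.card F ^ n - Fintype.card F ^ i.val) =
      Fintype.card F ^ (∑ j ∈ Finset.range n, j) *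
        ∏ i : Fin n, (Fintype.card F ^ (n - i.val) - 1) := by
    rw [← Finset.prod_pow_eq_pow_sum, ← Fin.prod_univ_eq_prod_range (fun j => Fintype.card F ^ j) n,
      ← Finset.prod_mul_distrib]
    apply Finset.prod_congr rfl
    intro i _
    rw [Nat.mul_sub, mul_one, ← pow_add]
    congr 2
    have := i.isLt
    omega
  have hnd1 : ¬ p ∣ Fintype.card F - 1 := by
    intro h
    have : p ∣ Fintype.card F - (Fintype.card F - 1) := Nat.dvd_sub hpq h
    have e : Fintype.card F - (Fintype.card F - 1) = 1 := by omega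
    rw [e] at this
    exact hp.one_lt.ne' (Nat.dvd_one.mp this)
  have hndZ : ¬ p ∣ Nat.card (Subgroup.center (Matrix.SpecialLinearGroup (Fin n) F)) :=
    fun h => hnd1 (dvd_trans h hZ)
  have hndM : ¬ p ∣ ∏ i : Fin n, (Fintype.card F ^ (n - i.val) - 1) := by
    intro h
    obtain ⟨i, -, hi⟩ := (Prime.dvd_finsetProd_iff hp.prime _).mp h
    have h1 : p ∣ Fintype.card F ^ (n - i.val) :=
      dvd_trans hpq (dvd_pow_self _ (by have := i.isLt; omega))
    have h2 : 1 ≤ Fintype.card F ^ (n - i.val) := Nat.one_le_pow _ _ hq1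
    have : p ∣ Fintype.card F ^ (n - i.val) - (Fintype.card F ^ (n - i.val) - 1) := Nat.dvd_sub h1 hi
    have e : Fintype.card F ^ (n - i.val) - (Fintype.card F ^ (n - i.val) - 1) = 1 := by omega
    rw [e] at this
    exact hp.one_lt.ne' (Nat.dvd_one.mp this)
  have hmain : Nat.card (Matrix.ProjectiveSpecialLinearGroup (Fin n) F) *
      (Nat.card (Subgroup.center (Matrix.SpecialLinearGroup (Fin n) F)) * (Fintype.card F - 1)) =
      p ^ ((f : ℕ) * ∑ j ∈ Finset.range n, j) * ∏ i : Fin n, (Fintype.card F ^ (n - i.val) - 1) := by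
    rw [← mul_assoc]
    show Nat.card (Matrix.SpecialLinearGroup (Fin n) F ⧸ Subgroup.center (Matrix.SpecialLinearGroup (Fin n) F)) *
      Nat.card (Subgroup.center (Matrix.SpecialLinearGroup (Fin n) F)) * (Fintype.card F - 1) = _
    rw [← hPSL, ← hSL, hGL, hprod, pow_mul, ← hq]
  have hcop : ¬ p ∣ Nat.card (Subgroup.center (Matrix.SpecialLinearGroup (Fin n) F)) * (Fintype.card F - 1) := by
    intro h
    rcases (Nat.Prime.dvd_mul hp).mp h with h | h
    · exact hndZ h
    · exact hnd1 h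
  rw [factorization_of_eq p _ _ _ _ hmain hcop hndM Nat.card_pos.ne', pow_mul, ← hq]

end SylowOrder

end Cfsg.Agent.Lib.Helper48
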