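import Mathlib
import Cfsg.Agent.Lib.Helper48.DZn
import Cfsg.Agent.Lib.Helper48.DZq
import Cfsg.Agent.Lib.Helper48.GLnJ
import Cfsg.Agent.Lib.Helper79.DefZero
import Cfsg.Agent.Lib.Helper79.Blk4
import Cfsg.Agent.S0931
import Cfsg.Agent.S0908
import Cfsg.Agent.S0955
import Cfsg.Agent.S0956
import Cfsg.Agent.S0914

set_option autoImplicit false

namespace Cfsg.Agent.Lib.Helper48

open Cfsg
open scoped MatrixGroups

section SLBlocks

variable {n : ℕ} {F : Type*} [Field F] [Fintype F]

theorem card_center_sl_dvd (hn : 0 < n) :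
    Nat.card (Subgroup.center (Matrix.SpecialLinearGroup (Fin n) F)) ∣ Fintype.card F - 1 := by
  classical
  rw [Nat.card_congr (Matrix.SpecialLinearGroup.center_equiv_rootsOfUnity (n := Fin n) (R := F)).toEquiv]
  have := Subgroup.card_subgroup_dvd_card (rootsOfUnity (max (Fintype.card (Fin n)) 1) F)
  rw [Nat.card_units, Nat.card_eq_fintype_card (α := F)] at this
  exact this

theorem not_dvd_card_center_sl (p : ℕ) [Fact p.Prime] [CharP F p] (hn : 0 < n) :
    ¬ p ∣ Nat.card (Subgroup.center (Matrix.SpecialLinearGroup (Fin n) F)) := by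
  have hp : p.Prime := Fact.out
  obtain ⟨f, -, hq⟩ := FiniteField.card F p
  have hq1 : 1 ≤ Fintype.card F := Fintype.card_pos
  have hpq : p ∣ Fintype.card F := by
    rw [hq]
    exact dvd_pow_self p f.ne_zero
  intro h
  have h1 : p ∣ Fintype.card F - 1 := dvd_trans h (card_center_sl_dvd hn)
  have : p ∣ Fintype.card F - (Fintype.card F - 1) := Nat.dvd_sub hpq h1
  have e : Fintype.card F - (Fintype.card F - 1) = 1 := by omega
  rw [e] at this
  exact hp.one_lt.ne' (Nat.dvd_one.mp this)

theorem card_sl_ordProj (p : ℕ) [Fact p.Prime] [CharP F p] (hn : 0 < n) :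
    p ^ (Nat.card (Matrix.SpecialLinearGroup (Fin n) F)).factorization p =
      Fintype.card F ^ (∑ j ∈ Finset.range n, j) := by
  have hPSL := Subgroup.card_eq_card_quotient_mul_card_subgroup
    (Subgroup.center (Matrix.SpecialLinearGroup (Fin n) F))
  rw [hPSL, Nat.factorization_mul Nat.card_pos.ne' Nat.card_pos.ne', Finsupp.add_apply,
    Nat.factorization_eq_zero_of_not_dvd (not_dvd_card_center_sl p hn), add_zero]
  exact card_psl_ordProj p hn

/-- the Steinberg character of `SL_n(F)` -/
noncomputable def stSL (n : ℕ) (F : Type*) [Field F] [Fintype F] (hn : 0 < n) :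
    IrrCharacter (Matrix.SpecialLinearGroup (Fin n) F) :=
  ⟨fun s => unipotentCharacterGL n F (fun _ => 1) (Matrix.SpecialLinearGroup.toGL s),
    unipotent_restrict_irr hn (fun _ => 1) (fun _ _ _ => le_rfl) (by simp)⟩

theorem stSL_apply (hn : 0 < n) (s : Matrix.SpecialLinearGroup (Fin n) F) :
    (stSL n F hn : Matrix.SpecialLinearGroup (Fin n) F → ℂ) s =
      unipotentCharacterGL n F (fun _ => 1) (Matrix.SpecialLinearGroup.toGL s) := rfl

theorem stSL_one (hn : 0 < n) :
    (stSL n F hn : Matrix.SpecialLinearGroup (Fin n) F → ℂ) 1 =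
      ((Fintype.card F ^ (∑ j ∈ Finset.range n, j) : ℕ) : ℂ) := by
  rw [stSL_apply, map_one]
  exact steinberg_degree n F

theorem stSL_degree (hn : 0 < n) :
    charDegree (stSL n F hn : Matrix.SpecialLinearGroup (Fin n) F → ℂ) =
      Fintype.card F ^ (∑ j ∈ Finset.range n, j) :=
  Helper22.charDegree_eq_of_one_eq _ _ (stSL_one hn)

/-- an irreducible character of `SL_n(F)` of `p`-defect zero is the Steinberg character -/
theorem irr_eq_stSL (p : ℕ) [Fact p.Prime] [CharP F p] (hn : 2 ≤ n)
    (χ : IrrCharacter (Matrix.SpecialLinearGroup (Fin n) F))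
    (h : p ^ (Nat.card (Matrix.SpecialLinearGroup (Fin n) F)).factorization p ∣
      charDegree (χ : Matrix.SpecialLinearGroup (Fin n) F → ℂ)) :
    χ = stSL n F (by omega) := by
  classical
  letI : Fintype (Matrix.SpecialLinearGroup (Fin n) F) := Fintype.ofFinite _
  apply Subtype.ext
  exact dz_SL p hn _ χ.2 (fun s hs => Helper79.irr_eq_zero_of_defect_zero p χ h s hs)

variable (p : ℕ) [Fact p.Prime] [CharP F p] (M : Ideal AlgInt)

theorem blockOf_stSL (hM : IsPModular p M) (hn : 0 < n) :
    blockOf M (stSL n F hn : Matrix.SpecialLinearGroup (Fin n) F → ℂ) = {stSL n F hn} := by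
  have hp : p.Prime := Fact.out
  apply (Cfsg.Agent.S0914.result p M hM (stSL n F hn)).mp
  rw [stSL_degree, ← card_sl_ordProj p hn]
  exact Nat.not_dvd_ordCompl hp Nat.card_pos.ne'

theorem blockDefect_stSL (hM : IsPModular p M) (hn : 0 < n) :
    blockDefect p (blockOf M (stSL n F hn : Matrix.SpecialLinearGroup (Fin n) F → ℂ)) = 0 := by
  have hp : p.Prime := Fact.out
  rw [blockOf_stSL p M hM hn]
  unfold blockDefect
  rw [Set.image_singleton, csInf_singleton, stSL_degree, ← card_sl_ordProj p hn,
    Nat.factorization_pow, Finsupp.smul_apply, Nat.Prime.factorization_self hp, smul_eq_mul, mul_one,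
    Nat.sub_self]

theorem block_dz_eq (hM : IsPModular p M) (hn : 2 ≤ n)
    (B : Set (IrrCharacter (Matrix.SpecialLinearGroup (Fin n) F))) (hB : IsPBlock M B)
    (h0 : blockDefect p B = 0) :
    B = blockOf M (stSL n F (by omega) : Matrix.SpecialLinearGroup (Fin n) F → ℂ) := by
  classical
  letI : Fintype (Matrix.SpecialLinearGroup (Fin n) F) := Fintype.ofFinite _
  obtain ⟨χ, hχB, hχ, -⟩ := Helper79.exists_height_zero hM B hB
  rw [h0, add_zero] at hχ
  have h1 : p ^ (Nat.card (Matrix.SpecialLinearGroup (Fin n) F)).factorization p ∣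
      charDegree (χ : Matrix.SpecialLinearGroup (Fin n) F → ℂ) := by
    rw [← hχ]
    exact Nat.ordProj_dvd _ p
  have h2 := irr_eq_stSL p hn χ h1
  rw [← h2]
  exact Helper79.blockOf_eq_of_mem hM hB hχB

/-- every block of `SL_n(F)` in the defining characteristic has defect zero or full defect -/
theorem block_defect_dichotomy (hM : IsPModular p M) (hn : 0 < n)
    (B : Set (IrrCharacter (Matrix.SpecialLinearGroup (Fin n) F))) (hB : IsPBlock M B) :
    blockDefect p B = 0 ∨
      blockDefect p B = (Nat.card (Matrix.SpecialLinearGroup (Fin n) F)).factorization p := by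
  classical
  have hp : p.Prime := Fact.out
  obtain ⟨D, hD⟩ := Cfsg.Agent.S0931.exists_defectGroup p M hM B hB
  have hcard := Cfsg.Agent.S0908.result p M hM B hB D hD
  by_cases hd : blockDefect p B = 0
  · exact Or.inl hd
  right
  have hDp : IsPGroup p D := IsPGroup.of_card hcard
  have hD1 : D ≠ ⊥ := by
    intro h
    rw [h, Subgroup.card_bot] at hcard
    have := Nat.one_lt_pow hd hp.one_lt
    omega
  obtain ⟨P, hDP⟩ := hDp.exists_le_sylow
  obtain ⟨x, hx, ⟨S, hS⟩, -⟩ := Cfsg.Agent.S0956.result p M hM B hB D hD P hDP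
  have hrad : pCoreOf p (Subgroup.normalizer (D : Set (Matrix.SpecialLinearGroup (Fin n) F))) = D :=
    Cfsg.Agent.S0955.result p M hM B hB D hD
  have hxD : ∀ d ∈ D, x * d = d * x := by
    intro d hd
    rw [← hS] at hd
    obtain ⟨c, -, rfl⟩ := hd
    have := c.2
    rw [Subgroup.mem_centralizer_iff] at this
    exact this x rfl
  have hxc := radical_cent_central p hn D hDp hD1 hrad x hx hxD
  have htop : Subgroup.centralizer ({x} : Set (Matrix.SpecialLinearGroup (Fin n) F)) = ⊤ := by
    rw [Subgroup.centralizer_eq_top_iff_subset]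
    intro y hy
    rw [Set.mem_singleton_iff] at hy
    rw [hy]
    exact hxc
  have hcS : Nat.card D = Nat.card S := by
    rw [← hS]
    exact Nat.card_congr (Subgroup.equivMapOfInjective _ _ (Subgroup.subtype_injective _)).symm.toEquiv
  have hcS2 : Nat.card S =
      p ^ (Nat.card (Matrix.SpecialLinearGroup (Fin n) F)).factorization p := by
    rw [Sylow.card_eq_multiplicity, htop, Subgroup.card_top]
  rw [hcS, hcS2] at hcard
  exact (Nat.pow_right_injective hp.two_le hcard).symm

end SLBlocks

end Cfsg.Agent.Lib.Helper48
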