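import Mathlib
import Cfsg.Agent.Lib.Helper48.QADefs

/-!
# Project QA (helper48, S2787): piece QRELMUL - `Rel` is multiplicative
-/

set_option autoImplicit false

namespace Cfsg.Agent.Lib.Helper48.QA

open Matrix Polynomial

theorem relmul_comm {R : Type*} [Ring R] (P : R) (j : ℕ) (f : ℤ[X]) :
    aeval P f * P ^ j = P ^ j * aeval P f := by
  have h0 : P ^ j = aeval P (X ^ j : ℤ[X]) := by simp
  rw [h0, ← map_mul, ← map_mul, mul_comm]

theorem rel_mul {R : Type*} [Ring R] (M P : R) (j : ℕ) (s s' : R)
    (A A' : Matrix (Fin 2) (Fin 2) ℤ[X])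
    (h : Rel M P (P ^ j) s A) (h' : Rel M P (P ^ j) s' A') :
    Rel M P (P ^ j) (s * s') (A * A') := by
  obtain ⟨h1, h2⟩ := h
  obtain ⟨h1', h2'⟩ := h'
  have key : ∀ (u v : ℤ[X]), s * (aeval P u * P ^ j + M * (aeval P v * P ^ j))
      = (aeval P (A 0 0) * aeval P u + aeval P (A 0 1) * aeval P v) * P ^ j
        + M * ((aeval P (A 1 0) * aeval P u + aeval P (A 1 1) * aeval P v) * P ^ j) := by
    intro u v
    calc s * (aeval P u * P ^ j + M * (aeval P v * P ^ j))
        = s * (P ^ j * aeval P u + M * (P ^ j * aeval P v)) := by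
          rw [relmul_comm P j u, relmul_comm P j v]
      _ = (s * P ^ j) * aeval P u + (s * (M * P ^ j)) * aeval P v := by noncomm_ring
      _ = (aeval P (A 0 0) * P ^ j + M * (aeval P (A 1 0) * P ^ j)) * aeval P u
            + (aeval P (A 0 1) * P ^ j + M * (aeval P (A 1 1) * P ^ j)) * aeval P v := by
          rw [h1, h2]
      _ = aeval P (A 0 0) * (P ^ j * aeval P u) + M * (aeval P (A 1 0) * (P ^ j * aeval P u))
            + (aeval P (A 0 1) * (P ^ j * aeval P v)
              + M * (aeval P (A 1 1) * (P ^ j * aeval P v))) := by noncomm_ring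
      _ = aeval P (A 0 0) * (aeval P u * P ^ j) + M * (aeval P (A 1 0) * (aeval P u * P ^ j))
            + (aeval P (A 0 1) * (aeval P v * P ^ j)
              + M * (aeval P (A 1 1) * (aeval P v * P ^ j))) := by
          rw [relmul_comm P j u, relmul_comm P j v]
      _ = _ := by noncomm_ring
  constructor
  · rw [mul_assoc, h1', key]
    simp only [Matrix.mul_apply, Fin.sum_univ_two, map_add, map_mul]
  · rw [mul_assoc, h2', key]
    simp only [Matrix.mul_apply, Fin.sum_univ_two, map_add, map_mul]

end Cfsg.Agent.Lib.Helper48.QA
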