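import Mathlib
import Cfsg.Agent.Lib.Helper48.QADefs
import Cfsg.Agent.Lib.Helper48.QAQRELMUL
import Cfsg.Agent.Lib.Helper31.QAQIDEM
import Cfsg.Agent.Lib.Helper29.QAQFIELD
import Cfsg.Agent.Lib.Helper29.QAQSUB
import Cfsg.Agent.Lib.Helper5.QAQRELINV
import Cfsg.Agent.Lib.Helper10.QAQRELONE
import Cfsg.Agent.Lib.Helper30.QAQRELX
import Cfsg.Agent.Lib.Helper69.QAQRELY
import Cfsg.Agent.Lib.Helper38.QAGRAPH
import Cfsg.Agent.Lib.Helper12.QABMAIN
import Cfsg.Agent.Lib.Helper59.QABNC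
import Cfsg.Agent.Lib.Helper32.QABINV
import Cfsg.Agent.Lib.Helper88.QABCENT
import Cfsg.Agent.Lib.Helper80.QABTRACE
import Cfsg.Agent.Lib.Helper95.QABORD
import Cfsg.Agent.Lib.Helper91.QABTRANSFER
import Cfsg.Agent.Lib.Helper41.QABTRP
import Cfsg.Agent.Lib.Helper72.QABR
import Cfsg.Agent.Lib.Helper90.QANIL

/-!
# Project QA (helper48, S2787): the abstract assembly

* `quad_pair_order_four`: a quadratic pair `1 + N`, `1 + M` in the unit group of a finite ring of odd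
  characteristic `p`, with `N M` not nilpotent, generates a group containing an element of order `4`.
* `core_braid`, `core_four`: the two contradictions.
-/

set_option autoImplicit false

universe u

namespace Cfsg.Agent.Lib.Helper48.QA

open Matrix Polynomial

theorem map_ux {A B : Type*} [CommRing A] [CommRing B] (f : A →+* B) (l : A) :
    Matrix.SpecialLinearGroup.map f (ux l) = ux (f l) := by
  apply Subtype.ext
  rw [Matrix.SpecialLinearGroup.map_apply_coe]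
  ext i j
  fin_cases i <;> fin_cases j <;> simp [ux]

theorem map_ly {A B : Type*} [CommRing A] [CommRing B] (f : A →+* B) (l : A) :
    Matrix.SpecialLinearGroup.map f (ly l) = ly (f l) := by
  apply Subtype.ext
  rw [Matrix.SpecialLinearGroup.map_apply_coe]
  ext i j
  fin_cases i <;> fin_cases j <;> simp [ly]

/-- a quadratic pair with non-nilpotent product generates a group with an element of order 4 -/
theorem quad_pair_order_four {R : Type*} [Ring R] [Finite R] {p : ℕ} [Fact p.Prime] (hp2 : p ≠ 2)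
    (hpR : ((p : ℕ) : R) = 0) (N M : R) (hN : N * N = 0) (hM : M * M = 0)
    (hnil : ¬ IsNilpotent (N * M)) (x y : Rˣ) (hx : (x : R) = 1 + N) (hy : (y : R) = 1 + M) :
    ∃ s ∈ Subgroup.closure {x, y}, orderOf s = 4 := by
  obtain ⟨j, hj, he⟩ := exists_idem (N * M)
  have hne : (N * M) ^ j ≠ 0 := fun h => hnil ⟨j, h⟩
  obtain ⟨𝔪, hmax, hI, hX, hp𝔪⟩ := exists_max hpR (N * M) j hj he hne
  let _ : Field (ℤ[X] ⧸ 𝔪) := Ideal.Quotient.field 𝔪
  have hp0 : ((p : ℕ) : ℤ[X] ⧸ 𝔪) = 0 := by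
    have : (Ideal.Quotient.mk 𝔪) ((p : ℕ) : ℤ[X]) = 0 := Ideal.Quotient.eq_zero_iff_mem.2 hp𝔪
    rwa [map_natCast] at this
  have hchar : CharP (ℤ[X] ⧸ 𝔪) p := (CharP.charP_iff_prime_eq_zero (Fact.out)).2 hp0
  have h2 : (2 : ℤ[X] ⧸ 𝔪) ≠ 0 := by
    intro h
    have h' : ((2 : ℕ) : ℤ[X] ⧸ 𝔪) = 0 := by exact_mod_cast h
    have := (CharP.cast_eq_zero_iff (ℤ[X] ⧸ 𝔪) p 2).1 h'
    exact hp2 ((Nat.prime_dvd_prime_iff_eq (Fact.out) Nat.prime_two).1 this)
  have hl : (Ideal.Quotient.mk 𝔪) X ≠ 0 := fun h => hX (Ideal.Quotient.eq_zero_iff_mem.1 h)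
  obtain ⟨𝒯, hfun, hmem⟩ := exists_graph M (N * M) ((N * M) ^ j) 𝔪
    (fun s s' A A' h h' => rel_mul M (N * M) j s s' A A' h h')
    (fun s t hst A hdet h => rel_inv M (N * M) j s t hst A hdet h)
    (fun A h => by
      obtain ⟨h1, h2, h3, h4⟩ := rel_one N M hM j hj he A h
      exact ⟨hI _ h1, hI _ h2, hI _ h3, hI _ h4⟩)
  have hxT : (x, ux ((Ideal.Quotient.mk 𝔪) X)) ∈ 𝒯 := by
    have h1 := hmem x (ux X) (by rw [hx]; exact rel_x N M hN j hj)
    rwa [map_ux] at h1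
  have hyT : (y, ly (1 : ℤ[X] ⧸ 𝔪)) ∈ 𝒯 := by
    have h1 := hmem y (ly 1) (by rw [hy]; exact rel_y N M hM j)
    rwa [map_ly, map_one] at h1
  obtain ⟨hfin, hlift⟩ := graph_order_four 𝒯 hfun x y _ _ hxT hyT inferInstance
  exact hlift (sl2_order_four hp2 _ hl hfin
    (fun S _ h4 r _ hr R => normalizer_le_centralizer hp2 S h4 (invol_eq h2) cent_form
      (eq_or_inv h2) (trace_sq_ne_four hp2) r hr R)
    (fun G _ _ T hgen hT hNC => pgroup_of_transfer p T hgen hT hNC) trace_of_ppow)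

/-- `(1 + n)^p = 1` for `n² = 0` in characteristic `p` -/
theorem pow_eq_one_of_quad {R : Type*} [Ring R] {p : ℕ} (hpR : ((p : ℕ) : R) = 0) (x : Rˣ)
    (hquad : ((x : R) - 1) * ((x : R) - 1) = 0) : x ^ p = 1 := by
  have key : ∀ k : ℕ, ((x : R)) ^ k = 1 + (k : R) * ((x : R) - 1) := by
    intro k
    induction k with
    | zero => simp
    | succ k ih =>
      rw [pow_succ, ih]
      have e : (1 + (k : R) * ((x : R) - 1)) * (x : R)
          = 1 + ((k : R) + 1) * ((x : R) - 1) + (k : R) * (((x : R) - 1) * ((x : R) - 1)) := by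
        noncomm_ring
      rw [e, hquad]
      push_cast
      noncomm_ring
  apply Units.ext
  rw [Units.val_pow_eq_pow_val, key, hpR]
  simp

theorem isUnit_two {R : Type*} [Ring R] {p : ℕ} [Fact p.Prime] (hp2 : p ≠ 2)
    (hpR : ((p : ℕ) : R) = 0) : IsUnit (2 : R) := by
  have hodd : Odd p := (Fact.out : p.Prime).odd_of_ne_two hp2
  obtain ⟨k, hk⟩ := hodd
  have h0 : ((2 * (k + 1) : ℕ) : R) = 1 := by
    have e : 2 * (k + 1) = p + 1 := by omega
    rw [e, Nat.cast_add, hpR, zero_add, Nat.cast_one]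
  have h1 : (2 : R) * ((k + 1 : ℕ) : R) = 1 := by
    rw [← h0, Nat.cast_mul, Nat.cast_ofNat]
  have h2 : ((k + 1 : ℕ) : R) * (2 : R) = 1 := by
    rw [← h1]
    exact ((Nat.cast_commute (k + 1) (2 : R))).eq
  exact ⟨⟨2, ((k + 1 : ℕ) : R), h1, h2⟩, rfl⟩

/-- conjugates of quadratic elements are quadratic -/
theorem conj_quad {R : Type*} [Ring R] (k x : Rˣ)
    (hquad : ((x : R) - 1) * ((x : R) - 1) = 0) :
    (((k * x * k⁻¹ : Rˣ) : R) - 1) * (((k * x * k⁻¹ : Rˣ) : R) - 1) = 0 := by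
  have e : ((k * x * k⁻¹ : Rˣ) : R) - 1 = (k : R) * ((x : R) - 1) * ((k⁻¹ : Rˣ) : R) := by
    push_cast
    have : (k : R) * ((k⁻¹ : Rˣ) : R) = 1 := by rw [← Units.val_mul, mul_inv_cancel, Units.val_one]
    calc (k : R) * (x : R) * ((k⁻¹ : Rˣ) : R) - 1
        = (k : R) * (x : R) * ((k⁻¹ : Rˣ) : R) - (k : R) * ((k⁻¹ : Rˣ) : R) := by rw [this]
      _ = (k : R) * ((x : R) - 1) * ((k⁻¹ : Rˣ) : R) := by noncomm_ring
  rw [e]
  have h1 : ((k⁻¹ : Rˣ) : R) * (k : R) = 1 := by rw [← Units.val_mul, inv_mul_cancel, Units.val_one]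
  calc (k : R) * ((x : R) - 1) * ((k⁻¹ : Rˣ) : R) * ((k : R) * ((x : R) - 1) * ((k⁻¹ : Rˣ) : R))
      = (k : R) * ((x : R) - 1) * (((k⁻¹ : Rˣ) : R) * (k : R)) * ((x : R) - 1) * ((k⁻¹ : Rˣ) : R) := by
        noncomm_ring
    _ = (k : R) * (((x : R) - 1) * ((x : R) - 1)) * ((k⁻¹ : Rˣ) : R) := by
        rw [h1]; noncomm_ring
    _ = 0 := by rw [hquad]; simp

/-- the braid contradiction -/
theorem core_braid {R : Type*} [Ring R] (h2 : IsUnit (2 : R)) {Γ : Type*} [Group Γ] (ψ : Γ →* Rˣ)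
    (hψ : Function.Injective ψ) (a g : Γ)
    (hquad : (((ψ a : Rˣ) : R) - 1) * (((ψ a : Rˣ) : R) - 1) = 0)
    (hne : g * a * g⁻¹ ≠ a)
    (hbr : a * (g * a * g⁻¹) * a = (g * a * g⁻¹) * a * (g * a * g⁻¹))
    (h3 : (a * (g * a * g⁻¹)) ^ 3 = 1) : False := by
  set x : Rˣ := ψ a with hx
  set y : Rˣ := ψ g * x * (ψ g)⁻¹ with hy
  have hya : ψ (g * a * g⁻¹) = y := by simp [hy, hx]
  have hyq : ((y : R) - 1) * ((y : R) - 1) = 0 := conj_quad (ψ g) x hquad
  have e1 : x * y * x = y * x * y := by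
    have := congrArg ψ hbr
    simpa only [map_mul, hya] using this
  have e2 : (x * y) ^ 3 = 1 := by
    have := congrArg ψ h3
    simpa only [map_pow, map_mul, hya, map_one] using this
  have e1' : (1 + ((x : R) - 1)) * (1 + ((y : R) - 1)) * (1 + ((x : R) - 1))
      = (1 + ((y : R) - 1)) * (1 + ((x : R) - 1)) * (1 + ((y : R) - 1)) := by
    have := congrArg (fun u : Rˣ => (u : R)) e1
    simp only [Units.val_mul] at this
    simpa using this
  have e2' : ((1 + ((x : R) - 1)) * (1 + ((y : R) - 1))) ^ 3 = 1 := by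
    have := congrArg (fun u : Rˣ => (u : R)) e2
    simp only [Units.val_mul, Units.val_pow_eq_pow_val, Units.val_one] at this
    simpa using this
  have e3 := braid_eq h2 ((x : R) - 1) ((y : R) - 1) hquad hyq e1' e2'
  have e4 : x = y := Units.ext (sub_left_injective e3)
  apply hne
  apply hψ
  rw [hya, ← e4]

/-- the order four contradiction -/
theorem core_four {R : Type*} [Ring R] [Finite R] {p : ℕ} [Fact p.Prime] (hp2 : p ≠ 2)
    (hpR : ((p : ℕ) : R) = 0) {Γ : Type*} [Group Γ] (ψ : Γ →* Rˣ)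
    (hψ : Function.Injective ψ) (a g : Γ)
    (hquad : (((ψ a : Rˣ) : R) - 1) * (((ψ a : Rˣ) : R) - 1) = 0)
    (hnp : ¬ IsPGroup p ↥(Subgroup.closure {a, g * a * g⁻¹}))
    (h4 : ∀ b : Γ, orderOf b ≠ 4) : False := by
  set x : Rˣ := ψ a with hx
  set y : Rˣ := ψ g * x * (ψ g)⁻¹ with hy
  have hya : ψ (g * a * g⁻¹) = y := by simp [hy, hx]
  have hyq : ((y : R) - 1) * ((y : R) - 1) = 0 := conj_quad (ψ g) x hquad
  have hmap : (Subgroup.closure {a, g * a * g⁻¹}).map ψ = Subgroup.closure {x, y} := by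
    rw [MonoidHom.map_closure, Set.image_pair, hya]
  have hxe : (x : R) = 1 + ((x : R) - 1) := by abel
  have hye : (y : R) = 1 + ((y : R) - 1) := by abel
  by_cases hnil : IsNilpotent (((x : R) - 1) * ((y : R) - 1))
  · apply hnp
    have h1 : IsPGroup p ↥(Subgroup.closure {x, y}) :=
      pgroup_of_nilpotent hpR _ _ hquad hyq hnil x y hxe hye
    rw [← hmap] at h1
    exact h1.of_equiv (Subgroup.equivMapOfInjective _ ψ hψ).symm
  · obtain ⟨s, hs, hs4⟩ := quad_pair_order_four hp2 hpR _ _ hquad hyq hnil x y hxe hye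
    rw [← hmap] at hs
    obtain ⟨b, _, rfl⟩ := hs
    exact h4 b (by rw [← hs4, orderOf_injective ψ hψ b])

end Cfsg.Agent.Lib.Helper48.QA
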