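import Mathlib
import Cfsg.Agent.Lib.Helper48.QAMain
import Cfsg.Agent.Lib.Helper84.QAFCONJ
import Cfsg.Agent.Lib.Helper64.QAFOPP
import Cfsg.Agent.Lib.Helper56.QAPCHAR
import Cfsg.Agent.Lib.Helper64.QAPMAIN
import Cfsg.Agent.Lib.Helper75.QAPLIFT
import Cfsg.Agent.Lib.Helper66.QAPCONJ
import Cfsg.Agent.Lib.Helper53.QAPBRAID
import Cfsg.Agent.Lib.Helper48.RCFinal
import Cfsg.Prelude.Def_LieTwisted

/-!
# Project QA (helper48, S2787): the small Ree groups and `PSL₂`; the abstract main theorem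
-/

set_option autoImplicit false

universe u

namespace Cfsg.Agent.Lib.Helper48.QA

section ree

open Cfsg.Lie Matrix
open Cfsg.Agent.Lib.Helper24
open Cfsg.Agent.Lib.Helper27 Cfsg.Agent.Lib.Helper27.Ree
open Cfsg.Agent.Lib.Helper48.RG
open Cfsg.Agent.Lib.Helper48.RC

/-- the small Ree groups have no element of order four -/
theorem ree_no_order_four {K : Type*} [Field K] [Fintype K] {m : ℕ}
    (hK : Fintype.card K = 3 ^ (2 * m + 1)) (g : ↥(twistedG2 K (3 ^ m))) : orderOf g ≠ 4 := by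
  have : CharP K 3 := charP_three (by omega) hK
  have hok := ok0 hK
  have hJ1 : HR m hK (-1) ≠ 1 := J_ne_one hok
  have hJ2 : HR m hK (-1) * HR m hK (-1) = 1 := J_sq hok
  have hJdiag : (HR m hK (-1) : GL chevG2.Idx K) ∈ chevG2.diagonalSubgroup K :=
    (HR_spec m hK).2.1 (-1)
  obtain ⟨-, hsyl⟩ := ree_involution_centralizer hK (HR m hK (-1)) hJdiag hJ1 hJ2
  intro h4
  have hp : IsPGroup 2 (Subgroup.zpowers g) := by
    have hc : Nat.card (Subgroup.zpowers g) = 4 := by rw [Nat.card_zpowers, h4]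
    exact IsPGroup.of_card (n := 2) (by rw [hc]; norm_num)
  obtain ⟨S, hS⟩ := hp.exists_le_sylow
  have h1 := (hsyl S).2 g (hS (Subgroup.mem_zpowers g))
  have h2 : orderOf g ∣ 2 := orderOf_dvd_of_pow_eq_one (by rw [pow_two]; exact h1)
  rw [h4] at h2
  omega

/-- an element of order three of a small Ree group and a suitable conjugate do not generate
a `3`-group -/
theorem ree_exists_conj {K : Type*} [Field K] [Fintype K] {m : ℕ}
    (hK : Fintype.card K = 3 ^ (2 * m + 1)) (x : ↥(twistedG2 K (3 ^ m))) (hx1 : x ≠ 1)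
    (hx3 : x ^ 3 = 1) : ∃ g : ↥(twistedG2 K (3 ^ m)),
      ¬ IsPGroup 3 ↥(Subgroup.closure {x, g * x * g⁻¹}) := by
  have : CharP K 3 := charP_three (by omega) hK
  have hok := ok0 hK
  exact ok0_exists_conj hok (fun y h1 hy => ok0_not_pgroup hok y h1 hy) x hx1 hx3

end ree

/-- the abstract main theorem: no non-identity element of a subgroup `Γ` of the unit group of a
finite ring of characteristic `p` acts quadratically, if `Γ` is `PSL₂(F)` (`|F|` an odd power of
`p`) or a small Ree group (`p = 3`) -/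
theorem abs_main {R : Type u} [Ring R] [Finite R] {p : ℕ} [Fact p.Prime]
    (hpR : ((p : ℕ) : R) = 0) (Γ : Subgroup Rˣ)
    (hq : (∃ (F : Type) (_ : Field F) (_ : Fintype F) (n : ℕ), Fintype.card F = p ^ n ∧
        Odd (Fintype.card F) ∧
        Nonempty (↥Γ ≃* Matrix.ProjectiveSpecialLinearGroup (Fin 2) F)) ∨
      (p = 3 ∧ Cfsg.Lie.IsoRee ↥Γ))
    (x : Rˣ) (hxΓ : x ∈ Γ) (hquad : ((x : R) - 1) * ((x : R) - 1) = 0) : x = 1 := by
  by_contra hx1
  have hxp : x ^ p = 1 := pow_eq_one_of_quad hpR x hquad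
  rcases hq with ⟨F, _, _, n, hF, hodd, ⟨e⟩⟩ | ⟨rfl, K, _, _, m, hm, hK, ⟨e⟩⟩
  · have hp2 : p ≠ 2 := by
      rintro rfl
      rw [hF] at hodd
      rcases Nat.eq_zero_or_pos n with rfl | hn
      · have : 1 < Fintype.card F := Fintype.one_lt_card
        rw [hF] at this
        simp at this
      · exact (Nat.not_even_iff_odd.2 hodd) ((Nat.even_pow' hn.ne').2 even_two)
    have hchar : CharP F p := charP_of_card hF
    have h2F : (2 : F) ≠ 0 := by
      intro h
      have h' : ((2 : ℕ) : F) = 0 := by exact_mod_cast h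
      have := (CharP.cast_eq_zero_iff F p 2).1 h'
      exact hp2 ((Nat.prime_dvd_prime_iff_eq (Fact.out) Nat.prime_two).1 this)
    let ψ : Matrix.ProjectiveSpecialLinearGroup (Fin 2) F →* Rˣ :=
      Γ.subtype.comp e.symm.toMonoidHom
    have hψ : Function.Injective ψ := by
      intro a b hab
      exact e.symm.injective (Subtype.ext hab)
    have hψa : ψ (e ⟨x, hxΓ⟩) = x := by simp [ψ]
    have ha1 : e ⟨x, hxΓ⟩ ≠ 1 := by
      intro h
      apply hx1
      rw [← hψa, h, map_one]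
    have hap : e ⟨x, hxΓ⟩ ^ p = 1 := by
      apply hψ
      rw [map_pow, hψa, hxp, map_one]
    obtain ⟨g, hne, hbr, h3⟩ :=
      psl2_braid (psl2_lift hp2) unip_conj (sl2_braid h2F) (e ⟨x, hxΓ⟩) ha1 hap
    exact core_braid (isUnit_two hp2 hpR) ψ hψ (e ⟨x, hxΓ⟩) g (by rw [hψa]; exact hquad)
      hne hbr h3
  · let ψ : ↥(Cfsg.Lie.twistedG2 K (3 ^ m)) →* Rˣ := Γ.subtype.comp e.symm.toMonoidHom
    have hψ : Function.Injective ψ := by
      intro a b hab
      exact e.symm.injective (Subtype.ext hab)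
    have hψa : ψ (e ⟨x, hxΓ⟩) = x := by simp [ψ]
    have ha1 : e ⟨x, hxΓ⟩ ≠ 1 := by
      intro h
      apply hx1
      rw [← hψa, h, map_one]
    have hap : e ⟨x, hxΓ⟩ ^ 3 = 1 := by
      apply hψ
      rw [map_pow, hψa, hxp, map_one]
    obtain ⟨g, hg⟩ := ree_exists_conj hK (e ⟨x, hxΓ⟩) ha1 hap
    exact core_four (by norm_num) hpR ψ hψ (e ⟨x, hxΓ⟩) g (by rw [hψa]; exact hquad) hg
      (fun b => ree_no_order_four hK b)

end Cfsg.Agent.Lib.Helper48.QA
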