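import Mathlib
import Cfsg.Agent.Lib.Helper6.QBFIN
import Cfsg.Agent.Lib.Helper23.QBPREDb
import Cfsg.Agent.Lib.Helper36.QBCONJ
import Cfsg.Agent.Lib.Helper9.QBSYLCONJ
import Cfsg.Agent.Lib.Helper8.QBNTA
import Cfsg.Agent.Lib.Helper94.QBNTB
import Cfsg.Agent.Lib.Helper11.QBKEYAP
import Cfsg.Agent.Lib.Helper62.QBINVCONJ
import Cfsg.Agent.Lib.Helper86.QBINTERALL
import Cfsg.Agent.Lib.Helper43.QBCENTINTERb
import Cfsg.Agent.Lib.Helper93.QBQUOT
import Cfsg.Agent.Lib.Helper82.QBSL2Rc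
import Cfsg.Agent.Lib.Helper14.QBCF1
import Cfsg.Agent.Lib.Helper82.QBCF2
import Cfsg.Agent.Lib.Helper10.QBCF3
import Cfsg.Agent.Lib.Helper87.QBDIH
import Cfsg.Agent.Lib.Helper79.QBCF5
import Cfsg.Agent.Lib.Helper89.QBCFGLUE
import Cfsg.Agent.Lib.Helper80.QBKEYBP
import Cfsg.Agent.Lib.Helper47.QBTORUS
import Cfsg.Agent.Lib.Helper75.QBTORUSCYC
import Cfsg.Agent.Lib.Helper24.QBORD3
import Cfsg.Agent.Lib.Helper48.QAFinal
import Cfsg.Agent.Lib.Helper48.RCFinal2
import Cfsg.Agent.Lib.Helper88.RCBCARD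
import Cfsg.Agent.Lib.Helper49.PSL2Class
import Cfsg.Agent.S1069

/-!
# Project QB (helper48, S2359): centralizers of the tori of order `(q-1)/2` and `(q+1)/4` of the
small Ree groups; assembly of the pieces
-/

set_option autoImplicit false

namespace Cfsg.Agent.Lib.Helper48.QB

/-- the core: a finite group whose Sylow `2`-subgroups have exponent two, whose involution
centralizers are abelian of order `N ≡ 4 mod 8`, and which has no element of order three, is
abelian of order `N` -/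
theorem cf_core {C : Type*} [Group C] [Finite C] (N : ℕ) (hN : N % 8 = 4)
    (hE : ∀ S : Sylow 2 C, ∀ x ∈ S, x * x = 1)
    (h2 : ∃ v : C, v ≠ 1 ∧ v * v = 1)
    (hD : ∀ v : C, v ≠ 1 → v * v = 1 → Nat.card (Subgroup.centralizer {v}) = N ∧
      ∀ a ∈ Subgroup.centralizer {v}, ∀ b ∈ Subgroup.centralizer {v}, a * b = b * a)
    (h3 : ∀ u : C, orderOf u ≠ 3) :
    Nat.card C = N ∧ ∀ a b : C, a * b = b * a := by
  obtain ⟨V, hV4, hcent⟩ := cf_sylow N hN hE h2 hD
  have hEV : ∀ x ∈ V, x * x = 1 := hE V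
  have hNC := cf_norm V hV4 hEV hcent h3
  obtain ⟨K, hKn, hKV, hKV'⟩ := cf_burnside V hNC
  have hK := cf_kernel V hV4 hEV hcent K hKn hKV hKV' (fun a b ha hb => dih_lemma a b ha hb)
  have hVab : ∀ x ∈ V, ∀ y ∈ V, x * y = y * x := by
    intro x hx y hy
    have h1 := hEV x hx
    have h2 := hEV y hy
    have h3 := hEV (x * y) (V.mul_mem hx hy)
    calc x * y = (x * y)⁻¹ := (inv_eq_of_mul_eq_one_left h3).symm
      _ = y⁻¹ * x⁻¹ := mul_inv_rev x y
      _ = y * x := by rw [inv_eq_of_mul_eq_one_left h2, inv_eq_of_mul_eq_one_left h1]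
  have htop : Subgroup.centralizer ((V : Subgroup C) : Set C) = ⊤ := by
    rw [eq_top_iff]
    intro c _
    obtain ⟨k, hk, v, hv, rfl⟩ := hKV' c
    refine Subgroup.mul_mem _ (hK k hk) ?_
    rw [Subgroup.mem_centralizer_iff]
    intro h hh
    exact hVab h hh v hv
  obtain ⟨v0, hv0, hv01⟩ : ∃ v ∈ V, v ≠ 1 := by
    by_contra hcon
    push_neg at hcon
    have hbot : (V : Subgroup C) = ⊥ := (Subgroup.eq_bot_iff_forall _).2 hcon
    have h1 : Nat.card (V : Subgroup C) = 1 := by rw [hbot]; exact Subgroup.card_bot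
    have h4 : Nat.card (V : Subgroup C) = 4 := hV4
    omega
  have hc0 := hcent v0 hv0 hv01
  obtain ⟨hcard, hcomm⟩ := hD v0 hv01 (hEV v0 hv0)
  rw [hc0, htop] at hcard hcomm
  refine ⟨?_, fun a b => hcomm a (Subgroup.mem_top a) b (Subgroup.mem_top b)⟩
  rw [← hcard]
  exact Subgroup.card_top.symm

section ree

open Cfsg.Lie Matrix
open Cfsg.Agent.Lib.Helper24
open Cfsg.Agent.Lib.Helper27 Cfsg.Agent.Lib.Helper27.Ree
open Cfsg.Agent.Lib.Helper48.RG
open Cfsg.Agent.Lib.Helper48.RC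

/-- the centralizers of the elements of prime order of the two tori -/
theorem ree_keys {K : Type*} [Field K] [Fintype K] {m : ℕ} (hm : 1 ≤ m)
    (hK : Fintype.card K = 3 ^ (2 * m + 1)) :
    (∀ y : ↥(twistedG2 K (3 ^ m)), (orderOf y).Prime → y ^ ((3 ^ (2 * m + 1) - 1) / 2) = 1 →
      IsCyclic (Subgroup.centralizer {y}) ∧
        Nat.card (Subgroup.centralizer {y}) = 3 ^ (2 * m + 1) - 1) ∧
    (∀ y : ↥(twistedG2 K (3 ^ m)), (orderOf y).Prime → y ^ ((3 ^ (2 * m + 1) + 1) / 4) = 1 →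
      Nat.card (Subgroup.centralizer {y}) = 3 ^ (2 * m + 1) + 1 ∧
      ∀ a ∈ Subgroup.centralizer {y}, ∀ b ∈ Subgroup.centralizer {y}, a * b = b * a) := by
  have : CharP K 3 := charP_three (by omega) hK
  have hok := ok0 hK
  have hJ1 : HR m hK (-1) ≠ 1 := J_ne_one hok
  have hJ2 : HR m hK (-1) * HR m hK (-1) = 1 := J_sq hok
  have hJdiag : (HR m hK (-1) : GL chevG2.Idx K) ∈ chevG2.diagonalSubgroup K :=
    (HR_spec m hK).2.1 (-1)
  obtain ⟨⟨e⟩, hsyl⟩ := ree_involution_centralizer hK (HR m hK (-1)) hJdiag hJ1 hJ2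
  obtain ⟨q, hq⟩ : ∃ q : ℕ, q = 3 ^ (2 * m + 1) := ⟨_, rfl⟩
  rw [← hq]
  have hq8 : q % 8 = 3 := by rw [hq]; exact three_pow_mod_eight m
  have h3q : 3 ∣ q := by rw [hq]; exact dvd_pow_self 3 (by omega)
  have hG : Nat.card ↥(twistedG2 K (3 ^ m)) = q ^ 3 * (q - 1) * (q ^ 3 + 1) := by
    rw [hq]; exact Cfsg.Agent.S1069.result hK
  have hF : Nat.card K = q := by rw [Nat.card_eq_fintype_card, hK, hq]
  have hF' : Fintype.card K = q := by rw [hK, hq]
  constructor
  · obtain ⟨Tor, hTc, hTcard, hTmem⟩ := torus_cyclic hok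
    intro y hy hyn
    refine keyA_prime Tor hTc q hq8 (by rw [hTcard, hF]) hG ?_
      (fun r hr hd => nt_a q r hq8 hr hd) (fun M r hr hf y hy => syl_conj M r hr hf y hy)
      cent_conj y hy hyn
    intro t ht htt g hg
    obtain ⟨s, rfl⟩ := (hTmem t).1 ht
    have hs : s * s ≠ 1 := by
      intro h1
      apply htt
      rw [← hok.H_mul, h1, hok.H_one]
    obtain ⟨s', rfl⟩ := centralizer_H hok s hs g hg
    exact (hTmem _).2 ⟨s', rfl⟩
  · have hCJ : Nat.card (Subgroup.centralizer {HR m hK (-1)}) = q * (q - 1) * (q + 1) := by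
      obtain ⟨φ, hup, hlo⟩ := exists_sl2_ree (K := K) m
        (fun P h1 h2 h3 g => sl2_induction P h1 h2 h3 g)
      have h := (centralizer_iso hok φ hup hlo).2
      rw [h, hF]
    have hsyl2 : ∀ S : Sylow 2 ↥(twistedG2 K (3 ^ m)), Nat.card S = 8 ∧ (∀ x ∈ S, x * x = 1) ∧
        Subgroup.centralizer ((S : Subgroup ↥(twistedG2 K (3 ^ m))) : Set ↥(twistedG2 K (3 ^ m)))
          = S ∧
        Nat.card (Subgroup.normalizer
          ((S : Subgroup ↥(twistedG2 K (3 ^ m))) : Set ↥(twistedG2 K (3 ^ m)))) = 168 :=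
      fun S => ⟨(hsyl S).1, (hsyl S).2, (ree_sylow_two hm hK S).1, (ree_sylow_two hm hK S).2⟩
    have h2F : (2 : K) ≠ 0 := by
      intro h
      have h3 : (3 : K) = 0 := by
        have := CharP.cast_eq_zero K 3
        exact_mod_cast this
      have h1 : (1 : K) = 0 := by linear_combination h3 - h
      exact one_ne_zero h1
    have hSL : ∀ r : ℕ, r.Prime → r ≠ 2 → r ≠ 3 → r ∣ q + 1 →
        ∀ l : Matrix.ProjectiveSpecialLinearGroup (Fin 2) K, orderOf l = r →
          Nat.card (Subgroup.centralizer {l}) = (q + 1) / 2 ∧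
          ∀ a ∈ Subgroup.centralizer {l}, ∀ b ∈ Subgroup.centralizer {l}, a * b = b * a := by
      intro r hr hr2 hr3 hd l hl
      exact quot_cent (Cfsg.Agent.Lib.Helper49.sl2_card_center_odd h2F) r (q + 1) hr hr2
        (fun g hg => by
          have h := sl2_cent_prime r hr hr2 hr3 (by rw [hF']; exact hd) g hg
          rwa [hF'] at h) l hl
    have hinter : ∀ (y v : ↥(twistedG2 K (3 ^ m))), (orderOf y).Prime →
        y ^ ((q + 1) / 4) = 1 → v ≠ 1 → v * v = 1 → v * y = y * v →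
        Nat.card (Subgroup.centralizer ({y, v} : Set ↥(twistedG2 K (3 ^ m)))) = q + 1 ∧
        ∀ a ∈ Subgroup.centralizer ({y, v} : Set ↥(twistedG2 K (3 ^ m))),
          ∀ b ∈ Subgroup.centralizer ({y, v} : Set ↥(twistedG2 K (3 ^ m))), a * b = b * a := by
      intro y v hy hyn hv1 hv2 hvy
      have hrd : orderOf y ∣ (q + 1) / 4 := orderOf_dvd_of_pow_eq_one hyn
      obtain ⟨-, hr2, hr3, -, hrq⟩ := nt_b q (orderOf y) hq8 h3q hy hrd
      refine inter_all (HR m hK (-1)) (orderOf y) (q + 1)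
        (fun a ha1 ha2 => inv_conj hsyl2 a (HR m hK (-1)) ha1 ha2 hJ1 hJ2) ?_ y v rfl hv1 hv2 hvy
      intro y' hy' hJy'
      have h := cent_inter (HR m hK (-1)) y' hJy' e (orderOf y) ((q + 1) / 2) hy hr2 hy'
        (hSL (orderOf y) hy hr2 hr3 hrq)
      have h2 : 2 * ((q + 1) / 2) = q + 1 := by omega
      rwa [h2] at h
    have hord3 : ∀ y u : ↥(twistedG2 K (3 ^ m)), orderOf u = 3 → u * y = y * u →
        orderOf y ∣ q ^ 3 * (q - 1) := by
      intro y u hu huy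
      have h := ord_three hok y u hu huy
      rwa [borel_card hok, hF] at h
    intro y hy hyn
    exact keyB_prime (HR m hK (-1)) q hq8 hG hCJ hJ1 hJ2 hinter hord3
      (fun r hr hd => nt_b q r hq8 h3q hr hd) (fun M r hr hf y hy => syl_conj M r hr hf y hy)
      cent_conj
      (fun y hinv hD h3 => cf_main y (q + 1) (fun S => (hsyl S).2) hinv hD h3
        (fun hE h2 hD' h3' => cf_core (q + 1) (by omega) hE h2 hD' h3')) y hy hyn

end ree

end Cfsg.Agent.Lib.Helper48.QB
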