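import Mathlib

/-!
# Entrywise field automorphisms of a subgroup of `GL n K`
-/

set_option autoImplicit false

namespace Cfsg.Agent.Lib.Helper48.RG

open Matrix

/-- a subgroup of `GL n K` stable under all entrywise field automorphisms carries them as
automorphisms -/
theorem exists_entry_aut {n : Type*} [Fintype n] [DecidableEq n] {K : Type*} [Field K]
    (G1 : Subgroup (GL n K))
    (hmap : ∀ τ : K ≃+* K, ∀ g ∈ G1, Matrix.GeneralLinearGroup.map (τ : K →+* K) g ∈ G1)
    (τ : K ≃+* K) :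
    ∃ φ : MulAut ↥G1, ∀ g : ↥G1,
      ((φ g : ↥G1) : GL n K) = Matrix.GeneralLinearGroup.map (τ : K →+* K) (g : GL n K) := by
  let f : (K ≃+* K) → (↥G1 →* ↥G1) := fun ρ =>
    ((Matrix.GeneralLinearGroup.map (ρ : K →+* K)).comp G1.subtype).codRestrict G1
      (fun g => hmap ρ g.1 g.2)
  have hf : ∀ (ρ : K ≃+* K) (g : ↥G1),
      ((f ρ g : ↥G1) : GL n K) = Matrix.GeneralLinearGroup.map (ρ : K →+* K) (g : GL n K) :=
    fun ρ g => rfl
  have hinv : ∀ (ρ : K ≃+* K) (g : ↥G1), f ρ.symm (f ρ g) = g := by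
    intro ρ g
    apply Subtype.ext
    rw [hf, hf]
    apply Units.ext
    ext i j
    show ρ.symm (ρ ((g : GL n K) i j)) = (g : GL n K) i j
    rw [RingEquiv.symm_apply_apply]
  have hinv' : ∀ g : ↥G1, f τ (f τ.symm g) = g := by
    intro g
    have := hinv τ.symm g
    rwa [RingEquiv.symm_symm] at this
  exact ⟨MulEquiv.mk ⟨f τ, f τ.symm, hinv τ, hinv'⟩ (map_mul (f τ)), fun g => rfl⟩

end Cfsg.Agent.Lib.Helper48.RG
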