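import Cfsg.Agent.Lib.Helper25.ChevMap
import Cfsg.Agent.Lib.Helper27.ReeCore
import Cfsg.Agent.Lib.Helper48.RGEntry

/-!
# Field automorphisms of the small Ree groups

The entrywise action of an automorphism of the field `K` on `GL` preserves `twistedG2 K e`, maps
the generating word `reeWordU e t u v` to `reeWordU e (τ t) (τ u) (τ v)` and fixes `n₀`.
-/

set_option autoImplicit false

namespace Cfsg.Agent.Lib.Helper48.RG

open Cfsg.Lie Matrix
open Cfsg.Agent.Lib.Helper24 Cfsg.Agent.Lib.Helper25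
open Cfsg.Agent.Lib.Helper27 Cfsg.Agent.Lib.Helper27.Ree

variable {K : Type*} [Field K]

theorem glMap_wGL (τ : K ≃+* K) (w : List (ℕ × K)) :
    Matrix.GeneralLinearGroup.map (τ : K →+* K) (wGL chevG2 hG2 w) =
      wGL chevG2 hG2 (w.map fun p => (p.1, τ p.2)) := by
  apply Units.ext
  rw [val_glMap, wGL_val, wGL_val, wordMat_map]
  rfl

theorem map_reeWordU (τ : K ≃+* K) (e : ℕ) (t u v : K) :
    (reeWordU e t u v).map (fun p => (p.1, τ p.2)) = reeWordU e (τ t) (τ u) (τ v) := by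
  simp only [reeWordU, List.map_cons, List.map_nil, map_pow, map_add]

theorem map_reeWordV (τ : K ≃+* K) (e : ℕ) (t u v : K) :
    (reeWordV e t u v).map (fun p => (p.1, τ p.2)) = reeWordV e (τ t) (τ u) (τ v) := by
  simp only [reeWordV, ChevalleyDatum.negWord, reeWordU, List.map_cons, List.map_nil, map_pow,
    map_add, map_neg]

theorem map_n0w (τ : K ≃+* K) : (n0w K).map (fun p => (p.1, τ p.2)) = n0w K := by
  simp only [n0w, List.map_cons, List.map_nil, map_one, map_neg]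

/-- the entrywise field automorphisms preserve `²G₂` -/
theorem glMap_twistedG2 (e : ℕ) (τ : K ≃+* K) (g : GL chevG2.Idx K) (hg : g ∈ twistedG2 K e) :
    Matrix.GeneralLinearGroup.map (τ : K →+* K) g ∈ twistedG2 K e := by
  have hle : twistedG2 K e ≤
      (twistedG2 K e).comap (Matrix.GeneralLinearGroup.map (τ : K →+* K)) := by
    refine (Subgroup.closure_le _).2 ?_
    rintro x ⟨w, hw, hx⟩
    have ex : x = wGL chevG2 hG2 w := Units.ext (by rw [hx, wGL_val])
    show Matrix.GeneralLinearGroup.map (τ : K →+* K) x ∈ twistedG2 K e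
    rw [ex, glMap_wGL]
    obtain ⟨t, u, v, rfl | rfl⟩ := hw
    · rw [map_reeWordU]
      exact reeU_mem e _ _ _
    · rw [map_reeWordV]
      exact reeV_mem e _ _ _
  exact hle hg

/-- the field automorphisms of `²G₂` -/
theorem exists_fieldAut (e : ℕ) (τ : K ≃+* K) :
    ∃ φ : MulAut ↥(twistedG2 K e),
      (∀ t u v : K, φ ⟨wGL chevG2 hG2 (reeWordU e t u v), reeU_mem e t u v⟩ =
        ⟨wGL chevG2 hG2 (reeWordU e (τ t) (τ u) (τ v)), reeU_mem e (τ t) (τ u) (τ v)⟩) ∧
      ∀ h : n0 K ∈ twistedG2 K e, φ ⟨n0 K, h⟩ = ⟨n0 K, h⟩ := by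
  obtain ⟨φ, hφ⟩ := exists_entry_aut (twistedG2 K e)
    (fun ρ g hg => glMap_twistedG2 e ρ g hg) τ
  refine ⟨φ, fun t u v => Subtype.ext ?_, fun h => Subtype.ext ?_⟩
  · rw [hφ]
    show Matrix.GeneralLinearGroup.map (τ : K →+* K) (wGL chevG2 hG2 (reeWordU e t u v)) = _
    rw [glMap_wGL, map_reeWordU]
  · rw [hφ]
    show Matrix.GeneralLinearGroup.map (τ : K →+* K) (n0 K) = n0 K
    unfold n0
    rw [glMap_wGL, map_n0w]

end Cfsg.Agent.Lib.Helper48.RG
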