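import Mathlib

/-!
# Project RL (helper48, S2343), piece LI

Simultaneous eigenvectors of a family of operators with pairwise distinct characters are linearly
independent (the argument of `Cfsg.Agent.Lib.Helper18.LS.card_le_finrank_of_eigen`, helper4).
-/

set_option autoImplicit false

namespace Cfsg.Agent.Lib.Helper48.RL

-- piece RL-LI
theorem linIndep_of_eigen {V : Type*} [AddCommGroup V] [Module ℂ V] {ι A : Type*}
    (T : A → V →ₗ[ℂ] V) (χ : ι → A → ℂ) (hχ : Function.Injective χ) (v : ι → V)
    (hv : ∀ i, v i ≠ 0) (h : ∀ i a, T a (v i) = χ i a • v i) : LinearIndependent ℂ v := by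
  classical
  rw [linearIndependent_iff']
  intro s
  induction s using Finset.induction_on with
  | empty =>
    intro g _ i hi
    exact absurd hi (Finset.notMem_empty i)
  | insert j s hj ih =>
    intro g hg
    rw [Finset.sum_insert hj] at hg
    have key : ∀ i ∈ s, g i = 0 := by
      intro i hi
      have hij : i ≠ j := fun h' => hj (h' ▸ hi)
      obtain ⟨a, ha⟩ : ∃ a, χ i a ≠ χ j a := by
        by_contra hcon
        push Not at hcon
        exact hij (hχ (funext hcon))
      have h1 : ∑ k ∈ s, (g k * (χ k a - χ j a)) • v k = 0 := by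
        have h2 := congrArg (T a) hg
        rw [map_add, map_smul, map_sum, map_zero, h j a] at h2
        have h3 : ∑ k ∈ s, (T a) (g k • v k) = ∑ k ∈ s, (g k * χ k a) • v k := by
          refine Finset.sum_congr rfl fun k _ => ?_
          rw [map_smul, h k a, smul_smul]
        rw [h3] at h2
        have h4 : χ j a • (g j • v j + ∑ k ∈ s, g k • v k) = 0 := by rw [hg, smul_zero]
        rw [smul_add, Finset.smul_sum] at h4
        have h5 : ∑ k ∈ s, (g k * (χ k a - χ j a)) • v k =
            (g j • χ j a • v j + ∑ k ∈ s, (g k * χ k a) • v k) -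
              (χ j a • g j • v j + ∑ k ∈ s, χ j a • g k • v k) := by
          rw [add_sub_add_comm, smul_comm (g j) (χ j a) (v j), sub_self, zero_add,
            ← Finset.sum_sub_distrib]
          refine Finset.sum_congr rfl fun k _ => ?_
          rw [smul_smul, ← sub_smul]
          congr 1
          ring
        rw [h5, h2, h4, sub_zero]
      have h6 := ih (fun k => g k * (χ k a - χ j a)) h1 i hi
      rcases mul_eq_zero.mp h6 with h7 | h7
      · exact h7
      · exact absurd (sub_eq_zero.mp h7) ha
    intro i hi
    rcases Finset.mem_insert.mp hi with h8 | hi'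
    · have h1 : ∑ k ∈ s, g k • v k = 0 :=
        Finset.sum_eq_zero fun k hk => by rw [key k hk, zero_smul]
      rw [h1, add_zero] at hg
      rw [h8]
      exact (smul_eq_zero.mp hg).resolve_right (hv j)
    · exact key i hi'

end Cfsg.Agent.Lib.Helper48.RL
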