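import Mathlib
import Cfsg.Agent.Lib.Helper81.ROBase
import Cfsg.Agent.Lib.Helper48.RLLI
import Cfsg.Agent.Lib.Helper62.RLCOMEIG
import Cfsg.Agent.Lib.Helper14.RLDETPERM
import Cfsg.Agent.Lib.Helper34.RLSIGN
import Cfsg.Agent.Lib.Helper90.RLDETONE
import Cfsg.Agent.Lib.Helper87.RLACT
import Cfsg.Agent.Lib.Helper28.RLINVOL
import Cfsg.Agent.Lib.Helper85.RLSEP

/-!
# Project RL (helper48, S2343): the degree bound for groups with a Ree-type presentation

Let `G` satisfy helper81's rank-one presentation `RO.Ok θ T H w` over a finite field `F` of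
characteristic three with `|F| ≡ 3 (mod 4)`, and let `G` be perfect.  A complex representation
`ρ` of `G` which is nontrivial on `T 0 0 1` has degree at least `q (q - 1) + 1`, `q = |F|`.

The group `Z₂ = {T 0 b c}` is elementary abelian of exponent three; a common eigenvector `v`
with character nontrivial at `T 0 0 1` (COMEIG, helper62) is moved by the `q (q - 1)` elements
`T a 0 0 * H s` to common eigenvectors (ACT, helper87) with pairwise distinct characters (SEP,
helper85), which are linearly independent (LI).  If the degree were `q (q - 1)`, they would form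
a basis permuted without fixed points by `ρ (H (-1))` (INVOL, helper28), whose determinant would
be `(-1)^(q(q-1)/2) = -1` (DETPERM, helper14; SIGN, helper34), contradicting the perfectness of
`G` (DETONE, helper90).
-/

set_option autoImplicit false

namespace Cfsg.Agent.Lib.Helper48.RL

open Cfsg.Agent.Lib.Helper81.RO

variable {F : Type*} [Field F] [Finite F] [CharP F 3] {G : Type*} [Group G] [Finite G]
variable {θ : F →+* F} {T : F → F → F → G} {H : Fˣ → G} {w : G}

/-- the degree bound (assembly, helper48) -/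
theorem degree_bound (h : Ok θ T H w) (hperf : commutator G = ⊤) (hq : Nat.card F % 4 = 3)
    {k : ℕ} (ρ : Representation ℂ G (Fin k → ℂ)) (hne : ρ (T 0 0 1) ≠ 1) :
    Nat.card F * (Nat.card F - 1) + 1 ≤ k := by
  classical
  have := Fintype.ofFinite F
  have h3F : (3 : F) = 0 := three_eq_zero
  -- the abelian group `Z₂ = {T 0 b c}`
  let Tm : F × F → (Fin k → ℂ) →ₗ[ℂ] (Fin k → ℂ) := fun p => ρ (T 0 p.1 p.2)
  have hT0 : Tm 0 = 1 := by
    show ρ (T 0 0 0) = 1
    rw [h.T_zero, map_one]
  have hTadd : ∀ p p' : F × F, Tm (p + p') = Tm p * Tm p' := by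
    intro p p'
    show ρ (T 0 (p.1 + p'.1) (p.2 + p'.2)) = ρ (T 0 p.1 p.2) * ρ (T 0 p'.1 p'.2)
    rw [← map_mul, h.T_mul0]
  have h3 : ∀ p : F × F, p + p + p = 0 := by
    intro p
    ext
    · show p.1 + p.1 + p.1 = 0
      linear_combination p.1 * h3F
    · show p.2 + p.2 + p.2 = 0
      linear_combination p.2 * h3F
  obtain ⟨v, χ, hv, hχ1, hχ0, hχadd, hχ⟩ := common_eigenvector3 Tm hT0 hTadd h3 (0, 1) hne
  -- the translates
  let g : F × Fˣ → G := fun i => T i.1 0 0 * H i.2
  let wv : F × Fˣ → (Fin k → ℂ) := fun i => ρ (g i) v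
  let act : F × Fˣ → F × F → F × F := fun i p =>
    (((i.2 : F) * θ i.2)⁻¹ * p.1, ((i.2 : F) ^ 2 * θ i.2)⁻¹ * (p.2 - i.1 * p.1))
  have hwv0 : ∀ i, wv i ≠ 0 := by
    intro i h0
    apply hv
    have e : ρ (g i)⁻¹ (ρ (g i) v) = v := by
      rw [← Module.End.mul_apply, ← map_mul, inv_mul_cancel, map_one]
      rfl
    rw [← e]
    show ρ (g i)⁻¹ (wv i) = 0
    rw [h0, map_zero]
  have hweight : ∀ i p, Tm p (wv i) = χ (act i p) • wv i := by
    intro i p
    have e := act_formula h i.1 i.2 p.1 p.2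
    have e2 : ρ (T 0 (act i p).1 (act i p).2) v = χ (act i p) • v := hχ (act i p)
    show ρ (T 0 p.1 p.2) (ρ (T i.1 0 0 * H i.2) v) = χ (act i p) • ρ (T i.1 0 0 * H i.2) v
    rw [← Module.End.mul_apply, ← map_mul, e, map_mul, Module.End.mul_apply]
    show ρ (T i.1 0 0 * H i.2) (ρ (T 0 (act i p).1 (act i p).2) v) = _
    rw [e2, map_smul]
  have hinj : Function.Injective (fun (i : F × Fˣ) (p : F × F) => χ (act i p)) := by
    intro i i' hii
    obtain ⟨e1, e2⟩ := char_sep h.θθ χ hχ0 hχadd hχ1 i.1 i'.1 i.2 i'.2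
      (fun b c => congrFun hii (b, c))
    exact Prod.ext e1 e2
  have hli : LinearIndependent ℂ wv := linIndep_of_eigen Tm _ hinj wv hwv0 hweight
  have hcardι : Fintype.card (F × Fˣ) = Nat.card F * (Nat.card F - 1) := by
    rw [Fintype.card_prod, Fintype.card_units, Nat.card_eq_fintype_card]
  have hle : Nat.card F * (Nat.card F - 1) ≤ k := by
    have := hli.fintype_card_le_finrank
    rwa [hcardι, Module.finrank_fin_fun] at this
  by_contra hlt
  have hk : Fintype.card (F × Fˣ) = Module.finrank ℂ (Fin k → ℂ) := by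
    rw [hcardι, Module.finrank_fin_fun]
    omega
  let b := basisOfLinearIndependentOfCardEqFinrank hli hk
  have hb : ∀ i, b i = wv i := fun i => by
    show (basisOfLinearIndependentOfCardEqFinrank hli hk) i = wv i
    rw [coe_basisOfLinearIndependentOfCardEqFinrank]
  let π : Equiv.Perm (F × Fˣ) :=
    Function.Involutive.toPerm (fun i => (-i.1, -i.2)) (fun i => by simp)
  have hπ : ∀ i, π i = (-i.1, -i.2) := fun i => rfl
  have hf : ∀ i, ρ (H (-1)) (b i) = b (π i) := by
    intro i
    rw [hb, hb]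
    show ρ (H (-1)) (ρ (T i.1 0 0 * H i.2) v) = ρ (T (-i.1) 0 0 * H (-i.2)) v
    rw [← Module.End.mul_apply, ← map_mul, invol_formula h]
  have hdet := det_of_perm_basis b (ρ (H (-1))) π hf
  have hone := det_eq_one_of_perfect hperf ρ (H (-1))
  -- parity
  obtain ⟨j, hj⟩ : ∃ j, Nat.card F = 4 * j + 3 := ⟨Nat.card F / 4, by omega⟩
  have hN : Fintype.card (F × Fˣ) = 2 * ((4 * j + 3) * (2 * j + 1)) := by
    rw [hcardι, hj]
    have e : 4 * j + 3 - 1 = 2 * (2 * j + 1) := by omega
    rw [e]
    ring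
  have h2ne : (2 : F) ≠ 0 := by
    intro h2
    have : (1 : F) = 0 := by linear_combination h3F - h2
    exact one_ne_zero this
  have hsign := sign_fixfree_invol π (fun i => by rw [hπ, hπ]; simp) (fun i hi => by
    rw [hπ] at hi
    have e2 : (-i.2 : Fˣ) = i.2 := congrArg Prod.snd hi
    have e3 : -(i.2 : F) = i.2 := by
      have := congrArg (fun u : Fˣ => (u : F)) e2
      simpa using this
    have e4 : (2 : F) * i.2 = 0 := by linear_combination -e3
    rcases mul_eq_zero.1 e4 with h' | h'
    · exact h2ne h'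
    · exact i.2.ne_zero h') _ hN
  have hodd : Odd ((4 * j + 3) * (2 * j + 1)) := by
    apply Odd.mul
    · exact ⟨2 * j + 1, by ring⟩
    · exact ⟨j, by ring⟩
  rw [hsign, hodd.neg_one_pow, hone] at hdet
  norm_num at hdet

end Cfsg.Agent.Lib.Helper48.RL
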