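import Mathlib
import Cfsg.Agent.Lib.Helper48.RLMain
import Cfsg.Agent.Lib.Helper48.RGInst
import Cfsg.Agent.Lib.Helper48.RGField
import Cfsg.Agent.Lib.Helper24.ReeP
import Cfsg.Agent.Lib.Helper24.RkSigF

set_option autoImplicit false

/-!
# Project RL (helper48, S2343): the small Ree groups

Every irreducible complex representation of degree at least two of `²G₂(3^(2m+1))`, `m ≥ 1`,
has degree at least `q² - q + 1`.
-/

namespace Cfsg.Agent.Lib.Helper48.RL

open Cfsg.Lie Matrix
open Cfsg.Agent.Lib.Helper24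
open Cfsg.Agent.Lib.Helper27 Cfsg.Agent.Lib.Helper27.Ree
open Cfsg.Agent.Lib.Helper81.RO
open Cfsg.Agent.Lib.Helper48.RG

/-- a representation with trivial action on a space of dimension at least two is reducible
(as `Cfsg.Agent.Lib.Helper18.LS.not_irr_of_trivial`) -/
theorem not_irr_of_triv {G : Type*} [Group G] {k : ℕ} (hk : 2 ≤ k)
    (ρ : Representation ℂ G (Fin k → ℂ)) (htriv : ∀ g, ρ g = 1) : ¬ ρ.IsIrreducible := by
  intro hirr
  let i0 : Fin k := ⟨0, by omega⟩
  let i1 : Fin k := ⟨1, by omega⟩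
  have h01 : i1 ≠ i0 := by
    intro h
    have := congrArg Fin.val h
    simp [i0, i1] at this
  let σ : Subrepresentation ρ :=
    ⟨Submodule.span ℂ {(Pi.single i0 1 : Fin k → ℂ)}, fun g v hv => by
      rw [htriv g]
      exact hv⟩
  rcases eq_bot_or_eq_top σ with h | h
  · have h1 : σ.toSubmodule = ⊥ := congrArg Subrepresentation.toSubmodule h
    have h2 : (Pi.single i0 1 : Fin k → ℂ) ∈ σ.toSubmodule :=
      Submodule.subset_span (Set.mem_singleton _)
    rw [h1, Submodule.mem_bot] at h2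
    have := congrFun h2 i0
    simp at this
  · have h1 : σ.toSubmodule = ⊤ := congrArg Subrepresentation.toSubmodule h
    have h2 : (Pi.single i1 1 : Fin k → ℂ) ∈ σ.toSubmodule := by
      rw [h1]
      trivial
    obtain ⟨c, hc⟩ := Submodule.mem_span_singleton.mp h2
    have := congrFun hc i1
    simp [h01] at this

theorem three_pow_mod_four (m : ℕ) : 3 ^ (2 * m + 1) % 4 = 3 := by
  induction m with
  | zero => norm_num
  | succ n ih =>
    have e : 3 ^ (2 * (n + 1) + 1) = 9 * 3 ^ (2 * n + 1) := by ring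
    rw [e]
    omega

/-- the small Ree groups satisfy `RO.Ok` -/
theorem ok_ree {K : Type*} [Field K] [Fintype K] [CharP K 3] {m : ℕ}
    (hK : Fintype.card K = 3 ^ (2 * m + 1)) (hm : 1 ≤ m) :
    Ok (thetaHom K m) (TR K m) (HR m hK) (wR K m) :=
  ok hK hm (fun τ => by
    obtain ⟨φ, h1, h2⟩ := exists_fieldAut (3 ^ m) τ
    exact ⟨φ, fun a b c => h1 a b c, h2 _⟩)

/-- the minimal degree of `²G₂(q)` -/
theorem ree_min_degree {K : Type*} [Field K] [Fintype K] (m : ℕ) (hm : 1 ≤ m)
    (hK : Fintype.card K = 3 ^ (2 * m + 1)) (k : ℕ)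
    (ρ : Representation ℂ ↥(twistedG2 K (3 ^ m)) (Fin k → ℂ)) (hirr : ρ.IsIrreducible)
    (hk : 2 ≤ k) : (3 ^ (2 * m + 1)) ^ 2 - 3 ^ (2 * m + 1) + 1 ≤ k := by
  have : CharP K 3 := charP_three (by omega) hK
  have hok := ok_ree hK hm
  have hperf : commutator ↥(twistedG2 K (3 ^ m)) = ⊤ := ReeP.twistedG2_perfect hK hm
  have hsimple : IsSimpleGroup ↥(twistedG2 K (3 ^ m)) := (ReeP.twistedG2_simple hm hK).1
  have hne : ρ (TR K m 0 0 1) ≠ 1 := by
    intro h1
    have hmem : TR K m 0 0 1 ∈ MonoidHom.ker ρ := h1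
    rcases (MonoidHom.normal_ker ρ).eq_bot_or_eq_top with hb | ht
    · rw [hb, Subgroup.mem_bot] at hmem
      have h2 := hok.T_inj 0 0 1 0 0 0 (hmem.trans hok.T_zero.symm)
      exact one_ne_zero h2.2.2
    · apply not_irr_of_triv hk ρ _ hirr
      intro g
      have hg : g ∈ MonoidHom.ker ρ := by
        rw [ht]
        trivial
      exact hg
  have hq : Nat.card K % 4 = 3 := by
    rw [Nat.card_eq_fintype_card, hK]
    exact three_pow_mod_four m
  have hb := degree_bound hok hperf hq ρ hne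
  rw [Nat.card_eq_fintype_card, hK] at hb
  have e : (3 ^ (2 * m + 1)) ^ 2 - 3 ^ (2 * m + 1) + 1 =
      3 ^ (2 * m + 1) * (3 ^ (2 * m + 1) - 1) + 1 := by
    rw [sq, Nat.mul_sub_one]
  rw [e]
  exact hb

end Cfsg.Agent.Lib.Helper48.RL
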